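import Cfsg.Statements.S3374
import Cfsg.Agent.H4.Small
import Cfsg.Agent.H6.Aff
-- import your own Cfsg.Agent.* helpers here

set_option autoImplicit false
open Cfsg

namespace Cfsg.Agent.S3374

open H4.Small Matrix

instance instFactEleven : Fact (Nat.Prime 11) := ⟨by norm_num⟩

/-- `SL(2,11)`. -/
abbrev SL11 : Type := SpecialLinearGroup (Fin 2) (ZMod 11)

/-- An element of order `3`. -/
def tx : SL11 := ⟨!![7, 1; 9, 3], by decide⟩
/-- An element of order `5`. -/
def ty : SL11 := ⟨!![3, 0; 0, 4], by decide⟩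
/-- The central involution. -/
def tz : SL11 := ⟨!![-1, 0; 0, -1], by decide⟩

theorem exists_phi : ∃ φ : SL25 →* SL11, φ sx = tx ∧ φ sy = ty ∧ φ sz = tz :=
  exists_hom_sl25 (Subtype.ext (by decide)) (Subtype.ext (by decide)) (Subtype.ext (by decide))
    (Subtype.ext (by decide)) (Subtype.ext (by decide)) (Subtype.ext (by decide))

theorem invol_eq (A : SL25) (h : A * A = 1) : A = 1 ∨ A = sz := by
  have key : ∀ a b c d : ZMod 5, a * d - b * c = 1 → a * a + b * c = 1 → a * b + b * d = 0 →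
      c * a + d * c = 0 → (a = 1 ∧ b = 0 ∧ c = 0 ∧ d = 1) ∨ (a = -1 ∧ b = 0 ∧ c = 0 ∧ d = -1) := by
    decide +kernel
  have h0 := A.det_coe
  rw [det_fin_two] at h0
  have h1 : ∀ i j, (A.1 * A.1) i j = (1 : Matrix (Fin 2) (Fin 2) (ZMod 5)) i j := fun i j =>
    congrFun (congrFun (congrArg Subtype.val h) i) j
  have h2 := h1 0 0
  have h3 := h1 0 1
  have h4 := h1 1 0
  simp only [mul_apply, Fin.sum_univ_two, one_apply_eq, ne_eq, zero_ne_one, not_false_eq_true,
    one_apply_ne, one_ne_zero] at h2 h3 h4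
  rcases key _ _ _ _ h0 h2 h3 h4 with ⟨e1, e2, e3, e4⟩ | ⟨e1, e2, e3, e4⟩
  · left; ext i j; fin_cases i <;> fin_cases j <;> simp [e1, e2, e3, e4]
  · right; ext i j; fin_cases i <;> fin_cases j <;> simp [e1, e2, e3, e4, sz]

theorem injective_phi {φ : SL25 →* SL11} (h1 : φ sx = tx) (h2 : φ sy = ty) (h3 : φ sz = tz) :
    Function.Injective φ := by
  rw [← MonoidHom.ker_eq_bot_iff]
  have d3 := φ.range.orderOf_dvd_natCard ⟨sx, h1⟩
  have d5 := φ.range.orderOf_dvd_natCard ⟨sy, h2⟩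
  rw [orderOf_eq_prime (x := tx) (p := 3) (Subtype.ext (by decide)) (fun h => absurd
    (congrArg Subtype.val h) (by decide))] at d3
  rw [orderOf_eq_prime (x := ty) (p := 5) (Subtype.ext (by decide)) (fun h => absurd
    (congrArg Subtype.val h) (by decide))] at d5
  have h4 := φ.ker.index_mul_card
  rw [Subgroup.index_ker, card_sl25] at h4
  have h5 : ¬ 2 ∣ Nat.card φ.ker := by
    intro h
    obtain ⟨a, ha⟩ := exists_prime_orderOf_dvd_card' 2 h
    have h6 : (a : SL25) * a = 1 := by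
      have h7 := pow_orderOf_eq_one a
      rw [ha, pow_two] at h7
      exact congrArg Subtype.val h7
    rcases invol_eq _ h6 with h7 | h7
    · rw [show a = 1 from Subtype.ext h7, orderOf_one] at ha; omega
    · have h8 : φ sz = 1 := h7 ▸ a.2
      rw [h3] at h8
      exact absurd (congrArg Subtype.val h8) (by decide)
  obtain ⟨c, hc⟩ : 15 ∣ Nat.card φ.range := by omega
  rw [hc] at h4
  have h6 : Nat.card φ.ker ∣ 2 ^ 3 := ⟨c, by nlinarith⟩
  obtain ⟨k, -, hk⟩ := (Nat.dvd_prime_pow Nat.prime_two).mp h6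
  refine Subgroup.eq_bot_of_card_eq _ ?_
  rcases k with _ | k
  · exact hk
  · exact absurd (hk ▸ dvd_pow_self 2 k.succ_ne_zero) h5

theorem eq_one_of_fix (A : SL11) (hA : A ^ 120 = 1) (w : Fin 2 → ZMod 11) (hw : A.1 *ᵥ w = w)
    (h0 : w ≠ 0) : A = 1 := by
  have hd := A.det_coe
  rw [det_fin_two] at hd
  have e0 := congrFun hw 0
  have e1 := congrFun hw 1
  simp only [mulVec, dotProduct, Fin.sum_univ_two] at e0 e1
  have ht : A.1 0 0 + A.1 1 1 = 2 := by
    by_contra hne
    apply h0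
    have hne' : 2 - (A.1 0 0 + A.1 1 1) ≠ 0 := sub_ne_zero.mpr (Ne.symm hne)
    ext i
    fin_cases i
    · refine (mul_eq_zero.mp (?_ : (2 - (A.1 0 0 + A.1 1 1)) * w 0 = 0)).resolve_left hne'
      linear_combination (A.1 1 1 - 1) * e0 - A.1 0 1 * e1 - w 0 * hd
    · refine (mul_eq_zero.mp (?_ : (2 - (A.1 0 0 + A.1 1 1)) * w 1 = 0)).resolve_left hne'
      linear_combination (A.1 0 0 - 1) * e1 - A.1 1 0 * e0 - w 1 * hd
  have hN : (A.1 - 1) * (A.1 - 1) = 0 := by
    ext i j
    fin_cases i <;> fin_cases j <;> simp [mul_apply, Fin.sum_univ_two]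
    · linear_combination (A.1 0 0) * ht - hd
    · linear_combination (A.1 0 1) * ht
    · linear_combination (A.1 1 0) * ht
    · linear_combination (A.1 1 1) * ht - hd
  have hp : ∀ n : ℕ, A.1 ^ n = 1 + (n : ZMod 11) • (A.1 - 1) := by
    intro n
    induction n with
    | zero => simp
    | succ n ih =>
      have : A.1 = 1 + (A.1 - 1) := by abel
      rw [pow_succ, ih]
      nth_rewrite 2 [this]
      rw [add_mul, mul_add, mul_add, smul_mul_assoc, smul_mul_assoc, hN, Nat.cast_succ, add_smul]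
      simp only [one_mul, mul_one, smul_zero, add_zero, one_smul]
      abel
  have h1 := hp 120
  rw [show A.1 ^ 120 = 1 from congrArg Subtype.val hA, show ((120 : ℕ) : ZMod 11) = -1 by decide] at h1
  apply Subtype.ext
  have h2 : (1 : Matrix (Fin 2) (Fin 2) (ZMod 11)) = 1 + (-1 : ZMod 11) • (A.1 - 1) := h1
  rw [neg_smul, one_smul, left_eq_add, neg_eq_zero, sub_eq_zero] at h2
  exact h2

/-- SL(2,5) occurs as a Frobenius complement: there is a finite group L with a subgroup H isomorphic to SL(2,5) which is a non-trivial proper subgroup meeting each conjugate gHg⁻¹ with g outside H trivially. -/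
theorem result :
    ∃ (L : Type) (_ : Group L) (_ : Finite L) (H : Subgroup L),
      Cfsg.IsFrobeniusComplement H ∧ Nonempty (H ≃* Matrix.SpecialLinearGroup (Fin 2) (ZMod 5)) := by
  obtain ⟨φ, h1, h2, h3⟩ := exists_phi
  have hinj := injective_phi h1 h2 h3
  let _ : DistribMulAction SL25 (Fin 2 → ZMod 11) :=
    { smul := fun k v => (φ k).1 *ᵥ v
      one_smul := fun v => by
        show (φ 1).1 *ᵥ v = v
        simp
      mul_smul := fun k l v => by
        show (φ (k * l)).1 *ᵥ v = (φ k).1 *ᵥ ((φ l).1 *ᵥ v)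
        rw [map_mul, mulVec_mulVec]; rfl
      smul_zero := fun k => mulVec_zero _
      smul_add := fun k v w => mulVec_add _ _ _ }
  have hfpf : ∀ (k : SL25) (w : Fin 2 → ZMod 11), k • w = w → w ≠ 0 → k = 1 := by
    intro k w hw h0
    apply hinj
    rw [map_one]
    refine eq_one_of_fix _ ?_ w hw h0
    rw [← map_pow, ← card_sl25, pow_card_eq_one', map_one]
  have hmem : ∀ a : H6.Aff (Fin 2 → ZMod 11) SL25, a ∈ (H6.Aff.inr).range ↔ a.v = 0 := by
    intro a
    constructor
    · rintro ⟨k, rfl⟩; rfl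
    · intro h; exact ⟨a.k, H6.Aff.ext h.symm rfl⟩
  refine ⟨H6.Aff (Fin 2 → ZMod 11) SL25, inferInstance, inferInstance, (H6.Aff.inr).range,
    ⟨?_, ?_, ?_⟩, ⟨(MonoidHom.ofInjective H6.Aff.inr_injective).symm⟩⟩
  · intro h
    have : (H6.Aff.inr sz : H6.Aff (Fin 2 → ZMod 11) SL25) ∈ (H6.Aff.inr).range := ⟨sz, rfl⟩
    rw [h, Subgroup.mem_bot] at this
    have h4 : sz.1 = (1 : SL25).1 := congrArg (fun a => (H6.Aff.k a).1) this
    exact absurd h4 (by decide)
  · intro h
    have : (⟨1, 1⟩ : H6.Aff (Fin 2 → ZMod 11) SL25) ∈ (H6.Aff.inr).range :=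
      h ▸ Subgroup.mem_top _
    rw [hmem] at this
    exact absurd this (by decide)
  · intro g hg
    rw [eq_bot_iff]
    rintro a ⟨ha, b, hb, rfl⟩
    have ha' : (g * b * g⁻¹).v = 0 := (hmem _).mp ha
    have hb' : b.v = 0 := (hmem _).mp hb
    rw [hmem] at hg
    simp only [H6.Aff.mul_v, H6.Aff.mul_k, H6.Aff.inv_v, hb', smul_zero, add_zero, smul_neg,
      ← mul_smul] at ha'
    have h4 := hfpf _ _ (add_neg_eq_zero.mp ha').symm hg
    have h5 : b = 1 := H6.Aff.ext hb' (by simpa using h4)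
    simp [h5]

end Cfsg.Agent.S3374
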