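import Cfsg.Statements.S3329
import Cfsg.Agent.H1.A8Main
import Cfsg.Agent.H1.PProd

set_option autoImplicit false
open Cfsg

namespace Cfsg.Agent.S3329

open Equiv H1 H1.PC H1.A8 in
theorem equivK : Nonempty (((Perm.sign.comp (MonoidHom.fst (Perm (Fin 3)) (Perm (Fin 5)))) *
    (Perm.sign.comp (MonoidHom.snd (Perm (Fin 3)) (Perm (Fin 5))))).ker ≃* K10) := by
  set χ := (Perm.sign.comp (MonoidHom.fst (Perm (Fin 3)) (Perm (Fin 5)))) *
    (Perm.sign.comp (MonoidHom.snd (Perm (Fin 3)) (Perm (Fin 5)))) with hχ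
  have hm : ∀ a b : Fin 3, a ≠ b → ∀ c d : Fin 5, c ≠ d → (swap a b, swap c d) ∈ χ.ker :=
    fun a b h c d h' => by simp [hχ, MonoidHom.mem_ker, h, h']
  have hi : χ.ker.index = 2 := by
    rw [Subgroup.index_ker, MonoidHom.range_eq_top.mpr, Subgroup.card_top]
    · simp
    · intro u
      rcases Int.units_eq_one_or u with rfl | rfl
      · exact ⟨1, map_one _⟩
      · exact ⟨(swap 0 1, 1), by simp [hχ]⟩
  have hc := χ.ker.card_mul_index
  rw [hi, Nat.card_prod, Nat.card_perm, Nat.card_perm, Nat.card_fin, Nat.card_fin] at hc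
  obtain ⟨e, -⟩ := exists_equiv_cl ((prodHom 3 5).comp χ.ker.subtype)
    ((prodHom_injective 3 5).comp Subtype.val_injective) (gs := gK10) (by
      simp only [gK10, List.mem_cons, List.not_mem_nil, or_false]
      rintro c (rfl | rfl | rfl | rfl | rfl)
      · exact ⟨⟨(swap 0 1 * swap 1 2, 1), by simp [hχ, MonoidHom.mem_ker]⟩,
          dec_eq h8 (p := prodHom 3 5 (swap 0 1 * swap 1 2, 1)) (by decide +kernel)⟩
      · exact ⟨⟨_, hm 0 1 (by decide) 0 1 (by decide)⟩,
          dec_eq h8 (p := prodHom 3 5 (swap 0 1, swap 0 1)) (by decide +kernel)⟩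
      · exact ⟨⟨_, hm 0 1 (by decide) 1 2 (by decide)⟩,
          dec_eq h8 (p := prodHom 3 5 (swap 0 1, swap 1 2)) (by decide +kernel)⟩
      · exact ⟨⟨_, hm 0 1 (by decide) 2 3 (by decide)⟩,
          dec_eq h8 (p := prodHom 3 5 (swap 0 1, swap 2 3)) (by decide +kernel)⟩
      · exact ⟨⟨_, hm 0 1 (by decide) 3 4 (by decide)⟩,
          dec_eq h8 (p := prodHom 3 5 (swap 0 1, swap 3 4)) (by decide +kernel)⟩)
    (by
      have := card_K10
      simp only [Nat.factorial] at hc
      change _ ≤ Nat.card K10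
      omega)
  exact ⟨e⟩


/-- A 3-local characterization of the alternating group of degree 8. Let G be a finite group whose Sylow 3-subgroup D is elementary abelian of order 9, generated by y and z, and suppose: (i) C_G(D) = D and N_G(D)/D is dihedral of order 8; (ii) D is normal in C_G(y), C_G(y) has order 18, D is normal in N_G(⟨y⟩) and N_G(⟨y⟩)/D is elementary abelian of order 4; (iii) C_G(z) is isomorphic to the direct product of a cyclic group of order 3 and the alternating group of degree 5, and N_G(⟨z⟩) is isomorphic to the subgroup of index 2 of Sym(3) × Sym(5) consisting of the pairs of permutations whose signs agree. Then G is isomorphic to the alternating group of degree 8. -/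
theorem result {G : Type*} [Group G] [Finite G]
    (P : Sylow 3 G) (D : Subgroup G) (hDP : D = P) (y z : G) (hgen : Subgroup.closure {y, z} = D)
    (hcomm : IsMulCommutative D) (hcard : Nat.card D = 9) (hexp : ∀ a ∈ D, a ^ 3 = 1)
    (hC : Subgroup.centralizer (D : Set G) = D)
    (eN : Subgroup.normalizer (D : Set G) ⧸ D.subgroupOf (Subgroup.normalizer (D : Set G)) ≃* DihedralGroup 4)
    (hyn : (D.subgroupOf (Subgroup.centralizer ({y} : Set G))).Normal)
    (hycard : Nat.card (Subgroup.centralizer ({y} : Set G)) = 18)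
    (Ny : Subgroup G) (hNy : Ny = Subgroup.normalizer (Subgroup.zpowers y : Set G))
    (hyN : D ≤ Ny) [hyNn : (D.subgroupOf Ny).Normal]
    (hyNcard : Nat.card (Ny ⧸ D.subgroupOf Ny) = 4) (hyNexp : ∀ g : Ny ⧸ D.subgroupOf Ny, g ^ 2 = 1)
    (eC : Subgroup.centralizer ({z} : Set G) ≃* Multiplicative (ZMod 3) × alternatingGroup (Fin 5))
    (eL : Subgroup.normalizer (Subgroup.zpowers z : Set G) ≃*
      (((Equiv.Perm.sign).comp (MonoidHom.fst (Equiv.Perm (Fin 3)) (Equiv.Perm (Fin 5)))) *
        ((Equiv.Perm.sign).comp (MonoidHom.snd (Equiv.Perm (Fin 3)) (Equiv.Perm (Fin 5))))).ker) :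
    Nonempty (G ≃* alternatingGroup (Fin 8)) := by
  open Subgroup H1 H1.T3 H1.A8K in
  obtain ⟨eK⟩ := equivK
  have hyD : y ∈ D := hgen ▸ subset_closure (by simp)
  have hzD : z ∈ D := hgen ▸ subset_closure (by simp)
  have hyz : y * z = z * y := congrArg Subtype.val (hcomm.is_comm.comm (⟨y, hyD⟩ : D) ⟨z, hzD⟩)
  have hz3 := hexp z hzD
  have hz1 : z ≠ 1 := by
    rintro rfl
    have h1 : D ≤ zpowers y := by
      rw [← hgen, closure_le]
      rintro _ (rfl | rfl)
      · exact mem_zpowers _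
      · exact one_mem _
    have h2 := card_le_of_le h1
    rw [hcard, Nat.card_zpowers] at h2
    have := Nat.le_of_dvd (by norm_num) (orderOf_dvd_of_pow_eq_one (hexp y hyD))
    omega
  have hN := fun g => mem_normalizer_zpowers_three (g := g) hz3 hz1
  have zN := (hN z).mpr (Or.inl (by simp))
  have yN := (hN y).mpr (Or.inl (conj_eq_iff.mpr hyz))
  obtain ⟨e, he⟩ : ∃ e : normalizer (zpowers z : Set G) ≃* A8.K10, e ⟨z, zN⟩ = A8K.z := by
    let e := eL.trans eK
    rcases p_z (e ⟨z, zN⟩) (fun k => by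
      obtain ⟨g, rfl⟩ := e.surjective k
      right
      rw [← map_inv, ← map_inv, ← map_mul, ← map_mul, e.injective.eq_iff, e.injective.eq_iff,
        Subtype.ext_iff, Subtype.ext_iff]
      exact (hN g).mp g.2) (by
      rw [← map_pow, ← map_one e]; exact congrArg e (Subtype.ext hz3)) with h | h | h
    · exact absurd (congrArg Subtype.val (e.map_eq_one_iff.mp h)) hz1
    · exact ⟨e, h⟩
    · refine ⟨e.trans (MulAut.conj r2), ?_⟩
      change r2 * e _ * r2⁻¹ = _
      rw [h, ← conj_inv, p_rel.2.2.2.2.2.2.2.2.2.2.2.2.2.1, inv_inv]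
  obtain ⟨t, ht, htD⟩ := p_y (e ⟨y, yN⟩) (by
    rw [← he, ← map_mul, ← map_mul]; exact congrArg e (Subtype.ext hyz)) (by
    rw [← map_pow, ← map_one e]; exact congrArg e (Subtype.ext (hexp y hyD)))
  let e' := e.trans (MulAut.conj t)
  let ψ : A8.K10 →* G := (normalizer (zpowers z : Set G)).subtype.comp e'.symm.toMonoidHom
  have hψ : ∀ g, ψ (e' g) = g := fun g => congrArg Subtype.val (e'.symm_apply_apply g)
  have hinj : Function.Injective ψ := Subtype.val_injective.comp e'.symm.injective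
  have ez : ψ A8K.z = z := by rw [← ht, ← he]; exact hψ ⟨z, zN⟩
  have ey : ψ (t * e ⟨y, yN⟩ * t⁻¹) = y := hψ ⟨y, yN⟩
  have eD : D = A8K.D.map ψ := by
    refine eq_of_le_of_card_ge ?_ (by rw [card_map_of_injective hinj, card_D, hcard])
    rw [← hgen, closure_le]
    rintro _ (rfl | rfl)
    · exact ⟨_, htD, ey⟩
    · exact ⟨_, p_rel2.1, ez⟩
  refine Pre.main (ψ := ψ) ⟨hinj, fun g hg => ⟨_, hψ ⟨g, (hN g).mpr (by rwa [ez] at hg)⟩⟩,
    fun h => ?_, ?_, _, htD, ?_⟩
  · have : Fact (Nat.Prime 3) := ⟨Nat.prime_three⟩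
    have h1 := D.card_mul_index
    have h2 := P.not_dvd_index
    rw [← hDP] at h2
    rw [hcard] at h1
    omega
  · rw [← eD, card_eq_card_quotient_mul_card_subgroup (D.subgroupOf _), Nat.card_congr eN.toEquiv,
      Nat.card_congr (subgroupOfEquivOfLe le_normalizer).toEquiv, hcard, DihedralGroup.nat_card]
  · rw [ey, ← eD]
    exact le_normalizer_of_normal_subgroupOf (fun d hd => mem_cent.mpr
      (congrArg Subtype.val (hcomm.is_comm.comm (⟨d, hd⟩ : D) ⟨y, hyD⟩)))

end Cfsg.Agent.S3329
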