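import Cfsg.Statements.S3333
import Cfsg.Agent.L0.NineS6

set_option autoImplicit false
open Cfsg

namespace Cfsg.Agent.S3333

/-- Let G be a finite group with a Sylow 3-subgroup S of order 9 that is its own centralizer, with N_G(S)/S dihedral of order 8, and such that C_G(x) ≤ N_G(S) for every non-identity x in S. Then S is normal in G or G is isomorphic to the symmetric group of degree 6. -/
theorem result {G : Type*} [Group G] [Finite G]
    (P : Sylow 3 G) (S : Subgroup G) (hSP : S = P) (hcard : Nat.card S = 9)
    (hC : Subgroup.centralizer (S : Set G) = S)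
    (eN : Subgroup.normalizer (S : Set G) ⧸ S.subgroupOf (Subgroup.normalizer (S : Set G)) ≃* DihedralGroup 4)
    (hcent : ∀ x ∈ S, x ≠ 1 → Subgroup.centralizer ({x} : Set G) ≤ Subgroup.normalizer (S : Set G)) :
    S.Normal ∨ Nonempty (G ≃* Equiv.Perm (Fin 6)) := by
  have : Fact (Nat.Prime 2) := ⟨Nat.prime_two⟩
  have : Fact (Nat.Prime 3) := ⟨Nat.prime_three⟩
  have hS' : Nat.card (S.subgroupOf (Subgroup.normalizer (S : Set G))) = 9 := by
    rw [Nat.card_congr (Subgroup.subgroupOfEquivOfLe Subgroup.le_normalizer).toEquiv, hcard]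
  have hN : Nat.card (Subgroup.normalizer (S : Set G)) = 72 := by
    rw [Subgroup.card_eq_card_quotient_mul_card_subgroup
      (S.subgroupOf (Subgroup.normalizer (S : Set G))), Nat.card_congr eN.toEquiv,
      DihedralGroup.nat_card, hS']
  obtain ⟨T, hT⟩ := Sylow.exists_subgroup_card_pow_prime (G := Subgroup.normalizer (S : Set G)) 2
    (n := 3) (hN ▸ (by norm_num : 2 ^ 3 ∣ 72))
  let f : T →* DihedralGroup 4 := (eN.toMonoidHom.comp (QuotientGroup.mk' _)).comp T.subtype
  have hf : Function.Injective f := by
    rw [injective_iff_map_eq_one]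
    intro t ht
    have h1 : (t : Subgroup.normalizer (S : Set G)) ∈ S.subgroupOf _ :=
      (QuotientGroup.eq_one_iff _).mp (eN.injective (ht.trans (map_one eN).symm))
    have h2 := Subgroup.orderOf_dvd_natCard _ h1
    have h3 := Subgroup.orderOf_dvd_natCard _ t.2
    rw [hS'] at h2
    rw [hT] at h3
    exact Subtype.ext (orderOf_eq_one_iff.mp (Nat.eq_one_of_dvd_coprimes (by norm_num) h2 h3))
  let e := MulEquiv.ofBijective f (hf.bijective_of_nat_card_le (by
    rw [hT, DihedralGroup.nat_card]; norm_num))
  exact L0.Nine.normal_or_sym6 hcard (hSP ▸ P.not_dvd_index) hC hcent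
    (((Subgroup.subtype _).comp T.subtype).comp e.symm.toMonoidHom)
    ((Subgroup.subtype_injective _).comp (T.subtype_injective.comp e.symm.injective))
    (fun d => (e.symm d).1.2) hN

end Cfsg.Agent.S3333
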