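import Cfsg.Statements.S3334
import Cfsg.Agent.L0.McLMdl
import Cfsg.Agent.L0.Final

set_option autoImplicit false
open Cfsg

namespace Cfsg.Agent.S3334

open Cfsg.Agent.L0.McL Cfsg.Agent.L0.Cover Cfsg.Agent.L0.Bd Cfsg.Agent.H4 Equiv Subgroup

theorem exists_phi {G : Type*} [Group G] {ψ : H0 →* G} (hψ : Function.Injective ψ)
    (hC : ∀ g : G, Commute g (ψ eT) → ∃ h, ψ h = g) (hi : ¬ IsIsolated (ψ eT)) :
    ∃ φ : MM →* G, Function.Injective φ ∧ ∀ h : H0, φ ⟨h, H0_le h.2⟩ = ψ h := by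
  obtain ⟨y, h1, h2⟩ := mdl.exists_tri hψ hC hi
  let π := MonoidHom.snd G (Perm (Fin 275))
  have hL : ∀ e, evW (fun l => gr ψ (LH l)) 8 e = gr ψ (hw e) := fun e =>
    (map_evW (gr ψ) LH 8 e).symm
  have hW : ∀ i, π (WW (fun l => gr ψ (LH l)) (y, eY) i) = WP i := fun i => map_WW π _ _ i
  have S : cert.Sem 12 π MM (gr ψ).range (y, eY) eT (fun l => gr ψ (LH l))
      (WW (fun l => gr ψ (LH l)) (y, eY)) :=
    { tri := h1
      base := baseM
      le := by rintro _ ⟨k, rfl⟩; exact H0_le k.2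
      memT := H0_le eT.2
      memW := fun i hi => by rw [hW]; exact (RA_W hi).mem
      memL := fun l _ => ⟨_, rfl⟩
      repL := LH_rep
      repLI := LH_repI
      repW := fun i hi => by rw [hW]; exact (RA_W hi).rep
      repWI := fun i hi => by rw [hW]; exact (RA_WI hi).rep
      repV := fun i hi => by rw [hW]; exact (RA_V hi).rep
      two := by decide
      zero := rfl
      one := rfl
      par := fun j hj => by
        change j < 6 at hj
        have e : ∀ j < 6, cd 3 7 cert.par j = [0, 0, 1, 1, 1, 2].getD j 0 := by decide +kernel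
        rw [e j hj]
        have k : ∀ (w : G × Perm (Fin 275)) (e : ℕ), InB (gr ψ).range (y, eY)
            (w⁻¹ * (w * gr ψ (hw e) * (y, eY))) := fun w e => by
          rw [mul_assoc, inv_mul_cancel_left]
          exact (InB.self _ _).mul_left ⟨_, rfl⟩
        interval_cases j <;> refine ⟨by decide, ?_⟩ <;>
          simp only [WW, hL, List.getD_cons_zero, List.getD_cons_succ]
        exacts [Or.inl (by simp), by simpa using InB.self _ _, k _ _, k _ _, k _ _, k _ _]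
      cov := by
        rintro _ ⟨h, rfl⟩
        obtain ⟨p, a1, d, hd, rfl⟩ := card_H0_cov.2 h
        obtain ⟨d', a2, a3⟩ := of_mem_DD hd
        rw [Subtype.ext a2] at a3
        obtain ⟨d', e⟩ := h2 d a3
        exact ⟨p, a1, _, ⟨d', rfl⟩, by rw [hL, map_mul, mul_assoc, e, mul_assoc]; rfl⟩ }
  have hc := @S.cent _ _ _ _ _ _ _ _ _ _ _ _ 1104 (allB_iff.mp fact_chk) (fun i hi h0 p hp => by
    obtain ⟨i, rfl⟩ := Nat.exists_eq_succ_of_ne_zero h0
    exact allB_iff.mp (allB_iff.mp nb_chk i (Nat.lt_of_succ_lt_succ hi)) p hp)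
    fun i hi h0 => by rw [hW]; exact W_not_comm hi h0
  set K := closure (insert (y, eY) ((gr ψ).range : Set (G × Perm (Fin 275))))
  have hK : ∀ h : H0, gr ψ h ∈ K := fun h => subset_closure (Set.mem_insert_of_mem _ ⟨h, rfl⟩)
  have h3 : K.map π = MM := by
    refine le_antisymm (map_le_iff_le_comap.mpr ((closure_le _).mpr ?_))
      (Grp_le (by norm_num) fun c hc => ?_)
    · rintro _ (rfl | ⟨h, rfl⟩)
      exacts [RA.mem (ap cY), H0_le h.2]
    · rcases List.mem_cons.mp hc with rfl | hc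
      · exact inG_of_RA (h := RA.of_word (e := wh) (by decide +kernel)) ⟨_, hK (hw wh), rfl⟩
      · rw [List.mem_singleton.mp hc]
        exact inG_of_RA (g := eY) ⟨_, subset_closure (Set.mem_insert _ _), rfl⟩
  let g : K →* MM := (π.comp K.subtype).codRestrict MM fun k => h3 ▸ ⟨k, k.2, rfl⟩
  have hg : Function.Bijective g := ⟨(injective_iff_map_eq_one _).mpr fun k hk => by
    have : π k = 1 := congrArg Subtype.val hk
    exact Subtype.ext (h1.inj _ (hc k.2 (by rw [this]; exact Commute.one_left _)) this), fun c => by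
    obtain ⟨k, hk, e⟩ : (c : Perm (Fin 275)) ∈ K.map π := by rw [h3]; exact c.2
    exact ⟨⟨k, hk⟩, Subtype.ext e⟩⟩
  let e := MulEquiv.ofBijective g hg
  let φ : MM →* G := ((MonoidHom.fst _ _).comp K.subtype).comp e.symm.toMonoidHom
  have h4 : ∀ h : H0, φ ⟨h, H0_le h.2⟩ = ψ h := fun h => by
    have : e.symm ⟨h, H0_le h.2⟩ = ⟨_, hK h⟩ := by rw [MulEquiv.symm_apply_eq]; rfl
    show ((e.symm ⟨h, H0_le h.2⟩ : K) : G × Perm (Fin 275)).1 = _
    rw [this]; rfl
  refine ⟨φ, (MonoidHom.ker_eq_bot_iff φ).mp ?_, h4⟩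
  have h5 : ∀ x ∈ φ.ker, Commute x ⟨eT, H0_le eT.2⟩ → x = 1 := fun x hx hx' => by
    obtain ⟨k, rfl⟩ := hg.2 x
    obtain ⟨h, e'⟩ := hc k.2 (hx'.map MM.subtype)
    have e1 : g k = ⟨h, H0_le h.2⟩ := Subtype.ext (congrArg Prod.snd e').symm
    rw [e1, MonoidHom.mem_ker, h4] at hx
    rw [e1, hψ (hx.trans (map_one ψ).symm)]; rfl
  have h6 : ∀ (c x : MM), x ∈ φ.ker → Commute x (c * ⟨eT, H0_le eT.2⟩ * c⁻¹) → x = 1 :=
    fun c x hx hx' => by
      have := h5 (c⁻¹ * x * c⁻¹⁻¹) (φ.normal_ker.conj_mem x hx _) (by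
        simpa [mul_assoc] using hx'.map (MulAut.conj c⁻¹))
      rwa [conj_eq_one_iff] at this
  let Y : MM := ⟨eY, RA.mem (ap cY)⟩
  refine eq_bot_of_four (u := ⟨eT, H0_le eT.2⟩) (v := ⟨eu, H0_le eu.2⟩)
    (Subtype.ext (congrArg H0.subtype mdl.T2)) (Subtype.ext (congrArg H0.subtype mdl.u2)) h5
    (fun x hx hx' => h6 Y x hx ?_) fun x hx hx' => h6 Y⁻¹ x hx ?_
  · rwa [show Y * ⟨eT, H0_le eT.2⟩ * Y⁻¹ = ⟨eu, H0_le eu.2⟩ from
      Subtype.ext (mul_inv_eq_of_eq_mul mdl.YT)]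
  · rwa [inv_inv, show Y⁻¹ * ⟨eT, H0_le eT.2⟩ * Y = ⟨eT, H0_le eT.2⟩ * ⟨eu, H0_le eu.2⟩ from
      Subtype.ext mdl.Tu.symm]

/-- Let G be a finite group with an involution t whose centralizer is a non-split double cover of the alternating group of degree 8. Then either G = C_G(t) O_{2'}(G), or G is isomorphic to the McLaughlin group. -/
theorem result {G : Type*} [Group G] [Finite G]
    (t : G) (ht : orderOf t = 2)
    (hcov : Cfsg.IsNonsplitDoubleCover (Subgroup.centralizer ({t} : Set G)) (alternatingGroup (Fin 8))) :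
    Subgroup.centralizer ({t} : Set G) ⊔ Cfsg.oddCore G = ⊤ ∨ Nonempty (G ≃* Cfsg.Spor.McL) := by
  by_cases hi : IsIsolated t
  · exact Or.inl (sup_oddCore_of_isIsolated ht hi)
  obtain ⟨ψ, hψ, rfl, hC⟩ := exists_psi ht hcov pres2_XX rfl card_H0_cov.1.ge
  obtain ⟨φ, h1, h2⟩ := exists_phi hψ hC hi
  have ht' := iv_of_orderOf ht
  have h3 : centralizer {ψ eT} = ψ.range := by
    ext g
    rw [mem_centralizer_singleton_iff]
    exact ⟨hC g, by rintro ⟨h, rfl⟩; exact (comm_T h).map ψ⟩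
  have h4 : centralizer {ψ eT} ≤ φ.range := by
    rw [h3]
    rintro _ ⟨h, rfl⟩
    exact ⟨_, h2 h⟩
  have h5 : φ.range = ⊤ := by
    refine eq_top_of_centralizer ht' ⟨_, h2 eT⟩ h4 ?_ Nat.prime_three ?_ ?_
    · rintro _ ⟨z, rfl⟩ hz
      obtain ⟨l, hl, e⟩ := inv_MM z.2
        (congrArg Subtype.val (h1 (show φ (z * z) = φ 1 by rw [map_mul, hz.2, map_one])))
        fun e => hz.1 (by rw [show z = 1 from Subtype.ext e, map_one])
      refine ⟨φ ⟨l, hl⟩, ⟨_, rfl⟩, ?_⟩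
      rw [← h2, ← map_mul, ← map_inv, ← map_mul]
      exact congrArg φ (Subtype.ext e)
    · have h6 := Cfsg.Agent.H9.card_mul_relIndex_of_le h4
      rw [← Nat.card_congr (MonoidHom.ofInjective h1).toEquiv, card_MM] at h6
      nth_rewrite 1 [h3] at h6
      rw [← Nat.card_congr (MonoidHom.ofInjective hψ).toEquiv, card_H0_cov.1] at h6
      omega
    · rintro _ ⟨k, rfl⟩ hk
      obtain ⟨l, hl, e⟩ := three_MM k.2 (congrArg Subtype.val (h1 (show φ (k ^ 3) = φ 1 by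
        rw [map_pow, ← hk, pow_orderOf_eq_one, map_one])))
      refine ⟨_, mul_mem (mul_mem ⟨⟨l, hl⟩, rfl⟩ ⟨_, h2 eT⟩) (inv_mem ⟨⟨l, hl⟩, rfl⟩),
        ht'.conj (φ ⟨l, hl⟩), ?_⟩
      rw [← h2, ← map_mul, ← map_inv, ← map_mul]
      exact (Commute.of_map MM.subtype_injective e).map φ
  exact Or.inr ⟨(MulEquiv.ofBijective φ ⟨h1, MonoidHom.range_eq_top.mp h5⟩).symm.trans isoMcL.symm⟩

end Cfsg.Agent.S3334
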