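import Cfsg.Statements.S3341
import Cfsg.Agent.L0.NineA6

set_option autoImplicit false
open Cfsg

namespace Cfsg.Agent.S3341

/-- Let G be a finite simple group whose Sylow 3-subgroup S is elementary abelian of order 9, such that G has more than one conjugacy class of elements of order 3 and C_G(s) = S for every non-identity s in S. Then G is isomorphic to the alternating group of degree 6. -/
theorem result {G : Type*} [Group G] [Finite G] [IsSimpleGroup G]
    (P : Sylow 3 G) (S : Subgroup G) (hSP : S = P) (hcomm : IsMulCommutative S) (hexp : ∀ a ∈ S, a ^ 3 = 1)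
    (hcard : Nat.card S = 9)
    (hclasses : ∃ a b : G, orderOf a = 3 ∧ orderOf b = 3 ∧ ∀ g : G, g * a * g⁻¹ ≠ b)
    (hcent : ∀ s ∈ S, s ≠ 1 → Subgroup.centralizer ({s} : Set G) = S) :
    Nonempty (G ≃* alternatingGroup (Fin 6)) := by
  have : Fact (Nat.Prime 3) := ⟨Nat.prime_three⟩
  have h : L0.Nine.Hyp S := ⟨hcard, hexp, hSP ▸ P.not_dvd_index, hcent⟩
  obtain ⟨a, b, ha, hb, hab⟩ := hclasses
  obtain ⟨g, hg⟩ := H3.exists_conj_mem_of_not_dvd_index Nat.prime_three h.index (k := 1)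
    (x := a) (by rw [pow_one, ← ha, pow_orderOf_eq_one])
  obtain ⟨g', hg'⟩ := H3.exists_conj_mem_of_not_dvd_index Nat.prime_three h.index (k := 1)
    (x := b) (by rw [pow_one, ← hb, pow_orderOf_eq_one])
  have ha1 : g * a * g⁻¹ ≠ 1 := fun e => by
    have : a = 1 := by simpa using e
    simp [this] at ha
  have hb1 : g' * b * g'⁻¹ ≠ 1 := fun e => by
    have : b = 1 := by simpa using e
    simp [this] at hb
  have hN : Nat.card (Subgroup.normalizer (S : Set G)) ≤ 36 := by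
    set N := Subgroup.normalizer (S : Set G)
    have hSN : S ≤ N := Subgroup.le_normalizer
    have key : ∀ B : Set N, (∀ x : N, ∀ y ∈ B, x * y * x⁻¹ ∈ B) → ∀ y ∈ B, (y : G) ∈ S → y ≠ 1 →
        (S.subgroupOf N).index ≤ B.ncard := by
      intro B hB y hy hyS hy1
      rw [← (h.subgroupOf hSN).cent y hyS hy1]
      exact H3.index_centralizer_le_ncard B hB hy
    have hS' : ∀ x : N, ∀ y : N, (y : G) ∈ S ∧ y ≠ 1 →
        ((x * y * x⁻¹ : N) : G) ∈ S ∧ x * y * x⁻¹ ≠ 1 := fun x y hy =>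
      ⟨(Subgroup.mem_normalizer_iff.mp x.2 y).mp hy.1, fun e => hy.2 (by simpa using e)⟩
    have h1 := key {y : N | ((y : G) ∈ S ∧ y ≠ 1) ∧ IsConj a y} (fun x y hy =>
      ⟨hS' x y hy.1, hy.2.trans (isConj_iff.mpr ⟨x, rfl⟩)⟩) ⟨_, hSN hg⟩
      ⟨⟨hg, fun e => ha1 (congrArg Subtype.val e)⟩, isConj_iff.mpr ⟨g, rfl⟩⟩ hg
      (fun e => ha1 (congrArg Subtype.val e))
    have h2 := key {y : N | ((y : G) ∈ S ∧ y ≠ 1) ∧ ¬ IsConj a y} (fun x y hy =>
      ⟨hS' x y hy.1, fun e => hy.2 (e.trans (isConj_iff.mpr ⟨(x : G), rfl⟩).symm)⟩) ⟨_, hSN hg'⟩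
      ⟨⟨hg', fun e => hb1 (congrArg Subtype.val e)⟩, fun e => by
        obtain ⟨c, hc⟩ := isConj_iff.mp (e.trans (isConj_iff.mpr ⟨g', rfl⟩).symm)
        exact hab c hc⟩ hg' (fun e => hb1 (congrArg Subtype.val e))
    have h3 : {y : N | ((y : G) ∈ S ∧ y ≠ 1) ∧ IsConj a y}.ncard +
        {y : N | ((y : G) ∈ S ∧ y ≠ 1) ∧ ¬ IsConj a y}.ncard = 8 := by
      rw [← Set.ncard_union_eq (Set.disjoint_left.mpr fun y h1 h2 => h2.2 h1.2)]
      have : {y : N | ((y : G) ∈ S ∧ y ≠ 1) ∧ IsConj a y} ∪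
          {y : N | ((y : G) ∈ S ∧ y ≠ 1) ∧ ¬ IsConj a y} = (S.subgroupOf N : Set N) \ {1} := by
        ext y
        simp only [Set.mem_union, Set.mem_ofPred_eq, Set.mem_sdiff, SetLike.mem_coe,
          Subgroup.mem_subgroupOf, Set.mem_singleton_iff]
        tauto
      rw [this, Set.ncard_sdiff_singleton_of_mem (one_mem _), ← Nat.card_coe_set_eq,
        SetLike.coe_sort_coe, (h.subgroupOf hSN).card]
    have h4 := (S.subgroupOf N).card_mul_index
    rw [(h.subgroupOf hSN).card] at h4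
    omega
  rcases L0.Nine.normal_or_alt6 _ G rfl S h hN with h1 | h1
  · rcases h1.eq_bot_or_eq_top with h2 | h2
    · simp [h2] at hcard
    · exact absurd (by rw [h.comm (h2 ▸ trivial) (h2 ▸ trivial)]) (fun e : a * b = b * a => by
        have h3 : (Subgroup.zpowers a).Normal := ⟨fun x hx y => by
          rwa [h.comm (a := y) (b := x) (h2 ▸ trivial) (h2 ▸ trivial), mul_inv_cancel_right]⟩
        have h4 := Nat.card_zpowers a
        rcases h3.eq_bot_or_eq_top with h5 | h5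
        · simp [h5, ha] at h4
        · rw [h5, ← h2, hcard, ha] at h4
          omega)
  · exact h1.2

end Cfsg.Agent.S3341
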