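import Cfsg.Statements.S3345
import Cfsg.Agent.H6.O8.Loc5
import Cfsg.Agent.H7.Components

set_option autoImplicit false
open Cfsg

namespace Cfsg.Agent.S3345

open H6.O8 in
open scoped commutatorElement in
theorem exists_loc {G : Type*} [Group G] {t : G} (ht : orderOf t = 2) (P : Subgroup (C1 t))
    [P.Normal] (hF : IsExtraspecial 2 P) (hc : Nat.card P = 2 ^ 9)
    (e : C1 t ⧸ P ≃* Equiv.Perm (Fin 3) × Equiv.Perm (Fin 3) × Equiv.Perm (Fin 3))
    (tQ : t ∈ P.map (C1 t).subtype) : ∃ ph, Loc t (P.map (C1 t).subtype) ph := by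
  classical
  have ht1 : t ≠ 1 := by
    rintro rfl
    simp at ht
  obtain ⟨t', ht', et⟩ := id tQ
  have zen : ∀ q : P, q ∈ Subgroup.center P → ((q : C1 t) : G) = 1 ∨ ((q : C1 t) : G) = t := by
    intro q hq
    obtain ⟨y, -, hy⟩ := (Nat.card_eq_two_iff' (1 : Subgroup.center P)).1 hF.2
    by_contra hn
    push Not at hn
    have h1 := hy ⟨q, hq⟩ fun h => hn.1
      (congrArg (fun z : Subgroup.center P => (((z : P) : C1 t) : G)) h)
    have h2 := hy ⟨⟨t', ht'⟩, Subgroup.mem_center_iff.2 fun p => Subtype.ext (Subtype.ext (by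
      change _ * (C1 t).subtype t' = (C1 t).subtype t' * _
      rw [et]
      exact mem_C1.mp (p : C1 t).2))⟩ fun h => ht1
        (et.symm.trans (congrArg (fun z : Subgroup.center P => (((z : P) : C1 t) : G)) h))
    exact hn.2 ((congrArg (fun z : Subgroup.center P => (((z : P) : C1 t) : G))
      (h1.trans h2.symm)).trans et)
  let cv : Equiv.Perm (Fin 3) × Equiv.Perm (Fin 3) × Equiv.Perm (Fin 3) → L3 :=
    fun l => ![l.1, l.2.1, l.2.2]
  refine ⟨fun x => if hx : x ∈ C1 t then cv (e (⟨x, hx⟩ : C1 t)) else 1, tQ,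
    by rw [← pow_two, ← ht, pow_orderOf_eq_one], ht1, ?_, ?_, ?_, ?_, fun a b ha hb => ?_,
    fun c hc => ?_, fun l => ?_⟩
  · rintro _ ⟨q, -, rfl⟩
    exact mem_C1.mp q.2
  · rintro _ ⟨p, hp, rfl⟩ _ ⟨q, hq, rfl⟩
    rcases zen ⁅(⟨p, hp⟩ : P), (⟨q, hq⟩ : P)⁆ (by
      rw [← hF.1.2.2]
      exact Subgroup.commutator_mem_commutator (Subgroup.mem_top _) (Subgroup.mem_top _)) with h | h
    · exact Or.inl (commutatorElement_eq_one_iff_mul_comm.1 h)
    · refine Or.inr ?_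
      change (p : G) * q * (p : G)⁻¹ * (q : G)⁻¹ = t at h
      change (p : G) * q = q * p * t
      rw [mem_C1.mp (mul_mem q.2 p.2)]
      exact mul_inv_eq_iff_eq_mul.mp (by rw [mul_inv_rev, ← mul_assoc, h])
  · rintro _ ⟨q, hq, rfl⟩ h
    exact zen ⟨q, hq⟩ (Subgroup.mem_center_iff.2 fun p => Subtype.ext (Subtype.ext
      (h _ ⟨_, p.2, rfl⟩)))
  · rw [Subgroup.card_map_of_injective (C1 t).subtype_injective, hc]
    rfl
  · rw [dif_pos (mem_C1.mpr ha), dif_pos (mem_C1.mpr hb), dif_pos (mem_C1.mpr (cmul ha hb)),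
      show (⟨a * b, mem_C1.mpr (cmul ha hb)⟩ : C1 t) = ⟨a, mem_C1.mpr ha⟩ * ⟨b, mem_C1.mpr hb⟩ from rfl,
      QuotientGroup.mk_mul, map_mul]
    funext i
    fin_cases i <;> rfl
  · rw [dif_pos (mem_C1.mpr hc)]
    constructor
    · intro h
      exact ⟨_, (QuotientGroup.eq_one_iff _).mp (e.map_eq_one_iff.mp
        (Prod.ext (congrFun h 0) (Prod.ext (congrFun h 1) (congrFun h 2)))), rfl⟩
    · rintro ⟨q, hq, rfl⟩
      rw [show ((⟨(C1 t).subtype q, mem_C1.mpr hc⟩ : C1 t) : C1 t ⧸ P) = 1 from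
        (QuotientGroup.eq_one_iff _).mpr hq, map_one]
      funext i
      fin_cases i <;> rfl
  · obtain ⟨c, hc⟩ := QuotientGroup.mk_surjective (e.symm (l 0, l 1, l 2))
    refine ⟨c, mem_C1.mp c.2, ?_⟩
    rw [dif_pos c.2, hc, e.apply_symm_apply]
    funext i
    fin_cases i <;> rfl

/-- Let G be a finite group with O^2(G) = G and an involution t with centralizer C such that F*(C) is extraspecial of order 2^9, C/O₂(C) is isomorphic to Sym(3) × Sym(3) × Sym(3), and C_G(O₂(C)) ≤ O₂(C). Then either the image of t is central in G/O_{2'}(G), or G is isomorphic to Ω⁺(8,2), the commutator subgroup of the isometry group of the hyperbolic quadratic form in dimension 8 over the field with 2 elements. -/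
theorem result {G : Type*} [Group G] [Finite G]
    (hG : Cfsg.pResidual 2 G = ⊤) (t : G) (ht : orderOf t = 2)
    (C : Subgroup G) (hC : C = Subgroup.centralizer ({t} : Set G))
    (hF : Cfsg.IsExtraspecial 2 (Cfsg.generalizedFittingSubgroup C))
    (hFcard : Nat.card (Cfsg.generalizedFittingSubgroup C) = 2 ^ 9)
    (e : C ⧸ Cfsg.pCore 2 C ≃* Equiv.Perm (Fin 3) × Equiv.Perm (Fin 3) × Equiv.Perm (Fin 3))
    (hcc : Subgroup.centralizer (((Cfsg.pCore 2 C).map C.subtype : Subgroup G) : Set G) ≤ (Cfsg.pCore 2 C).map C.subtype) :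
    (∀ g : G, g * t * g⁻¹ * t⁻¹ ∈ Cfsg.oddCore G) ∨
      Nonempty (G ≃* Cfsg.Omega (ZMod 2) (Cfsg.quadFormPlus 4 (ZMod 2))) := by
  subst hC
  have hFO : generalizedFittingSubgroup (H6.O8.C1 t) = pCore 2 (H6.O8.C1 t) :=
    le_antisymm (H7.le_pCore inferInstance hF.1.1)
      ((H7.pCore_le_fittingSubgroup Nat.prime_two).trans le_sup_right)
  rw [hFO] at hF hFcard
  obtain ⟨ph, h⟩ := exists_loc ht _ hF hFcard e (hcc (by
    rintro _ ⟨q, -, rfl⟩
    exact H6.O8.mem_C1.mp q.2))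
  by_cases w : ∀ q ∈ (pCore 2 (H6.O8.C1 t)).map (H6.O8.C1 t).subtype, H7.Asch.Cj t q → q = t
  · exact Or.inl (H3.zStar_of_isIsolated ht (h.isolated w))
  push Not at w
  obtain ⟨_, hq, ⟨x, rfl⟩, hne⟩ := w
  obtain ⟨_, h1⟩ := (h.np (h.conj x) hq hne).std
  obtain ⟨_, _, _, _, _, _, h2⟩ := h1.exists_Ex
  obtain ⟨_, h3⟩ := h2.top
  exact Or.inr h3.iso

end Cfsg.Agent.S3345
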