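import Cfsg.Statements.S3365
import Cfsg.Agent.H9.FxFour3

set_option autoImplicit false
open Cfsg
open scoped Pointwise

namespace Cfsg.Agent.S3365

/-- Finite simple groups acting with fixity 4. Let G be a finite non-abelian simple group acting faithfully and transitively on a finite set so that every non-identity element fixes at most 4 points and some non-identity element fixes exactly 4 (fixity 4). Let P be a Sylow 3-subgroup, S a Sylow 2-subgroup, f the largest number of fixed points of an involution of G, and a a point. Then one of the following holds: (1) f ≥ 1 and G has a strongly embedded subgroup; (2) 1 ≤ f ≤ 3 and S is dihedral or semidihedral; (3) f = 4 and G has sectional 2-rank at most 4; (4) the point stabilizer G_a has odd order divisible by 3 and either G has a strongly 3-embedded subgroup (a proper subgroup H of order divisible by 3 such that H ∩ gHg⁻¹ has order prime to 3 for every element g outside H), or |P| = 3 and a Sylow 2-subgroup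 of N_G(P) has order at most 4, or P is elementary abelian of order 9, or P is extraspecial of order 27 and exponent 3, or P is isomorphic to a Sylow 3-subgroup of Sym(9) (the wreath product C₃ ≀ C₃); (5) G_a has order prime to 6. -/
theorem result {G Ω : Type*} [Group G] [Finite G] [IsSimpleGroup G] (hna : ¬ IsMulCommutative G)
    [MulAction G Ω] [FaithfulSMul G Ω] [Finite Ω] (htrans : MulAction.IsPretransitive G Ω)
    (hfix : ∀ g : G, g ≠ 1 → Nat.card (MulAction.fixedBy Ω g) ≤ 4)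
    (hfix4 : ∃ g : G, g ≠ 1 ∧ Nat.card (MulAction.fixedBy Ω g) = 4)
    (P : Sylow 3 G) (S : Sylow 2 G) (f : ℕ)
    (hf : ∀ g : G, orderOf g = 2 → Nat.card (MulAction.fixedBy Ω g) ≤ f)
    (hf' : ∃ g : G, orderOf g = 2 ∧ Nat.card (MulAction.fixedBy Ω g) = f) (a : Ω) :
    (1 ≤ f ∧ ∃ H : Subgroup G, Cfsg.IsStronglyEmbedded H) ∨
    (1 ≤ f ∧ f ≤ 3 ∧ ((∃ n : ℕ, Nonempty ((S : Subgroup G) ≃* DihedralGroup n)) ∨ Cfsg.IsQuasiDihedral (S : Subgroup G))) ∨
    (f = 4 ∧ Cfsg.SectionalPRankLE 2 4 G) ∨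
    (Odd (Nat.card (MulAction.stabilizer G a)) ∧ 3 ∣ Nat.card (MulAction.stabilizer G a) ∧
      ((∃ H : Subgroup G, H ≠ ⊤ ∧ 3 ∣ Nat.card H ∧ ∀ g : G, g ∉ H → ¬ 3 ∣ Nat.card ↥(H ⊓ H.map (MulAut.conj g).toMonoidHom)) ∨
       (Nat.card P = 3 ∧ ∀ T : Sylow 2 (Subgroup.normalizer ((P : Subgroup G) : Set G)), Nat.card T ≤ 4) ∨
       (Nat.card P = 9 ∧ ∀ x ∈ (P : Subgroup G), x ^ 3 = 1) ∨
       (Nat.card P = 27 ∧ Cfsg.IsExtraspecial 3 (P : Subgroup G) ∧ ∀ x ∈ (P : Subgroup G), x ^ 3 = 1) ∨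
       (∃ T : Sylow 3 (Equiv.Perm (Fin 9)), Nonempty ((P : Subgroup G) ≃* (T : Subgroup (Equiv.Perm (Fin 9))))))) ∨
    (Nat.card (MulAction.stabilizer G a)).Coprime 6 := by
  have hG : commutator G = ⊤ := (Subgroup.Normal.eq_bot_or_eq_top inferInstance).resolve_left
    fun e => hna ⟨⟨fun x y => H7.le_cent_iff.1 (H7.comm_eq_bot_iff.1 e) _ (Subgroup.mem_top y) _
      (Subgroup.mem_top x)⟩⟩
  rcases Nat.even_or_odd (Nat.card (MulAction.stabilizer G a)) with he | ho
  · obtain ⟨t0, ht0, h0⟩ := H7.exists_orderOf_eq_prime Nat.prime_two (even_iff_two_dvd.1 he)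
    have f1 : 1 ≤ f := le_trans ((Set.ncard_pos (s := MulAction.fixedBy Ω t0)
      (Set.toFinite _)).2 ⟨a, ht0⟩) (hf t0 h0)
    obtain ⟨t, ht, htf⟩ := hf'
    change (MulAction.fixedBy Ω t).ncard = f at htf
    have t1 : t ≠ 1 := by rintro rfl; simp at ht
    have t2 : t * t = 1 := by rw [← pow_two, ← ht, pow_orderOf_eq_one]
    have htK := Fx4.mem_fixing_self Ω t
    obtain ⟨p, hp⟩ : (MulAction.fixedBy Ω t).Nonempty := Set.nonempty_of_ncard_ne_zero (by omega)
    have hN := Fx4.stab_ne_top hp htK t1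
    rcases (htf ▸ hfix t t1 : f ≤ 4).eq_or_lt with f4 | f3
    · by_cases hb : Fx4.Good G
      · obtain ⟨T, hT, h⟩ := hb
        obtain ⟨g, -, hg⟩ := hT.exists_conj (H7.isSylowIn_top S)
        exact Or.inr (Or.inr (Or.inl ⟨f4, Fx4.sectional_of_SR S (hg ▸ h.conj g)⟩))
      · exact Or.inl ⟨f1, _, Fx4.case4 hfix hG hb (htf.trans f4) htK t1 t2 hN⟩
    · have key : ∀ y ∈ fixingSubgroup G (MulAction.fixedBy Ω t), y ≠ 1 → y * y = 1 →
          MulAction.fixedBy Ω y = MulAction.fixedBy Ω t := fun y hy h1 h2 =>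
        (Set.eq_of_subset_of_ncard_le (Fx4.mem_fixing.1 hy)
          (htf ▸ hf y (orderOf_eq_prime (pow_two y ▸ h2) h1))).symm
      rcases Fx4.caseLE3 hG (Fx4.fixing_le _) (Fx4.stab_le_norm _) hN htK t1 t2
        (fun y hy h1 h2 g hg => by
          rw [MulAction.mem_stabilizer_iff, ← key y hy h1 h2, MulAction.smul_fixedBy,
            key _ hg (by simpa using h1) (Fx4.conj_sq h2 g), key y hy h1 h2])
        (fun R hR hP => Fx4.idx2' (by omega) hR hP) S with h | h
      · exact Or.inl ⟨f1, _, h⟩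
      · exact Or.inr (Or.inl ⟨f1, by omega, h⟩)
  · by_cases h3 : 3 ∣ Nat.card (MulAction.stabilizer G a)
    · refine Or.inr (Or.inr (Or.inr (Or.inl ⟨ho, h3, ?_⟩)))
      rcases Fx4.partB hG hfix a ho h3 P with ⟨H, h1, h2, h⟩ | h
      · exact Or.inl ⟨H, h1, h2, fun g hg => by rw [← H7.conj_smul_eq_map]; exact h g hg⟩
      · exact Or.inr (Or.inr (Or.inl h))
    · exact Or.inr (Or.inr (Or.inr (Or.inr (Nat.Coprime.mul_right (Nat.coprime_two_right.2 ho)
        ((Nat.Prime.coprime_iff_not_dvd Nat.prime_three).2 h3).symm))))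

end Cfsg.Agent.S3365
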