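import Cfsg.Statements.S3366
import Cfsg.Agent.H4.He648b
import Cfsg.Agent.H1.SpBasic
import Cfsg.Agent.H6.SpBasic
import Cfsg.Agent.H6.Transfer

set_option autoImplicit false
open Cfsg

namespace Cfsg.Agent.S3366

open H1 H4 H4.He648 Subgroup Finset

/-- `Sp₄(3)`. -/
abbrev Sp := Matrix.symplecticGroup (Fin 2) (ZMod 3)

/-- The natural module. -/
abbrev V := Fin 2 ⊕ Fin 2 → ZMod 3

/-- A generator. -/
def ma : Sp := ⟨Matrix.fromBlocks !![1, 0; 0, 1] !![0, 1; 1, 0] !![0, 0; 0, 0] !![1, 0; 0, 1],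
  SymplecticGroup.mem_iff.mpr (by decide +kernel)⟩

/-- A generator. -/
def mb : Sp := ⟨Matrix.fromBlocks !![1, 2; 0, 1] !![0, 0; 0, 0] !![0, 0; 0, 0] !![1, 0; 1, 1],
  SymplecticGroup.mem_iff.mpr (by decide +kernel)⟩

/-- A generator. -/
def mc : Sp := ⟨Matrix.fromBlocks !![1, 0; 0, 1] !![2, 0; 0, 0] !![0, 0; 0, 0] !![1, 0; 0, 1],
  SymplecticGroup.mem_iff.mpr (by decide +kernel)⟩

/-- A generator. -/
def ms : Sp := ⟨Matrix.fromBlocks !![1, 0; 0, 0] !![0, 0; 0, 2] !![0, 0; 0, 1] !![1, 0; 0, 0],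
  SymplecticGroup.mem_iff.mpr (by decide +kernel)⟩

/-- A generator. -/
def mt : Sp := ⟨Matrix.fromBlocks !![1, 0; 0, 1] !![0, 0; 0, 2] !![0, 0; 0, 0] !![1, 0; 0, 1],
  SymplecticGroup.mem_iff.mpr (by decide +kernel)⟩

theorem rel : Rel ma mb mc ms mt := by
  constructor <;> exact Subtype.ext (by decide +kernel)

/-- The stabiliser of a vector. -/
abbrev K : Subgroup Sp := spFix (ZMod 3) {Sum.inl 0}

theorem mem_K {g : Sp} : g ∈ K ↔ spAct g (bv (ZMod 3) (.inl 0)) = bv (ZMod 3) (.inl 0) := by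
  simp [mem_spFix]

/-- The alternating form in coordinates. -/
def B (u v : V) : ZMod 3 := u (.inr 0) * v (.inl 0) - u (.inl 0) * v (.inr 0) +
  (u (.inr 1) * v (.inl 1) - u (.inl 1) * v (.inr 1))

theorem B_eq (u v : V) : spB u v = B u v := by
  rw [spB_eq, Fin.sum_univ_two, B]

/-- The possible images of the remaining basis vectors. -/
def T : Finset (Σ _ : V, Σ _ : V, V) :=
  (univ.filter fun f : V => f (.inr 0) = 1).sigma fun f =>
    (univ.filter fun a : V => a (.inr 0) = 0 ∧ B f a = 0).sigma fun a =>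
      univ.filter fun b : V => b (.inr 0) = 0 ∧ B f b = 0 ∧ B a b = -1

theorem card_T : T.card = 648 := by
  simp only [T, card_sigma]
  decide +kernel

theorem card_K : Nat.card K ≤ 648 := by
  classical
  have := Fintype.ofFinite K
  rw [← card_T, Nat.card_eq_fintype_card, ← card_univ]
  refine card_le_card_of_injOn (fun g => ⟨spAct g.1 (bv _ (.inr 0)), spAct g.1 (bv _ (.inl 1)),
    spAct g.1 (bv _ (.inr 1))⟩) (fun g _ => ?_) fun g _ g' _ h => ?_
  · have h1 : ∀ v, spAct g.1 v (.inr 0) = v (.inr 0) := fun v => by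
      have := spB_act_of_fix (mem_K.mp g.2) v
      rwa [spB_inl, spB_inl, neg_inj] at this
    simp only [T, coe_sigma, Set.mem_sigma_iff, coe_filter, mem_univ, true_and, Set.mem_ofPred_eq,
      h1, ← B_eq, spB_act]
    simp only [B_eq]
    decide
  · simp only [Sigma.mk.injEq, heq_eq_eq] at h
    refine Subtype.ext (sp_ext fun i => ?_)
    rcases i with i | i <;> fin_cases i
    · exact (mem_K.mp g.2).trans (mem_K.mp g'.2).symm
    · exact h.2.1
    · exact h.1
    · exact h.2.2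

theorem index_K : K.index = 80 := by
  let : MulAction Sp V :=
    { smul := fun g v => spAct g v, one_smul := spAct_one, mul_smul := spAct_mul }
  have h1 : K = MulAction.stabilizer Sp (bv (ZMod 3) (.inl 0) : V) := by
    ext g
    exact mem_K
  have h0 : (bv (ZMod 3) (.inl 0) : V) ≠ 0 := by decide
  have h2 : MulAction.orbit Sp (bv (ZMod 3) (.inl 0) : V) = ↑(univ.erase (0 : V)) := by
    ext v
    simp only [coe_erase, coe_univ, Set.mem_sdiff, Set.mem_univ, Set.mem_singleton_iff, true_and]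
    refine ⟨?_, fun hv => ?_⟩
    · rintro ⟨g, rfl⟩ h
      exact h0 ((spAct_inv_eq h).symm.trans (map_zero _))
    · obtain ⟨g, -, hg⟩ := exists_fix_map_perp (I := ∅) (by simp) (by simp [mem_spPerp])
        (by simp [mem_spPerp]) h0 hv
      exact ⟨g, hg⟩
  rw [h1]
  refine (MulAction.index_stabilizer _ _).trans ((congrArg Set.ncard h2).trans ?_)
  rw [Set.ncard_coe_finset]
  decide +kernel

theorem tv_spec : ∀ u : V, (tvMat u 1 = mc.1 → u = bv _ (.inl 0) ∨ u = -bv _ (.inl 0)) ∧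
    tvMat u 1 ≠ -mc.1 := by
  decide +kernel

theorem mc_eq : mc = spTv (bv _ (.inl 0)) 1 := Subtype.ext (by decide +kernel)

theorem conj_tv (g : Sp) (u : V) : g * spTv u 1 * g⁻¹ = spTv (spAct g u) 1 := by
  refine sp_ext fun a => ?_
  rw [spAct_mul, spAct_mul, spAct_tv, spAct_tv, map_add, map_smul, spAct_act_inv, spB_act_left]

/-- The projection to `PSp₄(3)`. -/
abbrev pr : Sp →* PSp 2 (ZMod 3) := QuotientGroup.mk' _

theorem pr_eq {g h : Sp} : pr g = pr h ↔ g.1 = h.1 ∨ g.1 = -h.1 := by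
  rw [← mul_inv_eq_one, ← map_inv, ← map_mul, QuotientGroup.mk'_apply, QuotientGroup.eq_one_iff,
    H6.mem_center_sp_iff]
  have h1 : (g * h⁻¹).1 * h.1 = g.1 := congrArg Subtype.val (inv_mul_cancel_right g h)
  have h2 : h.1 * (h⁻¹).1 = 1 := congrArg Subtype.val (mul_inv_cancel h)
  refine ⟨fun h => h.imp (fun h => ?_) fun h => ?_, fun h => h.imp (fun h => ?_) fun h => ?_⟩
  · rw [← h1, h, one_mul]
  · rw [← h1, h, neg_one_mul]
  · rw [Submonoid.coe_mul, h, h2]
  · rw [Submonoid.coe_mul, h, neg_mul, h2]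

theorem cent_eq : centralizer {pr mc} = K.map pr := by
  ext x
  obtain ⟨g, rfl⟩ := QuotientGroup.mk'_surjective _ x
  rw [mem_centralizer_singleton_iff, ← mul_inv_eq_iff_eq_mul, ← map_inv, ← map_mul, ← map_mul,
    pr_eq, mc_eq, conj_tv, ← mc_eq]
  refine ⟨fun h => ?_, ?_⟩
  · rcases (tv_spec _).1 (h.resolve_right (tv_spec _).2) with h1 | h1
    · exact ⟨g, mem_K.mpr h1, rfl⟩
    · refine ⟨⟨-g.1, SymplecticGroup.neg_mem g.2⟩, mem_K.mpr ?_, pr_eq.mpr (Or.inr rfl)⟩
      rw [spAct_def] at h1 ⊢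
      rw [Matrix.neg_mulVec, h1, neg_neg]
  · rintro ⟨k, hk, h⟩
    have h1 := mem_K.mp hk
    rw [spAct_def] at h1 ⊢
    left
    rcases pr_eq.mp h with h | h
    · rw [← h, h1, mc_eq]
    · rw [h, Matrix.neg_mulVec, neg_eq_iff_eq_neg] at h1
      rw [h1]
      decide +kernel

theorem mc_cube : mc ^ 3 = 1 := Subtype.ext (by decide +kernel)

theorem orderOf_mc : orderOf (pr mc) = 3 := by
  have := Fact.mk Nat.prime_three
  refine orderOf_eq_prime ?_ ?_
  · rw [← map_pow, mc_cube, map_one]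
  · rw [← map_one pr, Ne, pr_eq]
    decide +kernel

theorem main {X : Type*} [Group X] [Finite X] {R : Subgroup X} {c : X} {π : X →* SL23}
    (h : Hyp R c π)
    (hE : ∃ E : Subgroup X, IsMulCommutative E ∧ (∀ a ∈ E, a ^ 3 = 1) ∧ Nat.card E = 27) :
    Nonempty (X ≃* centralizer {pr mc}) := by
  obtain ⟨E, h1, h2, h3⟩ := hE
  obtain ⟨a, b, d, s, t, hr, hg, hi⟩ := h.exists_rel
    (fun x hx y hy => setLike_mul_comm hx hy) h2 h3
  obtain ⟨φ, ha, hs, ht⟩ := rel.exists_hom hr h.card_X hg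
  have hb : φ b = mb := by rw [← hr.sb, ← rel.sb, map_mul, map_mul, map_inv, ha, hs]
  have hd : φ d = mc := by
    have := congrArg φ hr.ab
    rw [map_mul, map_mul, map_mul, ha, hb, rel.ab] at this
    exact (mul_right_cancel (mul_right_cancel this)).symm
  have h4 : (pr.comp φ).range ≤ centralizer {pr mc} := by
    rw [cent_eq, MonoidHom.range_eq_map, ← hg, ← Subgroup.map_map, MonoidHom.map_closure]
    refine map_mono ((closure_le _).mpr ?_)
    simp only [Set.image_insert_eq, Set.image_singleton, ha, hs, ht, Set.insert_subset_iff,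
      Set.singleton_subset_iff, SetLike.mem_coe, mem_K]
    decide +kernel
  have h5 := hi (pr.comp φ) (by
    rw [MonoidHom.comp_apply, hd, ← map_one pr, Ne, pr_eq]
    decide +kernel)
  have h6 := eq_of_le_of_card_ge h4 (by
    rw [← Nat.card_congr (MonoidHom.ofInjective h5).toEquiv, h.card_X, cent_eq]
    exact (Nat.le_of_dvd Nat.card_pos (card_map_dvd _ _)).trans card_K)
  exact ⟨(MonoidHom.ofInjective h5).trans (MulEquiv.subgroupCongr h6)⟩

/-- Let X be a finite group with O₃(X) extraspecial of order 27 and exponent 3, X/O₃(X) isomorphic to SL(2,3), O₂(X) = 1, and a Sylow 3-subgroup of X containing an elementary abelian subgroup of order 27. Then X is isomorphic to the centralizer in PSp(4,3) of a 3-central element of order 3 (an element of order 3 in the centre of a Sylow 3-subgroup). -/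
theorem result {X : Type*} [Group X] [Finite X]
    (hR : Cfsg.IsExtraspecial 3 (Cfsg.pCore 3 X)) (hRcard : Nat.card (Cfsg.pCore 3 X) = 27)
    (hRexp : ∀ r ∈ Cfsg.pCore 3 X, r ^ 3 = 1)
    (e : X ⧸ Cfsg.pCore 3 X ≃* Matrix.SpecialLinearGroup (Fin 2) (ZMod 3))
    (hO2 : Cfsg.pCore 2 X = ⊥)
    (hE : ∃ E : Subgroup X, IsMulCommutative E ∧ (∀ a ∈ E, a ^ 3 = 1) ∧ Nat.card E = 27)
    (F : Type*) [Field F] [Fintype F] (hF : Fintype.card F = 3) :
    ∃ (c : Cfsg.PSp 2 F) (S : Sylow 3 (Cfsg.PSp 2 F)), orderOf c = 3 ∧ c ∈ (S : Subgroup (Cfsg.PSp 2 F)) ∧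
      c ∈ Subgroup.centralizer ((S : Subgroup (Cfsg.PSp 2 F)) : Set (Cfsg.PSp 2 F)) ∧
      Nonempty (X ≃* Subgroup.centralizer ({c} : Set (Cfsg.PSp 2 F))) := by
  have := Fact.mk Nat.prime_three
  obtain ⟨c, π, h⟩ := exists_hyp hR hRcard hRexp e hO2
  obtain ⟨φ⟩ := main h hE
  let ψ := H6.pspCongr (m := 2) (ZMod.ringEquivOfPrime F Nat.prime_three hF)
  have h1 : centralizer {ψ (pr mc)} = (centralizer {pr mc}).map ψ.toMonoidHom := by
    ext x
    obtain ⟨x, rfl⟩ := ψ.surjective x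
    rw [mem_centralizer_singleton_iff, ← map_mul, ← map_mul, ψ.apply_eq_iff_eq,
      ← mem_centralizer_singleton_iff]
    exact (mem_map_iff_mem (f := ψ.toMonoidHom) ψ.injective).symm
  have h2 : ¬ 3 ∣ (centralizer {ψ (pr mc)}).index := fun h2 => by
    rw [h1, index_map_of_bijective (f := ψ.toMonoidHom) ψ.bijective, cent_eq] at h2
    have := h2.trans (K.index_map_dvd (QuotientGroup.mk'_surjective _))
    rw [index_K] at this
    omega
  have h3 : orderOf (ψ (pr mc)) = 3 := by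
    rw [ψ.orderOf_eq, orderOf_mc]
  set y := ψ (pr mc)
  have hy : y ∈ centralizer {y} := mem_centralizer_singleton_iff.mpr rfl
  obtain ⟨P, hP⟩ := IsPGroup.exists_le_sylow (p := 3) (P := zpowers (⟨y, hy⟩ : centralizer {y}))
    (IsPGroup.of_card (n := 1) (by rw [Nat.card_zpowers, ← orderOf_coe, h3, pow_one]))
  have h4 : ¬ 3 ∣ ((P : Subgroup (centralizer {y})).map (centralizer {y}).subtype).index := by
    rw [index_map_subtype, Nat.prime_three.dvd_mul]
    exact not_or.mpr ⟨P.not_dvd_index, h2⟩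
  refine ⟨y, (P.isPGroup'.map _).toSylow h4, h3, ⟨_, hP (mem_zpowers _), rfl⟩, ?_,
    ⟨φ.trans ((ψ.subgroupMap _).trans (MulEquiv.subgroupCongr h1.symm))⟩⟩
  rintro _ ⟨x, -, rfl⟩
  exact mem_centralizer_singleton_iff.mp x.2

end Cfsg.Agent.S3366
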