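import Cfsg.Statements.S3376
import Cfsg.Agent.H4.TC
import Cfsg.Agent.H4.SS
-- import your own Cfsg.Agent.* helpers here

set_option autoImplicit false
open Cfsg

namespace Cfsg.Agent.S3376

open H4 Equiv

/-- Certificate data. -/
def wr_par : Trie :=
    (.node (.node (.node (.node (.node (.node (.leaf (nat_lit 0)) (.leaf (nat_lit 4869))) (.node
    (.leaf (nat_lit 1793)) (.leaf (nat_lit 9477)))) (.node (.node (.leaf (nat_lit 516)) (.leaf
    (nat_lit 6913))) (.leaf (nat_lit 2819)))) (.node (.node (.node (.leaf (nat_lit 259)) (.leaf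
    (nat_lit 5637))) (.node (.leaf (nat_lit 2050)) (.leaf (nat_lit 11013)))) (.node (.node (.leaf
    (nat_lit 1029)) (.leaf (nat_lit 7682))) (.leaf (nat_lit 3589))))) (.node (.node (.node (.node
    (.leaf (nat_lit 2)) (.leaf (nat_lit 5633))) (.node (.leaf (nat_lit 1797)) (.leaf (nat_lit
    10245)))) (.node (.node (.leaf (nat_lit 1025)) (.leaf (nat_lit 6917))) (.leaf (nat_lit 3333))))
    (.node (.node (.node (.leaf (nat_lit 261)) (.leaf (nat_lit 6146))) (.leaf (nat_lit 2563)))
    (.node (.node (.leaf (nat_lit 1282)) (.leaf (nat_lit 8709))) (.leaf (nat_lit 4355)))))) (.node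
    (.node (.node (.node (.node (.leaf (nat_lit 1)) (.leaf (nat_lit 5125))) (.node (.leaf (nat_lit
    1794)) (.leaf (nat_lit 9733)))) (.node (.node (.leaf (nat_lit 517)) (.leaf (nat_lit 6914)))
    (.leaf (nat_lit 2821)))) (.node (.node (.node (.leaf (nat_lit 260)) (.leaf (nat_lit 6145)))
    (.node (.leaf (nat_lit 2053)) (.leaf (nat_lit 11269)))) (.node (.node (.leaf (nat_lit 1281))
    (.leaf (nat_lit 7685))) (.leaf (nat_lit 4101))))) (.node (.node (.node (.node (.leaf (nat_lit
    5)) (.leaf (nat_lit 5634))) (.node (.leaf (nat_lit 2049)) (.leaf (nat_lit 10501)))) (.node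
    (.node (.leaf (nat_lit 1026)) (.leaf (nat_lit 7681))) (.leaf (nat_lit 3588)))) (.node (.node
    (.node (.leaf (nat_lit 515)) (.leaf (nat_lit 6149))) (.leaf (nat_lit 2565))) (.node (.node
    (.leaf (nat_lit 1285)) (.leaf (nat_lit 8965))) (.leaf (nat_lit 4357)))))))

/-- Certificate data. -/
def wr_fact : Trie :=
    (.node (.node (.node (.node (.node (.node (.node (.node (.leaf (nat_lit 3)) (.leaf (nat_lit
    816131))) (.leaf (nat_lit 335363))) (.node (.leaf (nat_lit 266498)) (.leaf (nat_lit 485891))))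
    (.node (.node (.leaf (nat_lit 51457)) (.leaf (nat_lit 386051))) (.node (.leaf (nat_lit 317443))
    (.leaf (nat_lit 601857))))) (.node (.node (.node (.leaf (nat_lit 66820)) (.leaf (nat_lit
    516356))) (.node (.leaf (nat_lit 346117)) (.leaf (nat_lit 744965)))) (.node (.node (.leaf
    (nat_lit 230658)) (.leaf (nat_lit 534276))) (.node (.leaf (nat_lit 269060)) (.leaf (nat_lit
    799235)))))) (.node (.node (.node (.node (.node (.leaf (nat_lit 49157)) (.leaf (nat_lit
    881923))) (.leaf (nat_lit 529157))) (.node (.leaf (nat_lit 185091)) (.leaf (nat_lit 682755))))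
    (.node (.node (.leaf (nat_lit 197637)) (.leaf (nat_lit 628738))) (.node (.leaf (nat_lit
    429317)) (.leaf (nat_lit 812549))))) (.node (.node (.node (.leaf (nat_lit 131588)) (.leaf
    (nat_lit 565764))) (.node (.leaf (nat_lit 218627)) (.leaf (nat_lit 765443)))) (.node (.node
    (.leaf (nat_lit 102148)) (.leaf (nat_lit 678658))) (.node (.leaf (nat_lit 479237)) (.leaf
    (nat_lit 815876))))))) (.node (.node (.node (.node (.node (.node (.leaf (nat_lit 32770)) (.leaf
    (nat_lit 750594))) (.leaf (nat_lit 483074))) (.node (.leaf (nat_lit 152067)) (.leaf (nat_lit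
    712193)))) (.node (.node (.leaf (nat_lit 181250)) (.leaf (nat_lit 612353))) (.node (.leaf
    (nat_lit 383234)) (.leaf (nat_lit 782339))))) (.node (.node (.node (.leaf (nat_lit 50690))
    (.leaf (nat_lit 352513))) (.node (.leaf (nat_lit 152836)) (.leaf (nat_lit 552196)))) (.node
    (.node (.leaf (nat_lit 247045)) (.leaf (nat_lit 616452))) (.node (.leaf (nat_lit 433154))
    (.leaf (nat_lit 700930)))))) (.node (.node (.node (.node (.node (.leaf (nat_lit 65795)) (.leaf
    (nat_lit 750849))) (.leaf (nat_lit 352258))) (.node (.leaf (nat_lit 316418)) (.leaf (nat_lit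
    715778)))) (.node (.node (.leaf (nat_lit 214273)) (.leaf (nat_lit 645125))) (.node (.leaf
    (nat_lit 252418)) (.leaf (nat_lit 651521))))) (.node (.node (.node (.leaf (nat_lit 147973))
    (.leaf (nat_lit 566018))) (.node (.leaf (nat_lit 202498)) (.leaf (nat_lit 779013)))) (.node
    (.node (.leaf (nat_lit 233476)) (.leaf (nat_lit 633091))) (.node (.leaf (nat_lit 302338))
    (.leaf (nat_lit 701185)))))))) (.node (.node (.node (.node (.node (.node (.node (.leaf (nat_lit
    16385)) (.leaf (nat_lit 848900))) (.leaf (nat_lit 512261))) (.node (.leaf (nat_lit 296709))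
    (.leaf (nat_lit 469508)))) (.node (.node (.leaf (nat_lit 164865)) (.leaf (nat_lit 435204)))
    (.node (.leaf (nat_lit 412421)) (.leaf (nat_lit 795909))))) (.node (.node (.node (.leaf
    (nat_lit 98565)) (.leaf (nat_lit 532738))) (.node (.leaf (nat_lit 300291)) (.leaf (nat_lit
    519427)))) (.node (.node (.leaf (nat_lit 216578)) (.leaf (nat_lit 662273))) (.node (.leaf
    (nat_lit 462341)) (.leaf (nat_lit 782852)))))) (.node (.node (.node (.node (.node (.leaf
    (nat_lit 49923)) (.leaf (nat_lit 865538))) (.leaf (nat_lit 417796))) (.node (.leaf (nat_lit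
    329730)) (.leaf (nat_lit 728578)))) (.node (.node (.leaf (nat_lit 101379)) (.leaf (nat_lit
    615938))) (.node (.leaf (nat_lit 383492)) (.leaf (nat_lit 798978))))) (.node (.node (.node
    (.leaf (nat_lit 116740)) (.leaf (nat_lit 579074))) (.node (.leaf (nat_lit 379397)) (.leaf
    (nat_lit 601602)))) (.node (.node (.leaf (nat_lit 263937)) (.leaf (nat_lit 665858))) (.node
    (.leaf (nat_lit 466179)) (.leaf (nat_lit 832258))))))) (.node (.node (.node (.node (.node
    (.node (.leaf (nat_lit 16898)) (.leaf (nat_lit 879621))) (.leaf (nat_lit 302849))) (.node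
    (.leaf (nat_lit 313345)) (.leaf (nat_lit 633604)))) (.node (.node (.leaf (nat_lit 166658))
    (.leaf (nat_lit 582916))) (.node (.leaf (nat_lit 203009)) (.leaf (nat_lit 651266))))) (.node
    (.node (.node (.leaf (nat_lit 115203)) (.leaf (nat_lit 562689))) (.node (.leaf (nat_lit
    363011)) (.leaf (nat_lit 762373)))) (.node (.node (.leaf (nat_lit 200451)) (.leaf (nat_lit
    583683))) (.node (.leaf (nat_lit 252929)) (.leaf (nat_lit 846085)))))) (.node (.node (.node
    (.node (.leaf (nat_lit 82180)) (.leaf (nat_lit 545797))) (.node (.leaf (nat_lit 283651)) (.leaf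
    (nat_lit 732164)))) (.node (.node (.leaf (nat_lit 167171)) (.leaf (nat_lit 419587))) (.node
    (.leaf (nat_lit 445956)) (.leaf (nat_lit 829445))))) (.node (.node (.node (.leaf (nat_lit
    100610)) (.leaf (nat_lit 595461))) (.node (.leaf (nat_lit 396035)) (.leaf (nat_lit 765698))))
    (.node (.node (.leaf (nat_lit 280322)) (.leaf (nat_lit 695045))) (.node (.leaf (nat_lit
    495875)) (.leaf (nat_lit 862981)))))))))

/-- Certificate data. -/
def wr_just : Trie :=
    (.node (.node (.node (.node (.node (.node (.node (.node (.leaf (nat_lit 1)) (.leaf (nat_lit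
    261645280208945156))) (.leaf (nat_lit 174268298166285))) (.node (.leaf (nat_lit
    127813931892739)) (.leaf (nat_lit 135355099764686852)))) (.node (.node (.leaf (nat_lit
    9018318925266951)) (.leaf (nat_lit 101522989539065860))) (.node (.leaf (nat_lit
    160936719679501)) (.leaf (nat_lit 178233983073714183))))) (.node (.node (.node (.leaf (nat_lit
    26452703707141)) (.leaf (nat_lit 146539125883994121))) (.node (.leaf (nat_lit 0)) (.leaf
    (nat_lit 0)))) (.node (.node (.leaf (nat_lit 0)) (.leaf (nat_lit 153334236592668681))) (.node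
    (.leaf (nat_lit 134617160089605)) (.leaf (nat_lit 254850229629812740)))))) (.node (.node (.node
    (.node (.node (.leaf (nat_lit 0)) (.leaf (nat_lit 295439903960006660))) (.leaf (nat_lit 0)))
    (.node (.leaf (nat_lit 2787179067999483453352902667)) (.leaf (nat_lit
    14253403662635134574884487179)))) (.node (.node (.leaf (nat_lit 0)) (.leaf (nat_lit 0))) (.node
    (.leaf (nat_lit 0)) (.leaf (nat_lit 0))))) (.node (.node (.node (.leaf (nat_lit 0)) (.leaf
    (nat_lit 11619150164390911967733678090))) (.node (.leaf (nat_lit 103727755296781)) (.leaf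
    (nat_lit 241277755017330692)))) (.node (.node (.leaf (nat_lit 20299411305463817)) (.leaf
    (nat_lit 0))) (.node (.leaf (nat_lit 0)) (.leaf (nat_lit 261623255616651273))))))) (.node
    (.node (.node (.node (.node (.node (.leaf (nat_lit 0)) (.leaf (nat_lit 234621483421466630)))
    (.leaf (nat_lit 135249288950382598))) (.node (.leaf (nat_lit 31576062689476612)) (.leaf
    (nat_lit 0)))) (.node (.node (.leaf (nat_lit 0)) (.leaf (nat_lit 0))) (.node (.leaf (nat_lit
    101414979701506054)) (.leaf (nat_lit 248063992323571716))))) (.node (.node (.node (.leaf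
    (nat_lit 9013877929082886)) (.leaf (nat_lit 90237533472096263))) (.node (.leaf (nat_lit
    31580520865529865)) (.leaf (nat_lit 160160159396724745)))) (.node (.node (.leaf (nat_lit 0))
    (.leaf (nat_lit 12703564304222453217257521162))) (.node (.leaf (nat_lit 117204035395846150))
    (.leaf (nat_lit 214315633960222726)))))) (.node (.node (.node (.node (.node (.leaf (nat_lit 0))
    (.leaf (nat_lit 234634711920738311))) (.leaf (nat_lit 90228711609270278))) (.node (.leaf
    (nat_lit 154253750566915)) (.leaf (nat_lit 431880436580355)))) (.node (.node (.leaf (nat_lit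
    0)) (.leaf (nat_lit 0))) (.node (.leaf (nat_lit 58646202174078982)) (.leaf (nat_lit
    194027419634696199))))) (.node (.node (.node (.leaf (nat_lit 0)) (.leaf (nat_lit
    330519208394755))) (.node (.leaf (nat_lit 45113352929869830)) (.leaf (nat_lit 0)))) (.node
    (.node (.leaf (nat_lit 3953046356365496928658980874)) (.leaf (nat_lit
    13255766000485901528839159820))) (.node (.leaf (nat_lit 74439655914930182)) (.leaf (nat_lit
    214328862459494407)))))))) (.node (.node (.node (.node (.node (.node (.node (.leaf (nat_lit 0))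
    (.leaf (nat_lit 277412276951253001))) (.leaf (nat_lit 0))) (.node (.leaf (nat_lit 0)) (.leaf
    (nat_lit 128597501300375561)))) (.node (.node (.leaf (nat_lit 0)) (.leaf (nat_lit
    117287787258118153))) (.node (.leaf (nat_lit 0)) (.leaf (nat_lit 0))))) (.node (.node (.node
    (.leaf (nat_lit 0)) (.leaf (nat_lit 153290127278538758))) (.node (.leaf (nat_lit
    74366916348805124)) (.leaf (nat_lit 146647161491357700)))) (.node (.node (.leaf (nat_lit
    96967476772867)) (.leaf (nat_lit 0))) (.node (.leaf (nat_lit 0)) (.leaf (nat_lit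
    248099228235268105)))))) (.node (.node (.node (.node (.node (.leaf (nat_lit 9009436932898820))
    (.leaf (nat_lit 286428306658754566))) (.leaf (nat_lit 110497108955693065))) (.node (.leaf
    (nat_lit 0)) (.leaf (nat_lit 0)))) (.node (.node (.leaf (nat_lit 20294961719345156)) (.leaf
    (nat_lit 361365663514627))) (.node (.leaf (nat_lit 101432597657354249)) (.leaf (nat_lit
    254828213627453446))))) (.node (.node (.node (.leaf (nat_lit 48485885935621)) (.leaf (nat_lit
    0))) (.node (.leaf (nat_lit 0)) (.leaf (nat_lit 178225161210888198)))) (.node (.node (.leaf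
    (nat_lit 0)) (.leaf (nat_lit 392220708569091))) (.node (.leaf (nat_lit 128485050466631684))
    (.leaf (nat_lit 268374257011195910))))))) (.node (.node (.node (.node (.node (.node (.leaf
    (nat_lit 4419521478659)) (.leaf (nat_lit 0))) (.leaf (nat_lit 74448494957625351))) (.node
    (.leaf (nat_lit 0)) (.leaf (nat_lit 13257737602343355495605534730)))) (.node (.node (.leaf
    (nat_lit 74925704609795)) (.leaf (nat_lit 12170300547864867315124731914))) (.node (.leaf
    (nat_lit 45117785336119303)) (.leaf (nat_lit 194018597771870214))))) (.node (.node (.node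
    (.leaf (nat_lit 0)) (.leaf (nat_lit 0))) (.node (.leaf (nat_lit 0)) (.leaf (nat_lit 0))))
    (.node (.node (.leaf (nat_lit 45071408279257092)) (.leaf (nat_lit
    11928178874990204500199276555))) (.node (.leaf (nat_lit 58655041216774151)) (.leaf (nat_lit
    0)))))) (.node (.node (.node (.node (.leaf (nat_lit 0)) (.leaf (nat_lit 0))) (.node (.leaf
    (nat_lit 5038363644148128752563847180)) (.leaf (nat_lit 15648508781399847292308488206))))
    (.node (.node (.leaf (nat_lit 2632436563086537017275121672)) (.leaf (nat_lit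
    110547841109393412))) (.node (.leaf (nat_lit 0)) (.leaf (nat_lit 0))))) (.node (.node (.node
    (.leaf (nat_lit 20279517016948742)) (.leaf (nat_lit 0))) (.node (.leaf (nat_lit 0)) (.leaf
    (nat_lit 241286576880156678)))) (.node (.node (.leaf (nat_lit 0)) (.leaf (nat_lit 0))) (.node
    (.leaf (nat_lit 0)) (.leaf (nat_lit 0)))))))))

/-- Certificate data. -/
def wr_rel : Trie :=
    (.node (.node (.node (.node (.leaf (nat_lit 0)) (.leaf (nat_lit 145243299907895555))) (.node
    (.leaf (nat_lit 84018433)) (.leaf (nat_lit 73184606375117315)))) (.node (.node (.leaf (nat_lit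
    84149508)) (.leaf (nat_lit 72904235204935940))) (.leaf (nat_lit 144961829226086660)))) (.node
    (.node (.node (.leaf (nat_lit 65793)) (.leaf (nat_lit 144960729714459140))) (.leaf (nat_lit
    83952898))) (.node (.node (.leaf (nat_lit 197379)) (.leaf (nat_lit 263172))) (.leaf (nat_lit
    84083971)))))

/-- Certificate data. -/
def wr_rc : Trie :=
    (.node (.node (.node (.node (.leaf (nat_lit 12)) (.leaf (nat_lit 11))) (.node (.leaf (nat_lit
    131080)) (.leaf (nat_lit 524299)))) (.node (.node (.leaf (nat_lit 7)) (.leaf (nat_lit 262155)))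
    (.leaf (nat_lit 917514)))) (.node (.node (.node (.leaf (nat_lit 0)) (.leaf (nat_lit 786443)))
    (.leaf (nat_lit 393224))) (.node (.node (.leaf (nat_lit 2)) (.leaf (nat_lit 3))) (.leaf
    (nat_lit 131078)))))

/-- Certificate data. -/
def wr_lv : Trie :=
    (.node (.node (.node (.node (.node (.node (.leaf (nat_lit 0)) (.leaf (nat_lit 32))) (.node
    (.leaf (nat_lit 16)) (.leaf (nat_lit 48)))) (.node (.node (.leaf (nat_lit 8)) (.leaf (nat_lit
    40))) (.leaf (nat_lit 24)))) (.node (.node (.node (.leaf (nat_lit 4)) (.leaf (nat_lit 36)))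
    (.node (.leaf (nat_lit 20)) (.leaf (nat_lit 52)))) (.node (.node (.leaf (nat_lit 12)) (.leaf
    (nat_lit 44))) (.leaf (nat_lit 28))))) (.node (.node (.node (.node (.leaf (nat_lit 2)) (.leaf
    (nat_lit 34))) (.node (.leaf (nat_lit 18)) (.leaf (nat_lit 50)))) (.node (.node (.leaf (nat_lit
    10)) (.leaf (nat_lit 42))) (.leaf (nat_lit 26)))) (.node (.node (.node (.leaf (nat_lit 6))
    (.leaf (nat_lit 38))) (.leaf (nat_lit 22))) (.node (.node (.leaf (nat_lit 14)) (.leaf (nat_lit
    46))) (.leaf (nat_lit 30)))))) (.node (.node (.node (.node (.node (.leaf (nat_lit 1)) (.leaf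
    (nat_lit 33))) (.node (.leaf (nat_lit 17)) (.leaf (nat_lit 49)))) (.node (.node (.leaf (nat_lit
    9)) (.leaf (nat_lit 41))) (.leaf (nat_lit 25)))) (.node (.node (.node (.leaf (nat_lit 5))
    (.leaf (nat_lit 37))) (.node (.leaf (nat_lit 21)) (.leaf (nat_lit 53)))) (.node (.node (.leaf
    (nat_lit 13)) (.leaf (nat_lit 45))) (.leaf (nat_lit 29))))) (.node (.node (.node (.node (.leaf
    (nat_lit 3)) (.leaf (nat_lit 35))) (.node (.leaf (nat_lit 19)) (.leaf (nat_lit 51)))) (.node
    (.node (.leaf (nat_lit 11)) (.leaf (nat_lit 43))) (.leaf (nat_lit 27)))) (.node (.node (.node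
    (.leaf (nat_lit 7)) (.leaf (nat_lit 39))) (.leaf (nat_lit 23))) (.node (.node (.leaf (nat_lit
    15)) (.leaf (nat_lit 47))) (.leaf (nat_lit 31)))))))

/-- Certificate data. -/
def wr_tb : Trie :=
    (.node (.node (.node (.node (.node (.node (.node (.node (.leaf (nat_lit 514)) (.leaf (nat_lit
    17038))) (.leaf (nat_lit 11350))) (.node (.node (.leaf (nat_lit 17043)) (.leaf (nat_lit
    22271))) (.leaf (nat_lit 15040)))) (.node (.node (.node (.leaf (nat_lit 8769)) (.leaf (nat_lit
    11423))) (.leaf (nat_lit 18595))) (.node (.leaf (nat_lit 25323)) (.leaf (nat_lit 6184)))))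
    (.node (.node (.node (.node (.leaf (nat_lit 9798)) (.leaf (nat_lit 7283))) (.leaf (nat_lit
    4676))) (.node (.leaf (nat_lit 21179)) (.leaf (nat_lit 24816)))) (.node (.node (.node (.leaf
    (nat_lit 19108)) (.leaf (nat_lit 27398))) (.leaf (nat_lit 17561))) (.node (.leaf (nat_lit
    3606)) (.leaf (nat_lit 2089)))))) (.node (.node (.node (.node (.node (.leaf (nat_lit 5154))
    (.leaf (nat_lit 20140))) (.leaf (nat_lit 8253))) (.node (.leaf (nat_lit 23771)) (.leaf (nat_lit
    23768)))) (.node (.node (.node (.leaf (nat_lit 4171)) (.leaf (nat_lit 25838))) (.leaf (nat_lit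
    10368))) (.node (.leaf (nat_lit 27403)) (.leaf (nat_lit 10832))))) (.node (.node (.node (.node
    (.leaf (nat_lit 11869)) (.leaf (nat_lit 9865))) (.leaf (nat_lit 6744))) (.node (.leaf (nat_lit
    15563)) (.leaf (nat_lit 1544)))) (.node (.node (.node (.leaf (nat_lit 7798)) (.leaf (nat_lit
    19171))) (.leaf (nat_lit 22215))) (.node (.leaf (nat_lit 7737)) (.leaf (nat_lit 14968)))))))
    (.node (.node (.node (.node (.node (.node (.leaf (nat_lit 5)) (.leaf (nat_lit 18590))) (.leaf
    (nat_lit 3114))) (.node (.leaf (nat_lit 18077)) (.leaf (nat_lit 22735)))) (.node (.node (.node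
    (.leaf (nat_lit 14973)) (.leaf (nat_lit 25320))) (.leaf (nat_lit 21699))) (.node (.leaf
    (nat_lit 26363)) (.leaf (nat_lit 531))))) (.node (.node (.node (.node (.leaf (nat_lit 5671))
    (.leaf (nat_lit 23248))) (.leaf (nat_lit 8782))) (.node (.leaf (nat_lit 25845)) (.leaf (nat_lit
    25344)))) (.node (.node (.node (.leaf (nat_lit 14453)) (.leaf (nat_lit 17623))) (.leaf (nat_lit
    11936))) (.node (.leaf (nat_lit 2577)) (.leaf (nat_lit 14450)))))) (.node (.node (.node (.node
    (.node (.leaf (nat_lit 4639)) (.leaf (nat_lit 6761))) (.leaf (nat_lit 13937))) (.node (.leaf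
    (nat_lit 12457)) (.leaf (nat_lit 24292)))) (.node (.node (.node (.leaf (nat_lit 17558)) (.leaf
    (nat_lit 14015))) (.leaf (nat_lit 20145))) (.node (.leaf (nat_lit 0)) (.leaf (nat_lit
    11866))))) (.node (.node (.node (.node (.leaf (nat_lit 2609)) (.leaf (nat_lit 23766))) (.leaf
    (nat_lit 9824))) (.node (.leaf (nat_lit 24287)) (.leaf (nat_lit 4636)))) (.node (.node (.node
    (.leaf (nat_lit 22212)) (.leaf (nat_lit 20719))) (.leaf (nat_lit 18102))) (.node (.leaf
    (nat_lit 1049)) (.leaf (nat_lit 3651)))))))) (.node (.node (.node (.node (.node (.node (.node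
    (.leaf (nat_lit 1031)) (.leaf (nat_lit 4177))) (.leaf (nat_lit 12382))) (.node (.node (.leaf
    (nat_lit 10900)) (.leaf (nat_lit 22791))) (.leaf (nat_lit 21192)))) (.node (.node (.node (.leaf
    (nat_lit 3647)) (.leaf (nat_lit 24802))) (.leaf (nat_lit 7279))) (.node (.leaf (nat_lit 20204))
    (.leaf (nat_lit 7732))))) (.node (.node (.node (.node (.leaf (nat_lit 1568)) (.leaf (nat_lit
    8313))) (.leaf (nat_lit 5704))) (.node (.leaf (nat_lit 14009)) (.leaf (nat_lit 26883)))) (.node
    (.node (.node (.leaf (nat_lit 6246)) (.leaf (nat_lit 15569))) (.leaf (nat_lit 19111))) (.node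
    (.leaf (nat_lit 1546)) (.leaf (nat_lit 13416)))))) (.node (.node (.node (.node (.node (.leaf
    (nat_lit 6700)) (.leaf (nat_lit 5731))) (.leaf (nat_lit 6198))) (.node (.leaf (nat_lit 19627))
    (.leaf (nat_lit 25843)))) (.node (.node (.node (.leaf (nat_lit 16525)) (.leaf (nat_lit 26358)))
    (.leaf (nat_lit 17041))) (.node (.leaf (nat_lit 23308)) (.leaf (nat_lit 1053))))) (.node (.node
    (.node (.node (.leaf (nat_lit 7219)) (.leaf (nat_lit 10383))) (.leaf (nat_lit 13419))) (.node
    (.leaf (nat_lit 26885)) (.leaf (nat_lit 3090)))) (.node (.node (.node (.leaf (nat_lit 16005))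
    (.leaf (nat_lit 19689))) (.leaf (nat_lit 12974))) (.node (.leaf (nat_lit 4123)) (.leaf (nat_lit
    16002))))))) (.node (.node (.node (.node (.node (.node (.leaf (nat_lit 3093)) (.leaf (nat_lit
    5211))) (.leaf (nat_lit 5166))) (.node (.leaf (nat_lit 11419)) (.leaf (nat_lit 16082)))) (.node
    (.node (.node (.leaf (nat_lit 10317)) (.leaf (nat_lit 12461))) (.leaf (nat_lit 14458))) (.node
    (.leaf (nat_lit 21756)) (.leaf (nat_lit 9282))))) (.node (.node (.node (.node (.leaf (nat_lit
    2085)) (.leaf (nat_lit 8835))) (.leaf (nat_lit 9298))) (.node (.leaf (nat_lit 22733)) (.leaf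
    (nat_lit 27400)))) (.node (.node (.node (.leaf (nat_lit 20658)) (.leaf (nat_lit 18141))) (.leaf
    (nat_lit 20661))) (.node (.leaf (nat_lit 527)) (.leaf (nat_lit 2613)))))) (.node (.node (.node
    (.node (.node (.leaf (nat_lit 8250)) (.leaf (nat_lit 21694))) (.leaf (nat_lit 15486))) (.node
    (.leaf (nat_lit 24807)) (.leaf (nat_lit 26361)))) (.node (.node (.node (.leaf (nat_lit 12901))
    (.leaf (nat_lit 26878))) (.leaf (nat_lit 23253))) (.node (.leaf (nat_lit 2060)) (.leaf (nat_lit
    12898))))) (.node (.node (.node (.node (.leaf (nat_lit 13421)) (.leaf (nat_lit 24284))) (.leaf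
    (nat_lit 16523))) (.node (.leaf (nat_lit 18656)) (.leaf (nat_lit 9)))) (.node (.node (.node
    (.leaf (nat_lit 9350)) (.leaf (nat_lit 21239))) (.leaf (nat_lit 19644))) (.node (.leaf (nat_lit
    10837)) (.leaf (nat_lit 16520)))))))))

/-- Certificate data. -/
def wr_C : TC.Cert := ⟨6, 63, 9, 511, 5510510215680, 24, wr_par, wr_fact, wr_just, wr_rel, 13⟩

/-- Certificate data. -/
def wr_rs : List (List ℕ) := [[1, 1, 1], [3, 3, 3], [5, 5], [5, 3, 5, 3], [5, 1, 5, 2], [1, 3, 1, 4, 2, 3, 2, 4]]

/-- Certificate data. -/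
def wr_gl : List ℕ := [1, 13827, 27653]

theorem wr_h1 : allB wr_C.factChk 135 = true := by decide +kernel

theorem wr_h2 : wr_C.finChk 135 54 wr_lv wr_tb wr_gl = true := by decide +kernel

theorem wr_h3 : TC.relChk wr_C.ivc wr_rs wr_C.rel wr_rc wr_C.nrel = true := by decide +kernel

theorem wr_bound {G : Type*} [Group G] {u s t : G}
    (r0 : u * u * u = 1)
    (r1 : s * s * s = 1)
    (r2 : t * t = 1)
    (r3 : t * s * t * s = 1)
    (r4 : t * u * t * u⁻¹ = 1)
    (r5 : u * s * u * s⁻¹ * u⁻¹ * s * u⁻¹ * s⁻¹ = 1)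
    (H : Subgroup G) [Finite H] (m3 : s ∈ H) :
    Finite (Subgroup.closure ({u, s, t} : Set G)) ∧
      Nat.card (Subgroup.closure ({u, s, t} : Set G)) ≤ 54 * Nat.card H := by
  have hL : TC.Lett (TC.lett [u, u⁻¹, s, s⁻¹, t]) wr_C.ivc :=
    TC.lett_ok (show Nat.shiftRight wr_C.ivc (8 * 6) = 0 by decide +kernel) (by
      intro a ha
      change a < 6 at ha
      interval_cases a
      · exact inv_one.symm
      · rfl
      · exact (inv_inv _).symm
      · rfl
      · exact (inv_inv _).symm
      · exact (inv_eq_of_mul_eq_one_right r2).symm)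
  have h := TC.card_le wr_h1 wr_h2 wr_h3 (by decide) hL (by
    simp only [wr_rs, List.forall_mem_cons]
    refine ⟨?_, ?_, ?_, ?_, ?_, ?_, List.forall_mem_nil _⟩
    · show u * (u * (u * 1)) = 1
      simp only [mul_assoc, mul_one] at r0 ⊢
      exact r0
    · show s * (s * (s * 1)) = 1
      simp only [mul_assoc, mul_one] at r1 ⊢
      exact r1
    · show t * (t * 1) = 1
      simp only [mul_one] at r2 ⊢
      exact r2
    · show t * (s * (t * (s * 1))) = 1
      simp only [mul_assoc, mul_one] at r3 ⊢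
      exact r3
    · show t * (u * (t * (u⁻¹ * 1))) = 1
      simp only [mul_assoc, mul_one] at r4 ⊢
      exact r4
    · show u * (s * (u * (s⁻¹ * (u⁻¹ * (s * (u⁻¹ * (s⁻¹ * 1))))))) = 1
      simp only [mul_assoc, mul_one] at r5 ⊢
      exact r5) H
    (TC.forall_subs (K := 6) (by decide +kernel) (by
      intro a ha hb
      interval_cases a
      · exact absurd hb (by decide +kernel)
      · exact absurd hb (by decide +kernel)
      · exact absurd hb (by decide +kernel)
      · exact m3
      · exact H.inv_mem m3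
      · exact absurd hb (by decide +kernel)))
  have e : {g | ∃ ak ∈ wr_gl, TC.lett [u, u⁻¹, s, s⁻¹, t] (ak % 256) = g} =
      {u, s, t} := by
    ext g
    simp only [wr_gl, List.mem_cons, List.not_mem_nil, or_false, exists_eq_or_imp,
      exists_eq_left, Set.mem_ofPred_eq, Set.mem_insert_iff, Set.mem_singleton_iff]
    exact or_congr eq_comm (or_congr eq_comm (eq_comm))
  rw [e] at h
  exact h

def pg0_0 : ℕ := nat_lit 4062995741946152711

def pg0_1 : ℕ := nat_lit 1012748903592283669

def pg0_2 : ℕ := nat_lit 2537872686387004288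

def pg1_0 : ℕ := nat_lit 2537872686387004288

def pg1_1 : ℕ := nat_lit 4062995499578524544

def pg2_0 : ℕ := nat_lit 3554713506658091904

noncomputable def pT0 : Trie :=
    (.node (.node (.node (.node (.leaf (nat_lit 4062995741946381184)) (.leaf (nat_lit
    2537871231916201272))) (.leaf (nat_lit 1012748903592055196))) (.node (.leaf (nat_lit
    1012748903592283669)) (.leaf (nat_lit 1012748903592168099)))) (.node (.node (.leaf (nat_lit
    4062995741946152711)) (.leaf (nat_lit 2537871231916316842))) (.node (.leaf (nat_lit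
    4062995741946265614)) (.leaf (nat_lit 2537871231916088369)))))

noncomputable def pC0 : Trie :=
    (.node (.node (.node (.node (.leaf (nat_lit 5192296858534827629093446282641409)) (.leaf
    (nat_lit 5192772227509913215400482523316232))) (.leaf (nat_lit
    5192851455672427480863984563781636))) (.node (.leaf (nat_lit
    5192692999347398951625847522459650)) (.leaf (nat_lit 5192930683834941745483053084442630))))
    (.node (.node (.leaf (nat_lit 5192376086697341893993989780013059)) (.leaf (nat_lit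
    5192455314859856157205683417382917))) (.node (.leaf (nat_lit
    5192534543022370423232126821335040)) (.leaf (nat_lit 5192613771184884686162345481994247)))))

noncomputable def pP0 : Trie :=
    (.node (.node (.node (.node (.leaf (nat_lit 0)) (.leaf (nat_lit 65542))) (.leaf (nat_lit
    65537))) (.node (.leaf (nat_lit 65536)) (.leaf (nat_lit 65539)))) (.node (.node (.leaf (nat_lit
    0)) (.leaf (nat_lit 65538))) (.node (.leaf (nat_lit 1)) (.leaf (nat_lit 65540)))))

noncomputable def pL0 : Level where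
  S := [pg0_0, pg0_1, pg0_2]
  T := pT0
  m := nat_lit 9
  C := pC0
  sh := nat_lit 48
  P := pP0
  b := nat_lit 0
  J := nat_lit 580423599446343808
  W :=
    [(pg1_0, [pg0_2, pg0_1], [pg0_1]), (pg1_1, [pg0_1, pg0_0], [pg0_1])]

noncomputable def pT1 : Trie :=
    (.node (.node (.node (.leaf (nat_lit 4062995741946381184)) (.leaf (nat_lit
    4062995262803772288))) (.leaf (nat_lit 4062995499578524544))) (.node (.node (.leaf (nat_lit
    2537872686387004288)) (.leaf (nat_lit 2537872207244395392))) (.leaf (nat_lit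
    2537872444019147648))))

noncomputable def pC1 : Trie :=
    (.node (.node (.node (.leaf (nat_lit 8589934593)) (.leaf (nat_lit 5))) (.leaf (nat_lit
    17179869187))) (.node (.node (.leaf (nat_lit 281479271677952)) (.leaf (nat_lit
    281496451547140))) (.leaf (nat_lit 281487861612546))))

noncomputable def pP1 : Trie :=
    (.node (.node (.node (.leaf (nat_lit 0)) (.leaf (nat_lit 65538))) (.leaf (nat_lit 65536)))
    (.node (.node (.leaf (nat_lit 0)) (.leaf (nat_lit 4))) (.leaf (nat_lit 2))))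

noncomputable def pL1 : Level where
  S := [pg1_0, pg1_1]
  T := pT1
  m := nat_lit 6
  C := pC1
  sh := nat_lit 32
  P := pP1
  b := nat_lit 3
  J := nat_lit 218991999720620032
  W :=
    [(pg2_0, [pg1_1, pg1_0, pg1_1, pg1_1], [pg1_1, pg1_0])]

noncomputable def pT2 : Trie :=
    (.node (.node (.leaf (nat_lit 4062995741946381184)) (.leaf (nat_lit 3058160861414916992)))
    (.leaf (nat_lit 3554713506658091904)))

noncomputable def pC2 : Trie :=
    (.node (.node (.leaf (nat_lit 1)) (.leaf (nat_lit 0))) (.leaf (nat_lit 2)))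

noncomputable def pP2 : Trie :=
    (.node (.node (.leaf (nat_lit 0)) (.leaf (nat_lit 1))) (.leaf (nat_lit 0)))

noncomputable def pL2 : Level where
  S := [pg2_0]
  T := pT2
  m := nat_lit 3
  C := pC2
  sh := nat_lit 16
  P := pP2
  b := nat_lit 6
  J := nat_lit 73183493944770560
  W :=
    []

theorem ss : SSOK 7 127 9 [pL0, pL1, pL2] := SSOK_of_ssChk (by decide +kernel)

/-- A generator. -/
def pu : Perm (Fin 9) := swap 0 1 * swap 1 2
/-- A generator. -/
def ps : Perm (Fin 9) := swap 0 3 * swap 3 6 * swap 1 4 * swap 4 7 * swap 2 5 * swap 5 8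
/-- A generator. -/
def pt : Perm (Fin 9) := swap 3 6 * swap 4 7 * swap 5 8
/-- The central element. -/
def pc : Perm (Fin 9) := swap 0 1 * swap 1 2 * swap 3 4 * swap 4 5 * swap 6 7 * swap 7 8

theorem card_closure : Nat.card (Subgroup.closure ({pu, ps, pt} : Set (Perm (Fin 9)))) = 162 := by
  have h7 : 0 < 7 := by norm_num
  have hF : List.Forall₂ (Rep 7 127) pL0.S [pu, ps, pt] :=
    .cons (by decide +kernel) (.cons (by decide +kernel) (.cons (by decide +kernel) .nil))
  have e0 : Grp 7 127 9 pL0.S = Subgroup.closure {pu, ps, pt} := by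
    rw [Grp_eq_closure h7 hF]; congr 1; ext g; simp
  rw [← e0]
  exact ss.card h7 (InG_top_of_forall₂ hF)

theorem closure_eq : Subgroup.closure ({pu, ps, pt} : Set (Perm (Fin 9))) =
    Subgroup.centralizer {pc} := by
  apply Subgroup.eq_of_le_of_card_ge
  · rw [Subgroup.closure_le]
    rintro _ (rfl | rfl | rfl) <;> exact Subgroup.mem_centralizer_singleton_iff.mpr (by decide)
  · have h1 := Perm.cycleType_of_pow_prime_eq_one (p := 3) (σ := pc) (by decide)
    have h2 := pc.sum_cycleType
    rw [show pc.support = Finset.univ by decide, h1, Multiset.sum_replicate] at h2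
    simp only [smul_eq_mul, Finset.card_univ, Fintype.card_fin] at h2
    rw [show Multiset.card pc.cycleType = 3 by omega] at h1
    rw [Perm.nat_card_centralizer, card_closure, h1]
    decide

theorem wr_hom {G M : Type*} [Group G] [Group M] [Finite M] {u s t : G} {u' s' t' : M}
    (r0 : u * u * u = 1) (r1 : s * s * s = 1) (r2 : t * t = 1) (r3 : t * s * t * s = 1)
    (r4 : t * u * t * u⁻¹ = 1) (r5 : u * s * u * s⁻¹ * u⁻¹ * s * u⁻¹ * s⁻¹ = 1)
    (q0 : u' * u' * u' = 1) (q1 : s' * s' * s' = 1) (q2 : t' * t' = 1) (q3 : t' * s' * t' * s' = 1)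
    (q4 : t' * u' * t' * u'⁻¹ = 1) (q5 : u' * s' * u' * s'⁻¹ * u'⁻¹ * s' * u'⁻¹ * s'⁻¹ = 1)
    (hM : Nat.card M = 162) (htop : Subgroup.closure ({u', s', t'} : Set M) = ⊤) :
    ∃ φ : M →* G, φ u' = u ∧ φ s' = s ∧ φ t' = t := by
  obtain ⟨hf, hcs⟩ := TC.finite_zpowers_of_pow (y := (s, s')) (n := 3) (by norm_num)
    (Prod.ext (by simpa [pow_succ] using r1) (by simpa [pow_succ] using q1))
  obtain ⟨hf', hb⟩ := wr_bound (u := (u, u')) (s := (s, s')) (t := (t, t'))
    (Prod.ext r0 q0) (Prod.ext r1 q1) (Prod.ext r2 q2) (Prod.ext r3 q3) (Prod.ext r4 q4)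
    (Prod.ext r5 q5) _ (Subgroup.mem_zpowers _)
  obtain ⟨φ, hφ⟩ := TC.exists_hom_of_card_le (hb.trans (by omega)) (by
    rw [MonoidHom.map_closure, Set.image_insert_eq, Set.image_pair]; exact htop)
  exact ⟨φ, hφ _ _ (Subgroup.subset_closure (by simp)), hφ _ _ (Subgroup.subset_closure (by simp)),
    hφ _ _ (Subgroup.subset_closure (by simp))⟩

theorem chain27 {a b c : ℕ} (h1 : 1 < a) (h2 : a < b) (h3 : b < c) (d1 : a ∣ 27) (d2 : b ∣ 27)
    (d3 : c ∣ 27) : c = 27 := by
  have key : ∀ k < 28, k ∣ 27 → k = 1 ∨ k = 3 ∨ k = 9 ∨ k = 27 := by decide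
  have := key _ (Nat.lt_succ_of_le (Nat.le_of_dvd (by norm_num) d1)) d1
  have := key _ (Nat.lt_succ_of_le (Nat.le_of_dvd (by norm_num) d2)) d2
  have := key _ (Nat.lt_succ_of_le (Nat.le_of_dvd (by norm_num) d3)) d3
  omega

section Add

variable {A : Type*} [AddCommGroup A] {σ τ : A →+ A} (h3 : ∀ x : A, 3 • x = 0)
  (hσ : ∀ x, σ (σ (σ x)) = x) (hτ : ∀ x, τ (τ x) = x) (hfix : ∀ x, σ x = x → τ x = x)
include h3 hσ

theorem delta_three (y : A) :
    σ (σ (σ y - y) - (σ y - y)) = σ (σ y - y) - (σ y - y) := by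
  simp only [map_sub, hσ]
  linear_combination (norm := abel) h3 (σ y) - h3 (σ (σ y))

omit hσ in
theorem norm_eq (y : A) : σ (σ y - y) - (σ y - y) = y + σ y + σ (σ y) := by
  simp only [map_sub]
  linear_combination (norm := abel) - h3 (σ y)

include hτ hfix

theorem fix_of_comm (hc : ∀ x, τ (σ x) = σ (τ x)) (x : A) : τ x = x := by
  have h1 : ∀ y, τ y = -y → σ y = y → y = 0 := fun y e1 e2 => by
    have := hfix y e2
    linear_combination (norm := abel) h3 y + this - e1
  have h2 : ∀ y, τ y = -y → τ (σ y - y) = -(σ y - y) := fun y e => by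
    rw [map_sub, hc, e, map_neg]; abel
  have h4 : τ (τ x - x) = -(τ x - x) := by rw [map_sub, hτ]; abel
  exact sub_eq_zero.mp (h1 _ h4 (sub_eq_zero.mp (h1 _ (h2 _ h4) (sub_eq_zero.mp
    (h1 _ (h2 _ (h2 _ h4)) (delta_three h3 hσ _))))))

theorem exists_gen [Finite A] (hA : Nat.card A = 27) (hc : ∀ x, τ (σ x) = σ (σ (τ x)))
    (hZ : Nat.card (σ - AddMonoidHom.id A).ker = 3) :
    ∃ u, τ u = u ∧ ∀ L : AddSubgroup A, u ∈ L → (∀ x ∈ L, σ x ∈ L) → L = ⊤ := by
  set δ := σ - AddMonoidHom.id A with hδ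
  have hδa : ∀ x, δ x = σ x - x := fun x => rfl
  obtain ⟨u₀, hu₀⟩ : ∃ u₀, δ (δ u₀) ≠ 0 := by
    by_contra hn
    push Not at hn
    have h1 : δ.range ≤ δ.ker := by rintro _ ⟨x, rfl⟩; exact hn x
    have h2 := AddSubgroup.card_le_of_le h1
    have h4 := δ.ker.index_mul_card
    rw [AddSubgroup.index_ker, hZ, hA] at h4
    omega
  have hN : ∀ x, δ (δ (τ x)) = δ (δ x) := fun x => by
    have := hfix _ (delta_three h3 hσ x)
    rw [hδa, hδa, hδa, hδa, ← this, norm_eq h3, norm_eq h3, map_add, map_add, hc, hc, hc, hσ]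
    abel
  refine ⟨u₀ + τ u₀, by rw [map_add, hτ, add_comm], fun L hu hL => ?_⟩
  have hu' : δ (δ (u₀ + τ u₀)) ≠ 0 := fun h => hu₀ (by
    rw [map_add, map_add, hN] at h
    linear_combination (norm := abel) h3 (δ (δ u₀)) - h)
  generalize u₀ + τ u₀ = u at hu hu'
  have hδL : ∀ x ∈ L, δ x ∈ L := fun x hx => L.sub_mem (hL x hx) hx
  have h0 : δ (δ (δ u)) = 0 := sub_eq_zero.mpr (delta_three h3 hσ u)
  have hlt : ∀ {B C : AddSubgroup A}, B ≤ C → ∀ x ∈ C, x ∉ B → Nat.card B < Nat.card C := by
    intro B C h x h1 h2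
    by_contra hn
    exact h2 (AddSubgroup.eq_of_le_of_card_ge h (not_lt.mp hn) ▸ h1)
  have c1 := hlt (bot_le (a := L ⊓ δ.ker)) (δ (δ u)) ⟨hδL _ (hδL _ hu), h0⟩ hu'
  have c2 := hlt (B := L ⊓ δ.ker) (C := L ⊓ (δ.comp δ).ker)
    (inf_le_inf_left _ fun x hx => by
      show δ (δ x) = 0
      rw [show δ x = 0 from hx, map_zero]) (δ u) ⟨hδL _ hu, h0⟩ (fun h => hu' h.2)
  have c3 := hlt (B := L ⊓ (δ.comp δ).ker) inf_le_left u hu (fun h => hu' h.2)
  have d1 := (L ⊓ δ.ker).card_addSubgroup_dvd_card
  have d2 := (L ⊓ (δ.comp δ).ker).card_addSubgroup_dvd_card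
  have d3 := L.card_addSubgroup_dvd_card
  rw [hA] at d1 d2 d3
  rw [AddSubgroup.card_bot] at c1
  apply AddSubgroup.eq_top_of_card_eq
  rw [hA]
  exact chain27 c1 c2 c3 d1 d2 d3

end Add

/-- Let G be a group of order 162 = 3⁴·2 with Sylow 3-subgroup S and Sylow 2-subgroup T, having an elementary abelian normal subgroup J of order 27, such that Z = Z(S) has order 3, Z centralizes T, and C_S(T) ≠ S. Then G is isomorphic to the centralizer in Sym(9) of a product of three disjoint 3-cycles. -/
theorem result {G : Type*} [Group G] [Finite G] (hG : Nat.card G = 162)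
    (S : Sylow 3 G) (T : Sylow 2 G) (J : Subgroup G) [hJn : J.Normal] (hJcomm : IsMulCommutative J)
    (hJexp : ∀ a ∈ J, a ^ 3 = 1) (hJcard : Nat.card J = 27)
    (Z : Subgroup G) (hZ : Z = (S : Subgroup G) ⊓ Subgroup.centralizer ((S : Subgroup G) : Set G)) (hZcard : Nat.card Z = 3)
    (hZT : Z ≤ Subgroup.centralizer ((T : Subgroup G) : Set G))
    (hST : (S : Subgroup G) ⊓ Subgroup.centralizer ((T : Subgroup G) : Set G) ≠ S) :
    Nonempty (G ≃* Subgroup.centralizer ({Equiv.swap (0 : Fin 9) 1 * Equiv.swap 1 2 * Equiv.swap 3 4 * Equiv.swap 4 5 * Equiv.swap 6 7 * Equiv.swap 7 8} : Set (Equiv.Perm (Fin 9)))) := by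
  have hJc : ∀ a ∈ J, ∀ b ∈ J, a * b = b * a := fun a ha b hb =>
    congrArg Subtype.val (hJcomm.is_comm.comm (⟨a, ha⟩ : J) ⟨b, hb⟩)
  have hS : Nat.card S = 81 := by
    rw [S.card_eq_multiplicity, hG]
    have : Nat.factorization 162 3 = 4 := by decide +kernel
    rw [this]; norm_num
  have hT : Nat.card T = 2 := by
    rw [T.card_eq_multiplicity, hG]
    have : Nat.factorization 162 2 = 1 := by decide +kernel
    rw [this]; norm_num
  have hSi : (S : Subgroup G).index = 2 := by
    have := (S : Subgroup G).index_mul_card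
    rw [hS, hG] at this; omega
  have hSn : (S : Subgroup G).Normal := Subgroup.normal_of_index_eq_two hSi
  have hJS : J ≤ S := IsPGroup.le_sylow_of_normal (IsPGroup.of_card (n := 3) hJcard) S
  obtain ⟨⟨t, htT⟩, ht1, htu⟩ := (Nat.card_eq_two_iff' (1 : (T : Subgroup G))).mp hT
  have ht1' : t ≠ 1 := fun h => ht1 (Subtype.ext h)
  have hTt : ∀ g ∈ (T : Subgroup G), g = 1 ∨ g = t := fun g hg => by
    by_cases h : g = 1
    · exact Or.inl h
    · exact Or.inr (congrArg Subtype.val (htu ⟨g, hg⟩ fun e => h (congrArg Subtype.val e)))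
  have ht2 : t * t = 1 := (hTt _ (Subgroup.mul_mem _ htT htT)).resolve_right fun h =>
    ht1' (by simpa using h)
  have hti : t⁻¹ = t := inv_eq_of_mul_eq_one_right ht2
  have hgen : ∀ s ∈ (S : Subgroup G), s ∉ J → ∀ H : Subgroup G, J ≤ H → s ∈ H → S ≤ H := by
    intro s hs hsJ H h1 h2
    have d1 := Subgroup.card_dvd_of_le (inf_le_right : H ⊓ S ≤ S)
    have d2 := Subgroup.card_dvd_of_le (le_inf h1 hJS)
    have d3 : Nat.card (H ⊓ S : Subgroup G) ≠ 27 := fun h =>
      hsJ (Subgroup.eq_of_le_of_card_ge (le_inf h1 hJS) (by rw [h, hJcard]) ▸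
        (⟨h2, hs⟩ : s ∈ H ⊓ (S : Subgroup G)))
    rw [hS] at d1
    rw [hJcard] at d2
    obtain ⟨c, hc⟩ := d2
    rw [hc] at d1 d3
    have d4 : c ∣ 3 := Nat.dvd_of_mul_dvd_mul_left (by norm_num : 0 < 27) d1
    have d5 : c = 3 := ((Nat.dvd_prime Nat.prime_three).mp d4).resolve_left fun h => by simp [h] at d3
    have := Subgroup.eq_of_le_of_card_ge (inf_le_right : H ⊓ S ≤ S) (by rw [hc, d5, hS])
    exact inf_eq_right.mp this
  have hZc : ∀ s ∈ (S : Subgroup G), s ∉ J → ∀ x ∈ J, s * x = x * s → x ∈ Z := by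
    intro s hs hsJ x hx h
    rw [hZ]
    refine ⟨hJS hx, fun g hg => ?_⟩
    exact Subgroup.mem_centralizer_singleton_iff.mp (hgen s hs hsJ (Subgroup.centralizer {x})
      (fun j hj => Subgroup.mem_centralizer_singleton_iff.mpr (hJc j hj x hx))
      (Subgroup.mem_centralizer_singleton_iff.mpr h) hg)
  have hZS : ∀ z ∈ Z, ∀ g ∈ (S : Subgroup G), g * z = z * g := fun z hz g hg => by
    rw [hZ] at hz; exact hz.2 g hg
  have hZJ : Z ≤ J := by
    intro z hz
    by_contra h
    have h1 : J ≤ Z := fun x hx => hZc z (by rw [hZ] at hz; exact hz.1) h x hx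
      (hZS z hz x (hJS hx)).symm
    have := Subgroup.card_le_of_le h1
    omega
  have hZt : ∀ z ∈ Z, t * z = z * t := fun z hz => hZT hz t htT
  have hcube : ∀ s ∈ (S : Subgroup G), s ^ 3 ∈ J := by
    intro s hs
    have h1 : (J.subgroupOf S).index = 3 := by
      have := (J.subgroupOf S).index_mul_card
      rw [Nat.card_congr (Subgroup.subgroupOfEquivOfLe hJS).toEquiv, hJcard, hS] at this
      omega
    have := (J.subgroupOf S).pow_index_mem ⟨s, hs⟩
    rwa [h1] at this
  -- the additive model of `J`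
  let _ : CommGroup J := { (inferInstance : Group J) with mul_comm := hJcomm.is_comm.comm }
  let c : G → Additive J →+ Additive J := fun g =>
    MonoidHom.toAdditive (MulAut.conjNormal g : MulAut J).toMonoidHom
  have hc : ∀ g (x : Additive J), ((c g x).toMul : G) = g * x.toMul * g⁻¹ := fun g x => rfl
  have hext : ∀ x y : Additive J, (x.toMul : G) = y.toMul → x = y := fun x y h =>
    Additive.toMul.injective (Subtype.ext h)
  have h3 : ∀ x : Additive J, 3 • x = 0 := fun x => hext _ _ (hJexp _ x.toMul.2)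
  have hσ : ∀ s ∈ (S : Subgroup G), ∀ x, c s (c s (c s x)) = x := fun s hs x => hext _ _ (by
    rw [hc, hc, hc]
    calc _ = s ^ 3 * x.toMul * (s ^ 3)⁻¹ := by simp only [pow_succ, pow_zero]; group
      _ = _ := by rw [hJc _ (hcube s hs) _ x.toMul.2, mul_inv_cancel_right])
  have hτ : ∀ x, c t (c t x) = x := fun x => hext _ _ (by
    rw [hc, hc, hti]
    calc _ = (t * t) * x.toMul * (t * t) := by group
      _ = _ := by rw [ht2, one_mul, mul_one])
  have hfix : ∀ s ∈ (S : Subgroup G), s ∉ J → ∀ x, c s x = x → c t x = x := by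
    intro s hs hsJ x h
    have h1 : s * x.toMul * s⁻¹ = x.toMul := by rw [← hc, h]
    apply hext
    rw [hc, hZt _ (hZc s hs hsJ _ x.toMul.2 (mul_inv_eq_iff_eq_mul.mp h1)), mul_inv_cancel_right]
  obtain ⟨s₀, hs₀, hs₀J⟩ : ∃ s ∈ (S : Subgroup G), s ∉ J := by
    by_contra h
    push Not at h
    have := Subgroup.card_le_of_le (show (S : Subgroup G) ≤ J from h)
    omega
  have hs : s₀ * (t * s₀⁻¹ * t⁻¹) ∈ (S : Subgroup G) :=
    Subgroup.mul_mem _ hs₀ (hSn.conj_mem _ (Subgroup.inv_mem _ hs₀) t)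
  have hts : t * (s₀ * (t * s₀⁻¹ * t⁻¹)) * t = (s₀ * (t * s₀⁻¹ * t⁻¹))⁻¹ := by
    simp only [mul_inv_rev, inv_inv, hti]
    calc _ = t * s₀ * t * s₀⁻¹ * (t * t) := by group
      _ = _ := by rw [ht2]; group
  have hsJ : s₀ * (t * s₀⁻¹ * t⁻¹) ∉ J := by
    intro hj
    obtain ⟨j, hjd⟩ : ∃ j, j = s₀ * (t * s₀⁻¹ * t⁻¹) := ⟨_, rfl⟩
    rw [← hjd] at hj hts
    have e1 : t * s₀ = j⁻¹ * s₀ * t := by rw [hjd]; group
    have h1 := fix_of_comm h3 (hσ s₀ hs₀) hτ (hfix s₀ hs₀ hs₀J) (fun x => hext _ _ (by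
      rw [hc, hc, hc, hc]
      have := hJc _ (J.inv_mem hj) _ (hJn.conj_mem _ (hJn.conj_mem _ x.toMul.2 t) s₀)
      calc _ = (t * s₀) * x.toMul * (t * s₀)⁻¹ := by group
        _ = j⁻¹ * (s₀ * (t * x.toMul * t⁻¹) * s₀⁻¹) * j := by rw [e1]; group
        _ = _ := by rw [this]; group))
    have h2 : ∀ x ∈ J, t * x = x * t := fun x hx => mul_inv_eq_iff_eq_mul.mp
      (congrArg (fun y : Additive J => (y.toMul : G)) (h1 (Additive.ofMul ⟨x, hx⟩)))
    have h4 : j = 1 := by
      rw [h2 j hj, mul_assoc, ht2, mul_one] at hts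
      have := hJexp j hj
      rw [pow_succ, pow_two] at this
      nth_rewrite 1 [hts] at this
      simpa using this
    rw [h4, inv_one, one_mul] at e1
    apply hST
    rw [inf_eq_left]
    intro g hg h hh
    rcases hTt h hh with rfl | rfl
    · simp
    · exact (Subgroup.mem_centralizer_singleton_iff.mp (hgen s₀ hs₀ hs₀J (Subgroup.centralizer {h})
        (fun j hj => Subgroup.mem_centralizer_singleton_iff.mpr (h2 j hj).symm)
        (Subgroup.mem_centralizer_singleton_iff.mpr e1.symm) hg)).symm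
  generalize s₀ * (t * s₀⁻¹ * t⁻¹) = s at hs hts hsJ
  have hs3 : s * s * s = 1 := by
    have h1 := hZt _ (hZc s hs hsJ _ (hcube s hs) (by group))
    have h2 : t * s ^ 3 * t = (s ^ 3)⁻¹ := by
      nth_rewrite 2 [← hti]
      rw [← conj_pow, hti, hts, inv_pow]
    rw [h1, mul_assoc, ht2, mul_one] at h2
    have h4 := hJexp _ (hcube s hs)
    rw [pow_succ (s ^ 3), pow_two] at h4
    nth_rewrite 1 [h2] at h4
    rw [inv_mul_cancel, one_mul] at h4
    simpa [pow_succ] using h4
  have hsi : s * s = s⁻¹ := eq_inv_of_mul_eq_one_left hs3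
  obtain ⟨u, hu1, hu2⟩ := exists_gen h3 (hσ s hs) hτ (hfix s hs hsJ) hJcard (fun x => hext _ _ (by
      rw [hc, hc, hc, hc, hc]
      have e : t * s = s * s * t := by rw [hsi, ← hts, mul_assoc, ht2, mul_one]
      calc _ = (t * s) * x.toMul * (t * s)⁻¹ := by group
        _ = _ := by rw [e]; group)) (by
      rw [← hZcard]
      refine Nat.card_congr (Equiv.ofBijective (fun x => ⟨x.1.toMul, hZc s hs hsJ _ x.1.toMul.2
        (mul_inv_eq_iff_eq_mul.mp (congrArg (fun y : Additive J => (y.toMul : G))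
          (sub_eq_zero.mp x.2)))⟩) ⟨fun x y h => Subtype.ext (hext _ _ (congrArg (Subtype.val : Z → G) h)),
        fun z => ⟨⟨Additive.ofMul ⟨z, hZJ z.2⟩, sub_eq_zero.mpr (hext _ _ ?_)⟩, rfl⟩⟩)
      exact mul_inv_eq_iff_eq_mul.mpr (hZS _ z.2 s hs))
  have hu1' : t * u.toMul * t⁻¹ = u.toMul := by rw [← hc, hu1]
  have huJ := u.toMul.2
  have htop : Subgroup.closure ({(u.toMul : G), s, t} : Set G) = ⊤ := by
    set K := Subgroup.closure ({(u.toMul : G), s, t} : Set G)
    have k1 : (u.toMul : G) ∈ K := Subgroup.subset_closure (by simp)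
    have k2 : s ∈ K := Subgroup.subset_closure (by simp)
    have k3 : t ∈ K := Subgroup.subset_closure (by simp)
    have h1 := hu2 (K.subgroupOf J).toAddSubgroup k1 fun x hx =>
      K.mul_mem (K.mul_mem k2 hx) (K.inv_mem k2)
    have h2 : J ≤ K := fun x hx =>
      (h1 ▸ AddSubgroup.mem_top _ : Additive.ofMul (⟨x, hx⟩ : J) ∈ (K.subgroupOf J).toAddSubgroup)
    have d1 := Subgroup.card_dvd_of_le (hgen s hs hsJ K h2 k2)
    have d2 := K.orderOf_dvd_natCard k3
    rw [orderOf_eq_prime (p := 2) (by rw [pow_two, ht2]) ht1'] at d2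
    have d3 := Nat.le_of_dvd Nat.card_pos K.card_subgroup_dvd_card
    have d4 : 0 < Nat.card K := Nat.card_pos
    rw [hS] at d1
    apply Subgroup.eq_top_of_card_eq
    omega
  generalize (u.toMul : G) = v at hu1' huJ htop
  obtain ⟨φ, e1, e2, e3⟩ := wr_hom (u := pu) (s := ps) (t := pt) (u' := v) (s' := s) (t' := t)
    (by decide) (by decide) (by decide) (by decide) (by decide) (by decide +kernel)
    (by simpa [pow_succ] using hJexp v huJ) hs3 ht2 (by rw [hts, inv_mul_cancel])
    (by rw [hti] at hu1'; rw [hu1', mul_inv_cancel])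
    (by calc _ = v * (s * v * s⁻¹) * v⁻¹ * (s * v * s⁻¹)⁻¹ := by group
          _ = 1 := by rw [hJc v huJ _ (hJn.conj_mem v huJ s)]; group) hG htop
  have hr : φ.range = Subgroup.closure {pu, ps, pt} := by
    rw [MonoidHom.range_eq_map, ← htop, MonoidHom.map_closure, Set.image_insert_eq,
      Set.image_pair, e1, e2, e3]
  exact ⟨(MulEquiv.ofBijective φ.rangeRestrict (φ.rangeRestrict_surjective.bijective_of_nat_card_le
    (by rw [hr, card_closure, hG]))).trans (MulEquiv.subgroupCongr (hr.trans closure_eq))⟩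

end Cfsg.Agent.S3376
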