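import Cfsg.Statements.S3389
import Cfsg.Agent.H9.Fixity

set_option autoImplicit false
open Cfsg

namespace Cfsg.Agent.S3389

/-- Let G be a finite group acting faithfully and transitively on a finite set Ω with fixity k ≥ 1: every non-identity element fixes at most k points and some non-identity element fixes exactly k points. Then |Z(G)| divides k; if k = 2 then |G| is even; and for every prime p > k dividing |G| and every point α, either p does not divide |G_α| or G_α contains a Sylow p-subgroup of G. -/
theorem result {G : Type*} [Group G] [Finite G] {Ω : Type*} [Fintype Ω] [MulAction G Ω] [FaithfulSMul G Ω]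
    (htr : MulAction.IsPretransitive G Ω) (k : ℕ) (hk : 1 ≤ k)
    (hfix : ∀ g : G, g ≠ 1 → Nat.card (MulAction.fixedBy Ω g) ≤ k) (hex : ∃ g : G, g ≠ 1 ∧ Nat.card (MulAction.fixedBy Ω g) = k) :
    Nat.card (Subgroup.center G) ∣ k ∧ (k = 2 → 2 ∣ Nat.card G) ∧
      ∀ (p : ℕ), p.Prime → k < p → p ∣ Nat.card G → ∀ α : Ω,
        ¬ p ∣ Nat.card (MulAction.stabilizer G α) ∨ ¬ p ∣ (MulAction.stabilizer G α).index := by
  have part3 : ∀ (p : ℕ), p.Prime → k < p → ∀ (S : Subgroup G), IsPGroup p S → ∀ x ∈ S, x ≠ 1 →
      ∀ α : Ω, x • α = α → S ≤ MulAction.stabilizer G α := by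
    intro p hp hkp S hS x hx hx1 α hα
    have : Fact p.Prime := ⟨hp⟩
    exact H9.pgroup_le_stabilizer_of_fixity (fun g hg => (hfix g hg).trans_lt hkp) S hS x hx hx1 α hα
  obtain ⟨g, hg1, hgk⟩ := hex
  refine ⟨?_, ?_, ?_⟩
  · -- the centre acts freely on the fixed points of `g`
    let F : SubMulAction (Subgroup.center G) Ω :=
      { carrier := MulAction.fixedBy Ω g
        smul_mem' := fun c x hx => H9.smul_mem_fixedBy_of_commute
          (show Commute g (c : G) from Subgroup.mem_center_iff.mp c.2 g) hx }
    have hfree : ∀ x : F, MulAction.stabilizer (Subgroup.center G) x = ⊥ := by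
      intro x
      rw [eq_bot_iff]
      intro c hc
      rw [MulAction.mem_stabilizer_iff] at hc
      have hc' : (c : G) • (x : Ω) = x := congrArg Subtype.val hc
      rw [Subgroup.mem_bot]
      apply Subtype.ext
      apply eq_of_smul_eq_smul (α := Ω)
      intro y
      obtain ⟨t, rfl⟩ := MulAction.exists_smul_eq G (x : Ω) y
      rw [smul_smul, ← Subgroup.mem_center_iff.mp c.2 t, ← smul_smul, hc']
      simp
    have e := MulAction.selfEquivOrbitsQuotientProd hfree
    have := Nat.card_congr e
    rw [Nat.card_prod] at this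
    rw [← hgk]
    exact ⟨_, this.trans (mul_comm _ _)⟩
  · intro hk2
    by_contra hodd
    subst hk2
    have hog : orderOf g ≠ 1 := by simpa using hg1
    obtain ⟨p, hp, hpg⟩ := Nat.exists_prime_and_dvd hog
    have : Fact p.Prime := ⟨hp⟩
    have hp2 : 2 < p := by
      rcases hp.two_le.lt_or_eq with h | h
      · exact h
      · exact absurd (h ▸ hpg.trans (orderOf_dvd_natCard g)) hodd
    set x := g ^ (orderOf g / p) with hx
    have hox : orderOf x = p := orderOf_pow_orderOf_div (orderOf_pos g).ne' hpg
    have hx1 : x ≠ 1 := by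
      intro h
      rw [h, orderOf_one] at hox
      omega
    have hxp : IsPGroup p (Subgroup.zpowers x) := by
      apply IsPGroup.of_card (n := 1)
      rw [Nat.card_zpowers, hox, pow_one]
    obtain ⟨S, hS⟩ := hxp.exists_le_sylow
    have hxS : x ∈ (S : Subgroup G) := hS (Subgroup.mem_zpowers x)
    have hsub : MulAction.fixedBy Ω g ⊆ MulAction.fixedBy Ω x := by
      intro y hy
      rw [MulAction.mem_fixedBy] at hy ⊢
      exact (MulAction.stabilizer G y).pow_mem hy _
    have heq : MulAction.fixedBy Ω g = MulAction.fixedBy Ω x := by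
      apply Set.eq_of_subset_of_ncard_le hsub
      rw [← Nat.card_coe_set_eq, ← Nat.card_coe_set_eq, hgk]
      exact hfix x hx1
    obtain ⟨α, β, hαβ, hF⟩ := Set.ncard_eq_two.mp (by rw [← Nat.card_coe_set_eq]; exact hgk)
    rw [heq] at hF
    have hα : x • α = α := by
      have : α ∈ MulAction.fixedBy Ω x := by rw [hF]; simp
      exact this
    have hβ : x • β = β := by
      have : β ∈ MulAction.fixedBy Ω x := by rw [hF]; simp
      exact this
    have hSα := part3 p hp hp2 S S.2 x hxS hx1 α hα
    have hSβ := part3 p hp hp2 S S.2 x hxS hx1 β hβ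
    obtain ⟨t, ht⟩ := MulAction.exists_smul_eq G β α
    obtain ⟨u, hu, huβ⟩ := H9.exists_normalizer_smul_eq S t ht hSα hSβ
    have huα : u • α ∈ MulAction.fixedBy Ω x := by
      rw [MulAction.mem_fixedBy]
      have h1 : x ∈ ((u • S : Sylow p G) : Subgroup G) := by rw [hu]; exact hxS
      rw [Sylow.coe_subgroup_smul, Subgroup.mem_pointwise_smul_iff_inv_smul_mem] at h1
      have h2 := hSα h1
      rw [MulAction.mem_stabilizer_iff] at h2
      simp only [MulAut.smul_def, MulAut.conj_inv_apply] at h2
      rw [mul_smul, mul_smul, inv_smul_eq_iff] at h2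
      exact h2
    rw [hF] at huα
    have huα' : u • α = β := by
      rcases huα with h | h
      · exact absurd (MulAction.injective u (h.trans huβ.symm)) hαβ
      · exact h
    have hodd' : Odd (orderOf u) := by
      rw [← Nat.not_even_iff_odd, even_iff_two_dvd]
      exact fun h => hodd (h.trans (orderOf_dvd_natCard u))
    obtain ⟨m, hm⟩ := hodd'
    have h2 : u ^ 2 ∈ MulAction.stabilizer G α := by
      rw [MulAction.mem_stabilizer_iff, pow_two, mul_smul, huα', huβ]
    have h3 : u ^ orderOf u • α = β := by
      rw [hm, pow_succ', mul_smul, pow_mul, (MulAction.stabilizer G α).pow_mem h2 m, huα']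
    rw [pow_orderOf_eq_one, one_smul] at h3
    exact hαβ h3
  · intro p hp hkp _ α
    have : Fact p.Prime := ⟨hp⟩
    by_cases h : p ∣ Nat.card (MulAction.stabilizer G α)
    · right
      obtain ⟨x, hx⟩ := exists_prime_orderOf_dvd_card' p h
      have hox : orderOf (x : G) = p := by rw [Subgroup.orderOf_coe, hx]
      have hx1 : (x : G) ≠ 1 := by
        intro h
        rw [h, orderOf_one] at hox
        exact hp.one_lt.ne hox
      have hxp : IsPGroup p (Subgroup.zpowers (x : G)) := by
        apply IsPGroup.of_card (n := 1)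
        rw [Nat.card_zpowers, hox, pow_one]
      obtain ⟨S, hS⟩ := hxp.exists_le_sylow
      have hSα := part3 p hp hkp S S.2 x (hS (Subgroup.mem_zpowers _)) hx1 α x.2
      intro hd
      exact S.not_dvd_index (hd.trans (Subgroup.index_dvd_of_le hSα))
    · left
      exact h

end Cfsg.Agent.S3389
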