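import Cfsg.Statements.S3390
import Cfsg.Agent.H9.FixityTwo

set_option autoImplicit false
open Cfsg

namespace Cfsg.Agent.S3390

/-- Let G be a finite group acting faithfully and transitively on a finite set Ω with fixity 2 (every non-identity element fixes at most two points, and some fixes exactly two). Let α ∈ Ω and S a Sylow 2-subgroup of G. Then one of the following holds: the stabilizer S_α of α in S is trivial; S is dihedral or semidihedral and either |S_α| = 2 or |S : S_α| = 2; |S| ≥ 4, S has exactly one orbit of size 2 on Ω, every other S-orbit is regular, and G has a normal subgroup of index 2 or of index |S| which is a Frobenius group; or S ≤ G_α. -/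
theorem result {G : Type*} [Group G] [Finite G] {Ω : Type*} [Fintype Ω] [MulAction G Ω] [FaithfulSMul G Ω] (htr : MulAction.IsPretransitive G Ω)
    (hfix : ∀ g : G, g ≠ 1 → Nat.card (MulAction.fixedBy Ω g) ≤ 2) (hex : ∃ g : G, g ≠ 1 ∧ Nat.card (MulAction.fixedBy Ω g) = 2) (α : Ω) (S : Sylow 2 G) :
    (S : Subgroup G) ⊓ MulAction.stabilizer G α = ⊥ ∨
    (((∃ n : ℕ, Nonempty (↥(S : Subgroup G) ≃* DihedralGroup n)) ∨ Cfsg.IsQuasiDihedral ↥(S : Subgroup G)) ∧
       (Nat.card ↥((S : Subgroup G) ⊓ MulAction.stabilizer G α) = 2 ∨ ((S : Subgroup G) ⊓ MulAction.stabilizer G α).relIndex (S : Subgroup G) = 2)) ∨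
    (4 ≤ Nat.card (S : Subgroup G) ∧
       (∃ ω : Ω, Nat.card (MulAction.orbit ↥(S : Subgroup G) ω) = 2 ∧
          ∀ ω' : Ω, ω' ∉ MulAction.orbit ↥(S : Subgroup G) ω → Nat.card (MulAction.orbit ↥(S : Subgroup G) ω') = Nat.card (S : Subgroup G)) ∧
       ∃ N : Subgroup G, N.Normal ∧ (N.index = 2 ∨ N.index = Nat.card (S : Subgroup G)) ∧ (∃ H : Subgroup ↥N, Cfsg.IsFrobeniusComplement H)) ∨
    (S : Subgroup G) ≤ MulAction.stabilizer G α := by
  have : Fact (Nat.Prime 2) := ⟨Nat.prime_two⟩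
  by_cases h0 : (S : Subgroup G) ⊓ MulAction.stabilizer G α = ⊥
  · exact Or.inl h0
  by_cases h1 : (S : Subgroup G) ≤ MulAction.stabilizer G α
  · exact Or.inr (Or.inr (Or.inr h1))
  right
  have hfixS : ∀ g : (S : Subgroup G), g ≠ 1 → Nat.card (MulAction.fixedBy Ω g) ≤ 2 :=
    fun g hg => hfix g (fun h => hg (Subtype.ext h))
  set A := MulAction.stabilizer (S : Subgroup G) α with hA
  have hAeq : A = (MulAction.stabilizer G α).subgroupOf S := rfl
  have hA0 : A ≠ ⊥ := by
    rw [hAeq, Ne, Subgroup.subgroupOf_eq_bot, disjoint_iff, inf_comm]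
    exact h0
  have hA1 : A ≠ ⊤ := by
    rw [hAeq, Ne, Subgroup.subgroupOf_eq_top]
    exact h1
  have hcard : Nat.card ↥((S : Subgroup G) ⊓ MulAction.stabilizer G α) = Nat.card A := by
    rw [hAeq, ← Subgroup.inf_subgroupOf_left]
    exact (Nat.card_congr (Subgroup.subgroupOfEquivOfLe inf_le_left).toEquiv).symm
  have hrel : ((S : Subgroup G) ⊓ MulAction.stabilizer G α).relIndex (S : Subgroup G) = A.index := by
    rw [Subgroup.inf_relIndex_left]
    rfl
  rw [hcard, hrel]
  rcases H9.two_group_fixity_two_stabilizer S.2 hfixS α hA0 hA1 with h2 | ⟨h2, h3⟩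
  swap
  · exact Or.inl ⟨h3, Or.inl h2⟩
  rcases H9.two_group_fixity_two_other S.2 hfixS α hA0 h2 with h3 | h3
  · exact Or.inl ⟨h3, Or.inr h2⟩
  right; left
  rw [← hA] at h2
  obtain ⟨a, haA, ha1⟩ := (Subgroup.bot_or_exists_ne_one A).resolve_left hA0
  obtain ⟨s, hsA, hs⟩ := Subgroup.index_eq_two_iff_exists_notMem_and'.mp h2
  have hAn := Subgroup.normal_of_index_eq_two h2
  have hfp : ∀ (x : (S : Subgroup G)) (γ : Ω), x • γ = γ → x ∈ A := by
    intro x γ hx
    by_cases hγ : γ ∈ MulAction.orbit (S : Subgroup G) α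
    · obtain ⟨t, rfl⟩ := hγ
      have h4 : t⁻¹ * x * t ∈ A := by
        rw [hA, MulAction.mem_stabilizer_iff, mul_smul, mul_smul, inv_smul_eq_iff]
        exact hx
      have := hAn.conj_mem _ h4 t
      simpa [mul_assoc] using this
    · have h4 : x ∈ MulAction.stabilizer (S : Subgroup G) γ := hx
      rw [h3 γ hγ, Subgroup.mem_bot] at h4
      rw [h4]
      exact A.one_mem
  obtain ⟨N, hN, hN2, hNS⟩ := H9.exists_normal_index_two_of_fusion S A h2 (by
    intro x y u hu hx
    apply hfp y (u • α)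
    change (y : G) • u • α = u • α
    rw [← hu, mul_smul, inv_smul_smul, mul_smul]
    exact congrArg _ hx)
  have hfixN : ∀ (h : G) (γ : Ω), h • γ = γ → h ∈ N := by
    intro h γ hγ
    obtain ⟨e, m, hm, hem⟩ := Nat.exists_eq_two_pow_mul_odd (orderOf_pos h).ne'
    have hp : IsPGroup 2 (Subgroup.zpowers (h ^ m)) := by
      apply IsPGroup.of_card (n := e)
      rw [Nat.card_zpowers, orderOf_pow_of_dvd hm.pos.ne' (by rw [hem]; exact dvd_mul_left _ _),
        hem, Nat.mul_div_cancel _ hm.pos]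
    obtain ⟨S', hS'⟩ := hp.exists_le_sylow
    obtain ⟨k, rfl⟩ := MulAction.exists_smul_eq G S S'
    have h4 := hS' (Subgroup.mem_zpowers _)
    rw [Sylow.coe_subgroup_smul, H9.mem_conj_smul_iff] at h4
    have h5 : k⁻¹ * h ^ m * k ∈ N := by
      apply (hNS ⟨_, h4⟩).mpr
      apply hfp _ (k⁻¹ • γ)
      change (k⁻¹ * h ^ m * k) • k⁻¹ • γ = k⁻¹ • γ
      rw [mul_smul, smul_inv_smul, mul_smul, (MulAction.stabilizer G γ).pow_mem hγ m]
    have h6 : h ^ m ∈ N := by simpa [mul_assoc] using hN.conj_mem _ h5 k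
    obtain ⟨j, rfl⟩ := hm
    rw [pow_succ, pow_mul] at h6
    exact (N.mul_mem_cancel_left (N.pow_mem (Subgroup.sq_mem_of_index_two hN2 h) j)).mp h6
  have hnorb : ∀ (t n : G) (γ : Ω), n ∈ N → t • γ = n • γ → t ∈ N := by
    intro t n γ hn h
    have := hfixN (n⁻¹ * t) γ (by rw [mul_smul, h, inv_smul_smul])
    exact (N.mul_mem_cancel_left (N.inv_mem hn)).mp this
  have hsN : (s : G) ∉ N := fun h => hsA ((hNS s).mp h)
  have hmain : ∀ (x n : G) (γ : Ω), n ∈ N → n • γ ≠ γ → x • γ = γ → x • n • γ = n • γ →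
      x = 1 := by
    intro x₀ n γ hn hnγ hx₀ hx₀'
    by_contra hx1
    obtain ⟨r, hr, hrd⟩ := Nat.exists_prime_and_dvd (show orderOf x₀ ≠ 1 by simpa using hx1)
    have : Fact r.Prime := ⟨hr⟩
    obtain ⟨k, hk⟩ := H9.exists_orderOf_eq_of_dvd_orderOf hrd
    have hx : x₀ ^ k • γ = γ := (MulAction.stabilizer G γ).pow_mem hx₀ k
    have hx' : x₀ ^ k • n • γ = n • γ := (MulAction.stabilizer G (n • γ)).pow_mem hx₀' k
    generalize x₀ ^ k = x at hk hx hx'
    have hx1 : x ≠ 1 := by
      rintro rfl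
      rw [orderOf_one] at hk
      exact hr.one_lt.ne hk
    have key : ∀ u : G, x • u • γ = u • γ → u ∈ N := by
      intro u hu
      rcases H9.eq_or_eq_of_fixity_two hfix hx1 hnγ hx' hx hu with h | h
      · exact hnorb u n γ hn h
      · exact hfixN u γ h
    have hp : IsPGroup r (Subgroup.zpowers x) := by
      apply IsPGroup.of_card (n := 1)
      rw [Nat.card_zpowers, hk, pow_one]
    rcases hr.two_le.eq_or_lt with rfl | hr2
    · obtain ⟨S', hS'⟩ := hp.exists_le_sylow
      obtain ⟨k, rfl⟩ := MulAction.exists_smul_eq G S S'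
      have h4 := hS' (Subgroup.mem_zpowers _)
      rw [Sylow.coe_subgroup_smul, H9.mem_conj_smul_iff] at h4
      have h5 : ∀ δ : Ω, x • δ = δ → (⟨_, h4⟩ : (S : Subgroup G)) • k⁻¹ • δ = k⁻¹ • δ := by
        intro δ hδ
        change (k⁻¹ * x * k) • k⁻¹ • δ = k⁻¹ • δ
        rw [mul_smul, smul_inv_smul, mul_smul, hδ]
      have h6 : (⟨_, h4⟩ : (S : Subgroup G)) ∈ A := hfp _ _ (h5 γ hx)
      have h7 : k⁻¹ • γ ∈ MulAction.orbit (S : Subgroup G) α := by
        by_contra h
        have h8 : (⟨_, h4⟩ : (S : Subgroup G)) ∈ MulAction.stabilizer (S : Subgroup G) (k⁻¹ • γ) :=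
          h5 γ hx
        rw [h3 _ h, Subgroup.mem_bot] at h8
        apply hx1
        have h9 : k⁻¹ * x * k = 1 := congrArg Subtype.val h8
        calc x = k * (k⁻¹ * x * k) * k⁻¹ := by group
          _ = 1 := by rw [h9]; group
      obtain ⟨t, ht⟩ := h7
      have h8 : (s * t)⁻¹ * ⟨_, h4⟩ * (s * t) ∈ A := hAn.conj_mem' _ h6 _
      have h9 : k * s * k⁻¹ ∈ N := by
        apply key
        have ht' : (t : G) • α = k⁻¹ • γ := ht
        have h10 : (((s : G) * t)⁻¹ * (k⁻¹ * x * k) * (s * t)) • α = α := h8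
        rw [mul_smul, mul_smul, inv_smul_eq_iff, mul_smul (s : G), ht', mul_smul, mul_smul,
          inv_smul_eq_iff] at h10
        simpa only [mul_smul] using h10
      apply hsN
      simpa [mul_assoc] using hN.conj_mem' _ h9 k
    · obtain ⟨R, hR⟩ := hp.exists_le_sylow
      have hxR : x ∈ (R : Subgroup G) := hR (Subgroup.mem_zpowers x)
      have hRγ := H9.pgroup_le_stabilizer_of_fixity (fun g hg => (hfix g hg).trans_lt hr2)
        (R : Subgroup G) R.2 x hxR hx1 γ hx
      have hRN : H9.IsSylowIn r (R : Subgroup G) N :=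
        ⟨fun y hy => hfixN y γ (hRγ hy), R.2, fun h => R.not_dvd_index
          (h.trans (Subgroup.relIndex_dvd_index_of_le (fun y hy => hfixN y γ (hRγ hy))))⟩
      obtain ⟨l, hl, hls⟩ := hRN.frattini (g := s) (by
        rw [Subgroup.normalizer_eq_top]; trivial)
      apply hsN
      apply (N.mul_mem_cancel_left hl).mp
      apply key
      have h4 := hRγ ((Subgroup.mem_normalizer_iff''.mp hls x).mp hxR)
      rw [MulAction.mem_stabilizer_iff, mul_smul, mul_smul, inv_smul_eq_iff] at h4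
      exact h4
  refine ⟨?_, ⟨α, ?_, fun ω hω => ?_⟩, N, hN, Or.inl hN2,
    (MulAction.stabilizer G α).subgroupOf N, ?_, ?_, ?_⟩
  · have h4 := A.card_mul_index
    have h5 : 1 < Nat.card A := (Subgroup.one_lt_card_iff_ne_bot A).mpr hA0
    rw [h2] at h4
    omega
  · rw [Nat.card_coe_set_eq, ← MulAction.index_stabilizer]
    exact h2
  · rw [Nat.card_coe_set_eq, ← MulAction.index_stabilizer, h3 ω hω, Subgroup.index_bot]
  · intro h
    have h4 : (⟨a, (hNS a).mpr haA⟩ : N) ∈ (MulAction.stabilizer G α).subgroupOf N := haA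
    rw [h, Subgroup.mem_bot] at h4
    have h5 : (a : G) = 1 := congrArg Subtype.val h4
    exact ha1 (Subtype.ext h5)
  · intro h
    rw [Subgroup.subgroupOf_eq_top] at h
    apply ha1
    apply Subtype.ext
    apply eq_of_smul_eq_smul (α := Ω)
    intro y
    obtain ⟨t, rfl⟩ := MulAction.exists_smul_eq G α y
    have h4 := h (hN.conj_mem' _ ((hNS a).mpr haA) t)
    rw [MulAction.mem_stabilizer_iff, mul_smul, mul_smul, inv_smul_eq_iff] at h4
    simpa using h4
  · intro g hg
    rw [eq_bot_iff]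
    intro x hx
    obtain ⟨hx1, hx2⟩ := Subgroup.mem_inf.mp hx
    rw [H9.mem_conj_smul_iff] at hx2
    have h4 : ((g : G)⁻¹ * x * g) • α = α := hx2
    rw [mul_smul, mul_smul, inv_smul_eq_iff] at h4
    exact Subtype.ext (hmain x g α g.2 hg hx1 h4)

end Cfsg.Agent.S3390
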