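import Cfsg.Statements.S3391
import Cfsg.Agent.H2.SzFixity

set_option autoImplicit false
open Cfsg

namespace Cfsg.Agent.S3391

/-- Let q = 2^{2m+1} ≥ 8 and let G be isomorphic to the Suzuki group Sz(q). If G acts faithfully and transitively on a finite set Ω with fixity 2 (every non-identity element fixes at most two points, and some fixes exactly two), then either |Ω| = q² + 1 and the action is 2-transitive, or |Ω| = q²(q² + 1) and the point stabilizers have order q − 1. -/
theorem result {G : Type*} [Group G] [Finite G] (F : Type) [Field F] [Fintype F] (m : ℕ) (hm : 1 ≤ m) (hF : Fintype.card F = 2 ^ (2 * m + 1))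
    (e : G ≃* ↥(Cfsg.Lie.Sz F (2 ^ (m + 1)))) {Ω : Type*} [Fintype Ω] [MulAction G Ω] [FaithfulSMul G Ω] (htr : MulAction.IsPretransitive G Ω)
    (hfix : ∀ g : G, g ≠ 1 → Nat.card (MulAction.fixedBy Ω g) ≤ 2) (hex : ∃ g : G, g ≠ 1 ∧ Nat.card (MulAction.fixedBy Ω g) = 2) :
    (Fintype.card Ω = Fintype.card F ^ 2 + 1 ∧ MulAction.IsMultiplyPretransitive G Ω 2) ∨
    (Fintype.card Ω = Fintype.card F ^ 2 * (Fintype.card F ^ 2 + 1) ∧ ∀ α : Ω, Nat.card (MulAction.stabilizer G α) = Fintype.card F - 1) := by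
  haveI : H2.SzField F m := ⟨hm, hF⟩
  let f : Sz F m ≃* G := (H2.szEquiv F m).trans e.symm
  letI : MulAction (Sz F m) Ω := MulAction.compHom Ω f.toMonoidHom
  have hs : ∀ (g : Sz F m) (x : Ω), g • x = f g • x := fun _ _ => rfl
  have : MulAction.IsPretransitive (Sz F m) Ω := ⟨fun a b => by
    obtain ⟨g, hg⟩ := MulAction.exists_smul_eq G a b
    exact ⟨f.symm g, by rw [hs, f.apply_symm_apply, hg]⟩⟩
  have h1 : ∀ g : Sz F m, MulAction.fixedBy Ω g = MulAction.fixedBy Ω (f g) := fun _ => rfl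
  rcases H2.fixity_two (F := F) (Ω := Ω) m
    (fun g hg => by rw [h1]; exact hfix _ (by simpa using hg))
    (by
      obtain ⟨g, hg, hg2⟩ := hex
      exact ⟨f.symm g, by simpa using hg, by rw [h1, f.apply_symm_apply, hg2]⟩) with h | h
  · left
    refine ⟨by rw [← Nat.card_eq_fintype_card, h.1], ?_⟩
    have h2 := h.2
    rw [MulAction.is_two_pretransitive_iff] at h2 ⊢
    intro a b c d hab hcd
    obtain ⟨g, hg⟩ := h2 hab hcd
    exact ⟨f g, hg⟩
  · right
    refine ⟨by rw [← Nat.card_eq_fintype_card, h.1], fun α => ?_⟩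
    rw [← h.2 α]
    symm
    exact Nat.card_congr (f.toEquiv.subtypeEquiv (fun _ => Iff.rfl))

end Cfsg.Agent.S3391
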