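import Cfsg.Statements.S3396
import Cfsg.Agent.H5.Ord7

set_option autoImplicit false
open Cfsg

namespace Cfsg.Agent.S3396

/-- Let G be a finite group whose order has at least three distinct prime divisors, and suppose every nonidentity element of G has order a power of 2 or a prime other than 5. Then G is isomorphic to PSL₂(7) (here F is any field with 7 elements). In particular a finite group whose set of element orders is {1, 2, 3, 4, 7} is PSL₂(7). -/
theorem result {G : Type*} [Group G] [Finite G]
    {F : Type*} [Field F] [Fintype F] (hF : Fintype.card F = 7)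
    (h3 : 3 ≤ (Nat.card G).primeFactors.card)
    (hord : ∀ g : G, g ≠ 1 → (∃ k : ℕ, orderOf g = 2 ^ k) ∨ ((orderOf g).Prime ∧ orderOf g ≠ 5)) :
    Nonempty (G ≃* Matrix.ProjectiveSpecialLinearGroup (Fin 2) F) := by
  have h : ∀ g : G, H5.Ok7 (orderOf g) := fun g => by
    by_cases e : g = 1
    · exact .inl ⟨0, by simp [e]⟩
    · exact hord g e
  refine (H5.psl2_seven_aux _ G rfl h fun hs => ?_).2 F (by rwa [Nat.card_eq_fintype_card])
  obtain ⟨r, hr, s, hs', hrs⟩ := Finset.one_lt_card.1
    (show 1 < (Nat.card G).primeFactors.card by omega)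
  exact hrs (H9.coclique_solvable_normal _ h3 (fun r hr => ⟨Nat.prime_of_mem_primeFactors hr,
    Nat.dvd_of_mem_primeFactors hr⟩) (fun r hr s hs hne ⟨x, hx⟩ => H5.Ok7.not_mul
      (Nat.prime_of_mem_primeFactors hr) (Nat.prime_of_mem_primeFactors hs) hne (hx ▸ h x))
    ⊤ inferInstance inferInstance r hr s hs'
    (by simpa using Nat.dvd_of_mem_primeFactors hr) (by simpa using Nat.dvd_of_mem_primeFactors hs'))

end Cfsg.Agent.S3396
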