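import Cfsg.Statements.S3403
import Cfsg.Agent.H9.O11Asm
import Cfsg.Agent.H9.O11One
import Cfsg.Agent.H9.O11Ev
import Cfsg.Agent.H4.O11J4
import Cfsg.Agent.H4.O11M3

set_option autoImplicit false
open Cfsg

namespace Cfsg.Agent.S3403

/-- Let G be a finite group and P a non-normal subgroup of order 11 whose conjugates generate G, such that any two distinct conjugates of P generate a subgroup isomorphic to PSL(2, 11) or to the first Janko group. Then G itself is isomorphic to PSL(2, 11) or to the first Janko group. -/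
theorem result {G : Type*} [Group G] [Finite G] {F : Type*} [Field F] [Fintype F] (hF : Fintype.card F = 11)
    (P : Subgroup G) (hP : Nat.card ↥P = 11) (hPn : ¬ P.Normal) (hgen : Subgroup.normalClosure (P : Set G) = ⊤)
    (hpair : ∀ g : G, P.map (MulAut.conj g).toMonoidHom ≠ P →
      Nonempty (↥(P ⊔ P.map (MulAut.conj g).toMonoidHom) ≃* Matrix.ProjectiveSpecialLinearGroup (Fin 2) F) ∨
        Cfsg.Spor.IsoJ1 ↥(P ⊔ P.map (MulAut.conj g).toMonoidHom)) :
    Nonempty (G ≃* Matrix.ProjectiveSpecialLinearGroup (Fin 2) F) ∨ Cfsg.Spor.IsoJ1 G := by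
  classical
  let e := H6.pslCongr (ι := Fin 2) (FiniteField.ringEquivOfCardEq (K := F) (K' := ZMod 11)
    (by rw [hF, ZMod.card]))
  refine (H9.O11.main_of (fun G _ _ Ω _ A M => ?_) _ G P rfl hP hPn hgen fun g h => ?_).imp_left
    (·.map (·.trans e.symm))
  · obtain ⟨α, β, h1⟩ := M.nt
    rcases M.cases with H | ⟨X, H⟩
    · rcases Nat.even_or_odd (Nat.card (Subgroup.centralizer ((A α ⊔ A β : Subgroup G) : Set G)))
        with c | c
      · exact H.even h1 c
      · exact H.two' h1 c (H.one h1 c)
    · exact H.false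
  · rw [H7.conj_smul_eq_map] at h ⊢
    exact (hpair g h).imp_left (·.map (·.trans e))

end Cfsg.Agent.S3403
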