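import Cfsg.Statements.S3406
import Cfsg.Agent.H3.OC7
import Cfsg.Agent.L0.NineA6
import Cfsg.Agent.H4.Small

set_option autoImplicit false
open Cfsg

namespace Cfsg.Agent.S3406

/-- A non-abelian finite simple group on whose elements the full automorphism group has at most five orbits is isomorphic to the alternating group of degree 5 or 6, to PSL(2, 7) or to PSL(2, 8). -/
theorem result {G : Type*} [Group G] [Finite G] [IsSimpleGroup G] (hG : ¬ IsMulCommutative G)
    (h5 : Nat.card (MulAction.orbitRel.Quotient (MulAut G) G) ≤ 5) :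
    Nonempty (G ≃* ↥(alternatingGroup (Fin 5))) ∨ Nonempty (G ≃* ↥(alternatingGroup (Fin 6))) ∨
      (∃ (F : Type) (_ : Field F) (_ : Fintype F), (Fintype.card F = 7 ∨ Fintype.card F = 8) ∧
        Nonempty (G ≃* Matrix.ProjectiveSpecialLinearGroup (Fin 2) F)) := by
  classical
  have hG' : ∃ x y : G, x * y ≠ y * x := by
    by_contra! e
    exact hG ⟨⟨e⟩⟩
  have six : ∀ s : Finset ℕ, (∀ n ∈ s, n ∈ Set.range (orderOf : G → ℕ)) → s.card ≤ 5 := by
    intro s hs
    let f : MulAction.orbitRel.Quotient (MulAut G) G → ℕ := Quotient.lift orderOf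
      (by rintro _ y ⟨φ, rfl⟩; exact φ.orderOf_eq y)
    have h1 : (s : Set ℕ) ⊆ f '' Set.univ := fun n hn =>
      let ⟨x, hx⟩ := hs n hn; ⟨Quotient.mk'' x, trivial, hx⟩
    rw [← Set.ncard_coe_finset]
    exact (Set.ncard_le_ncard h1 (Set.toFinite _)).trans ((Set.ncard_image_le (Set.toFinite _)).trans
      (Set.ncard_univ _ ▸ h5))
  have pr : ∀ p : ℕ, p.Prime → p ∣ Nat.card G → p ∈ Set.range (orderOf : G → ℕ) :=
    fun p hp => (H6.prime_dvd_card_iff hp).1
  have one : 1 ∈ Set.range (orderOf : G → ℕ) := ⟨1, orderOf_one⟩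
  have h1 : H3.OneComp (Set.range (orderOf : G → ℕ)) := by
    intro m hm n hn
    by_contra hmn
    have h2 : (Nat.card G).primeFactors.card ≤ 2 := by
      have := six (insert m (insert n (insert 1 (Nat.card G).primeFactors))) (by
        simp only [Finset.mem_insert]
        rintro k (rfl | rfl | rfl | hk)
        exacts [hm.1, hn.1, one, pr k (Nat.prime_of_mem_primeFactors hk)
          (Nat.dvd_of_mem_primeFactors hk)])
      rw [Finset.card_insert_of_notMem (by simp [hmn, hm.2.1.ne', hm.2.2]),
        Finset.card_insert_of_notMem (by simp [hn.2.1.ne', hn.2.2]),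
        Finset.card_insert_of_notMem (by simp [Nat.not_prime_one])] at this
      omega
    obtain ⟨p, q, hp, hq, h3⟩ : ∃ p q : ℕ, p.Prime ∧ q.Prime ∧
        (Nat.card G).primeFactors ⊆ {p, q} := by
      have h3 := fun k (hk : k ∈ (Nat.card G).primeFactors) => Nat.prime_of_mem_primeFactors hk
      generalize (Nat.card G).primeFactors = s at h2 h3
      rcases (by omega : s.card = 0 ∨ s.card = 1 ∨ s.card = 2) with e | e | e
      · exact ⟨2, 2, Nat.prime_two, Nat.prime_two, by simp [Finset.card_eq_zero.1 e]⟩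
      · obtain ⟨p, rfl⟩ := Finset.card_eq_one.1 e
        exact ⟨p, p, h3 p (by simp), h3 p (by simp), by simp⟩
      · obtain ⟨p, q, -, rfl⟩ := Finset.card_eq_two.1 e
        exact ⟨p, q, h3 p (by simp), h3 q (by simp), by simp⟩
    obtain ⟨x, y, hxy⟩ := hG'
    refine hxy (IsSimpleGroup.comm_iff_isSolvable.2 (H3.isSolvable_of_card_dvd_prime_pow_mul
      (a := Nat.card G) (b := Nat.card G) hp hq ?_) x y)
    rw [← mul_pow, Nat.dvd_pow_self_iff Nat.card_pos.ne' (mul_ne_zero hp.ne_zero hq.ne_zero),
      Nat.primeFactors_mul hp.ne_zero hq.ne_zero, hp.primeFactors, hq.primeFactors]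
    exact h3
  rcases H3.oneComp_cases hG' h1 with ⟨F, _, _, ⟨e⟩⟩ | ⟨h4, h | h⟩
  · have h2 := H3.card_psl2_mul F
    rw [← Nat.card_congr e.toEquiv] at h2
    have h3 := (H6.spec_eq_of_mulEquiv e).trans H6.spec_psl2
    have h4 := H3.oneComp_psl2 hG' h1 e rfl
    have ha : ∀ x, x ∣ (Fintype.card F - 1) / Nat.gcd (Fintype.card F - 1) 2 →
      x ∈ Set.range (orderOf : G → ℕ) := fun x hx => h3.ge (.inr (.inl hx))
    have hb : ∀ x, x ∣ (Fintype.card F + 1) / Nat.gcd (Fintype.card F + 1) 2 →
      x ∈ Set.range (orderOf : G → ℕ) := fun x hx => h3.ge (.inr (.inr hx))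
    have hc : ∀ x : ℕ, x.Prime → x ∣ Fintype.card F → x ∈ Set.range (orderOf : G → ℕ) :=
      fun x hx hd => by
        obtain ⟨p, _, n, hp, h6⟩ := FiniteField.card' F
        exact h3.ge (.inl (ringChar.eq F p ▸ hx.dvd_of_dvd_pow (h6 ▸ hd)))
    rcases h4 with h | (h | h | h | h | h | h | h) | ⟨n, r, s, k1, k2, k3, k4, h⟩ |
      ⟨n, r, k1, k2, k3, h⟩
    · rw [h, show Nat.gcd (4 - 1) 2 = 1 by decide] at h2
      exact .inl (H4.Small.alt5_of_simple (by omega))
    · rw [h, show Nat.gcd (5 - 1) 2 = 2 by decide] at h2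
      exact .inl (H4.Small.alt5_of_simple (by omega))
    · exact .inr (.inr ⟨F, _, _, .inl h, ⟨e⟩⟩)
    · exact .inr (.inr ⟨F, _, _, .inr h, ⟨e⟩⟩)
    · rw [h, show Nat.gcd (9 - 1) 2 = 2 by decide] at h2
      refine .inr (.inl (L0.Nine.alt6_of_card (by omega) fun x y hxy hx hy =>
        or_iff_not_imp_left.2 fun x1 => ?_))
      have := Fact.mk Nat.prime_three
      have k1 := orderOf_eq_prime hx x1
      have k2 := h3.le ⟨x * y, (Commute.orderOf_mul_eq_mul_orderOf_of_coprime hxy
        (k1 ▸ hy.symm))⟩
      obtain ⟨p, _, n, hp, h6⟩ := FiniteField.card' F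
      have k3 : p = 3 := (Nat.prime_dvd_prime_iff_eq hp Nat.prime_three).1 (hp.dvd_of_dvd_pow
          (show p ∣ 3 ^ 2 from (dvd_pow_self p n.ne_zero).trans (h6.symm.trans h).dvd))
      rw [h, k1, ringChar.eq F p, k3] at k2
      rcases k2 with k2 | k2 | k2
      · exact orderOf_eq_one_iff.1 (by have := Nat.le_of_dvd (by decide) k2; have := orderOf_pos y; omega)
      · exact absurd ((dvd_mul_right _ _).trans k2) (by decide)
      · exact absurd ((dvd_mul_right _ _).trans k2) (by decide)
    · rw [h] at ha hb hc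
      exact absurd (six {1, 2, 3, 5, 6, 11} (by
        simp only [Finset.mem_insert, Finset.mem_singleton]
        rintro k (rfl | rfl | rfl | rfl | rfl | rfl)
        exacts [one, hb _ (by decide), hb _ (by decide), ha _ (by decide), hb _ (by decide),
          hc _ (by norm_num) (by decide)])) (by decide)
    · rw [h] at ha hb hc
      exact absurd (six {1, 2, 3, 6, 7, 13} (by
        simp only [Finset.mem_insert, Finset.mem_singleton]
        rintro k (rfl | rfl | rfl | rfl | rfl | rfl)
        exacts [one, ha _ (by decide), ha _ (by decide), ha _ (by decide), hb _ (by decide),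
          hc _ (by norm_num) (by decide)])) (by decide)
    · rw [h] at ha hb hc
      exact absurd (six {1, 2, 3, 5, 15, 17} (by
        simp only [Finset.mem_insert, Finset.mem_singleton]
        rintro k (rfl | rfl | rfl | rfl | rfl | rfl)
        exacts [one, hc _ (by norm_num) (by decide), ha _ (by decide), ha _ (by decide),
          ha _ (by decide), hb _ (by decide)])) (by decide)
    · have k5 := k1.two_le
      have k6 := k2.two_le
      have k7 : 3 ∣ 3 ^ n := dvd_pow_self 3 (by rintro rfl; omega)
      rw [h, k3, mul_comm 2 r, Nat.gcd_mul_left_left, Nat.mul_div_cancel _ two_pos] at ha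
      rw [h, k4, show 4 * s = 2 * s * 2 by ring, Nat.gcd_mul_left_left,
        Nat.mul_div_cancel _ two_pos] at hb
      have := six {1, 2, 3, r, s, 2 * s} (by
        simp only [Finset.mem_insert, Finset.mem_singleton]
        rintro k (rfl | rfl | rfl | rfl | rfl | rfl)
        exacts [one, hb _ (dvd_mul_right _ _), hc _ Nat.prime_three (h ▸ k7), ha _ dvd_rfl,
          hb _ (dvd_mul_left _ _), hb _ dvd_rfl])
      rw [Finset.card_insert_of_notMem (by simp; omega), Finset.card_insert_of_notMem (by simp; omega),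
        Finset.card_insert_of_notMem (by simp; omega), Finset.card_insert_of_notMem (by simp; omega),
        Finset.card_insert_of_notMem (by simp; omega)] at this
      simp at this
    · have k5 := k1.two_le
      have k6 := k2.two_le
      have k7 : 2 ∣ 2 ^ n := dvd_pow_self 2 (by rintro rfl; omega)
      by_cases k8 : r = 3
      · exact .inr (.inr ⟨F, _, _, .inr (by omega), ⟨e⟩⟩)
      rw [h, (Nat.coprime_two_right.2 (Nat.odd_iff.2 (by omega))).gcd_eq_one, Nat.div_one] at ha hb
      rw [k3] at hb
      have := six {1, 2, 3, 2 ^ n - 1, r, 3 * r} (by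
        simp only [Finset.mem_insert, Finset.mem_singleton]
        rintro k (rfl | rfl | rfl | rfl | rfl | rfl)
        exacts [one, hc _ Nat.prime_two (h ▸ k7), hb _ (dvd_mul_right _ _), ha _ dvd_rfl,
          hb _ (dvd_mul_left _ _), hb _ dvd_rfl])
      rw [Finset.card_insert_of_notMem (by simp; omega), Finset.card_insert_of_notMem (by simp; omega),
        Finset.card_insert_of_notMem (by simp; omega), Finset.card_insert_of_notMem (by simp; omega),
        Finset.card_insert_of_notMem (by simp; omega)] at this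
      simp at this
  · exact absurd (six {1, 2, 3, 4, 5, 7} (by
      simp only [Finset.mem_insert, Finset.mem_singleton]
      rintro k (rfl | rfl | rfl | rfl | rfl | rfl)
      exacts [one, pr _ (by norm_num) (by rw [h.1]; decide), pr _ (by norm_num) (by rw [h.1]; decide),
        h4, pr _ (by norm_num) (by rw [h.1]; decide), pr _ (by norm_num) (by rw [h.1]; decide)]))
      (by decide)
  · exact absurd (six {1, 2, 4, 5, 7, 13} (by
      simp only [Finset.mem_insert, Finset.mem_singleton]
      rintro k (rfl | rfl | rfl | rfl | rfl | rfl)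
      exacts [one, pr _ (by norm_num) (by rw [h.1]; decide), h4,
        pr _ (by norm_num) (by rw [h.1]; decide), pr _ (by norm_num) (by rw [h.1]; decide),
        pr _ (by norm_num) (by rw [h.1]; decide)])) (by decide)

end Cfsg.Agent.S3406
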