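import Cfsg.Statements.S3410
import Cfsg.Agent.H8.ONan5
import Cfsg.Agent.H7.Components

set_option autoImplicit false
open Cfsg

namespace Cfsg.Agent.S3410

/-- Let a finite group G act faithfully and 2-transitively on a finite set X, and let N be an abelian normal subgroup of the stabilizer of a point x which is not semiregular on the remaining points (some non-identity element of N fixes a second point). Then the generalized Fitting subgroup of G is isomorphic to PSL_n(F) for some n ≥ 3 and some finite field F. -/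
theorem result {G X : Type*} [Group G] [Finite G] [Fintype X]
    [MulAction G X] [FaithfulSMul G X] (h2 : MulAction.IsMultiplyPretransitive G X 2) (x : X)
    (N : Subgroup G) (hNle : N ≤ MulAction.stabilizer G x)
    (hNnormal : ∀ g ∈ MulAction.stabilizer G x, ∀ n ∈ N, g * n * g⁻¹ ∈ N) (hNab : IsMulCommutative N)
    (hnsr : ∃ n ∈ N, n ≠ 1 ∧ ∃ y : X, y ≠ x ∧ n • y = y) :
    ∃ (F : Type) (_ : Field F) (_ : Fintype F) (n : ℕ), 3 ≤ n ∧
      Nonempty (↥(Cfsg.generalizedFittingSubgroup G) ≃* Matrix.ProjectiveSpecialLinearGroup (Fin n) F) := by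
  obtain ⟨O, -⟩ := H8.exists_ON (MulAction.is_two_pretransitive_iff.mp h2) x N hNle hNnormal
    (fun a ha b hb => congrArg Subtype.val (hNab.is_comm.comm ⟨a, ha⟩ ⟨b, hb⟩)) hnsr
  obtain ⟨-, -, -, y, hy, -⟩ := hnsr
  have : Nontrivial X := ⟨y, x, hy⟩
  obtain ⟨F, _, _, n, hn, -, ⟨e⟩⟩ := O.main
  refine ⟨F, inferInstance, inferInstance, n, hn, ⟨(MulEquiv.subgroupCongr ?_).trans e⟩⟩
  have := O.isSimpleGroup_L
  have := O.L_normal
  have hc : ∀ K : Subgroup G, ⁅K, O.L⁆ = ⊥ → K = ⊥ := fun K h => by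
    rw [Subgroup.commutator_eq_bot_iff_le_centralizer, O.centralizer_L] at h
    exact le_bot_iff.mp h
  have hL : H7.CompIn O.L ⊤ := ⟨(H7.NormalIn.of_normal _).subnormalIn,
    H7.isQuasisimple_of_isSimpleGroup fun h => O.L_ne_bot (hc _ (by
      rw [Subgroup.commutator_eq_bot_iff_le_centralizer]
      exact fun a ha b hb => congrArg Subtype.val (h.is_comm.comm ⟨b, hb⟩ ⟨a, ha⟩)))⟩
  rw [← H7.fstarIn_top, H7.fstarIn_eq,
    hc (H7.fittingIn ⊤) (by rw [Subgroup.commutator_comm]; exact hL.commutator_fittingIn),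
    sup_bot_eq]
  exact le_antisymm (H7.layerIn_le_iff.mpr fun K hK => (hK.le_or_commutator hL.1).resolve_right
    fun h => hK.ne_bot (hc K h)) hL.le_layerIn

end Cfsg.Agent.S3410
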