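import Cfsg.Statements.S3495
import Cfsg.Agent.H7.Manning

set_option autoImplicit false
open Cfsg

namespace Cfsg.Agent.S3495

open Subgroup MulAction Cfsg.Agent.H7

/-- Let a finite group G act faithfully and primitively on a finite set Ω with non-trivial point stabilizers, each acting primitively on every one of its orbits (an extremely primitive group), and suppose G has an elementary abelian normal p-subgroup N acting regularly on Ω (affine type). Then every non-trivial subgroup M of a point stabilizer G_α that is normal in G_α has the same orbits on Ω as G_α, and normalizes no subgroup of N other than 1 and N. -/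
theorem result {G : Type*} [Group G] [Finite G] {Ω : Type*} [Fintype Ω] [MulAction G Ω] [FaithfulSMul G Ω] (hprim : MulAction.IsPreprimitive G Ω) (hH : ∀ α : Ω, MulAction.stabilizer G α ≠ ⊥) (hep : ∀ (α : Ω) (ω : Ω), MulAction.IsPreprimitive (MulAction.stabilizer G α) (MulAction.orbit (MulAction.stabilizer G α) ω))
    (N : Subgroup G) [N.Normal] (hNc : IsMulCommutative N) (p : ℕ) (hp : p.Prime) (hNp : ∀ n ∈ N, n ^ p = 1)
    (hNtr : MulAction.IsPretransitive N Ω) (hNreg : ∀ ω : Ω, MulAction.stabilizer N ω = ⊥) (α : Ω) (M : Subgroup G) (hM : M ≠ ⊥) (hMle : M ≤ MulAction.stabilizer G α)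
    (hMn : MulAction.stabilizer G α ≤ Subgroup.normalizer (M : Set G)) :
    (∀ ω : Ω, MulAction.orbit M ω = MulAction.orbit (MulAction.stabilizer G α) ω) ∧
    (∀ L : Subgroup G, L ≤ N → M ≤ Subgroup.normalizer (L : Set G) → L = ⊥ ∨ L = N) := by
  have h1 : ∀ ω : Ω, MulAction.orbit M ω = MulAction.orbit (MulAction.stabilizer G α) ω := by
    intro ω
    by_cases hω : ω = α
    · subst hω
      apply Set.Subset.antisymm
      · rintro _ ⟨k, rfl⟩
        exact ⟨⟨k, hMle k.2⟩, rfl⟩
      · rintro _ ⟨k, rfl⟩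
        exact ⟨1, (one_smul _ _).trans k.2.symm⟩
    · exact orbit_eq_of_normalIn (hep α ω) ⟨hMle, hMn⟩
        (fun h => hM (manning hep ⟨hMle, hMn⟩ hω h))
  refine ⟨h1, fun L hLN hML => ?_⟩
  have hreg : ∀ n ∈ N, ∀ ω : Ω, n • ω = ω → n = 1 := by
    intro n hn ω h
    have : (⟨n, hn⟩ : N) ∈ stabilizer N ω := h
    rw [hNreg, mem_bot] at this
    exact congrArg Subtype.val this
  have h2 : stabilizer G α ≤ normalizer (L : Set G) := by
    rw [le_normalizer_iff]
    intro h hh l hl
    have h3 : h • l • α ∈ orbit M (l • α) := by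
      rw [h1]; exact ⟨⟨h, hh⟩, rfl⟩
    obtain ⟨m, hm⟩ := h3
    have hm' : (m : G) • l • α = h • l • α := hm
    have h4 : (m : G) * l * (m : G)⁻¹ ∈ L := (mem_normalizer_iff.1 (hML m.2) l).1 hl
    have h5 : h * l * h⁻¹ ∈ N := Normal.conj_mem inferInstance l (hLN hl) h
    have h6 : ((m : G) * l * (m : G)⁻¹)⁻¹ * (h * l * h⁻¹) = 1 := by
      apply hreg _ (N.mul_mem (N.inv_mem (hLN h4)) h5) α
      rw [mul_smul, inv_smul_eq_iff, mul_smul, mul_smul, mul_smul, mul_smul,
        show h⁻¹ • α = α from inv_mem hh, show (m : G)⁻¹ • α = α from inv_mem (hMle m.2), hm']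
    rw [← inv_mul_eq_one.1 h6]
    exact h4
  rcases eq_or_eq_top_of_stabilizer_le (a := α) (H := L ⊔ stabilizer G α) le_sup_right with h | h
  · left
    rw [eq_bot_iff]
    intro l hl
    exact hreg l (hLN hl) α (by rw [← mem_stabilizer_iff, ← h]; exact mem_sup_left hl)
  · right
    refine le_antisymm hLN fun n hn => ?_
    have h3 : n ∈ ((L ⊔ stabilizer G α : Subgroup G) : Set G) := by rw [h]; trivial
    rw [coe_mul_of_right_le_normalizer_left _ _ h2] at h3
    obtain ⟨l, hl, x, hx, rfl⟩ := h3
    have h4 : x = 1 := hreg x ((mul_mem_cancel_left (hLN hl)).1 hn) α hx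
    simp only [h4, mul_one]
    exact hl

end Cfsg.Agent.S3495
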