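import Cfsg.Statements.S3496
import Cfsg.Agent.H7.ExtPrim2
import Cfsg.Agent.S3495

set_option autoImplicit false
open Cfsg

namespace Cfsg.Agent.S3496

open Subgroup MulAction Cfsg.Agent.H7
open scoped IsMulCommutative

/-- The soluble extremely primitive groups. Let a finite solvable group G act faithfully and primitively on a finite set Ω with p ^ d points (p prime), with non-trivial point stabilizers each acting primitively on every one of its orbits. Then there is a prime q such that every orbit of a point stabilizer G_α other than {α} has exactly q points, q divides p ^ d − 1 but no p ^ i − 1 with 0 < i < d, and G_α has a normal subgroup T of order q with G_α generated by T and one further element and the order of G_α dividing q·d (so G_α is cyclic of order q, or an extension of T by a cyclic group of order dividing d). -/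
theorem result {G : Type*} [Group G] [Finite G] {Ω : Type*} [Fintype Ω] [MulAction G Ω] [FaithfulSMul G Ω] [Group.IsSolvable G] (p d : ℕ) (hp : p.Prime) (hcard : Fintype.card Ω = p ^ d)
    (hprim : MulAction.IsPreprimitive G Ω) (hH : ∀ α : Ω, MulAction.stabilizer G α ≠ ⊥) (hep : ∀ (α : Ω) (ω : Ω), MulAction.IsPreprimitive (MulAction.stabilizer G α) (MulAction.orbit (MulAction.stabilizer G α) ω)) (α : Ω) :
    ∃ q : ℕ, q.Prime ∧ (∀ ω : Ω, ω ≠ α → Nat.card (MulAction.orbit (MulAction.stabilizer G α) ω) = q) ∧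
      q ∣ p ^ d - 1 ∧ (∀ i : ℕ, 0 < i → i < d → ¬ q ∣ p ^ i - 1) ∧
      ∃ T : Subgroup G, T ≤ MulAction.stabilizer G α ∧ MulAction.stabilizer G α ≤ Subgroup.normalizer (T : Set G) ∧ Nat.card T = q ∧
        (∃ h : G, MulAction.stabilizer G α = T ⊔ Subgroup.zpowers h) ∧ Nat.card (MulAction.stabilizer G α) ∣ q * d := by
  obtain ⟨b, hb⟩ := exists_ne_of_stabilizer_ne_bot (hH α)
  have : Nontrivial Ω := ⟨b, α, hb⟩
  have := nontrivial_of_faithful_of_pretransitive (G := G) (Ω := Ω)
  obtain ⟨N, hN⟩ := exists_isMinNormal G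
  have hNn := hN.1
  have hc := hN.comm_of_isSolvable inferInstance
  have hNc := isMulCommutative_iff_commutator.2 hc
  have hNt : IsPretransitive N Ω := isPretransitive_of_normal_of_ne_bot N hN.ne_bot
  have hNr := semiregular_of_comm (Ω := Ω) hN.ne_bot hc
  have hNcard : Nat.card N = p ^ d := by
    rw [card_eq_of_regular hNt α fun n hn => hNr n hn α, Nat.card_eq_fintype_card, hcard]
  have hNnt := (nontrivial_iff_ne_bot N).2 hN.ne_bot
  have hNp : ∀ n ∈ N, n ^ p = 1 := by
    obtain ⟨r, hr, hr'⟩ := hN.exists_prime_pow_eq_one hc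
    obtain ⟨x, hx⟩ := exists_ne (1 : N)
    have : Fact r.Prime := ⟨hr⟩
    have h1 : orderOf x = r := orderOf_eq_prime (Subtype.ext (hr' x x.2)) hx
    have h2 := orderOf_dvd_natCard x
    rw [h1, hNcard] at h2
    rwa [← (Nat.prime_dvd_prime_iff_eq hr hp).1 (hr.dvd_of_dvd_pow h2)]
  have hne : ∀ ω : Ω, Nonempty (orbit (stabilizer G α) ω) := fun ω => ⟨⟨ω, mem_orbit_self ω⟩⟩
  have := (nontrivial_iff_ne_bot _).2 (hH α)
  have hF : Cfsg.fittingSubgroup (stabilizer G α) ≠ ⊥ := fittingSubgroup_ne_bot _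
  have hstr := fun ω (hω : ω ≠ α) =>
    have := hep α ω
    have := faithful_orbit_of_ep hep hω
    have := hne ω
    fittingSubgroup_structure (Ω := orbit (stabilizer G α) ω) hF
  obtain ⟨h1, h2, h3, -⟩ := hstr b hb
  have hFn := h1.1
  have hFc := isMulCommutative_iff_commutator.2 h2
  have : Fact p.Prime := ⟨hp⟩
  obtain ⟨_⟩ : Nonempty (Module (ZMod p) (Additive N)) :=
    ⟨AddCommGroup.zmodModule (fun x => Subtype.ext (hNp _ x.toMul.2))⟩
  let ρ : stabilizer G α →* Module.End (ZMod p) (Additive N) :=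
    (autToEnd p N).comp (MulAut.conjNormal.comp (stabilizer G α).subtype)
  have hρ : Function.Injective ρ := by
    rw [injective_iff_map_eq_one]
    intro h hh
    have h4 : MulAut.conjNormal (H := N) (h : G) = 1 :=
      autToEnd_injective p N (hh.trans (map_one _).symm)
    refine Subtype.ext (eq_one_of_mem_centralizer hNt (fun x hx => ?_) h.2)
    have := congrArg Subtype.val (congrArg (fun f : MulAut _ => f ⟨x, hx⟩) h4)
    simp only [MulAut.conjNormal_apply, MulAut.one_apply, mul_inv_eq_iff_eq_mul] at this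
    exact this.symm
  have hTne : fittingIn (stabilizer G α) ≠ ⊥ := mt fittingIn_eq_bot_iff.1 hF
  obtain ⟨h4, h5, h6, h7, h8⟩ := gammaL1 ρ hρ (Cfsg.fittingSubgroup (stabilizer G α)) (by
    intro W hW
    let L : Subgroup G := (AddSubgroup.toSubgroup' W.toAddSubgroup).map N.subtype
    have hL : ∀ x : N, (x : G) ∈ L ↔ Additive.ofMul x ∈ W := fun x =>
      mem_map_iff_mem N.subtype_injective
    rcases (S3495.result hprim hH hep N hNc p hp hNp hNt
      (fun ω => stabilizer_subgroup_eq_bot_iff.2 fun n hn => hNr n hn ω) α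
      (fittingIn (stabilizer G α)) hTne (fittingIn_le _) (fittingIn_normalIn _).2).2 L
      (map_subtype_le _) (by
        rw [le_normalizer_iff]
        rintro _ ⟨t, ht, rfl⟩ _ ⟨x, hx, rfl⟩
        exact ⟨_, hW t ht _ hx, rfl⟩) with h | h
    · left
      rw [eq_bot_iff]
      intro x hx
      have := (hL x.toMul).2 hx
      rw [h, mem_bot] at this
      exact congrArg Additive.ofMul (Subtype.ext this : x.toMul = 1)
    · right
      rw [eq_top_iff]
      intro x _
      exact (hL x.toMul).1 (by rw [h]; exact x.toMul.2)) (d := d) hNcard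
  obtain ⟨q, hq, hq'⟩ := h1.exists_prime_pow_eq_one h2
  have hFq : Nat.card (Cfsg.fittingSubgroup (stabilizer G α)) = q := by
    obtain ⟨g, hg⟩ := h4.exists_ofOrder_eq_natCard
    rw [← hg]
    have : Fact q.Prime := ⟨hq⟩
    refine orderOf_eq_prime (Subtype.ext (hq' g g.2)) fun h => hF ?_
    rw [h, orderOf_one] at hg
    exact card_eq_one.1 hg.symm
  rw [hFq] at h5 h6
  rw [h3] at h8
  refine ⟨q, hq, fun ω hω => (hstr ω hω).2.2.2.symm.trans hFq, h5, h6, fittingIn (stabilizer G α),
    fittingIn_le _, (fittingIn_normalIn _).2, (card_fittingIn _).trans hFq, ?_, ?_⟩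
  · obtain ⟨g, hg⟩ := h7.exists_generator
    induction g using QuotientGroup.induction_on with
    | H g =>
      refine ⟨g, le_antisymm (fun x hx => ?_) (sup_le (fittingIn_le _) (zpowers_le.2 g.2))⟩
      obtain ⟨k, hk⟩ := hg ((⟨x, hx⟩ : stabilizer G α) : _ ⧸ _)
      have h9 : (g ^ k)⁻¹ * ⟨x, hx⟩ ∈ Cfsg.fittingSubgroup (stabilizer G α) := by
        rw [← h3, ← QuotientGroup.eq, ← hk]
        rfl
      have : x = (g : G) ^ k * (((g ^ k)⁻¹ * ⟨x, hx⟩ : stabilizer G α) : G) := by simp
      rw [this]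
      exact mul_mem (mem_sup_right ⟨k, rfl⟩) (mem_sup_left ⟨_, h9, rfl⟩)
  · rw [← (Cfsg.fittingSubgroup (stabilizer G α)).card_mul_index, hFq]
    exact Nat.mul_dvd_mul_left q h8

end Cfsg.Agent.S3496
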