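import Cfsg.Statements.S3497
import Cfsg.Agent.H7.ExtPrim2

set_option autoImplicit false
open Cfsg

namespace Cfsg.Agent.S3497

open Subgroup MulAction Cfsg.Agent.H7

/-- Restrictions on the point stabilizer of an extremely primitive group. Let a finite group G act faithfully and primitively on a finite set Ω with point stabilizers H = G_α whose order is neither 1 nor a prime, each acting primitively on every one of its orbits. Then H has trivial center, the Fitting subgroup F(H) is an elementary abelian p-group for some prime p, and if F(H) ≠ 1 has order p ^ e then p ^ e divides the number of points minus one and H / F(H) embeds in GL_e(p) (there is a homomorphism from H to GL_e(p) with kernel exactly F(H)). -/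
theorem result {G : Type*} [Group G] [Finite G] {Ω : Type*} [Fintype Ω] [MulAction G Ω] [FaithfulSMul G Ω] (hprim : MulAction.IsPreprimitive G Ω) (hep : ∀ (α : Ω) (ω : Ω), MulAction.IsPreprimitive (MulAction.stabilizer G α) (MulAction.orbit (MulAction.stabilizer G α) ω)) (α : Ω)
    (hH1 : MulAction.stabilizer G α ≠ ⊥) (hHp : ¬ (Nat.card (MulAction.stabilizer G α)).Prime) :
    Subgroup.center (MulAction.stabilizer G α) = ⊥ ∧
    IsMulCommutative (Cfsg.fittingSubgroup (MulAction.stabilizer G α)) ∧
    ∃ p e : ℕ, p.Prime ∧ Nat.card (Cfsg.fittingSubgroup (MulAction.stabilizer G α)) = p ^ e ∧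
      (∀ x ∈ Cfsg.fittingSubgroup (MulAction.stabilizer G α), x ^ p = 1) ∧
      (Cfsg.fittingSubgroup (MulAction.stabilizer G α) ≠ ⊥ →
        p ^ e ∣ Fintype.card Ω - 1 ∧
        ∃ φ : MulAction.stabilizer G α →* GL (Fin e) (ZMod p), φ.ker = Cfsg.fittingSubgroup (MulAction.stabilizer G α)) := by
  obtain ⟨b, hb⟩ := exists_ne_of_stabilizer_ne_bot hH1
  have hne : ∀ ω : Ω, Nonempty (orbit (stabilizer G α) ω) := fun ω => ⟨⟨ω, mem_orbit_self ω⟩⟩
  have := hep α b
  have := faithful_orbit_of_ep hep hb
  have := hne b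
  refine ⟨by_contra fun h => hHp (card_prime_of_center_ne_bot (Ω := orbit (stabilizer G α) b) h),
    ?_⟩
  by_cases hF : Cfsg.fittingSubgroup (stabilizer G α) = ⊥
  · rw [hF]
    refine ⟨⟨⟨fun _ _ => Subsingleton.elim _ _⟩⟩, 2, 0, Nat.prime_two, by simp, fun x hx => ?_,
      fun h => (h rfl).elim⟩
    rw [mem_bot.1 hx, one_pow]
  obtain ⟨h1, h2, h3, -⟩ := fittingSubgroup_structure (Ω := orbit (stabilizer G α) b) hF
  have hc := isMulCommutative_iff_commutator.2 h2
  obtain ⟨p, hp, hp'⟩ := h1.exists_prime_pow_eq_one h2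
  obtain ⟨e, he, φ, hφ⟩ := exists_mulAut_hom_GL (V := Cfsg.fittingSubgroup (stabilizer G α)) hp
    fun x => Subtype.ext (hp' x x.2)
  have hn := h1.1
  refine ⟨hc, p, e, hp, he, hp', fun _ => ⟨?_, φ.comp MulAut.conjNormal, ?_⟩⟩
  · rw [← he, ← Nat.card_eq_fintype_card, ← SubMulAction.nat_card_ofStabilizer_eq G α]
    apply H3.card_dvd_of_free
    intro x ω hx
    have := hep α ω
    have := faithful_orbit_of_ep hep (b := ω) ω.2
    have := hne ω
    have hx' : ((x : stabilizer G α) : G) • (ω : Ω) = ω := congrArg Subtype.val hx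
    exact Subtype.ext (semiregular_of_comm (Ω := orbit (stabilizer G α) (ω : Ω)) hF h2 x x.2
      ⟨ω, mem_orbit_self _⟩ (Subtype.ext hx'))
  · rw [← MonoidHom.comap_ker, (MonoidHom.ker_eq_bot_iff φ).2 hφ, MonoidHom.comap_bot]
    refine Eq.trans ?_ h3
    ext g
    rw [MonoidHom.mem_ker, mem_centralizer_iff]
    constructor
    · intro h x hx
      have := congrArg Subtype.val (congrArg (fun f : MulAut _ => f ⟨x, hx⟩) h)
      simp only [MulAut.conjNormal_apply, MulAut.one_apply, mul_inv_eq_iff_eq_mul] at this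
      exact this.symm
    · intro h
      ext1 x
      apply Subtype.ext
      rw [MulAut.conjNormal_apply, ← h x x.2, mul_inv_cancel_right]
      rfl

end Cfsg.Agent.S3497
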