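import Cfsg.Statements.S3498
import Cfsg.Agent.H3.Frobenius
import Cfsg.Agent.H3.GroupUtil

set_option autoImplicit false
open Cfsg

namespace Cfsg.Agent.S3498

/-- A maximal subgroup of a finite almost simple group does not have prime order. Here G is almost simple in the sense that it has a non-abelian simple normal subgroup T with trivial centralizer. -/
theorem result {G : Type*} [Group G] [Finite G] (T : Subgroup G) [T.Normal] (hT : IsSimpleGroup T) (hTc : ¬ IsMulCommutative T)
    (hC : Subgroup.centralizer (T : Set G) = ⊥) (H : Subgroup G) (hmax : IsCoatom H) : ¬ (Nat.card H).Prime := by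
  intro hp
  set p := Nat.card H with hpdef
  have : Fact p.Prime := ⟨hp⟩
  have hTs : ∀ N : Subgroup G, N.Normal → N ⊓ T = ⊥ ∨ T ≤ N := by
    intro N hN
    rcases (hN.subgroupOf T).eq_bot_or_eq_top with h | h
    · left
      rw [Subgroup.subgroupOf_eq_bot] at h
      exact disjoint_iff.mp h
    · right
      exact Subgroup.subgroupOf_eq_top.mp h
  have hTN : ∀ N : Subgroup G, N.Normal → N ≠ ⊥ → T ≤ N := by
    intro N hN hb
    refine (hTs N hN).resolve_left (fun h => hb ?_)
    rw [eq_bot_iff, ← hC]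
    intro x hx
    rw [Subgroup.mem_centralizer_iff]
    intro t ht
    exact (Subgroup.commute_of_normal_of_disjoint N T hN inferInstance (disjoint_iff.mpr h) x t
      hx ht).eq.symm
  have hHc : IsCyclic H := isCyclic_of_prime_card hpdef.symm
  have hHb : H ≠ ⊥ := by
    rintro rfl
    exact hp.one_lt.ne' (by rw [hpdef]; exact Subgroup.card_bot)
  have hcomm : ∀ N : Subgroup G, T ≤ N → Group.IsSolvable N → False := by
    intro N hle hN
    apply hTc
    have : Group.IsSolvable T :=
      Group.isSolvable_of_isSolvable_injective (Subgroup.inclusion_injective hle)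
    exact ⟨⟨IsSimpleGroup.comm_iff_isSolvable.mpr this⟩⟩
  have hHs : Group.IsSolvable H := by
    let _ := hHc.commGroup
    infer_instance
  -- `H` is a Frobenius complement
  have hTI : ∀ g ∉ H, ∀ x ∈ H, g⁻¹ * x * g ∈ H → x = 1 := by
    intro g hg x hx hx'
    by_contra hx1
    have hgen : ∀ y ∈ H, y ≠ 1 → Subgroup.zpowers y = H := by
      intro y hy hy1
      have hle : Subgroup.zpowers y ≤ H := Subgroup.zpowers_le_of_mem hy
      refine Subgroup.eq_of_le_of_card_ge hle ?_
      rcases (Nat.dvd_prime hp).mp (Subgroup.card_dvd_of_le hle) with h | h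
      · rw [Nat.card_zpowers, orderOf_eq_one_iff] at h
        exact absurd h hy1
      · exact h.ge
    have hnorm : g⁻¹ ∈ Subgroup.normalizer (H : Set G) := by
      refine Subgroup.mem_normalizer_fintype (fun n hn => ?_)
      rw [SetLike.mem_coe, ← hgen x hx hx1] at hn
      obtain ⟨k, rfl⟩ := Subgroup.mem_zpowers_iff.mp hn
      have : g⁻¹ * x ^ k * g⁻¹⁻¹ = (g⁻¹ * x * g) ^ k := by
        rw [← conj_zpow, inv_inv]
      rw [SetLike.mem_coe, this]
      exact H.zpow_mem hx' k
    have h1 : H < Subgroup.normalizer (H : Set G) :=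
      lt_of_le_of_ne Subgroup.le_normalizer (fun h => hg (by
        rw [← h] at hnorm; simpa using hnorm))
    have h2 : H.Normal := Subgroup.normalizer_eq_top_iff.mp (hmax.2 _ h1)
    exact hcomm H (hTN H h2 hHb) hHs
  obtain ⟨K, hKN, hK⟩ := H3.exists_frobeniusKernel_of_TI H hTI
  have hKb : K ≠ ⊥ := H3.frobKer_ne_bot hmax.1 hK
  have hcop := H3.coprime_frobKer_frobCompl hTI hK
  have : Nontrivial K := (Subgroup.nontrivial_iff_ne_bot K).mpr hKb
  obtain ⟨q, hq, hqK⟩ := Nat.exists_prime_and_dvd (Finite.one_lt_card (α := K)).ne'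
  have : Fact q.Prime := ⟨hq⟩
  -- `H` normalizes a Sylow `q`-subgroup of `G`
  have hHp : IsPGroup p H := IsPGroup.of_card (n := 1) (by rw [pow_one])
  obtain ⟨S⟩ : Nonempty (Sylow q G) := inferInstance
  have hSK : ∀ Q : Sylow q G, (Q : Subgroup G) ≤ K := by
    intro Q
    refine H3.le_of_coprime_card_index ?_
    obtain ⟨k, hk⟩ := Q.isPGroup'.exists_card_eq
    rw [hk, H3.index_frobKer hK]
    exact Nat.Coprime.pow_left k (Nat.Coprime.coprime_dvd_left hqK hcop)
  have hKt : K ≠ ⊤ := by
    rintro rfl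
    exact hHb (by simpa using H3.frobKer_inf_eq_bot hK)
  have hnp : ¬ p ∣ Nat.card (Sylow q G) := by
    intro h
    rw [S.card_eq_index_normalizer] at h
    have h2 := Sylow.normalizer_sup_eq_top' S (hSK S)
    have h3 : Subgroup.normalizer (S : Set G) ≤ K := by
      refine H3.le_of_coprime_card_index ?_
      rw [H3.index_frobKer hK, ← hpdef, Nat.coprime_comm, hp.coprime_iff_not_dvd]
      intro h4
      have h5 := Nat.mul_dvd_mul h4 h
      rw [Subgroup.card_mul_index, ← K.card_mul_index, H3.index_frobKer hK, ← hpdef] at h5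
      have h6 := Nat.dvd_of_mul_dvd_mul_right hp.pos h5
      exact hp.one_lt.ne' (Nat.eq_one_of_dvd_coprimes hcop h6 dvd_rfl)
    exact hKt (by rw [← h2]; exact (sup_eq_right.mpr h3).symm)
  obtain ⟨Q, hQ⟩ := hHp.nonempty_fixed_point_of_prime_not_dvd_card (Sylow q G) hnp
  rw [Subgroup.sylow_mem_fixedPoints_iff] at hQ
  have hQb : (Q : Subgroup G) ≠ ⊥ := Q.ne_bot_of_dvd_card (hqK.trans K.card_subgroup_dvd_card)
  have h1 : H < Subgroup.normalizer ((Q : Subgroup G) : Set G) := by
    refine lt_of_le_of_ne hQ (fun h => hQb ?_)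
    rw [eq_bot_iff, ← H3.frobKer_inf_eq_bot hK]
    exact le_inf (hSK Q) (h ▸ Subgroup.le_normalizer)
  have h2 : (Q : Subgroup G).Normal := Subgroup.normalizer_eq_top_iff.mp (hmax.2 _ h1)
  have := Q.isPGroup'.isNilpotent
  exact hcomm Q (hTN Q h2 hQb) inferInstance

end Cfsg.Agent.S3498
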