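import Cfsg.Statements.S3504
import Cfsg.Agent.H9.PrimePerm

set_option autoImplicit false
open Cfsg

namespace Cfsg.Agent.S3504

/-- For n ≥ 5, the fixed-point-free permutations of prime order in the symmetric group of degree n form a single conjugacy class if and only if n is a prime power. -/
theorem result (n : ℕ) (hn : 5 ≤ n) :
    Nat.card {c : ConjClasses (Equiv.Perm (Fin n)) // ∃ g : Equiv.Perm (Fin n), ConjClasses.mk g = c ∧ (orderOf g).Prime ∧ ∀ i : Fin n, g i ≠ i} = 1 ↔ IsPrimePow n := by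
  classical
  have hex : ∀ p : ℕ, p.Prime → p ∣ n → ∃ g : Equiv.Perm (Fin n), orderOf g = p ∧ ∀ i, g i ≠ i := by
    intro p hp hpn
    have : Fact p.Prime := ⟨hp⟩
    obtain ⟨c, hc⟩ := hpn
    have hc0 : 1 ≤ c := by
      rcases Nat.eq_zero_or_pos c with h | h
      · subst h; omega
      · exact h
    obtain ⟨σ, h1, h2⟩ := H9.perm_exists_orderOf_prime (α := Fin n) (r := p) c hc0
      (by simp [hc, mul_comm])
    refine ⟨σ, h1, fun i => ?_⟩
    have : σ.support = Finset.univ := by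
      apply Finset.eq_univ_of_card
      rw [h2]; simp [hc, mul_comm]
    rw [← Equiv.Perm.mem_support, this]
    exact Finset.mem_univ i
  have hsupp : ∀ g : Equiv.Perm (Fin n), (∀ i, g i ≠ i) → g.support.card = n := by
    intro g hg
    have : g.support = Finset.univ := by
      rw [Finset.eq_univ_iff_forall]
      intro i
      exact Equiv.Perm.mem_support.mpr (hg i)
    rw [this]; simp
  have hdvd : ∀ g : Equiv.Perm (Fin n), (orderOf g).Prime → (∀ i, g i ≠ i) → orderOf g ∣ n := by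
    intro g hg hg'
    have : Fact (orderOf g).Prime := ⟨hg⟩
    have := (H9.perm_cycleType_eq_replicate (pow_orderOf_eq_one g)).2
    rwa [hsupp g hg'] at this
  rw [isPrimePow_iff_unique_prime_dvd, Nat.card_eq_one_iff_exists]
  constructor
  · rintro ⟨⟨c, g, rfl, hg, hg'⟩, h⟩
    refine ⟨orderOf g, ⟨hg, hdvd g hg hg'⟩, ?_⟩
    rintro q ⟨hq, hqn⟩
    obtain ⟨σ, h1, h2⟩ := hex q hq hqn
    have := h ⟨ConjClasses.mk σ, σ, rfl, h1 ▸ hq, h2⟩
    have h3 : ConjClasses.mk σ = ConjClasses.mk g := congrArg Subtype.val this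
    rw [ConjClasses.mk_eq_mk_iff_isConj, isConj_iff] at h3
    obtain ⟨t, rfl⟩ := h3
    rw [← h1]
    exact (MulAut.conj t).orderOf_eq σ |>.symm
  · rintro ⟨p, ⟨hp, hpn⟩, huniq⟩
    have : Fact p.Prime := ⟨hp⟩
    obtain ⟨σ, h1, h2⟩ := hex p hp hpn
    refine ⟨⟨ConjClasses.mk σ, σ, rfl, h1 ▸ hp, h2⟩, ?_⟩
    rintro ⟨c, g, rfl, hg, hg'⟩
    apply Subtype.ext
    have h3 : orderOf g = p := huniq _ ⟨hg, hdvd g hg hg'⟩
    apply ConjClasses.mk_eq_mk_iff_isConj.mpr
    apply H9.perm_isConj_of_pow_prime (r := p)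
    · rw [← h3, pow_orderOf_eq_one]
    · rw [← h1, pow_orderOf_eq_one]
    · rw [hsupp g hg', hsupp σ h2]

end Cfsg.Agent.S3504
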