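import Cfsg.Statements.S3508

set_option autoImplicit false
open Cfsg

namespace Cfsg.Agent.S3508

theorem unipotent_pow {K W : Type*} [Field K] (p : ℕ) [Fact p.Prime] [CharP K p] [AddCommGroup W]
    [Module K W] [FiniteDimensional K W] [Nontrivial W] (L : Module.End K W) (r s : ℕ)
    (hL : L ^ p ^ r = 1) (hs : Module.finrank K W ≤ p ^ s) : L ^ p ^ s = 1 := by
  have : CharP (Module.End K W) p := charP_of_injective_algebraMap' K p
  have h1 : (L - 1) ^ p ^ r = 0 := by
    rw [sub_pow_char_pow_of_commute _ _ (Commute.one_right L), hL, one_pow, sub_self]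
  have h2 : LinearMap.ker ((L - 1) ^ p ^ s) = ⊤ := by
    rw [Module.End.ker_pow_eq_ker_pow_finrank_of_le hs, eq_top_iff]
    refine le_trans ?_ (Module.End.ker_pow_le_ker_pow_finrank (L - 1) (p ^ r))
    rw [h1]; simp
  rw [LinearMap.ker_eq_top, sub_pow_char_pow_of_commute _ _ (Commute.one_right L), one_pow,
    sub_eq_zero] at h2
  exact h2

theorem affine_unipotent {V : Type*} [AddCommGroup V] [Finite V] (p m : ℕ) [Fact p.Prime]
    (hp : ∀ x : V, p • x = 0) (hcard : Nat.card V = p ^ m) (φ₀ : V →+ V) (c : V) (r s : ℕ)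
    (h : ∀ v, (fun v => φ₀ v + c)^[p ^ r] v = v) (hs : m < p ^ s) (v : V) :
    (fun v => φ₀ v + c)^[p ^ s] v = v := by
  have inst : Module (ZMod p) V := AddCommGroup.zmodModule hp
  have hrank : Module.finrank (ZMod p) V = m := by
    have h1 := Module.natCard_eq_pow_finrank (K := ZMod p) (V := V)
    rw [Nat.card_zmod, hcard] at h1
    exact (Nat.pow_right_injective (Fact.out : p.Prime).two_le h1).symm
  let φ : V →ₗ[ZMod p] V := φ₀.toZModLinearMap p
  let L : Module.End (ZMod p) (V × ZMod p) :=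
    LinearMap.prod (φ ∘ₗ LinearMap.fst _ _ _ +
      (LinearMap.snd _ _ _).smulRight c) (LinearMap.snd _ _ _)
  have hL : ∀ v : V, L (v, 1) = (φ₀ v + c, 1) := by
    intro v
    simp [L, φ]
  have hLk : ∀ (k : ℕ) (v : V), (L ^ k) (v, 1) = ((fun v => φ₀ v + c)^[k] v, 1) := by
    intro k
    induction k with
    | zero => intro v; rfl
    | succ k ih =>
      intro v
      rw [pow_succ', Module.End.mul_apply, ih, hL, Function.iterate_succ_apply']
  have h1 : L ^ p ^ r = 1 := by
    refine LinearMap.ext fun ⟨v, t⟩ => ?_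
    have : (v, t) = ((v, 1) : V × ZMod p) + (t - 1) • ((0, 1) : V × ZMod p) := by
      simp
    rw [this, map_add, map_smul, hLk, hLk, h, h]
    rfl
  have h2 : L ^ p ^ s = 1 := by
    apply unipotent_pow p L r s h1
    rw [Module.finrank_prod, hrank, Module.finrank_self]
    omega
  have := hLk (p ^ s) v
  rw [h2] at this
  exact (congrArg Prod.fst this).symm

theorem arith (p m : ℕ) (hp : 2 ≤ p) (hm : 1 ≤ m) (h : p ^ (m - 1) ≤ m) :
    m ≤ 2 ∧ (2 < p → m ≤ 1) := by
  constructor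
  · by_contra hc
    push Not at hc
    obtain ⟨k, rfl⟩ : ∃ k, m = k + 3 := ⟨m - 3, by omega⟩
    have h1 : 2 ^ (k + 2) ≤ p ^ (k + 2) := Nat.pow_le_pow_left hp _
    have h2 : k < 2 ^ k := Nat.lt_two_pow_self
    have h3 : k + 3 - 1 = k + 2 := rfl
    rw [h3] at h
    rw [pow_add] at h1
    omega
  · intro hp3
    by_contra hc
    push Not at hc
    obtain ⟨k, rfl⟩ : ∃ k, m = k + 2 := ⟨m - 2, by omega⟩
    have h1 : 3 ^ (k + 1) ≤ p ^ (k + 1) := Nat.pow_le_pow_left hp3 _
    have h2 : k < 3 ^ k := Nat.lt_pow_self (by norm_num)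
    have h3 : k + 2 - 1 = k + 1 := rfl
    rw [h3] at h
    rw [pow_add] at h1
    omega

open scoped IsMulCommutative in
theorem result {G : Type*} [Group G] [Finite G] {Ω : Type*} [Fintype Ω] [MulAction G Ω] [FaithfulSMul G Ω] (p m : ℕ) (hp : p.Prime) (hcard : Fintype.card Ω = p ^ m)
    (N : Subgroup G) [N.Normal] (hNc : IsMulCommutative N) (hNp : ∀ n ∈ N, n ^ p = 1)
    (hNtr : MulAction.IsPretransitive N Ω) (hNreg : ∀ ω : Ω, MulAction.stabilizer N ω = ⊥)
    (g : G) (r : ℕ) (hr : 1 ≤ r) (hg : orderOf g = p ^ r) :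
    p ^ (r - 1) ≤ m ∧ (r = m → m ≤ 2 ∧ (2 < p → m ≤ 1)) := by
  have := Fact.mk hp
  suffices h : p ^ (r - 1) ≤ m from
    ⟨h, fun e => arith p m hp.two_le (e ▸ hr) (e ▸ h)⟩
  by_contra hlt
  push Not at hlt
  have hne : Nonempty Ω := by
    rw [← Fintype.card_pos_iff, hcard]; exact pow_pos hp.pos _
  obtain ⟨ω₀⟩ := hne
  have hinj : ∀ a b : N, a • ω₀ = b • ω₀ → a = b := by
    intro a b hab
    have : b⁻¹ * a ∈ MulAction.stabilizer N ω₀ := by
      rw [MulAction.mem_stabilizer_iff, mul_smul, hab, inv_smul_smul]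
    rw [hNreg, Subgroup.mem_bot, inv_mul_eq_one] at this
    exact this.symm
  have hcardN : Nat.card N = p ^ m := by
    rw [← hcard, ← Nat.card_eq_fintype_card]
    refine Nat.card_congr (Equiv.ofBijective (fun a : N => a • ω₀) ⟨hinj, fun ω => ?_⟩)
    exact MulAction.exists_smul_eq N ω₀ ω
  have hpx : ∀ x : Additive N, p • x = 0 := by
    intro x
    apply Additive.toMul.injective
    rw [toMul_nsmul]
    exact Subtype.ext (hNp _ x.toMul.2)
  let φ : Additive N →+ Additive N :=
    MonoidHom.toAdditive (MulAut.conjNormal g : MulAut N).toMonoidHom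
  have hφ : ∀ v : Additive N, ((φ v).toMul : G) = g * (v.toMul : G) * g⁻¹ := fun v => rfl
  obtain ⟨c, hc⟩ := MulAction.exists_smul_eq N ω₀ (g • ω₀)
  have hLk : ∀ (k : ℕ) (v : Additive N),
      ((fun v => φ v + Additive.ofMul c)^[k] v).toMul • ω₀ = g ^ k • v.toMul • ω₀ := by
    intro k
    induction k with
    | zero => intro v; simp
    | succ k ih =>
      intro v
      rw [Function.iterate_succ_apply', toMul_add, mul_smul, toMul_ofMul, hc, pow_succ', mul_smul,
        ← ih, Subgroup.smul_def, hφ, Subgroup.smul_def, mul_smul, mul_smul, inv_smul_smul]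
  have h2 := affine_unipotent p m hpx hcardN φ (Additive.ofMul c) r (r - 1) (by
    intro v
    have hw2 := hLk (p ^ r) v
    rw [← hg, pow_orderOf_eq_one, one_smul, hg] at hw2
    exact Additive.toMul.injective (hinj _ _ hw2)) hlt
  have h3 : g ^ p ^ (r - 1) = 1 := by
    apply eq_of_smul_eq_smul (α := Ω)
    intro ω
    obtain ⟨n, rfl⟩ := MulAction.exists_smul_eq N ω₀ ω
    have hw2 := hLk (p ^ (r - 1)) (Additive.ofMul n)
    rw [h2] at hw2
    rw [one_smul]
    exact hw2.symm
  have h4 := orderOf_dvd_of_pow_eq_one h3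
  rw [hg, Nat.pow_dvd_pow_iff_le_right hp.one_lt] at h4
  omega

end Cfsg.Agent.S3508
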