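import Cfsg.Statements.S3511

set_option autoImplicit false
open Cfsg

namespace Cfsg.Agent.S3511

theorem result {G : Type*} [Group G] [Finite G] {Ω : Type*} [MulAction G Ω] [FaithfulSMul G Ω]
    (h : ∀ g : G, Squarefree (orderOf g) → ∃ ω : Ω, MulAction.stabilizer (Subgroup.zpowers g) ω = ⊥) (g : G) :
    ∃ ω : Ω, MulAction.stabilizer (Subgroup.zpowers g) ω = ⊥ := by
  have hn : 0 < orderOf g := orderOf_pos g
  set n := orderOf g with hndef
  set r := UniqueFactorizationMonoid.radical n with hr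
  have hrd : r ∣ n := UniqueFactorizationMonoid.radical_dvd_self
  have hord : orderOf (g ^ (n / r)) = r := orderOf_pow_orderOf_div hn.ne' hrd
  obtain ⟨ω, hω⟩ := h (g ^ (n / r)) (by rw [hord]; exact UniqueFactorizationMonoid.squarefree_radical)
  refine ⟨ω, ?_⟩
  by_contra hne
  -- the stabilizer contains an element of prime order
  have : Nontrivial (MulAction.stabilizer (Subgroup.zpowers g) ω) :=
    (Subgroup.nontrivial_iff_ne_bot _).2 hne
  have hc : 1 < Nat.card (MulAction.stabilizer (Subgroup.zpowers g) ω) := Finite.one_lt_card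
  obtain ⟨p, hp, hpd⟩ := Nat.exists_prime_and_dvd hc.ne'
  have := Fact.mk hp
  obtain ⟨x, hx⟩ := exists_prime_orderOf_dvd_card' p hpd
  obtain ⟨⟨y, hy⟩, hy2⟩ := x
  have hyo : orderOf y = p := by
    rw [← hx, ← Subgroup.orderOf_coe, ← Subgroup.orderOf_coe]
  obtain ⟨k, rfl⟩ := (Submonoid.mem_powers_iff y g).1 ((mem_powers_iff_mem_zpowers).2 hy)
  have hpn : p ∣ n := by
    rw [← hyo]; exact orderOf_pow_dvd k
  have hpr : p ∣ r := by
    rw [hr, Nat.radical_eq_prod_primeFactors]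
    exact Finset.dvd_prod_of_mem _ (Nat.mem_primeFactors.2 ⟨hp, hpn, hn.ne'⟩)
  have h1 : n ∣ k * p := by
    rw [hndef, orderOf_dvd_iff_pow_eq_one, pow_mul, ← hyo, pow_orderOf_eq_one]
  have h2 : n / r ∣ k := by
    obtain ⟨s, hs⟩ := hpr
    obtain ⟨u, hu⟩ := hrd
    have hr0 : 0 < r := Nat.pos_of_dvd_of_pos ⟨u, hu⟩ hn
    have : n / r = u := by rw [hu]; exact Nat.mul_div_cancel_left u hr0
    rw [this]
    rw [hu, hs] at h1
    have h3 : u * p ∣ k * p := Dvd.dvd.trans ⟨s, by ring⟩ h1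
    exact Nat.dvd_of_mul_dvd_mul_right hp.pos h3
  obtain ⟨j, rfl⟩ := h2
  have hmem : g ^ (n / r * j) ∈ Subgroup.zpowers (g ^ (n / r)) := by
    rw [pow_mul]; exact Subgroup.pow_mem _ (Subgroup.mem_zpowers _) _
  have h4 : (⟨_, hmem⟩ : Subgroup.zpowers (g ^ (n / r))) ∈
      MulAction.stabilizer (Subgroup.zpowers (g ^ (n / r))) ω := hy2
  rw [hω, Subgroup.mem_bot] at h4
  have h5 : g ^ (n / r * j) = 1 := congrArg Subtype.val h4
  rw [h5, orderOf_one] at hyo
  exact hp.one_lt.ne hyo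

end Cfsg.Agent.S3511
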