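import Cfsg.Statements.S3514

set_option autoImplicit false
open Cfsg

namespace Cfsg.Agent.S3514

theorem swap_index {G : Type*} [Group G] (S K : Subgroup G) :
    S.relIndex K * K.index = K.relIndex S * S.index := by
  rw [← Subgroup.inf_relIndex_right S K, Subgroup.relIndex_mul_index inf_le_right,
    ← Subgroup.inf_relIndex_left S K, Subgroup.relIndex_mul_index inf_le_left]

theorem lemA {G : Type*} [Group G] [Finite G] (S K : Subgroup G) [K.Normal] :
    S.relIndex K ∣ S.index := by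
  obtain ⟨c, hc⟩ := Subgroup.relIndex_dvd_index_of_normal K S
  have h := swap_index S K
  have h0 : K.relIndex S ≠ 0 := Subgroup.index_ne_zero_of_finite
  refine ⟨c, ?_⟩
  rw [hc] at h
  apply Nat.eq_of_mul_eq_mul_left (Nat.pos_of_ne_zero h0)
  rw [← h]; ring

theorem lemB {G : Type*} [Group G] [Finite G] (S K : Subgroup G) [K.Normal] (h : K ⊔ S = ⊤) :
    S.index ∣ Nat.card K := by
  have h1 := swap_index S K
  have h2 : K.relIndex S = K.index := by
    rw [← Subgroup.relIndex_sup_left S K, h, Subgroup.relIndex_top_right]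
  have h0 : K.index ≠ 0 := Subgroup.index_ne_zero_of_finite
  rw [h2, mul_comm] at h1
  rw [← Nat.eq_of_mul_eq_mul_left (Nat.pos_of_ne_zero h0) h1]
  exact Subgroup.relIndex_dvd_card _ _

theorem card_orbit {G X : Type*} [Group G] [MulAction G X] (H : Subgroup G) (v : X) :
    Nat.card {u : X | ∃ h ∈ H, h • v = u} = (MulAction.stabilizer G v).relIndex H := by
  have h1 : {u : X | ∃ h ∈ H, h • v = u} = MulAction.orbit H v := by
    ext u
    constructor
    · rintro ⟨h, hh, rfl⟩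
      exact ⟨⟨h, hh⟩, rfl⟩
    · rintro ⟨⟨h, hh⟩, rfl⟩
      exact ⟨h, hh, rfl⟩
  have h2 : (MulAction.stabilizer G v).subgroupOf H = MulAction.stabilizer H v := by
    ext; rfl
  rw [h1, Subgroup.relIndex, h2, MulAction.index_stabilizer]
  rfl

theorem result (p : ℕ) [Fact p.Prime] {V : Type*} [AddCommGroup V] [Module (ZMod p) V] [Finite V]
    (H : Subgroup (V ≃ₗ[ZMod p] V)) (hH : ∀ v : V, ¬ p ∣ Nat.card {u : V | ∃ h ∈ H, h v = u}) :
    (∀ K : Subgroup (V ≃ₗ[ZMod p] V), K ≤ H → H ≤ Subgroup.normalizer (K : Set (V ≃ₗ[ZMod p] V)) →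
        ∀ v : V, ¬ p ∣ Nat.card {u : V | ∃ k ∈ K, k v = u}) ∧
    (∀ N : Subgroup (V ≃ₗ[ZMod p] V), ¬ p ∣ Nat.card N → H ≤ Subgroup.normalizer (N : Set (V ≃ₗ[ZMod p] V)) →
        ∀ v : V, ¬ p ∣ Nat.card {u : V | ∃ x ∈ N ⊔ H, x v = u}) := by
  have hfin : Finite (V ≃ₗ[ZMod p] V) :=
    Finite.of_injective (fun f : V ≃ₗ[ZMod p] V => (f : V → V)) DFunLike.coe_injective
  have co : ∀ (L : Subgroup (V ≃ₗ[ZMod p] V)) (v : V), Nat.card {u : V | ∃ h ∈ L, h v = u} =
      (MulAction.stabilizer (V ≃ₗ[ZMod p] V) v).relIndex L := fun L v => card_orbit L v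
  constructor
  · intro K hKH hN v hdvd
    apply hH v
    rw [co] at hdvd ⊢
    have : (K.subgroupOf H).Normal := (Subgroup.normal_subgroupOf_iff_le_normalizer hKH).2 hN
    have h := lemA ((MulAction.stabilizer (V ≃ₗ[ZMod p] V) v).subgroupOf H) (K.subgroupOf H)
    rw [Subgroup.relIndex_subgroupOf hKH] at h
    exact hdvd.trans h
  · intro N hNp hN v hdvd
    rw [co] at hdvd
    have hHv := hH v
    rw [co] at hHv
    set S := MulAction.stabilizer (V ≃ₗ[ZMod p] V) v
    have : (N.subgroupOf (N ⊔ H)).Normal :=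
      (Subgroup.normal_subgroupOf_iff_le_normalizer le_sup_left).2
        (sup_le Subgroup.le_normalizer hN)
    have hB := lemB (H.subgroupOf (N ⊔ H)) (N.subgroupOf (N ⊔ H)) (by
      rw [← Subgroup.subgroupOf_sup le_sup_left le_sup_right, Subgroup.subgroupOf_self])
    rw [Nat.card_congr (Subgroup.subgroupOfEquivOfLe le_sup_left).toEquiv] at hB
    have h1 := Subgroup.relIndex_inf_mul_relIndex S H (N ⊔ H)
    rw [inf_of_le_left le_sup_right] at h1
    have h2 : S.relIndex (N ⊔ H) ∣ (S ⊓ H).relIndex (N ⊔ H) :=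
      Subgroup.relIndex_dvd_of_le_left _ inf_le_left
    have h3 := hdvd.trans h2
    rw [← h1] at h3
    rcases (Nat.Prime.dvd_mul Fact.out).1 h3 with h | h
    · exact hHv h
    · exact hNp (h.trans hB)

end Cfsg.Agent.S3514
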