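import Cfsg.Statements.S3515
import Cfsg.Agent.H5.AffineClosure

set_option autoImplicit false
open Cfsg

namespace Cfsg.Agent.S3515

theorem two_case (x : Fin 2 → ZMod 2) :
    x = 0 ∨ x = Pi.single 0 1 ∨ x = Pi.single 1 1 ∨ x = 1 := by
  revert x
  decide

theorem ne0 : (0 : Fin 2 → ZMod 2) ≠ 1 := by decide
theorem ne1 : (Pi.single 0 1 : Fin 2 → ZMod 2) ≠ 1 := by decide
theorem ne2 : (Pi.single 1 1 : Fin 2 → ZMod 2) ≠ 1 := by decide

theorem result (p : ℕ) [Fact p.Prime] (G : Subgroup (Equiv.Perm (Fin 2 → ZMod p)))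
    (haff : (G : Set (Equiv.Perm (Fin 2 → ZMod p))) ⊆ {τ : Equiv.Perm (Fin 2 → ZMod p) | ∃ (A : (Fin 2 → ZMod p) ≃ₗ[ZMod p] (Fin 2 → ZMod p)) (b : Fin 2 → ZMod p), ∀ x, τ x = A x + b})
    (htrans : ∀ b : Fin 2 → ZMod p, ∃ g ∈ G, ∀ x, g x = x + b) (hprim : MulAction.IsPreprimitive G (Fin 2 → ZMod p))
    (σ : Equiv.Perm (Fin 2 → ZMod p)) (hσ : (∀ t : Fin 3 → (Fin 2 → ZMod p), ∃ g ∈ G, ∀ i, σ (t i) = g (t i))) : σ ∈ G := by
  obtain ⟨g, hg, hgt⟩ := hσ ![0, Pi.single 0 1, Pi.single 1 1]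
  have h0 : σ 0 = g 0 := hgt 0
  have h1 : σ (Pi.single 0 1) = g (Pi.single 0 1) := hgt 1
  have h2 : σ (Pi.single 1 1) = g (Pi.single 1 1) := hgt 2
  suffices σ = g by rw [this]; exact hg
  by_cases hp : p = 2
  · subst hp
    have h3 : σ 1 = g 1 := by
      obtain ⟨y, hy⟩ := g.surjective (σ 1)
      rcases two_case y with rfl | rfl | rfl | rfl
      · rw [← h0] at hy; exact absurd (σ.injective hy) ne0
      · rw [← h1] at hy; exact absurd (σ.injective hy) ne1
      · rw [← h2] at hy; exact absurd (σ.injective hy) ne2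
      · exact hy.symm
    refine Equiv.ext fun x => ?_
    rcases two_case x with rfl | rfl | rfl | rfl <;> assumption
  · have h2' : (2 : ZMod p) ≠ 0 := by
      intro h
      have : ((2 : ℕ) : ZMod p) = 0 := by exact_mod_cast h
      rw [ZMod.natCast_eq_zero_iff] at this
      exact hp ((Nat.prime_dvd_prime_iff_eq Fact.out Nat.prime_two).1 this)
    obtain ⟨A, b, hA⟩ := H5.affine_of_three h2' σ (by
      intro t
      obtain ⟨g, hg, hgt⟩ := hσ t
      obtain ⟨A, b, hA⟩ := haff hg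
      exact ⟨A, b, fun i => by rw [hgt, hA]⟩)
    obtain ⟨B, c, hB⟩ := haff hg
    rw [hA, hB] at h0 h1 h2
    simp only [map_zero, zero_add] at h0
    subst h0
    have h1' := add_right_cancel h1
    have h2' := add_right_cancel h2
    refine Equiv.ext fun x => ?_
    have hx : x = x 0 • (Pi.single 0 1 : Fin 2 → ZMod p) + x 1 • (Pi.single 1 1 : Fin 2 → ZMod p) := by
      ext i; fin_cases i <;> simp
    rw [hA, hB, hx, map_add, map_add, map_smul, map_smul, map_smul, map_smul, h1', h2']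

end Cfsg.Agent.S3515
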