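import Cfsg.Statements.S3516
import Cfsg.Agent.H5.AffineClosure

set_option autoImplicit false
open Cfsg

namespace Cfsg.Agent.S3516

theorem result (p : ℕ) [Fact p.Prime] (hp : p ≠ 2) (d : ℕ) (hd : 3 ≤ d) (G : Subgroup (Equiv.Perm (Fin d → ZMod p)))
    (haff : (G : Set (Equiv.Perm (Fin d → ZMod p))) ⊆ {τ : Equiv.Perm (Fin d → ZMod p) | ∃ (A : (Fin d → ZMod p) ≃ₗ[ZMod p] (Fin d → ZMod p)) (b : Fin d → ZMod p), ∀ x, τ x = A x + b})
    (htrans : ∀ b : Fin d → ZMod p, ∃ g ∈ G, ∀ x, g x = x + b)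
    (hsl : ∀ A : (Fin d → ZMod p) ≃ₗ[ZMod p] (Fin d → ZMod p), LinearMap.det (A : (Fin d → ZMod p) →ₗ[ZMod p] (Fin d → ZMod p)) = 1 → ∃ g ∈ G, ∀ x, g x = A x)
    (σ : Equiv.Perm (Fin d → ZMod p)) :
    (∀ t : Fin 3 → (Fin d → ZMod p), ∃ g ∈ G, ∀ i, σ (t i) = g (t i)) ↔ σ ∈ {τ : Equiv.Perm (Fin d → ZMod p) | ∃ (A : (Fin d → ZMod p) ≃ₗ[ZMod p] (Fin d → ZMod p)) (b : Fin d → ZMod p), ∀ x, τ x = A x + b} := by
  have h2 : (2 : ZMod p) ≠ 0 := by
    intro h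
    have : ((2 : ℕ) : ZMod p) = 0 := by exact_mod_cast h
    rw [ZMod.natCast_eq_zero_iff] at this
    exact hp ((Nat.prime_dvd_prime_iff_eq Fact.out Nat.prime_two).1 this)
  constructor
  · intro h
    apply H5.affine_of_three h2
    intro t
    obtain ⟨g, hg, hgt⟩ := h t
    obtain ⟨A, b, hA⟩ := haff hg
    exact ⟨A, b, fun i => by rw [hgt, hA]⟩
  · rintro ⟨A, b, hA⟩ t
    let W : Submodule (ZMod p) (Fin d → ZMod p) :=
      Submodule.span (ZMod p) (Set.range ![t 1 - t 0, t 2 - t 0])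
    have hW : W ≠ ⊤ := by
      intro hW
      have h1 : Module.finrank (ZMod p) W ≤ 2 := by
        have := finrank_range_le_card (R := ZMod p) ![t 1 - t 0, t 2 - t 0]
        rw [Fintype.card_fin] at this
        exact this
      rw [hW, finrank_top, Module.finrank_fin_fun] at h1
      omega
    obtain ⟨B, hB, hBW⟩ := H5.exists_det_one_agree W hW A
    obtain ⟨g1, hg1, h1⟩ := htrans (-t 0)
    obtain ⟨g2, hg2, h2⟩ := hsl B hB
    obtain ⟨g3, hg3, h3⟩ := htrans (A (t 0) + b)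
    refine ⟨g3 * g2 * g1, G.mul_mem (G.mul_mem hg3 hg2) hg1, fun i => ?_⟩
    have hi : t i + -t 0 ∈ W := by
      rw [← sub_eq_add_neg]
      fin_cases i
      · simp
      · exact Submodule.subset_span ⟨0, rfl⟩
      · exact Submodule.subset_span ⟨1, rfl⟩
    rw [Equiv.Perm.mul_apply, Equiv.Perm.mul_apply, h1, h2, h3, hBW _ hi, hA, map_add, map_neg]
    abel

end Cfsg.Agent.S3516
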