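import Cfsg.Statements.S3517
import Cfsg.Agent.H5.AffineClosure

set_option autoImplicit false
open Cfsg

namespace Cfsg.Agent.S3517

theorem li_two {V : Type*} [AddCommGroup V] [Module (ZMod 2) V] {u v : V} (hu : u ≠ 0)
    (hv : v ≠ 0) (huv : u ≠ v) : LinearIndependent (ZMod 2) ![u, v] := by
  rw [LinearIndependent.pair_iff]
  intro s t hst
  have hall : ∀ s : ZMod 2, s = 0 ∨ s = 1 := by decide
  have hs := hall s
  have ht := hall t
  rcases hs with rfl | rfl <;> rcases ht with rfl | rfl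
  · exact ⟨rfl, rfl⟩
  · simp [hv] at hst
  · simp [hu] at hst
  · exfalso
    apply huv
    have h2 : v + v = 0 := by
      rw [← two_smul (ZMod 2)]
      have : (2 : ZMod 2) = 0 := rfl
      rw [this, zero_smul]
    simp only [one_smul] at hst
    exact add_right_cancel (hst.trans h2.symm)

theorem exists_pair {V : Type*} [AddCommGroup V] [Module (ZMod 2) V] (u v u' v' : V)
    (hu : u = 0 ↔ u' = 0) (hv : v = 0 ↔ v' = 0) (huv : u = v ↔ u' = v') :
    ∃ A : V ≃ₗ[ZMod 2] V, A u = u' ∧ A v = v' := by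
  have one : ∀ w w' : V, (w = 0 ↔ w' = 0) → ∃ A : V ≃ₗ[ZMod 2] V, A w = w' := by
    intro w w' hw
    by_cases h0 : w = 0
    · exact ⟨LinearEquiv.refl _ _, by rw [hw.1 h0, h0]; rfl⟩
    · obtain ⟨A, hA⟩ := H5.exists_linearEquiv_of_linearIndependent (K := ZMod 2) ![w] ![w']
        (by simpa using h0) (by simpa using fun h => h0 (hw.2 h))
      exact ⟨A, hA 0⟩
  by_cases hu0 : u = 0
  · obtain ⟨A, hA⟩ := one v v' hv
    exact ⟨A, by rw [hu.1 hu0, hu0, map_zero], hA⟩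
  by_cases hv0 : v = 0
  · obtain ⟨A, hA⟩ := one u u' hu
    exact ⟨A, hA, by rw [hv.1 hv0, hv0, map_zero]⟩
  by_cases huv0 : u = v
  · obtain ⟨A, hA⟩ := one u u' hu
    exact ⟨A, hA, by rw [← huv0, ← huv.1 huv0, hA]⟩
  obtain ⟨A, hA⟩ := H5.exists_linearEquiv_of_linearIndependent (K := ZMod 2) ![u, v] ![u', v']
    (li_two hu0 hv0 huv0)
    (li_two (fun h => hu0 (hu.2 h)) (fun h => hv0 (hv.2 h)) (fun h => huv0 (huv.2 h)))
  exact ⟨A, hA 0, hA 1⟩

theorem result (d : ℕ) (hd : 3 ≤ d) (σ : Equiv.Perm (Fin d → ZMod 2)) (t : Fin 3 → (Fin d → ZMod 2)) :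
    ∃ (A : (Fin d → ZMod 2) ≃ₗ[ZMod 2] (Fin d → ZMod 2)) (b : Fin d → ZMod 2), ∀ i, σ (t i) = A (t i) + b := by
  obtain ⟨A, h1, h2⟩ := exists_pair (t 1 - t 0) (t 2 - t 0) (σ (t 1) - σ (t 0)) (σ (t 2) - σ (t 0))
    (by simp [sub_eq_zero]) (by simp [sub_eq_zero]) (by simp)
  refine ⟨A, σ (t 0) - A (t 0), fun i => ?_⟩
  rw [map_sub] at h1 h2
  fin_cases i
  · simp
  · change σ (t 1) = A (t 1) + _
    rw [add_sub, ← sub_add_cancel (σ (t 1)) (σ (t 0)), ← h1]; abel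
  · change σ (t 2) = A (t 2) + _
    rw [add_sub, ← sub_add_cancel (σ (t 2)) (σ (t 0)), ← h2]; abel

end Cfsg.Agent.S3517
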