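import Cfsg.Statements.S3518

set_option autoImplicit false
open Cfsg

namespace Cfsg.Agent.S3518

open Polynomial

theorem affine_of_pow_sub (p : ℕ) [Fact p.Prime] (d : ℕ) (hd1 : 1 ≤ d) (hd : 2 * d < p)
    (σ : Equiv.Perm (ZMod p)) (h : ∀ x y, (σ y - σ x) ^ d = (y - x) ^ d) :
    ∃ a b : ZMod p, ∀ x, σ x = a * x + b := by
  classical
  have hQ : ∀ k ≤ d, ∃ Q : (ZMod p)[X], Q.natDegree ≤ d ∧ ∀ x, Q.eval x = (-σ x) ^ k := by
    intro k hk
    have hc : ((d.choose (d - k) : ℕ) : ZMod p) ≠ 0 := by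
      rw [Ne, ZMod.natCast_eq_zero_iff]
      intro hdvd
      have h1 : p ∣ d.factorial := by
        rw [← Nat.choose_mul_factorial_mul_factorial (Nat.sub_le d k), mul_assoc]
        exact hdvd.mul_right _
      have := (Nat.Prime.dvd_factorial Fact.out).1 h1
      omega
    refine ⟨C ((d.choose (d - k) : ZMod p)⁻¹) *
      ∑ y : ZMod p, C ((Lagrange.basis Finset.univ σ y).coeff (d - k)) * (C y - X) ^ d, ?_, ?_⟩
    · refine (natDegree_C_mul_le _ _).trans (natDegree_sum_le_of_forall_le _ _ fun y _ => ?_)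
      refine (natDegree_C_mul_le _ _).trans (natDegree_pow_le.trans ?_)
      have : (C y - X : (ZMod p)[X]).natDegree ≤ 1 := by compute_degree
      nlinarith
    · intro x
      have hdeg : ((X + C (-σ x)) ^ d : (ZMod p)[X]).degree < (Finset.univ : Finset (ZMod p)).card := by
        rw [Finset.card_univ, ZMod.card]
        have h1 : ((X + C (-σ x)) ^ d : (ZMod p)[X]).natDegree ≤ d := by
          refine natDegree_pow_le.trans ?_
          rw [natDegree_X_add_C]; omega
        refine (degree_le_of_natDegree_le h1).trans_lt ?_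
        exact_mod_cast (by omega : d < p)
      have h1 := Lagrange.eq_interpolate (s := Finset.univ) (v := σ) σ.injective.injOn hdeg
      have h2 := congrArg (fun q => q.coeff (d - k)) h1
      simp only [coeff_X_add_C_pow, Lagrange.interpolate_apply, finsetSum_coeff, coeff_C_mul,
        eval_pow, eval_add, eval_X, eval_C] at h2
      rw [Nat.sub_sub_self hk] at h2
      simp only [eval_mul, eval_C, eval_finsetSum, eval_pow, eval_sub, eval_X]
      rw [inv_mul_eq_iff_eq_mul₀ hc, mul_comm _ ((-σ x) ^ k), h2]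
      refine Finset.sum_congr rfl fun y _ => ?_
      rw [← sub_eq_add_neg, h, mul_comm]
  obtain ⟨f, hf, hfe⟩ := hQ 1 hd1
  have hf1 : f.natDegree ≤ 1 := by
    by_contra hm
    push Not at hm
    set m := f.natDegree with hmdef
    have hk : d / m + 1 ≤ d := Nat.div_lt_self hd1 hm
    obtain ⟨Q, hQd, hQe⟩ := hQ _ hk
    have e1 : (f ^ (d / m + 1)).natDegree = (d / m + 1) * m := by rw [natDegree_pow]
    have e2 : d < (d / m + 1) * m := by
      rw [mul_comm]; exact Nat.lt_mul_div_succ d (by omega)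
    have e3 : (d / m + 1) * m ≤ d + m := by
      have := Nat.div_mul_le_self d m
      nlinarith
    have : f ^ (d / m + 1) = Q := by
      apply eq_of_natDegree_lt_card_of_eval_eq _ _ (f := id) Function.injective_id
      · intro x
        simp only [id, eval_pow, hfe, hQe, pow_one]
      · rw [ZMod.card, e1]
        omega
    rw [this] at e1
    omega
  rw [eq_X_add_C_of_natDegree_le_one hf1] at hfe
  refine ⟨-f.coeff 1, -f.coeff 0, fun x => ?_⟩
  have := hfe x
  simp only [eval_add, eval_mul, eval_C, eval_X, pow_one] at this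
  linear_combination this

theorem result (p : ℕ) [Fact p.Prime] (G : Subgroup (Equiv.Perm (ZMod p))) (hG : G ≤ Cfsg.affineGroup (ZMod p))
    (htrans : ∀ b : ZMod p, ∃ g ∈ G, ∀ x, g x = x + b) :
    (G ≠ Cfsg.affineGroup (ZMod p) → ∀ σ : Equiv.Perm (ZMod p), (∀ t : Fin 2 → ZMod p, ∃ g ∈ G, ∀ i, σ (t i) = g (t i)) → σ ∈ G) ∧
    (∀ σ : Equiv.Perm (ZMod p), (∀ t : Fin 2 → ZMod p, ∃ g ∈ Cfsg.affineGroup (ZMod p), ∀ i, σ (t i) = g (t i))) ∧
    (∀ σ : Equiv.Perm (ZMod p), (∀ t : Fin 3 → ZMod p, ∃ g ∈ Cfsg.affineGroup (ZMod p), ∀ i, σ (t i) = g (t i)) → σ ∈ Cfsg.affineGroup (ZMod p)) := by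
  refine ⟨?_, ?_, ?_⟩
  · intro hne σ hσ
    let H : Subgroup (ZMod p)ˣ :=
      { carrier := {a | ∃ g ∈ G, ∃ b : ZMod p, ∀ x, g x = (a : ZMod p) * x + b}
        one_mem' := ⟨1, G.one_mem, 0, fun x => by simp⟩
        mul_mem' := by
          rintro a c ⟨σ, hσG, b, hσ⟩ ⟨τ, hτG, d, hτ⟩
          refine ⟨σ * τ, G.mul_mem hσG hτG, (a : ZMod p) * d + b, fun x => ?_⟩
          simp only [Equiv.Perm.coe_mul, Function.comp_apply, hτ, hσ, Units.val_mul, mul_add,
            mul_assoc, add_assoc]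
        inv_mem' := by
          rintro a ⟨σ, hσG, b, hσ⟩
          refine ⟨σ⁻¹, G.inv_mem hσG, -((a⁻¹ : (ZMod p)ˣ) : ZMod p) * b, fun x => ?_⟩
          apply σ.injective
          rw [Equiv.Perm.inv_def, Equiv.apply_symm_apply, hσ, mul_add, ← mul_assoc, Units.mul_inv,
            one_mul, neg_mul, mul_neg, ← mul_assoc, Units.mul_inv, one_mul, neg_add_cancel_right] }
    have hH : H ≠ ⊤ := by
      intro hH
      apply hne
      refine le_antisymm hG ?_
      rintro τ ⟨a, b, hτ⟩
      have ha : a ∈ H := hH ▸ Subgroup.mem_top a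
      obtain ⟨g, hg, c, hgc⟩ := ha
      obtain ⟨t, ht, htb⟩ := htrans (b - c)
      have : τ = t * g := by
        refine Equiv.ext fun x => ?_
        rw [Equiv.Perm.mul_apply, htb, hgc, hτ]; ring
      rw [this]; exact G.mul_mem ht hg
    have hp1 : 1 < p := (Fact.out : p.Prime).one_lt
    have hd : 2 * Nat.card H < p := by
      have h1 := H.index_mul_card
      have h2 : H.index ≠ 1 := by rwa [Ne, Subgroup.index_eq_one]
      have h3 : H.index ≠ 0 := Subgroup.index_ne_zero_of_finite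
      rw [Nat.card_eq_fintype_card (α := (ZMod p)ˣ), ZMod.card_units] at h1
      have h4 : 2 ≤ H.index := by omega
      have := Nat.mul_le_mul_right (Nat.card H) h4
      omega
    obtain ⟨a, b, hab⟩ := affine_of_pow_sub p (Nat.card H) Nat.card_pos hd σ (by
      intro x y
      obtain ⟨g, hg, hgt⟩ := hσ ![x, y]
      obtain ⟨c, e, hce⟩ := hG hg
      have hc : c ∈ H := ⟨g, hg, e, hce⟩
      have hc1 : c ^ Nat.card H = 1 := by
        have := pow_card_eq_one' (x := (⟨c, hc⟩ : H))
        exact congrArg Subtype.val this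
      have hc2 : (c : ZMod p) ^ Nat.card H = 1 := by
        rw [← Units.val_pow_eq_pow_val, hc1, Units.val_one]
      have h0 : σ x = g x := hgt 0
      have h1 : σ y = g y := hgt 1
      rw [h0, h1, hce, hce, add_sub_add_right_eq_sub, ← mul_sub, mul_pow, hc2, one_mul])
    obtain ⟨g, hg, hgt⟩ := hσ ![0, 1]
    obtain ⟨c, e, hce⟩ := hG hg
    have h0 : σ 0 = g 0 := hgt 0
    have h1 : σ 1 = g 1 := hgt 1
    rw [hab, hce] at h0 h1
    have : σ = g := by
      refine Equiv.ext fun x => ?_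
      rw [hab, hce]
      linear_combination x * h1 + (1 - x) * h0
    rw [this]; exact hg
  · intro σ t
    by_cases h : t 0 = t 1
    · refine ⟨Equiv.addRight (σ (t 0) - t 0), ⟨1, σ (t 0) - t 0, fun x => by simp⟩, fun i => ?_⟩
      fin_cases i
      · simp
      · simp [← h]
    · have h1 : t 1 - t 0 ≠ 0 := sub_ne_zero.2 (Ne.symm h)
      have h2 : σ (t 1) - σ (t 0) ≠ 0 := sub_ne_zero.2 (fun e => h (σ.injective e).symm)
      have h3 : (σ (t 1) - σ (t 0)) / (t 1 - t 0) ≠ 0 := div_ne_zero h2 h1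
      set a := (σ (t 1) - σ (t 0)) / (t 1 - t 0) with ha
      refine ⟨(Equiv.mulLeft₀ a h3).trans (Equiv.addRight (σ (t 0) - a * t 0)),
        ⟨Units.mk0 a h3, σ (t 0) - a * t 0, fun x => by simp⟩, fun i => ?_⟩
      fin_cases i
      · simp
      · have : a * (t 1 - t 0) = σ (t 1) - σ (t 0) := by rw [ha]; field_simp
        simp
        linear_combination -this
  · intro σ hσ
    obtain ⟨g, ⟨c, e, hce⟩, hgt⟩ := hσ ![0, 1, 0]
    refine ⟨c, e, fun x => ?_⟩
    obtain ⟨g', ⟨c', e', hce'⟩, hgt'⟩ := hσ ![0, 1, x]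
    have h0 : σ 0 = g 0 := hgt 0
    have h1 : σ 1 = g 1 := hgt 1
    have h0' : σ 0 = g' 0 := hgt' 0
    have h1' : σ 1 = g' 1 := hgt' 1
    have h2' : σ x = g' x := hgt' 2
    rw [hce] at h0 h1
    rw [hce'] at h0' h1' h2'
    linear_combination h2' + x * h1 + (1 - x) * h0 - x * h1' - (1 - x) * h0'

end Cfsg.Agent.S3518
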