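import Cfsg.Statements.S3524

set_option autoImplicit false
open Cfsg

namespace Cfsg.Agent.S3524

theorem result {Ω : Type*} (G : Subgroup (Equiv.Perm Ω)) (k : ℕ) (α : Fin k → Ω)
    (hbase : ∀ g ∈ G, (∀ i, g (α i) = α i) → g = 1) (σ : Equiv.Perm Ω)
    (hσ : ∀ t : Fin (k + 1) → Ω, ∃ g ∈ G, ∀ i, σ (t i) = g (t i)) : σ ∈ G := by
  by_cases hΩ : Nonempty Ω
  · obtain ⟨ω₀⟩ := hΩ
    obtain ⟨g₀, hg₀, h₀⟩ := hσ (Fin.cons ω₀ α)
    have : σ = g₀ := by
      ext ω
      obtain ⟨g, hg, h⟩ := hσ (Fin.cons ω α)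
      have h1 : g₀⁻¹ * g = 1 := by
        apply hbase _ (G.mul_mem (G.inv_mem hg₀) hg)
        intro i
        have a := h i.succ
        have b := h₀ i.succ
        simp only [Fin.cons_succ] at a b
        rw [Equiv.Perm.mul_apply, ← a, b]
        simp
      have h2 : g = g₀ := by
        rw [inv_mul_eq_one] at h1
        exact h1.symm
      have := h 0
      simp only [Fin.cons_zero] at this
      rw [this, h2]
    rw [this]; exact hg₀
  · have : σ = 1 := by
      ext ω
      exact absurd ⟨ω⟩ hΩ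
    rw [this]; exact G.one_mem

end Cfsg.Agent.S3524
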