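import Cfsg.Statements.S3526
import Cfsg.Agent.H8.GK
import Cfsg.Agent.H8.FT
import Cfsg.Agent.H7.MinNormal

set_option autoImplicit false
open Cfsg

namespace Cfsg.Agent.S3526

open Subgroup Cfsg.Agent.H6 Cfsg.Agent.H7 Cfsg.Agent.H8 in
theorem aux {G : Type*} [Group G] [Finite G] {H : Type*} [Group H] [Finite H] [Nontrivial H]
    (h : ∃ n : ℕ, ∀ (K : Type) [Group K] [Finite K],
      ((∀ p : ℕ, p.Prime → (p ∣ Nat.card G ↔ p ∣ Nat.card K)) ∧
      (∀ p q : ℕ, p.Prime → q.Prime → p ≠ q → ((∃ g : G, orderOf g = p * q) ↔ (∃ g : K, orderOf g = p * q)))) → Nat.card K ≤ n)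
    (h1 : ∀ p : ℕ, p.Prime → (p ∣ Nat.card G ↔ p ∣ Nat.card H))
    (h2 : ∀ p q : ℕ, p.Prime → q.Prime → p ≠ q → ((∃ g : G, orderOf g = p * q) ↔ (∃ g : H, orderOf g = p * q))) :
    ∃ N : Subgroup H, N.Normal ∧ IsSimpleGroup ↥N ∧ ¬ IsMulCommutative ↥N ∧ Subgroup.centralizer (N : Set H) = ⊥ := by
  obtain ⟨n, hn⟩ := h
  have hno : ¬ ∃ (K : Type) (_ : Group K) (_ : Finite K), n < Nat.card K ∧
      ((∀ p : ℕ, p.Prime → (p ∣ Nat.card H ↔ p ∣ Nat.card K)) ∧
      (∀ p q : ℕ, p.Prime → q.Prime → p ≠ q →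
        ((∃ g : H, orderOf g = p * q) ↔ (∃ g : K, orderOf g = p * q)))) := by
    rintro ⟨K, _, _, hlt, h3, h4⟩
    exact hlt.not_ge (hn K ⟨fun p hp => (h1 p hp).trans (h3 p hp),
      fun p q hp hq hpq => (h2 p q hp hq hpq).trans (h4 p q hp hq hpq)⟩)
  have hsol : ∀ N : Subgroup H, N.Normal → N ≠ ⊥ → ¬ Group.IsSolvable N := by
    intro N _ hN hs
    exact hno (primeGraph_large_of (G := H) (L := H) (exists_large_isospectral N hN hs)
      (fun _ _ => Iff.rfl) (fun _ _ _ _ _ => Iff.rfl) n)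
  have hev : ∀ N : Subgroup H, ¬ Group.IsSolvable N → 2 ∣ Nat.card N := by
    intro N hN
    by_contra h0
    exact hN (Cfsg.Agent.H9.FT.feitThompson N (Nat.odd_iff.2 (by omega)))
  have hadj : ∀ A B : Subgroup H, ⁅A, B⁆ = ⊥ → ∀ p : ℕ, p.Prime → p ≠ 2 → p ∣ Nat.card A →
      2 ∣ Nat.card B → ∃ g : H, orderOf g = p * 2 := by
    intro A B hAB p hp hp2 hA hB
    have := Fact.mk hp
    obtain ⟨x, hx⟩ := exists_prime_orderOf_dvd_card' p hA
    obtain ⟨y, hy⟩ := exists_prime_orderOf_dvd_card' 2 hB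
    rw [← Subgroup.orderOf_coe] at hx hy
    refine ⟨x * y, ?_⟩
    have hc : Commute (x : H) y :=
      (mem_centralizer_iff.1 (commutator_eq_bot_iff_le_centralizer.1 hAB x.2) y y.2).symm
    rw [hc.orderOf_mul_eq_mul_orderOf_of_coprime (by
      rw [hx, hy]; exact (Nat.coprime_primes hp Nat.prime_two).2 hp2), hx, hy]
  obtain ⟨M, hM⟩ := exists_isMinNormal H
  have := hM.normal
  have hMs := hsol M hM.normal hM.ne_bot
  have hc : ⁅M, M⁆ ≠ ⊥ := fun h0 => by
    have := isNilpotent_of_commutator_eq_bot h0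
    exact hMs inferInstance
  have hF := hM.fittingIn_eq_bot hc
  have hE := hM.layerIn_eq hc
  obtain ⟨L, hL⟩ := exists_compIn_of_fittingIn_eq_bot hM.ne_bot hF
  have hLM : L = M := by
    by_contra hne
    have : ∃ L', CompIn L' M ∧ L' ≠ L := by
      by_contra h0
      push Not at h0
      exact hne (le_antisymm hL.le (hE ▸ layerIn_le_iff.2 fun L' hL' => (h0 L' hL').le))
    obtain ⟨L', hL', hne'⟩ := this
    obtain ⟨e⟩ := nonempty_layerIn_mulEquiv_pow hF (T := L) (fun K hK => by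
      obtain ⟨g, rfl⟩ := hM.exists_conj_comp hL hK
      exact ⟨(Subgroup.equivSMul _ _).symm⟩)
    refine hno (gk_large_of_normal M (hev M hMs) (fun p hp hp2 hd => ?_) n)
    refine hadj L L' ((hL.eq_or_commutator hL').resolve_left hne'.symm) p hp hp2 ?_
      (hev _ hL'.not_isSolvable)
    rw [← hE, Nat.card_congr e.toEquiv, Nat.card_fun] at hd
    exact hp.dvd_of_dvd_pow hd
  subst hLM
  refine ⟨L, hM.normal, hL.isSimpleGroup hF, hL.not_isMulCommutative, ?_⟩
  by_contra hC
  refine hno (gk_large_of_normal L (hev L hMs) (fun p hp hp2 hd => ?_) n)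
  exact hadj L (centralizer (L : Set H)) (by
    rw [commutator_comm]; exact commutator_eq_bot_iff_le_centralizer.2 le_rfl) p hp hp2 hd
    (hev _ (hsol _ inferInstance hC))


/-- The prime graph of a finite group has the prime divisors of its order as vertices, two distinct primes p, q being joined when the group has an element of order pq; two groups have the same prime graph when they have the same prime divisors and the same joined pairs. Suppose only finitely many finite groups, up to isomorphism, have the same prime graph as the non-trivial finite group G (equivalently, their orders are bounded). Then G is almost simple (it has a non-abelian simple normal subgroup with trivial centralizer), and so is every finite group with the same prime graph as G. -/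
theorem result {G : Type*} [Group G] [Finite G] [Nontrivial G]
    (h : ∃ n : ℕ, ∀ (H : Type) [Group H] [Finite H],
      ((∀ p : ℕ, p.Prime → (p ∣ Nat.card G ↔ p ∣ Nat.card H)) ∧
      (∀ p q : ℕ, p.Prime → q.Prime → p ≠ q → ((∃ g : G, orderOf g = p * q) ↔ (∃ g : H, orderOf g = p * q)))) → Nat.card H ≤ n) :
    (∃ N : Subgroup G, N.Normal ∧ IsSimpleGroup ↥N ∧ ¬ IsMulCommutative ↥N ∧ Subgroup.centralizer (N : Set G) = ⊥) ∧
    ∀ (H : Type) [Group H] [Finite H],
      ((∀ p : ℕ, p.Prime → (p ∣ Nat.card G ↔ p ∣ Nat.card H)) ∧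
      (∀ p q : ℕ, p.Prime → q.Prime → p ≠ q → ((∃ g : G, orderOf g = p * q) ↔ (∃ g : H, orderOf g = p * q)))) →
      ∃ N : Subgroup H, N.Normal ∧ IsSimpleGroup ↥N ∧ ¬ IsMulCommutative ↥N ∧ Subgroup.centralizer (N : Set H) = ⊥ := by
  refine ⟨aux h (fun _ _ => Iff.rfl) (fun _ _ _ _ _ => Iff.rfl), fun H _ _ hH => ?_⟩
  have : Nontrivial H := by
    obtain ⟨p, hp, hd⟩ := Nat.exists_prime_and_dvd (Finite.one_lt_card (α := G)).ne'
    exact Finite.one_lt_card_iff_nontrivial.1
      (hp.one_lt.trans_le (Nat.le_of_dvd Nat.card_pos ((hH.1 p hp).1 hd)))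
  exact aux h hH.1 hH.2

end Cfsg.Agent.S3526
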