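import Cfsg.Statements.S3532
import Cfsg.Agent.H6.PrimeGraph
import Cfsg.Agent.H6.AltSpec

set_option autoImplicit false
open Cfsg

namespace Cfsg.Agent.S3532

/-- Let q ≥ 4 be a prime power and L = PSL(2,q). There is a finite solvable group with the same set of element orders as L × L (so L × L is not determined by its spectrum). -/
theorem result {F : Type*} [Field F] [Fintype F] (hF : 4 ≤ Fintype.card F) :
    ∃ (H : Type) (_ : Group H) (_ : Finite H), Group.IsSolvable H ∧
      Set.range (orderOf : H → ℕ) = Set.range (orderOf : Matrix.ProjectiveSpecialLinearGroup (Fin 2) F × Matrix.ProjectiveSpecialLinearGroup (Fin 2) F → ℕ) := by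
  classical
  obtain ⟨n, hp, hn⟩ := FiniteField.card F (ringChar F)
  set p := ringChar F with hpdef
  set q := Fintype.card F with hq
  have hpq : p ∣ q := by rw [hn]; exact dvd_pow_self _ n.ne_zero
  set b := (q - 1) / Nat.gcd (q - 1) 2 with hb
  set c := (q + 1) / Nat.gcd (q + 1) 2 with hc
  have hpb : ¬ p ∣ b := by
    intro h
    have h1 : p ∣ q - 1 := h.trans (Nat.div_dvd_of_dvd (Nat.gcd_dvd_left _ _))
    have h2 : p ∣ q - (q - 1) := Nat.dvd_sub hpq h1
    have h3 : q - (q - 1) = 1 := by omega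
    rw [h3] at h2
    exact hp.one_lt.ne' (Nat.dvd_one.mp h2)
  have hpc : ¬ p ∣ c := by
    intro h
    have h1 : p ∣ q + 1 := h.trans (Nat.div_dvd_of_dvd (Nat.gcd_dvd_left _ _))
    exact hp.one_lt.ne' (Nat.dvd_one.mp ((Nat.dvd_add_right hpq).mp h1))
  obtain ⟨H1, _, _, s1, e1, -⟩ := H6.exists_frobenius_cyclic hp hpb
  obtain ⟨H2, _, _, s2, e2, -⟩ := H6.exists_frobenius_cyclic hp hpc
  refine ⟨H1 × H2, inferInstance, inferInstance, inferInstance, ?_⟩
  rw [H6.spec_prod, H6.spec_prod, e1, e2, H6.spec_psl2]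
  ext m
  simp only [Set.mem_ofPred_eq, Set.mem_insert_iff]
  rw [← hpdef, ← hq, ← hb, ← hc]
  constructor
  · rintro ⟨x, hx, y, hy, rfl⟩
    refine ⟨x, ?_, y, ?_, rfl⟩
    · rcases hx with rfl | hx
      · left; rfl
      · right; left; exact hx
    · rcases hy with rfl | hy
      · left; rfl
      · right; right; exact hy
  · rintro ⟨x, hx, y, hy, rfl⟩
    have hP : ∀ z : ℕ, z ∣ p → ∀ w : ℕ, z = p ∨ z ∣ w := by
      intro z hz w
      rcases (Nat.dvd_prime hp).mp hz with h | h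
      · right; rw [h]; exact one_dvd _
      · left; exact h
    rcases hx with hx | hx | hx <;> rcases hy with hy | hy | hy
    · exact ⟨x, hP x hx _, y, hP y hy _, rfl⟩
    · exact ⟨y, Or.inr hy, x, hP x hx _, Nat.lcm_comm _ _⟩
    · exact ⟨x, hP x hx _, y, Or.inr hy, rfl⟩
    · exact ⟨x, Or.inr hx, y, hP y hy _, rfl⟩
    · exact ⟨_, Or.inr (Nat.lcm_dvd hx hy), 1, Or.inr (one_dvd _), by simp⟩
    · exact ⟨x, Or.inr hx, y, Or.inr hy, rfl⟩
    · exact ⟨y, hP y hy _, x, Or.inr hx, Nat.lcm_comm _ _⟩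
    · exact ⟨y, Or.inr hy, x, Or.inr hx, Nat.lcm_comm _ _⟩
    · exact ⟨1, Or.inr (one_dvd _), _, Or.inr (Nat.lcm_dvd hx hy), by simp⟩

end Cfsg.Agent.S3532
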