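import Cfsg.Statements.S3548
import Cfsg.Agent.H3.Derangement2

set_option autoImplicit false
open Cfsg

namespace Cfsg.Agent.S3548

/-- Let G act faithfully and transitively on a finite set with n ≥ 2 points and let D be the subgroup generated by the derangements. Then the index of D in G divides n − 1, and if it equals n − 1 then n is a prime power. -/
theorem result {G Ω : Type*} [Group G] [Finite G] [MulAction G Ω] [FaithfulSMul G Ω] [Finite Ω]
    (htrans : MulAction.IsPretransitive G Ω) (hΩ : 2 ≤ Nat.card Ω) :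
    (Subgroup.closure {g : G | ∀ ω : Ω, g • ω ≠ ω}).index ∣ Nat.card Ω - 1 ∧
    ((Subgroup.closure {g : G | ∀ ω : Ω, g • ω ≠ ω}).index = Nat.card Ω - 1 → IsPrimePow (Nat.card Ω)) := by
  set D := Subgroup.closure {g : G | ∀ ω : Ω, g • ω ≠ ω} with hDdef
  have hN : D.Normal := H3.derSubgroup_normal
  have hD : ∀ g : G, (∀ ω : Ω, g • ω ≠ ω) → g ∈ D := fun _ hg => Subgroup.subset_closure hg
  have hnt : Nontrivial Ω := Finite.one_lt_card_iff_nontrivial.mp hΩ
  obtain ⟨a⟩ : Nonempty Ω := inferInstance
  refine ⟨?_, fun hind => ?_⟩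
  · have := H3.index_dvd_ncard_sub_one D hD (a := a) Set.univ trivial (fun _ _ _ _ => trivial)
    rwa [Set.ncard_univ] at this
  obtain ⟨htD, hD2⟩ := H3.of_derangements_le D hD
  have key : ∀ a b : Ω, a ≠ b → MulAction.orbit (MulAction.stabilizer G a) b = {a}ᶜ ∧
      ∀ g ∈ D, g • a = a → g • b = b := by
    intro a b hab
    have h1 := H3.index_dvd_index_stabilizer_stabilizer D hD hab
    have hsub : MulAction.orbit (MulAction.stabilizer G a) b ⊆ {a}ᶜ := by
      rintro _ ⟨g, rfl⟩ h
      have h2 : g • a = a := g.2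
      exact hab ((smul_left_cancel_iff g).mp (h2.trans (Set.mem_singleton_iff.mp h).symm))
    have h3 : ({a}ᶜ : Set Ω).ncard = Nat.card Ω - 1 := by
      rw [Set.compl_eq_univ_sdiff, Set.ncard_sdiff_singleton_of_mem (Set.mem_univ a), Set.ncard_univ]
    have h4 := Set.ncard_le_ncard hsub
    have h5 : (MulAction.stabilizer (MulAction.stabilizer G a) b).index ≠ 0 :=
      Subgroup.FiniteIndex.index_ne_zero
    have h6 := Nat.le_of_dvd (Nat.pos_of_ne_zero h5) h1
    have h7 := MulAction.index_stabilizer (MulAction.stabilizer G a) b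
    refine ⟨Set.eq_of_subset_of_ncard_le hsub (by omega), fun g hg hga => ?_⟩
    have h8 : D ⊔ MulAction.stabilizer G a = ⊤ := by
      rw [eq_top_iff]
      intro g _
      obtain ⟨x, hx, h, hh, rfl⟩ := H3.exists_mul_stabilizer (N := D) a g
      exact Subgroup.mul_mem_sup hx hh
    have h9 : MulAction.stabilizer (MulAction.stabilizer G a) b
        ≤ D.subgroupOf (MulAction.stabilizer G a) := fun g hg => by
      rw [Subgroup.mem_subgroupOf]
      have := H3.two_le_card_fixedBy hab g.2 hg
      exact hD2 g (by omega)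
    have h10 : (D.subgroupOf (MulAction.stabilizer G a)).index = D.index := by
      rw [← Subgroup.relIndex_top_right (H := D), ← h8, Subgroup.relIndex_sup_left]
      rfl
    have h11 : MulAction.stabilizer (MulAction.stabilizer G a) b
        = D.subgroupOf (MulAction.stabilizer G a) := by
      by_contra hne
      have := Subgroup.index_strictAnti (lt_of_le_of_ne h9 hne)
      omega
    have h12 : (⟨g, hga⟩ : MulAction.stabilizer G a) ∈ D.subgroupOf (MulAction.stabilizer G a) :=
      hg
    rw [← h11] at h12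
    exact h12
  have hreg : ∀ a : Ω, MulAction.stabilizer D a = ⊥ := by
    intro a
    rw [Subgroup.eq_bot_iff_forall]
    intro g hg
    refine Subtype.ext (H3.eq_one_of_forall_smul (Ω := Ω) (fun b => ?_))
    by_cases hab : a = b
    · rw [← hab]; exact hg
    · exact (key a b hab).2 g g.2 hg
  have h2 : MulAction.IsMultiplyPretransitive G Ω 2 := by
    rw [MulAction.is_two_pretransitive_iff]
    intro a b c d hab hcd
    obtain ⟨x, rfl⟩ := htrans.exists_smul_eq a c
    have h1 : x⁻¹ • d ∈ MulAction.orbit (MulAction.stabilizer G a) b := by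
      rw [(key a b hab).1]
      intro h
      exact hcd (inv_smul_eq_iff.mp (Set.mem_singleton_iff.mp h)).symm
    obtain ⟨g, hg⟩ := h1
    have h3 : (g : G) • a = a := g.2
    have h4 : (g : G) • b = x⁻¹ • d := hg
    exact ⟨x * g, by rw [mul_smul, h3], by rw [mul_smul, h4, smul_inv_smul]⟩
  obtain ⟨p, hp, hpD, -⟩ := H3.elementary_abelian_of_regular_normal h2 hreg
  have : Fact p.Prime := ⟨hp⟩
  obtain ⟨k, hk⟩ := hpD.exists_card_eq
  rw [H3.card_eq_of_regular a (hreg a)] at hk
  refine ⟨p, k, hp.prime, Nat.pos_of_ne_zero ?_, hk.symm⟩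
  rintro rfl
  rw [pow_zero] at hk
  omega

end Cfsg.Agent.S3548
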