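import Cfsg.Statements.S3549
import Cfsg.Agent.H3.Derangement2

set_option autoImplicit false
open Cfsg

namespace Cfsg.Agent.S3549

/-- Let G act faithfully, transitively but imprimitively on a finite set with n points, and let D be the subgroup generated by the derangements. Then the index of D in G is at most √n − 1. -/
theorem result {G Ω : Type*} [Group G] [Finite G] [MulAction G Ω] [FaithfulSMul G Ω] [Finite Ω]
    (htrans : MulAction.IsPretransitive G Ω) (himp : ¬ MulAction.IsPreprimitive G Ω) :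
    ((Subgroup.closure {g : G | ∀ ω : Ω, g • ω ≠ ω}).index : ℝ) ≤ Real.sqrt (Nat.card Ω) - 1 := by
  set D := Subgroup.closure {g : G | ∀ ω : Ω, g • ω ≠ ω} with hDdef
  have hN : D.Normal := H3.derSubgroup_normal
  have hD : ∀ g : G, (∀ ω : Ω, g • ω ≠ ω) → g ∈ D := fun _ hg => Subgroup.subset_closure hg
  obtain ⟨B, hB, hBt⟩ : ∃ B : Set Ω, MulAction.IsBlock G B ∧ ¬ MulAction.IsTrivialBlock B := by
    by_contra hcon
    push Not at hcon
    exact himp ⟨fun hB => hcon _ hB⟩
  rw [MulAction.IsTrivialBlock, not_or, Set.not_subsingleton_iff] at hBt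
  obtain ⟨a, ha⟩ := hBt.1.nonempty
  have h1 := H3.index_dvd_ncard_sub_one D hD (a := a) Set.univ trivial (fun _ _ _ _ => trivial)
  rw [Set.ncard_univ] at h1
  have h2 := H3.index_dvd_ncard_sub_one D hD B ha (fun g hg b hb => by
    have h3 := MulAction.isBlock_iff_smul_eq_of_mem.mp hB ha (hg.symm ▸ ha)
    rw [← h3]
    exact Set.smul_mem_smul_set hb)
  obtain ⟨l, hl⟩ := hB.ncard_dvd_card ⟨a, ha⟩
  have hk : 1 < B.ncard := (Set.one_lt_ncard_iff_nontrivial).mpr hBt.1
  have hk2 : B.ncard < Nat.card Ω := by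
    rw [← Set.ncard_univ]
    exact Set.ncard_lt_ncard (Set.ssubset_univ_iff.mpr hBt.2)
  set d := D.index
  set k := B.ncard
  have hl1 : 1 < l := by
    by_contra h
    have : k * l ≤ k * 1 := Nat.mul_le_mul_left k (by omega)
    omega
  have h3 : d ∣ l - 1 := by
    have h4 : d ∣ (k - 1) * l := Dvd.dvd.mul_right h2 l
    have h5 : l - 1 = Nat.card Ω - 1 - (k - 1) * l := by
      rw [hl, Nat.sub_mul, one_mul]
      have : l ≤ k * l := Nat.le_mul_of_pos_left l (by omega)
      omega
    rw [h5]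
    exact Nat.dvd_sub h1 h4
  have h6 := Nat.le_of_dvd (by omega) h2
  have h7 := Nat.le_of_dvd (by omega) h3
  have h8 : (d + 1) ^ 2 ≤ Nat.card Ω := by
    rw [hl, sq]
    exact Nat.mul_le_mul (by omega) (by omega)
  rw [le_sub_iff_add_le]
  apply Real.le_sqrt_of_sq_le
  exact_mod_cast h8

end Cfsg.Agent.S3549
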