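import Cfsg.Statements.S3550
import Cfsg.Agent.H4.DerD

set_option autoImplicit false
open Cfsg

namespace Cfsg.Agent.S3550

/-- Let G act faithfully and primitively on a finite set with n ≥ 2 points and suppose G has no non-trivial abelian normal subgroup (G is not of affine type). Let D be the subgroup generated by the derangements. Then the index of D in G is at most √n − 1. -/
theorem result {G Ω : Type*} [Group G] [Finite G] [MulAction G Ω] [FaithfulSMul G Ω] [Finite Ω]
    (hprim : MulAction.IsPreprimitive G Ω) (hΩ : 2 ≤ Nat.card Ω) (hna : ∀ N : Subgroup G, N.Normal → IsMulCommutative ↥N → N = ⊥) :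
    ((Subgroup.closure {g : G | ∀ ω : Ω, g • ω ≠ ω}).index : ℝ) ≤ Real.sqrt (Nat.card Ω) - 1 := by
  have hN : (Subgroup.closure {g : G | ∀ ω : Ω, g • ω ≠ ω}).Normal := H3.derSubgroup_normal
  obtain ⟨h1, h2⟩ := H3.derSubgroup_spec (G := G) (Ω := Ω)
  have h3 := H3.rank_of_derangements_le (Ω := Ω) _ fun g hg =>
    (Subgroup.subset_closure hg : g ∈ Subgroup.closure {g : G | ∀ ω : Ω, g • ω ≠ ω})
  rw [le_sub_iff_add_le]
  apply Real.le_sqrt_of_sq_le
  norm_cast
  by_contra big
  obtain ⟨a, b, hab⟩ := Finite.one_lt_card_iff_nontrivial.mp hΩ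
  have h4 : 1 < Nat.card (MulAction.orbitRel.Quotient G (Ω × Ω)) :=
    Finite.one_lt_card_iff_nontrivial.mpr ⟨Quotient.mk _ (a, b), Quotient.mk _ (a, a), fun e => by
      obtain ⟨g, e⟩ := Quotient.exact e
      exact hab ((congrArg Prod.fst e).symm.trans (congrArg Prod.snd e))⟩
  obtain ⟨P, h5, h6, h7⟩ := H4.Der.exists_normal h2 (not_le.mp big) hΩ fun e => by
    have := Nat.mul_le_mul_right (Subgroup.closure {g : G | ∀ ω : Ω, g • ω ≠ ω}).index h4
    change 2 ≤ (Subgroup.closure {g : G | ∀ ω : Ω, g • ω ≠ ω}).index at e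
    change 3 ≤ Nat.card (MulAction.orbitRel.Quotient
      (Subgroup.closure {g : G | ∀ ω : Ω, g • ω ≠ ω}) (Ω × Ω))
    omega
  exact h7 (hna P h5 h6)

end Cfsg.Agent.S3550
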