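import Cfsg.Statements.S3559
import Cfsg.Agent.H8.SRing

set_option autoImplicit false
open Cfsg

namespace Cfsg.Agent.S3559

/-- Let G act faithfully and transitively on a finite set whose number of points n ≥ 2 is not a prime power, and suppose G has a cyclic subgroup acting regularly (transitively with trivial point stabilizers). Then G is imprimitive or doubly transitive. -/
theorem result {G Ω : Type*} [Group G] [Finite G] [MulAction G Ω] [FaithfulSMul G Ω] [Finite Ω]
    (htrans : MulAction.IsPretransitive G Ω) (hn : 2 ≤ Nat.card Ω) (hnp : ¬ IsPrimePow (Nat.card Ω))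
    (C : Subgroup G) (hcyc : IsCyclic ↥C) (hC : MulAction.IsPretransitive ↥C Ω ∧ ∀ a : Ω, MulAction.stabilizer ↥C a = ⊥) :
    ¬ MulAction.IsPreprimitive G Ω ∨ MulAction.IsMultiplyPretransitive G Ω 2 := by
  by_cases hprim : MulAction.IsPreprimitive G Ω
  swap
  · exact Or.inl hprim
  right
  obtain ⟨a⟩ : Nonempty Ω := (Nat.card_pos_iff.mp (by omega)).1
  have hbij := H8.bijective_of_regular hC a
  have hcard : Nat.card C = Nat.card Ω := Nat.card_eq_of_bijective _ hbij
  have := Fintype.ofFinite C
  refine H8.two_transitive_of_sring hprim C.subtype a hbij fun S x y hx hy => ?_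
  obtain ⟨p, hp, hpd⟩ := Nat.exists_prime_and_dvd (n := Nat.card C) (by omega)
  letI : CommGroup C := IsCyclic.commGroup
  refine S.rank_two_of_comm hp ?_ ?_ hx hy
  · rw [IsCyclic.card_powMonoidHom_ker, Nat.gcd_eq_right hpd]
  · intro h
    apply hnp
    rw [← hcard, h]
    exact hp.isPrimePow

end Cfsg.Agent.S3559
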