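import Cfsg.Statements.S3560


set_option autoImplicit false
open Cfsg

namespace Cfsg.Agent.S3560

open MulAction
open scoped Pointwise

/-- Adjacency in the Hamming graph. -/
def Adj {ι A : Type*} (x y : ι → A) : Prop := ∃ i, x i ≠ y i ∧ ∀ j, j ≠ i → x j = y j

theorem adj_pi {ι A : Type*} (T : ι → Equiv.Perm A) (x y : ι → A) :
    Adj (fun i => T i (x i)) (fun i => T i (y i)) ↔ Adj x y := by
  simp only [Adj, ne_eq, EmbeddingLike.apply_eq_iff_eq]

theorem adj_comp {ι A : Type*} (π : Equiv.Perm ι) (x y : ι → A) :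
    Adj (fun i => x (π i)) (fun i => y (π i)) ↔ Adj x y := by
  constructor
  · rintro ⟨i, h1, h2⟩
    refine ⟨π i, h1, fun j hj => ?_⟩
    have := h2 (π.symm j) (fun h => hj (by rw [← h, Equiv.apply_symm_apply]))
    simpa using this
  · rintro ⟨i, h1, h2⟩
    refine ⟨π.symm i, by simpa using h1, fun j hj => h2 _ fun h => hj ?_⟩
    rw [← h, Equiv.symm_apply_apply]

/-- The automorphism group of the Hamming graph, transported along `θ`. -/
def autGroup {ι A X : Type*} (θ : X ≃ (ι → A)) : Subgroup (Equiv.Perm X) where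
  carrier := {σ | ∀ a b, Adj (θ (σ a)) (θ (σ b)) ↔ Adj (θ a) (θ b)}
  one_mem' := fun _ _ => Iff.rfl
  mul_mem' := fun {σ τ} hσ hτ a b => (hσ (τ a) (τ b)).trans (hτ a b)
  inv_mem' := fun {σ} hσ a b => by
    have := hσ (σ⁻¹ a) (σ⁻¹ b)
    simpa using this.symm

theorem exists_mem {ι A X : Type*} (θ : X ≃ (ι → A)) (T : ι → Equiv.Perm A) (π : Equiv.Perm ι) :
    ∃ g : autGroup θ, ∀ a, θ (g • a) = fun i => T i (θ a (π i)) := by
  let τ : Equiv.Perm (ι → A) := (Equiv.arrowCongr π.symm (Equiv.refl A)).trans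
    (Equiv.piCongrRight T)
  have hτ : ∀ x, τ x = fun i => T i (x (π i)) := fun x => rfl
  refine ⟨⟨θ.symm.permCongr τ, fun a b => ?_⟩, fun a => ?_⟩
  · simp only [Equiv.permCongr_apply, Equiv.symm_symm, Equiv.apply_symm_apply, hτ]
    exact (adj_pi T _ _).trans (adj_comp π _ _)
  · change θ (θ.symm.permCongr τ a) = _
    simp only [Equiv.permCongr_apply, Equiv.symm_symm, Equiv.apply_symm_apply, hτ]

theorem arc_trans {ι A X : Type*} (θ : X ≃ (ι → A)) {u v u' v' : X} (h : Adj (θ u) (θ v))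
    (h' : Adj (θ u') (θ v')) : ∃ g : autGroup θ, g • u = u' ∧ g • v = v' := by
  classical
  obtain ⟨i, h1, h2⟩ := h
  obtain ⟨i', h1', h2'⟩ := h'
  obtain ⟨τ, hτ1, hτ2⟩ := is_two_pretransitive_iff.mp
    (Equiv.Perm.isMultiplyPretransitive A 2) h1 h1'
  obtain ⟨g, hg⟩ := exists_mem θ
    (fun j => if j = i' then τ else Equiv.swap (θ u (Equiv.swap i i' j)) (θ u' j))
    (Equiv.swap i i')
  refine ⟨g, θ.injective ?_, θ.injective ?_⟩
  · rw [hg]
    ext j
    by_cases hj : j = i'
    · subst hj; simpa using hτ1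
    · simp [hj]
  · rw [hg]
    ext j
    by_cases hj : j = i'
    · subst hj; simpa using hτ2
    · have : Equiv.swap i i' j ≠ i := fun e => hj (by
        rw [Equiv.swap_apply_eq_iff, Equiv.swap_apply_left] at e; exact e)
      simp [hj, ← h2 _ this, h2' j hj]

theorem prim {ι X : Type*} [Fintype ι] {m : ℕ} (hm : 3 ≤ m) (θ : X ≃ (ι → Fin m)) :
    IsPreprimitive (autGroup θ) X := by
  classical
  have htr : IsPretransitive (autGroup θ) X := ⟨fun x y => by
    obtain ⟨g, hg⟩ := exists_mem θ (fun j => Equiv.swap (θ x j) (θ y j)) 1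
    refine ⟨g, θ.injective ?_⟩
    rw [hg]; ext j; simp⟩
  refine ⟨fun {B} hB => ?_⟩
  rcases B.subsingleton_or_nontrivial with h | ⟨x, hx, y, hy, hxy⟩
  · exact Or.inl h
  right
  obtain ⟨i, hi⟩ : ∃ i, θ x i ≠ θ y i := by
    by_contra hc
    push Not at hc
    exact hxy (θ.injective (funext hc))
  obtain ⟨z, hz1, hz2⟩ : ∃ z : Fin m, z ≠ θ x i ∧ z ≠ θ y i := by
    have : ({θ x i, θ y i} : Finset (Fin m)).card < (Finset.univ : Finset (Fin m)).card := by
      rw [Finset.card_univ, Fintype.card_fin]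
      exact lt_of_le_of_lt Finset.card_le_two (by omega)
    obtain ⟨z, -, hz⟩ := Finset.exists_mem_notMem_of_card_lt_card this
    exact ⟨z, by simpa using hz⟩
  obtain ⟨g, hg⟩ := exists_mem θ (fun j => if j = i then Equiv.swap (θ y i) z else 1) 1
  have hgx : g • x = x := θ.injective (by
    rw [hg]; ext j
    by_cases hj : j = i
    · subst hj; simp [Equiv.swap_apply_of_ne_of_ne hi hz1.symm]
    · simp [hj])
  have hgB : g • B = B := hB.smul_eq_of_mem hx (by rw [hgx]; exact hx)
  have hgy : g • y ∈ B := by rw [← hgB]; exact Set.smul_mem_smul_set hy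
  have hadj : Adj (θ y) (θ (g • y)) := by
    rw [hg]
    refine ⟨i, by simpa using hz2.symm, fun j hj => by simp [hj]⟩
  have hcl : ∀ w ∈ B, ∀ w', Adj (θ w) (θ w') → w' ∈ B := by
    intro w hw w' hww'
    obtain ⟨k, hk1, hk2⟩ := arc_trans θ hadj hww'
    have : k • B = B := hB.smul_eq_of_mem hy (by rw [hk1]; exact hw)
    rw [← this, ← hk2]
    exact Set.smul_mem_smul_set hgy
  have hall : ∀ (w : X) (s : Finset ι), θ.symm (s.piecewise (θ w) (θ x)) ∈ B := by
    intro w s
    induction s using Finset.induction_on with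
    | empty => simpa using hx
    | insert j s hj ih =>
      rw [Finset.piecewise_insert]
      by_cases h : s.piecewise (θ w) (θ x) j = θ w j
      · rw [← h, Function.update_eq_self]; exact ih
      · refine hcl _ ih _ ?_
        rw [Equiv.apply_symm_apply, Equiv.apply_symm_apply]
        exact ⟨j, by simpa using h, fun k hk => by simp [hk]⟩
  refine Set.eq_univ_of_forall fun w => ?_
  simpa using hall w Finset.univ

theorem not_two {ι X : Type*} [Fintype ι] (hr : 2 ≤ Fintype.card ι) {m : ℕ} (hm : 3 ≤ m)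
    (θ : X ≃ (ι → Fin m)) : ¬ IsMultiplyPretransitive (autGroup θ) X 2 := by
  classical
  intro h
  obtain ⟨i, j, hij⟩ := Fintype.one_lt_card_iff.mp hr
  let a : Fin m := ⟨0, by omega⟩
  let b : Fin m := ⟨1, by omega⟩
  have hab : a ≠ b := by simp [a, b]
  have h1 : θ.symm (fun _ => a) ≠ θ.symm (Function.update (fun _ => a) i b) := by
    intro e
    have := congrFun (θ.symm.injective e) i
    simp [hab] at this
  have h2 : θ.symm (fun _ => a) ≠ θ.symm (fun _ => b) := by
    intro e
    exact hab (congrFun (θ.symm.injective e) i)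
  obtain ⟨g, hg1, hg2⟩ := is_two_pretransitive_iff.mp h h1 h2
  have h3 := g.2 (θ.symm (fun _ => a)) (θ.symm (Function.update (fun _ => a) i b))
  change Adj (θ (g • _)) (θ (g • _)) ↔ _ at h3
  rw [hg1, hg2] at h3
  simp only [Equiv.apply_symm_apply] at h3
  obtain ⟨k, -, hk⟩ := h3.mpr ⟨i, by simpa using hab, fun k hk => by simp [hk]⟩
  by_cases hki : i = k
  · exact hab (hk j (hki ▸ hij.symm))
  · exact hab (hk i hki)

/-- Let K be a finite group isomorphic to a direct product of r ≥ 2 groups all of the same order m ≥ 3. Then K is not a B-group: there is a primitive but not doubly transitive permutation group (on some finite set) containing a regular subgroup isomorphic to K. -/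
theorem result {K : Type*} [Group K] [Finite K] {ι : Type*} [Fintype ι] (F : ι → Type*) [∀ i, Group (F i)]
    (hr : 2 ≤ Fintype.card ι) (m : ℕ) (hm : 3 ≤ m) (hcard : ∀ i, Nat.card (F i) = m) (e : K ≃* (∀ i, F i)) :
    ∃ (n : ℕ) (G R : Subgroup (Equiv.Perm (Fin n))), R ≤ G ∧ Nonempty (↥R ≃* K) ∧
      MulAction.IsPretransitive ↥R (Fin n) ∧ (∀ a : Fin n, MulAction.stabilizer ↥R a = ⊥) ∧
      MulAction.IsPreprimitive ↥G (Fin n) ∧ ¬ MulAction.IsMultiplyPretransitive ↥G (Fin n) 2 := by
  classical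
  have hfin : ∀ i, Finite (F i) := fun i => Nat.finite_of_card_ne_zero (by rw [hcard]; omega)
  let f : ∀ i, F i ≃ Fin m := fun i => Finite.equivFinOfCardEq (hcard i)
  let η : K ≃ Fin (Nat.card K) := Finite.equivFin K
  let θ : Fin (Nat.card K) ≃ (ι → Fin m) :=
    η.symm.trans (e.toEquiv.trans (Equiv.piCongrRight f))
  have hθ : ∀ a i, θ a i = f i (e (η.symm a) i) := fun _ _ => rfl
  let ρ : K →* Equiv.Perm (Fin (Nat.card K)) :=
    η.permCongrHom.toMonoidHom.comp (MulAction.toPermHom K K)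
  have hρ : ∀ k a, ρ k a = η (k * η.symm a) := fun _ _ => rfl
  have hinj : Function.Injective ρ := by
    rw [injective_iff_map_eq_one]
    intro k hk
    have := hρ k (η 1)
    rw [hk] at this
    simpa using this.symm
  refine ⟨Nat.card K, autGroup θ, ρ.range, ?_, ⟨(MonoidHom.ofInjective hinj).symm⟩, ?_, ?_,
    prim hm θ, not_two hr hm θ⟩
  · rintro _ ⟨k, rfl⟩ a b
    have : ∀ a, θ (ρ k a) = fun i => (f i).permCongr (Equiv.mulLeft (e k i)) (θ a i) := by
      intro a
      ext i
      simp [hθ, hρ]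
    rw [this, this]
    exact adj_pi _ _ _
  · refine ⟨fun a b => ⟨⟨ρ (η.symm b * (η.symm a)⁻¹), _, rfl⟩, ?_⟩⟩
    change ρ _ a = b
    rw [hρ, inv_mul_cancel_right, Equiv.apply_symm_apply]
  · intro a
    rw [eq_bot_iff]
    rintro ⟨_, k, rfl⟩ hk
    change ρ k a = a at hk
    rw [hρ, ← Equiv.eq_symm_apply, mul_eq_right] at hk
    subst hk
    simp only [Subgroup.mem_bot]
    exact Subtype.ext (map_one ρ)

end Cfsg.Agent.S3560
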