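import Cfsg.Statements.S3571
import Cfsg.Agent.H9.AltDerangement

set_option autoImplicit false
open Cfsg

namespace Cfsg.Agent.S3571

/-- Let G be an almost simple group whose socle is an alternating group of degree m ≥ 5 (G has a normal subgroup T isomorphic to that alternating group with trivial centralizer), acting faithfully and primitively on a finite set Ω with at least two points, and let r be the largest prime divisor of the number of points. Then G contains an element of order r fixing no point. -/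
theorem result {G Ω : Type*} [Group G] [Finite G] [MulAction G Ω] [FaithfulSMul G Ω] [Finite Ω]
    (T : Subgroup G) (hT : T.Normal) (hTc : Subgroup.centralizer (T : Set G) = ⊥) (m : ℕ) (hm : 5 ≤ m)
    (eT : ↥T ≃* ↥(alternatingGroup (Fin m))) (hprim : MulAction.IsPreprimitive G Ω) (hΩ : 2 ≤ Nat.card Ω)
    (r : ℕ) (hr : r.Prime) (hrd : r ∣ Nat.card Ω) (hmax : ∀ s : ℕ, s.Prime → s ∣ Nat.card Ω → s ≤ r) :
    ∃ g : G, orderOf g = r ∧ ∀ ω : Ω, g • ω ≠ ω := by
  by_contra hcon
  push Not at hcon
  have : Nontrivial Ω := Finite.one_lt_card_iff_nontrivial.mp hΩ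
  obtain ⟨ω⟩ : Nonempty Ω := inferInstance
  let ι : T →* Equiv.Perm (Fin m) := (alternatingGroup (Fin m)).subtype.comp eT.toMonoidHom
  have hι : Function.Injective ι := Subtype.val_injective.comp eT.injective
  have hιA : ∀ t, ι t ∈ alternatingGroup (Fin m) := fun t => (eT t).2
  have hιs : ∀ σ ∈ alternatingGroup (Fin m), ∃ t, ι t = σ := fun σ hσ =>
    ⟨eT.symm ⟨σ, hσ⟩, by simp [ι]⟩
  have hιo : ∀ t, orderOf (ι t) = orderOf (t : G) := fun t => by
    rw [orderOf_injective ι hι, Subgroup.orderOf_coe]
  have hrange : (⊤ : Subgroup T).map ι = alternatingGroup (Fin m) := by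
    apply le_antisymm
    · rintro _ ⟨t, -, rfl⟩
      exact hιA t
    · intro σ hσ
      obtain ⟨t, rfl⟩ := hιs σ hσ
      exact ⟨t, trivial, rfl⟩
  have htr : MulAction.IsPretransitive T Ω := by
    apply MulAction.IsQuasiPreprimitive.isPretransitive_of_normal
    intro h
    have : Nontrivial (alternatingGroup (Fin m)) :=
      alternatingGroup.nontrivial_of_three_le_card (by simp; omega)
    obtain ⟨σ, hσ⟩ := exists_ne (1 : alternatingGroup (Fin m))
    apply hσ
    rw [← eT.apply_symm_apply σ, map_eq_one_iff _ eT.injective]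
    apply Subtype.ext
    apply eq_of_smul_eq_smul (α := Ω)
    intro y
    have : y ∈ MulAction.fixedPoints T Ω := h ▸ Set.mem_univ y
    rw [OneMemClass.coe_one, one_smul]
    exact this (eT.symm σ)
  have hidx : ((MulAction.stabilizer T ω).map ι).relIndex (alternatingGroup (Fin m))
      = Nat.card Ω := by
    rw [← hrange, Subgroup.relIndex_map_map_of_injective _ _ hι, Subgroup.relIndex_top_right,
      MulAction.index_stabilizer_of_transitive]
  refine H9.alternating_elusive_false (α := Fin m) (by simpa using hm)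
    ((MulAction.stabilizer T ω).map ι) (hrange ▸ Subgroup.map_mono le_top) hr (hidx ▸ hrd)
    (hidx ▸ hmax) ?_ ?_
  · intro σ hσ ho
    obtain ⟨t, rfl⟩ := hιs σ hσ
    obtain ⟨ω', hω'⟩ := hcon t (by rw [← hιo, ho])
    obtain ⟨u, rfl⟩ := MulAction.exists_smul_eq T ω ω'
    refine ⟨ι u⁻¹, hιA _, u⁻¹ * t * u, ?_, by simp⟩
    change (u⁻¹ * t * u) • ω = ω
    rw [mul_smul, mul_smul, inv_smul_eq_iff]
    exact hω'
  · rintro p Y hY
    let Y₀ : Set G := {x | x ∈ T ∧ (∀ c ∈ T, c • ω = ω → orderOf c = p → Commute x c) ∧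
      (orderOf x).Coprime p}
    have hYY : ∀ t : T, ι t ∈ Y ↔ (t : G) ∈ Y₀ := by
      intro t
      rw [hY]
      constructor
      · rintro ⟨-, h2, h3⟩
        refine ⟨t.2, fun c hc hcω hco => ?_, by rwa [← hιo]⟩
        have h4 := (h2 (ι ⟨c, hc⟩) ⟨⟨c, hc⟩, hcω, rfl⟩ (by rw [hιo, hco])).eq
        rw [← map_mul, ← map_mul] at h4
        exact congrArg Subtype.val (hι h4)
      · rintro ⟨-, h2, h3⟩
        refine ⟨hιA t, ?_, by rwa [hιo]⟩
        rintro _ ⟨c, hc, rfl⟩ hco
        have h4 : Commute t c := Subtype.ext (h2 c c.2 hc (by rwa [← hιo])).eq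
        exact h4.map ι
    have hle : MulAction.stabilizer G ω ≤ Subgroup.normalizer Y₀ := by
      rw [Subgroup.le_set_normalizer_iff]
      rintro g hg x ⟨h1, h2, h3⟩
      refine ⟨hT.conj_mem x h1 g, fun c hc hcω hco => ?_, ?_⟩
      · have h4 := (h2 (g⁻¹ * c * g) (hT.conj_mem' c hc g)
          (by
            rw [mul_smul, mul_smul, inv_smul_eq_iff, show g • ω = ω from hg]
            exact hcω)
          (by rw [← hco]; simpa using (MulAut.conj g⁻¹).orderOf_eq c)).eq
        calc g * x * g⁻¹ * c = g * (x * (g⁻¹ * c * g)) * g⁻¹ := by group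
          _ = c * (g * x * g⁻¹) := by rw [h4]; group
      · rwa [show orderOf (g * x * g⁻¹) = orderOf x from (MulAut.conj g).orderOf_eq x]
    have hnorm : ∀ t : T, ι t ∈ Subgroup.normalizer Y ↔ (t : G) ∈ Subgroup.normalizer Y₀ := by
      intro t
      rw [Subgroup.mem_set_normalizer_iff, Subgroup.mem_set_normalizer_iff]
      constructor
      · intro h x
        by_cases hx : x ∈ T
        · have := h (ι ⟨x, hx⟩)
          rw [← map_inv, ← map_mul, ← map_mul, hYY, hYY] at this
          exact this
        · refine iff_of_false (fun h => hx h.1) fun h => hx ?_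
          simpa [mul_assoc] using hT.conj_mem' _ h.1 (t : G)
      · intro h σ
        by_cases hσ : σ ∈ alternatingGroup (Fin m)
        · obtain ⟨x, rfl⟩ := hιs σ hσ
          rw [← map_inv, ← map_mul, ← map_mul, hYY, hYY]
          exact h x
        · refine iff_of_false (fun h => hσ (hY ▸ h).1) fun h => hσ ?_
          have h1 := (alternatingGroup.normal (α := Fin m)).conj_mem' _ (hY ▸ h).1 (ι t)
          rwa [show (ι t)⁻¹ * (ι t * σ * (ι t)⁻¹) * ι t = σ by group] at h1
    have hco := MulAction.IsPreprimitive.isCoatom_stabilizer_of_isPreprimitive G ω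
    rcases hle.eq_or_lt with h | h
    · left
      rintro σ ⟨h1, h2⟩
      obtain ⟨t, rfl⟩ := hιs σ h1
      have h3 := (hnorm t).mp h2
      rw [← h] at h3
      exact ⟨t, h3, rfl⟩
    · right
      intro σ hσ
      obtain ⟨t, rfl⟩ := hιs σ hσ
      rw [hnorm, hco.2 _ h]
      trivial

end Cfsg.Agent.S3571
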