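import Cfsg.Statements.S3573
import Cfsg.Agent.H9.PrimePermSubsets

set_option autoImplicit false
open Cfsg

namespace Cfsg.Agent.S3573

/-- Let 1 ≤ k with 2k < n and consider the symmetric group of degree n acting on the k-subsets of an n-set. Let r be a prime dividing the number C(n,k) of k-subsets. If r is odd, then every permutation of order r fixes some k-subset if and only if r ≤ k and the remainder of k modulo r is at most the remainder of n modulo r. If r = 2, then every involution fixes some k-subset if and only if k is even or n is odd. -/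
theorem result (n k : ℕ) (hk : 1 ≤ k) (hkn : 2 * k < n) (r : ℕ) (hr : r.Prime) (hrd : r ∣ Nat.choose n k) :
    (r ≠ 2 → ((∀ σ : Equiv.Perm (Fin n), orderOf σ = r → ∃ s : Finset (Fin n), s.card = k ∧ s.image σ = s) ↔
      (r ≤ k ∧ k % r ≤ n % r))) ∧
    (r = 2 → ((∀ σ : Equiv.Perm (Fin n), orderOf σ = 2 → ∃ s : Finset (Fin n), s.card = k ∧ s.image σ = s) ↔
      (Even k ∨ Odd n))) := by
  have : Fact r.Prime := ⟨hr⟩
  have hrn : r ≤ n := by
    have h3 : n.choose k ∣ n.factorial :=
      ⟨k.factorial * (n - k).factorial, by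
        rw [← mul_assoc, Nat.choose_mul_factorial_mul_factorial (by omega)]⟩
    exact hr.dvd_factorial.mp (hrd.trans h3)
  have key : (∀ σ : Equiv.Perm (Fin n), orderOf σ = r →
      ∃ s : Finset (Fin n), s.card = k ∧ s.image σ = s) ↔ k % r ≤ n % r := by
    constructor
    · intro h
      obtain ⟨σ, h1, h2⟩ := H9.perm_exists_orderOf_prime (α := Fin n) (r := r) (n / r)
        ((Nat.le_div_iff_mul_le hr.pos).mpr (by omega)) (by simpa using Nat.div_mul_le_self n r)
      obtain ⟨s, hs1, hs2⟩ := h σ h1
      have := H9.perm_card_mod_le_of_invariant (r := r) (σ := σ)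
        (by rw [← h1, pow_orderOf_eq_one]) (by simpa using h2) s
        (fun x hx => by rw [← hs2]; exact Finset.mem_image_of_mem _ hx)
      simpa [hs1] using this
    · intro h σ hσ
      obtain ⟨s, hs1, hs2⟩ := H9.perm_exists_invariant_of_mod_le (r := r) (σ := σ)
        (by rw [← hσ, pow_orderOf_eq_one]) k (by simp; omega) (by simpa using h)
      refine ⟨s, hs1, ?_⟩
      apply Finset.eq_of_subset_of_card_le
      · intro y hy
        obtain ⟨x, hx, rfl⟩ := Finset.mem_image.mp hy
        exact (hs2 x).mpr hx
      · rw [Finset.card_image_of_injective _ σ.injective]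
  refine ⟨fun _ => ?_, fun h2 => ?_⟩
  · rw [key]
    refine ⟨fun h => ⟨?_, h⟩, fun h => h.2⟩
    by_contra hlt
    rw [not_le] at hlt
    rw [Nat.mod_eq_of_lt hlt] at h
    exact H9.not_dvd_choose_of_lt_prime hr hlt h hrd
  · subst h2
    rw [key, Nat.even_iff, Nat.odd_iff]
    omega

end Cfsg.Agent.S3573
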