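import Cfsg.Statements.S3575
import Cfsg.Agent.H9.PrimePermPartition

set_option autoImplicit false
open Cfsg

namespace Cfsg.Agent.S3575

/-- Let a, b ≥ 2 and consider the symmetric group of degree a·b acting on the partitions of an (a·b)-set into b parts of size a (encoded as maps onto a b-element set all of whose fibres have a elements; a permutation fixes such a partition when it permutes the fibres). Let r be a prime dividing the number (ab)!/((a!)^b·b!) of such partitions, and let ℓ and k be the remainders of a and b modulo r. Then every permutation of order r fixes some such partition if and only if r ≤ a and one of the following holds: ℓ = 0; or k = 0 and ℓ = 1; or ℓ and k are non-zero, k·ℓ < r, and either b < r or (k + r)·ℓ ≤ k·a + r. -/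
theorem result (a b : ℕ) (ha : 2 ≤ a) (hb : 2 ≤ b) (r : ℕ) (hr : r.Prime)
    (hrd : r ∣ (a * b).factorial / (a.factorial ^ b * b.factorial)) :
    (∀ σ : Equiv.Perm (Fin (a * b)), orderOf σ = r →
        ∃ f : Fin (a * b) → Fin b, (∀ j : Fin b, Nat.card {x : Fin (a * b) // f x = j} = a) ∧
          ∃ π : Equiv.Perm (Fin b), ∀ x : Fin (a * b), f (σ x) = π (f x)) ↔
      (r ≤ a ∧ (a % r = 0 ∨ (b % r = 0 ∧ a % r = 1) ∨
        (a % r ≠ 0 ∧ b % r ≠ 0 ∧ (b % r) * (a % r) < r ∧ (b < r ∨ (b % r + r) * (a % r) ≤ (b % r) * a + r)))) := by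
  have : Fact r.Prime := ⟨hr⟩
  have hrab : r ≤ a * b := by
    have h1 := Nat.uniformBell_mul_eq b (n := a) (by omega)
    have h2 : a.factorial ^ b * b.factorial ∣ (a * b).factorial :=
      ⟨Nat.uniformBell b a, by rw [mul_comm a b, ← h1]; ring⟩
    exact hr.dvd_factorial.mp (hrd.trans (Nat.div_dvd_of_dvd h2))
  have hpos := hr.pos
  have hA := Nat.div_add_mod a r
  have hB := Nat.div_add_mod b r
  have hl := Nat.mod_lt a hpos
  have hk := Nat.mod_lt b hpos
  have harith := H9.partition_arith r (a / r) (a % r) (b / r) (b % r) hl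
  rw [hA, hB] at harith
  have hconv : ∀ t, r * t ≤ b → t * a + (b - r * t) * (a / r) = b * (a / r) + t * (a % r) := by
    intro t ht
    obtain ⟨d, hd⟩ := Nat.exists_eq_add_of_le ht
    have h1 : b - r * t = d := by omega
    rw [h1]
    conv_lhs => rw [← hA]
    rw [hA, hd]
    nlinarith
  have key : (∀ σ : Equiv.Perm (Fin (a * b)), orderOf σ = r →
        ∃ f : Fin (a * b) → Fin b, (∀ j : Fin b, Nat.card {x : Fin (a * b) // f x = j} = a) ∧
          ∃ π : Equiv.Perm (Fin b), ∀ x : Fin (a * b), f (σ x) = π (f x)) ↔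
      (∀ c, 1 ≤ c → c * r ≤ a * b → ∃ t, t ≤ b / r ∧ t * a ≤ c ∧
        c ≤ b * (a / r) + t * (a % r)) := by
    constructor
    · intro h c hc1 hc2
      obtain ⟨σ, h1, h2⟩ := H9.perm_exists_orderOf_prime (α := Fin (a * b)) (r := r) c hc1
        (by simpa using hc2)
      obtain ⟨f, hf, π, hπ⟩ := h σ h1
      obtain ⟨t, h3, h4, h5⟩ := H9.partition_necessary (r := r) (a := a) (by omega) (σ := σ)
        (by rw [← h1, pow_orderOf_eq_one]) f
        (fun j => by
          have := hf j
          rwa [Nat.card_eq_fintype_card, Fintype.card_subtype] at this) π hπ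
      rw [h2] at h4 h5
      refine ⟨t, (Nat.le_div_iff_mul_le hpos).mpr (by rwa [mul_comm]), ?_, ?_⟩
      · apply Nat.le_of_mul_le_mul_left _ hpos
        nlinarith
      · rw [← hconv t h3]
        apply Nat.le_of_mul_le_mul_left _ hpos
        nlinarith
    · intro h σ hσ
      have h1 : σ ^ r = 1 := by rw [← hσ, pow_orderOf_eq_one]
      obtain ⟨c, hc⟩ := (H9.perm_cycleType_eq_replicate h1).2
      have hc1 : 1 ≤ c := by
        rcases Nat.eq_zero_or_pos c with rfl | h
        · rw [mul_zero, Finset.card_eq_zero, Equiv.Perm.support_eq_empty_iff] at hc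
          rw [hc, orderOf_one] at hσ
          exact absurd hσ hr.one_lt.ne
        · exact h
      obtain ⟨t, h2, h3, h4⟩ := h c hc1 (by
        rw [mul_comm, ← hc]; simpa using Finset.card_le_univ σ.support)
      have h5 : r * t ≤ b := by rw [mul_comm]; exact (Nat.le_div_iff_mul_le hpos).mp h2
      obtain ⟨τ, π, h6, h7, h8⟩ := H9.partition_sufficient (r := r) (a := a) t c h5 h3
        (by rw [hconv t h5]; exact h4)
      obtain ⟨e, he⟩ := H9.perm_exists_equiv_semiconj h1 h6 (by simp [mul_comm])
        (by rw [hc, h7, mul_comm])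
      refine ⟨fun x => (e x).1, fun j => ?_, π, fun x => by simp only [he, h8]⟩
      have e2 : {x : Fin (a * b) // (e x).1 = j} ≃ Fin a :=
        { toFun := fun x => (e x).2
          invFun := fun y => ⟨e.symm (j, y), by simp⟩
          left_inv := fun x => Subtype.ext (by
            obtain ⟨x, rfl⟩ := x
            simp)
          right_inv := fun y => by simp }
      rw [Nat.card_congr e2]
      simp
  rw [key, harith]
  have hlt : ∀ x, x < r → x / r = 0 := fun x hx => Nat.div_eq_of_lt hx
  have hge : b / r = 0 ↔ b < r := by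
    rw [Nat.div_eq_zero_iff]; omega
  have hiff : (b % r + r) * (a % r) ≤ (b % r) * a + r ↔ a % r ≤ b % r * (a / r) + 1 := by
    conv_lhs => rw [← hA]
    rw [hA]
    constructor
    · intro h
      apply Nat.le_of_mul_le_mul_left _ hpos
      nlinarith
    · intro h
      have := Nat.mul_le_mul_left r h
      nlinarith
  rw [hiff, hge]
  constructor
  · rintro ⟨h1, h2⟩
    constructor
    · by_contra hlt
      rw [not_le] at hlt
      rw [Nat.mod_eq_of_lt hlt, Nat.div_eq_of_lt hlt] at *
      rcases h2 with h2 | h2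
      · rw [Nat.mod_eq_of_lt h2, mul_comm] at h1
        omega
      · omega
    · by_cases h3 : a % r = 0
      · exact Or.inl h3
      · right
        by_cases h4 : b % r = 0
        · left
          refine ⟨h4, ?_⟩
          rcases h2 with h2 | h2
          · rw [Nat.mod_eq_of_lt h2] at h4
            omega
          · rw [h4] at h2
            omega
        · exact Or.inr ⟨h3, h4, h1, h2⟩
  · rintro ⟨-, h | ⟨h1, h2⟩ | ⟨-, -, h1, h2⟩⟩
    · rw [h]
      exact ⟨by omega, Or.inr (by omega)⟩
    · rw [h1, h2]
      exact ⟨by omega, Or.inr (by omega)⟩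
    · exact ⟨h1, h2⟩

end Cfsg.Agent.S3575
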