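import Cfsg.Statements.S3589
import Cfsg.Agent.H6.Sp8Lower
import Cfsg.Agent.H6.MatEnum

set_option autoImplicit false
open Cfsg

namespace Cfsg.Agent.S3589

open Matrix

theorem transport {F : Type*} [Field F] {ι κ : Type} [Fintype ι] [DecidableEq ι] [Fintype κ]
    [DecidableEq κ] (e : (ι → F) ≃ₗ[F] (κ → F)) (Q : (ι → F) → F) (Q' : (κ → F) → F)
    (h : ∀ x, Q' (e x) = Q x) (g : Matrix ι ι F) (hg : ∀ x, Q (g *ᵥ x) = Q x) :
    ∃ g' : Matrix κ κ F, (∀ x, Q' (g' *ᵥ x) = Q' x) ∧ orderOf g' = orderOf g := by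
  refine ⟨H6.toMat e (Matrix.toLinAlgEquiv' g), fun x => ?_, ?_⟩
  · obtain ⟨x, rfl⟩ := e.surjective x
    rw [H6.toMat_mulVec, h, h, ← hg x]
    rfl
  · exact (Matrix.toLinAlgEquiv'.trans (H6.toMat e)).toMulEquiv.orderOf_eq g

/-- coordinates identifying the minus-type form with a form `Qw`. -/
def coord {F : Type*} [Field F] (a : F) (ha : a ≠ 0) :
    ((Fin 3 ⊕ Fin 3) ⊕ Fin 2 → F) ≃ₗ[F] (Fin 4 ⊕ Fin 4 → F) where
  toFun v := Sum.elim ![v (.inl (.inl 0)), v (.inl (.inl 1)), v (.inl (.inl 2)), v (.inr 0)]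
    ![v (.inl (.inr 0)), v (.inl (.inr 1)), v (.inl (.inr 2)), a * v (.inr 1)]
  invFun x := Sum.elim (Sum.elim ![x (.inl 0), x (.inl 1), x (.inl 2)]
    ![x (.inr 0), x (.inr 1), x (.inr 2)]) ![x (.inl 3), a⁻¹ * x (.inr 3)]
  map_add' u v := by
    ext (i | i) <;> fin_cases i <;> simp [mul_add]
  map_smul' c v := by
    ext (i | i) <;> fin_cases i <;> simp [mul_left_comm]
  left_inv v := by
    ext ((i | i) | i) <;> fin_cases i <;> simp [ha]
  right_inv x := by
    ext (i | i) <;> fin_cases i <;> simp [ha]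

/-- Let F be a finite field of characteristic 2 and let a, b ∈ F make the binary form z₁² + a z₁z₂ + b z₂² anisotropic. Then the symplectic group PSp(8,F) (= Sp(8,F)) and the full isometry group of the non-singular quadratic form x₁y₁ + x₂y₂ + x₃y₃ + (z₁² + a z₁z₂ + b z₂²) of minus type in dimension 8 have the same set of element orders. -/
theorem result {F : Type*} [Field F] [Fintype F]
    [CharP F 2] (a b : F) (han : ∀ z₁ z₂ : F, z₁ ^ 2 + a * z₁ * z₂ + b * z₂ ^ 2 = 0 → z₁ = 0 ∧ z₂ = 0) :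
    Set.range (orderOf : Cfsg.PSp 4 F → ℕ) = Set.range (orderOf : ↥(Cfsg.isometryGroup F (Cfsg.quadFormMinus 3 F a b)) → ℕ) := by
  have h2 : (2 : F) = 0 := CharTwo.two_eq_zero
  obtain ⟨β, hβ⟩ := isSquare_of_charTwo' b
  have ha : a ≠ 0 := by
    rintro rfl
    have := (han β 1 (by rw [hβ]; linear_combination β ^ 2 * h2)).2
    exact one_ne_zero this
  let w : Fin 4 ⊕ Fin 4 → F := Sum.elim ![0, 0, 0, β * a⁻¹] ![0, 0, 0, 1]
  have hw : H6.pr w w ∈ H6.AS F ↔ False := by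
    rw [iff_false]
    rintro ⟨s, hs⟩
    have hs' : s ^ 2 + s = β * a⁻¹ := by
      rw [show s ^ 2 + s = H6.pr w w from hs]
      simp [w, H6.pr_apply, Fin.sum_univ_four]
    have h3 : (s ^ 2 + s) * a = β := by rw [hs', mul_assoc, inv_mul_cancel₀ ha, mul_one]
    have := (han (s ^ 2 * a) 1 (by rw [hβ, ← h3]; grind)).2
    exact one_ne_zero this
  have hQ : ∀ v, H6.Qw w (coord a ha v) = quadFormMinus 3 F a b v := by
    intro v
    simp only [H6.Qw, H6.om_apply, H6.pr_apply, Fin.sum_univ_four, quadFormMinus, coord, w,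
      Fin.sum_univ_three, hβ]
    simp
    field_simp
    grind
  obtain ⟨r, hr⟩ : ∃ r, Nat.card F = r + 1 := ⟨Nat.card F - 1, by
    have := Nat.card_pos (α := F); omega⟩
  apply Set.Subset.antisymm
  · rw [H6.spec_psp8 hr]
    rintro n ⟨N, hN, h⟩
    obtain ⟨g, h1, h3⟩ := (H6.mu8_realO hr N hN).exists w hw
    obtain ⟨g', h4, h5⟩ := transport (coord a ha).symm (H6.Qw w) (quadFormMinus 3 F a b)
      (fun x => by rw [← hQ, LinearEquiv.apply_symm_apply]) g h1
    have h6 : 0 < orderOf g' := by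
      rw [h5]
      exact (orderOf_injective (symplecticGroup (Fin 4) F).subtype Subtype.val_injective
        ⟨g, h1.mem⟩).symm ▸ orderOf_pos _
    refine H6.mem_spec_of_dvd' ⟨⟨H6.unitOfPow g' (orderOf g' - 1) (by
      rw [Nat.sub_add_cancel h6, pow_orderOf_eq_one]), fun u _ => h4 u⟩, ?_⟩ h
    rw [← Subgroup.orderOf_coe, ← orderOf_units, ← h3, ← h5]
    rfl
  · rintro _ ⟨g, rfl⟩
    obtain ⟨g', h4, h5⟩ := transport (coord a ha) (quadFormMinus 3 F a b) (H6.Qw w) hQ g.1.1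
      (fun x => g.2 x x)
    refine ⟨QuotientGroup.mk ⟨g', H6.Pres.mem h4⟩, ?_⟩
    rw [H6.psp_orderOf_char2, h5, ← Subgroup.orderOf_coe, ← orderOf_units]

end Cfsg.Agent.S3589
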