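import Cfsg.Statements.S3590
import Cfsg.Agent.H6.Sp8Lower
import Cfsg.Agent.H6.MatEnum
import Cfsg.Agent.H6.Dickson

set_option autoImplicit false
open Cfsg

namespace Cfsg.Agent.S3590

open Matrix

/-- the even orthogonal group as a group of units. -/
def K {F : Type*} [Field F] [Finite F] (w : Fin 4 ⊕ Fin 4 → F) :
    Subgroup (Matrix (Fin 4 ⊕ Fin 4) (Fin 4 ⊕ Fin 4) F)ˣ where
  carrier := {u | u.1 ∈ H6.Ev w}
  mul_mem' ha hb := (H6.Ev w).mul_mem ha hb
  one_mem' := (H6.Ev w).one_mem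
  inv_mem' {x} hx := by
    have h2 : x⁻¹ = x ^ (orderOf x - 1) := by
      rw [inv_eq_iff_mul_eq_one, ← pow_succ', Nat.sub_add_cancel (orderOf_pos x),
        pow_orderOf_eq_one]
    rw [h2]
    exact (H6.Ev w).pow_mem hx _

theorem aff_pow {F : Type*} [Field F] [Finite F] (w : Fin 4 ⊕ Fin 4 → F)
    (a : H6.Aff (Fin 4 ⊕ Fin 4 → F) (K w)) (N : ℕ) :
    a ^ N = 1 ↔ a.k.1.1 ^ N = 1 ∧ (∑ i ∈ Finset.range N, a.k.1.1 ^ i) *ᵥ a.v = 0 := by
  have h1 : (a ^ N).v = (∑ i ∈ Finset.range N, a.k.1.1 ^ i) *ᵥ a.v := by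
    rw [H6.Aff.pow_v, Matrix.sum_mulVec]
    rfl
  have h2 : (a ^ N).k.1.1 = a.k.1.1 ^ N := by rw [H6.Aff.pow_k]; rfl
  rw [← h1, ← h2]
  constructor
  · intro h
    rw [h]
    exact ⟨rfl, rfl⟩
  · rintro ⟨h3, h4⟩
    exact H6.Aff.ext h4 (Subtype.ext (Units.ext h3))

/-- Let F be a finite field of characteristic 2. Then PSp(8,F) is not determined by its set of element orders, not even up to finitely many groups: for every bound there is a finite group of larger order with exactly the same set of element orders as PSp(8,F). -/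
theorem result {F : Type*} [Field F] [Fintype F]
    [CharP F 2] (M : ℕ) :
    ∃ (H : Type) (_ : Group H) (_ : Fintype H), M < Fintype.card H ∧ Set.range (orderOf : H → ℕ) = Set.range (orderOf : Cfsg.PSp 4 F → ℕ) := by
  obtain ⟨c, hc⟩ := H6.exists_type_AS F False
  let w : Fin 4 ⊕ Fin 4 → F := Sum.elim ![c, 0, 0, 0] ![1, 0, 0, 0]
  have hw : H6.pr w w ∈ H6.AS F ↔ False := by
    simpa [w, H6.pr_apply, Fin.sum_univ_four] using hc
  obtain ⟨r, hr⟩ : ∃ r, Nat.card F = r + 1 := ⟨Nat.card F - 1, by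
    have := Nat.card_pos (α := F); omega⟩
  obtain ⟨H, _, _, h1, h2⟩ := H6.Aff.exists_large (V := Fin 4 ⊕ Fin 4 → F) (K := K w)
    Nat.prime_two (fun v => by rw [two_nsmul, H6.vec_add_self]) M
  refine ⟨H, inferInstance, inferInstance, h1, ?_⟩
  rw [h2, H6.spec_psp8 hr]
  apply Set.Subset.antisymm
  · rintro _ ⟨a, rfl⟩
    obtain ⟨N, hN, h⟩ := H6.sp8_upper (by rw [← hr, Nat.card_eq_fintype_card])
      (H6.pres_of_mem_Ev a.k.2).mem
    refine ⟨N, hN, ?_⟩
    rw [orderOf_dvd_iff_pow_eq_one, aff_pow]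
    have h3 := H6.geom_sum_eq_zero_of_mem_Ev a.k.2 h
    refine ⟨?_, by rw [h3, zero_mulVec]⟩
    rw [← sub_eq_zero, ← mul_geom_sum, h3, mul_zero]
  · rintro n ⟨N, hN, h⟩
    obtain ⟨g, hg, v, hv⟩ := (H6.mu8_realA hr N hN).exists w hw
    have h6 : 0 < orderOf g :=
      (orderOf_injective (symplecticGroup (Fin 4) F).subtype Subtype.val_injective
        ⟨g, (H6.pres_of_mem_Ev hg).mem⟩).symm ▸ orderOf_pos _
    refine H6.mem_spec_of_dvd' ⟨(⟨v, ⟨H6.unitOfPow g (orderOf g - 1) (by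
      rw [Nat.sub_add_cancel h6, pow_orderOf_eq_one]), hg⟩⟩ : H6.Aff _ (K w)), ?_⟩ h
    apply H6.orderOf_eq_of_forall_dvd
    intro k
    rw [aff_pow, ← hv k]
    show g ^ k = 1 ∧ (∑ i ∈ Finset.range k, g ^ i) *ᵥ v = 0 ↔ _
    constructor
    · rintro ⟨h3, h4⟩
      ext1 x
      rw [H6.aff_iterate, h3, h4]
      simp
    · intro h3
      have h4 := congrFun h3 0
      rw [H6.aff_iterate, mulVec_zero, zero_add] at h4
      refine ⟨H6.mat_ext_mulVec fun x => ?_, h4⟩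
      have h5 := congrFun h3 x
      rw [H6.aff_iterate, h4] at h5
      simpa using h5

end Cfsg.Agent.S3590
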