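import Cfsg.Statements.S3592
import Cfsg.Agent.H4.M11Nse

set_option autoImplicit false
open Cfsg

namespace Cfsg.Agent.S3592

/-- Let M be the Mathieu group M₁₁ (order 7920). If a finite group G has the same order as M and the same set of values of the function 'number of elements of order n' (taken over the element orders n that occur), then G is isomorphic to M. -/
theorem result {G : Type*} [Group G] [Finite G]
    (hcard : Nat.card G = Nat.card ↥Cfsg.Spor.M11)
    (hnse : {c : ℕ | 0 < c ∧ ∃ n : ℕ, c = Nat.card {g : G // orderOf g = n}} =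
      {c : ℕ | 0 < c ∧ ∃ n : ℕ, c = Nat.card {g : ↥Cfsg.Spor.M11 // orderOf g = n}}) :
    Nonempty (G ≃* ↥Cfsg.Spor.M11) := by
  obtain ⟨h1, h2⟩ := H4.Nse.nse_spec hnse H4.M11R.mo_M11_mem H4.M11R.exists_mo_M11
  exact (H4.M11R.hyp_of_nse (hcard.trans H4.Golay.card_M11) h1 h2).nonempty_mulEquiv
    H4.M11R.hyp_M11

end Cfsg.Agent.S3592
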