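import Cfsg.Statements.S3595
import Cfsg.Agent.H9.M23f

set_option autoImplicit false
open Cfsg

namespace Cfsg.Agent.S3595

/-- Let M be the Mathieu group M₂₃ (order 10200960). If a finite group G has the same order as M and the same set of values of the function 'number of elements of order n' (taken over the element orders n that occur), then G is isomorphic to M. -/
theorem result {G : Type*} [Group G] [Finite G]
    (hcard : Nat.card G = Nat.card ↥Cfsg.Spor.M23)
    (hnse : {c : ℕ | 0 < c ∧ ∃ n : ℕ, c = Nat.card {g : G // orderOf g = n}} =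
      {c : ℕ | 0 < c ∧ ∃ n : ℕ, c = Nat.card {g : ↥Cfsg.Spor.M23 // orderOf g = n}}) :
    Nonempty (G ≃* ↥Cfsg.Spor.M23) := by
  obtain ⟨h1, h2⟩ := H4.Nse.nse_spec hnse Ma.spec23.1 Ma.spec23.2
  exact (Ma.H23.of_nse (hcard.trans Ma.Md.card_M23) h1 h2).iso Ma.H23_M23

end Cfsg.Agent.S3595
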