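import Cfsg.Statements.S3597
import Cfsg.Agent.H3.SqMain

set_option autoImplicit false
open Cfsg

namespace Cfsg.Agent.S3597

/-- Let p > 5 be a prime and F a field with p² elements. If a finite group G has the same order as PSL(2,F), has an irreducible complex character of degree p², and has no irreducible complex character whose degree is divisible by 2p, then G is isomorphic to PSL(2,F). -/
theorem result {F : Type*} [Field F] [Fintype F] (p : ℕ) (hp : p.Prime)
    (h5 : 5 < p) (hF : Fintype.card F = p ^ 2) {G : Type*} [Group G] [Finite G]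
    (hcard : Nat.card G = Nat.card (Matrix.ProjectiveSpecialLinearGroup (Fin 2) F))
    (hdeg : ∃ χ : Cfsg.IrrCharacter G, (χ : G → ℂ) 1 = (p ^ 2 : ℕ))
    (hno : ∀ χ : Cfsg.IrrCharacter G, ∀ d : ℕ, (χ : G → ℂ) 1 = (d : ℂ) → ¬ 2 * p ∣ d) :
    Nonempty (G ≃* Matrix.ProjectiveSpecialLinearGroup (Fin 2) F) := by
  obtain ⟨χ, h1⟩ := hdeg
  exact H3.Sq.psl2_of_degree hp h5 hF hcard χ.2 h1

end Cfsg.Agent.S3597
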