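import Cfsg.Statements.S3599
import Cfsg.Agent.H6.Aff
import Mathlib.Algebra.GCDMonoid.FinsetLemmas

set_option autoImplicit false
open Cfsg

namespace Cfsg.Agent.S3599

/-- the properties of a minimal Frobenius group with kernel prime `p` and complement prime `r`. -/
structure Crit (F : Type) [Group F] (p r : ℕ) : Prop where
  spec : ∀ x : F, orderOf x = 1 ∨ orderOf x = p ∨ orderOf x = r
  exp : ∃ x : F, orderOf x = p
  gen : ∀ H : Subgroup F, ∀ x ∈ H, ∀ y ∈ H, orderOf x = p → orderOf y = r → H = ⊤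
  norm : ∀ N : Subgroup F, N.Normal → N ≠ ⊥ → ∀ x : F, orderOf x = p → x ∈ N
  comm : ∀ x y : F, orderOf x = p → orderOf y = p → x * y = y * x
  ncomm : ∃ x y : F, orderOf x = r ∧ orderOf y = r ∧ x * y ≠ y * x

theorem exists_irreducible {K V : Type} [Group K] [AddCommGroup V] [Finite V] [Nontrivial V]
    [DistribMulAction K V] :
    ∃ (U : Type) (_ : AddCommGroup U) (_ : Finite U) (_ : Nontrivial U) (_ : DistribMulAction K U)
      (f : U →+ V), Function.Injective f ∧ (∀ (k : K) (u : U), f (k • u) = k • f u) ∧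
      ∀ W : AddSubgroup U, (∀ k : K, ∀ w ∈ W, k • w ∈ W) → W ≠ ⊥ → W = ⊤ := by
  obtain ⟨U, ⟨hU0, hU⟩, hmin⟩ := exists_minimal_of_wellFoundedLT
    (fun U : AddSubgroup V => U ≠ ⊥ ∧ ∀ k : K, ∀ w ∈ U, k • w ∈ U) ⟨⊤, top_ne_bot, by simp⟩
  let _ : DistribMulAction K U :=
    { smul := fun k u => ⟨k • u.1, hU k _ u.2⟩
      one_smul := fun u => Subtype.ext (one_smul K u.1)
      mul_smul := fun a b u => Subtype.ext (mul_smul a b u.1)
      smul_zero := fun a => Subtype.ext (smul_zero a)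
      smul_add := fun a u v => Subtype.ext (smul_add a u.1 v.1) }
  refine ⟨U, inferInstance, inferInstance, (AddSubgroup.nontrivial_iff_ne_bot U).mpr hU0,
    inferInstance, U.subtype, Subtype.val_injective, fun _ _ => rfl, ?_⟩
  intro W hW hW0
  have h1 : U ≤ W.map U.subtype := by
    apply hmin
    · refine ⟨?_, ?_⟩
      · rwa [Ne, AddSubgroup.map_eq_bot_iff_of_injective _ Subtype.val_injective]
      · rintro k _ ⟨w, hw, rfl⟩
        exact ⟨k • w, hW k w hw, rfl⟩
    · rintro _ ⟨w, -, rfl⟩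
      exact w.2
  rw [eq_top_iff]
  intro u _
  obtain ⟨w, hw, h⟩ := h1 u.2
  rwa [← Subtype.val_injective h]

theorem exists_crit {p r : ℕ} (hp : p.Prime) (hr : r.Prime) (hpr : p ≠ r) :
    ∃ (F : Type) (_ : Group F) (_ : Finite F), Crit F p r := by
  have : NeZero r := ⟨hr.ne_zero⟩
  have : Fact r.Prime := ⟨hr⟩
  have : Fact p.Prime := ⟨hp⟩
  let K := Multiplicative (ZMod r)
  have hK : Nat.card K = r := by simp [K]
  obtain ⟨V', _, _, _, _, hV', hf'⟩ := H6.exists_fpf_cyclic (C := K) hp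
    (by rw [hK, Nat.prime_dvd_prime_iff_eq hp hr]; exact hpr)
  obtain ⟨V, _, _, _, _, f, hf1, hf2, hirr⟩ := exists_irreducible (K := K) (V := V')
  have hV : ∀ v : V, p • v = 0 := fun v => hf1 (by rw [map_nsmul, hV', map_zero])
  have hf : ∀ k : K, k ≠ 1 → ∀ w : V, k • w = w → w = 0 := fun k hk w hw =>
    hf1 (by rw [map_zero]; exact hf' k hk _ (by rw [← hf2, hw]))
  have ho : ∀ a : H6.Aff V K, a.k ≠ 1 → orderOf a = r := fun a ha => by
    rw [H6.Aff.orderOf_eq_of_fpf a 1 (by simpa using hf _ ha)]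
    exact orderOf_eq_prime (by have := pow_card_eq_one' (x := a.k); rwa [hK] at this) ha
  have ho1 : ∀ a : H6.Aff V K, a.k = 1 → orderOf a = 1 ∨ orderOf a = p := fun a ha => by
    simpa [ha] using H6.Aff.orderOf_cases hp hV a
  have hk1 : ∀ a : H6.Aff V K, orderOf a = p → a.k = 1 := fun a ha => by
    by_contra h
    exact hpr (ha.symm.trans (ho a h))
  have hgen : ∀ k : K, k ≠ 1 → ∀ k' : K, ∃ n : ℕ, k ^ n = k' := fun k hk k' =>
    (Submonoid.mem_powers_iff _ _).mp (mem_powers_of_prime_card hK hk)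
  let W : Subgroup (H6.Aff V K) → AddSubgroup V := fun H =>
    Subgroup.toAddSubgroup' (H.comap H6.Aff.inl)
  have hW : ∀ H v, v ∈ W H ↔ (⟨v, 1⟩ : H6.Aff V K) ∈ H := fun _ _ => Iff.rfl
  have hconj : ∀ (y : H6.Aff V K) (v : V), y * ⟨v, 1⟩ * y⁻¹ = ⟨y.k • v, 1⟩ := fun y v => by
    ext <;> simp
  obtain ⟨v0, hv0⟩ := exists_ne (0 : V)
  obtain ⟨k0, hk0⟩ := exists_ne (1 : K)
  refine ⟨H6.Aff V K, inferInstance, inferInstance, ?_, ?_, ?_, ?_, ?_, ?_⟩
  · intro x
    by_cases h : x.k = 1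
    · rcases ho1 x h with h | h
      · exact Or.inl h
      · exact Or.inr (Or.inl h)
    · exact Or.inr (Or.inr (ho x h))
  · exact ⟨⟨v0, 1⟩, by rw [H6.Aff.orderOf_mk_one, addOrderOf_eq_prime (hV _) hv0]⟩
  · intro H x hx y hy hxo hyo
    have hyk : y.k ≠ 1 := fun h => by
      rcases ho1 y h with h | h
      · exact hr.ne_one (hyo.symm.trans h)
      · exact hpr (h.symm.trans hyo)
    have hWH : W H = ⊤ := by
      apply hirr
      · intro k w hw
        obtain ⟨n, rfl⟩ := hgen _ hyk k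
        rw [hW, ← H6.Aff.pow_k, ← hconj]
        exact H.mul_mem (H.mul_mem (H.pow_mem hy n) ((hW _ _).mp hw)) (H.inv_mem (H.pow_mem hy n))
      · intro h
        have h1 : x.v ∈ W H := by
          rw [hW, ← hk1 x hxo]
          exact hx
        rw [h, AddSubgroup.mem_bot] at h1
        have : x = 1 := H6.Aff.ext h1 (hk1 x hxo)
        rw [this, orderOf_one] at hxo
        exact hp.ne_one hxo.symm
    rw [eq_top_iff]
    intro g _
    obtain ⟨n, hn⟩ := hgen _ hyk g.k
    have h1 : g * (y ^ n)⁻¹ ∈ H := by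
      have h2 : (g * (y ^ n)⁻¹).k = 1 := by simp [hn]
      have h3 : (g * (y ^ n)⁻¹).v ∈ W H := hWH ▸ AddSubgroup.mem_top _
      rw [hW, ← h2] at h3
      exact h3
    have h4 := H.mul_mem h1 (H.pow_mem hy n)
    have h5 : g * (y ^ n)⁻¹ * y ^ n = g := inv_mul_cancel_right g _
    rwa [h5] at h4
  · intro N hN hN0 x hx
    have hWN : W N = ⊤ := by
      apply hirr
      · intro k w hw
        have := hN.conj_mem _ ((hW _ _).mp hw) ⟨0, k⟩
        rwa [hconj] at this
      · intro h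
        obtain ⟨⟨n, hn⟩, hn1⟩ := Subgroup.ne_bot_iff_exists_ne_one.mp hN0
        apply hn1
        apply Subtype.ext
        by_cases hk : n.k = 1
        · have h1 : n.v ∈ W N := by
            rw [hW, ← hk]
            exact hn
          rw [h, AddSubgroup.mem_bot] at h1
          exact H6.Aff.ext h1 hk
        · exfalso
          have h1 : n * (⟨v0, 1⟩ * n⁻¹ * (⟨v0, 1⟩ : H6.Aff V K)⁻¹) ∈ N :=
            N.mul_mem hn (hN.conj_mem _ (N.inv_mem hn) _)
          have h2 : n * (⟨v0, 1⟩ * n⁻¹ * (⟨v0, 1⟩ : H6.Aff V K)⁻¹) = ⟨n.k • v0 - v0, 1⟩ := by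
            rw [← mul_assoc, ← mul_assoc, hconj]
            ext <;> simp [sub_eq_add_neg]
          rw [h2, ← hW, h, AddSubgroup.mem_bot, sub_eq_zero] at h1
          exact hv0 (hf _ hk _ h1)
    have h3 : x.v ∈ W N := hWN ▸ AddSubgroup.mem_top _
    rw [hW, ← hk1 x hx] at h3
    exact h3
  · intro x y hx hy
    ext <;> simp [hk1 x hx, hk1 y hy, add_comm]
  · refine ⟨⟨0, k0⟩, ⟨v0, k0⟩, ho _ hk0, ho _ hk0, fun h => hv0 (hf k0 hk0 _ ?_)⟩
    simpa using congrArg H6.Aff.v h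

section
variable {s : ℕ} {p : Fin s → Fin 2 → ℕ} (hp : ∀ j i, (p j i).Prime)
  (hinj : ∀ j i j' i', p j i = p j' i' → j = j' ∧ i = i') (e : Fin s → Fin 2)
  {F : Fin s → Type} [∀ j, Group (F j)] [∀ j, Finite (F j)]
  (hF : ∀ j, Crit (F j) (p j (e j)) (p j (e j + 1)))
include hp hinj hF

omit hp hinj [∀ j, Finite (F j)] in
theorem spec_factor (j : Fin s) (x : F j) :
    orderOf x = 1 ∨ orderOf x = p j 0 ∨ orderOf x = p j 1 := by
  have h := (hF j).spec x
  have : e j = 0 ∨ e j = 1 := by omega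
  rcases this with h' | h' <;> rw [h'] at h
  · exact h
  · have : (1 : Fin 2) + 1 = 0 := rfl
    rw [this] at h
    tauto

omit hp hinj [∀ j, Finite (F j)] in
theorem exists_factor (j : Fin s) (i : Fin 2) : ∃ x : F j, orderOf x = p j i := by
  have : i = e j ∨ i = e j + 1 := by omega
  rcases this with h | h <;> rw [h]
  · exact (hF j).exp
  · obtain ⟨x, -, h, -⟩ := (hF j).ncomm
    exact ⟨x, h⟩

omit [∀ j, Finite (F j)] in
theorem not_dvd_factor {j j' : Fin s} (h : j' ≠ j) (i : Fin 2) (x : F j') :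
    ¬ p j i ∣ orderOf x := by
  intro hd
  rcases spec_factor e hF j' x with h1 | h1 | h1 <;> rw [h1] at hd
  · exact (hp j i).not_dvd_one hd
  · exact h (hinj _ _ _ _ ((Nat.prime_dvd_prime_iff_eq (hp _ _) (hp _ _)).mp hd)).1.symm
  · exact h (hinj _ _ _ _ ((Nat.prime_dvd_prime_iff_eq (hp _ _) (hp _ _)).mp hd)).1.symm

omit hp hinj hF [∀ j, Finite (F j)] in
theorem orderOf_single (j : Fin s) (y : F j) :
    orderOf (Pi.mulSingle j y : ∀ j, F j) = orderOf y :=
  orderOf_injective (MonoidHom.mulSingle F j) (Pi.mulSingle_injective j) y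

omit [∀ j, Finite (F j)] in
theorem eq_single (j : Fin s) (i : Fin 2) (x : ∀ j, F j) (hx : orderOf x = p j i) :
    x = Pi.mulSingle j (x j) ∧ orderOf (x j) = p j i := by
  have h1 : x = Pi.mulSingle j (x j) := by
    ext j'
    by_cases h : j' = j
    · subst h; simp
    · rw [Pi.mulSingle_eq_of_ne h]
      have h2 : orderOf (x j') ∣ p j i := hx ▸ orderOf_apply_dvd_orderOf j'
      rcases (Nat.dvd_prime (hp j i)).mp h2 with h3 | h3
      · simpa using h3
      · exact absurd (h3 ▸ dvd_rfl) (not_dvd_factor hp hinj e hF h i (x j'))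
  exact ⟨h1, by rw [← orderOf_single, ← h1, hx]⟩

omit [∀ j, Finite (F j)] in
theorem orderOf_prod (x : ∀ j, F j) : orderOf x = ∏ j, orderOf (x j) := by
  rw [Pi.orderOf, Finset.lcm_eq_prod]
  intro j _ j' _ h
  rcases spec_factor e hF j (x j) with h1 | h1 | h1 <;> simp only [Function.onFun, h1]
  · simp
  · exact (Nat.Prime.coprime_iff_not_dvd (hp _ _)).mpr (not_dvd_factor hp hinj e hF h.symm _ _)
  · exact (Nat.Prime.coprime_iff_not_dvd (hp _ _)).mpr (not_dvd_factor hp hinj e hF h.symm _ _)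

omit [∀ j, Finite (F j)] in
theorem spec_prod : Set.range (orderOf : (∀ j, F j) → ℕ) =
    {m : ℕ | ∃ c : Fin s → ℕ, (∀ j, c j = 1 ∨ c j = p j 0 ∨ c j = p j 1) ∧ m = ∏ j, c j} := by
  ext m
  constructor
  · rintro ⟨x, rfl⟩
    exact ⟨fun j => orderOf (x j), fun j => spec_factor e hF j _, orderOf_prod hp hinj e hF x⟩
  · rintro ⟨c, hc, rfl⟩
    have : ∀ j, ∃ x : F j, orderOf x = c j := fun j => by
      rcases hc j with h | h | h <;> rw [h]
      · exact ⟨1, orderOf_one⟩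
      · exact exists_factor e hF j 0
      · exact exists_factor e hF j 1
    choose x hx using this
    exact ⟨x, by rw [orderOf_prod hp hinj e hF]; simp [hx]⟩

theorem critical (H : Subgroup (∀ j, F j)) (N : Subgroup ↥H) [N.Normal] (hHN : H ≠ ⊤ ∨ N ≠ ⊥) :
    Set.range (orderOf : (↥H ⧸ N) → ℕ) ≠
    {m : ℕ | ∃ c : Fin s → ℕ, (∀ j, c j = 1 ∨ c j = p j 0 ∨ c j = p j 1) ∧ m = ∏ j, c j} := by
  intro hs
  have hq : ∀ j i, ∃ q : H ⧸ N, orderOf q = p j i := fun j i => by
    have : p j i ∈ Set.range (orderOf : (↥H ⧸ N) → ℕ) := by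
      rw [hs, ← spec_prod hp hinj e hF]
      obtain ⟨x, hx⟩ := exists_factor e hF j i
      exact ⟨Pi.mulSingle j x, by rw [orderOf_single, hx]⟩
    exact this
  have hH : ∀ j i, ∃ x : F j, Pi.mulSingle j x ∈ H ∧ orderOf x = p j i := fun j i => by
    obtain ⟨q, hq⟩ := hq j i
    obtain ⟨h, rfl⟩ := QuotientGroup.mk_surjective q
    obtain ⟨x, hx⟩ := H6.mem_spec_of_dvd (g := h) (d := p j i)
      (hq ▸ orderOf_map_dvd (QuotientGroup.mk' N) h)
    rw [← Subgroup.orderOf_coe] at hx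
    obtain ⟨h1, h2⟩ := eq_single hp hinj e hF j i _ hx
    exact ⟨_, h1 ▸ x.2, h2⟩
  have htop : H = ⊤ := by
    rw [eq_top_iff]
    intro g _
    apply Subgroup.pi_mem_of_mulSingle_mem
    intro j
    obtain ⟨x, hx, hx'⟩ := hH j (e j)
    obtain ⟨y, hy, hy'⟩ := hH j (e j + 1)
    have := (hF j).gen (H.comap (MonoidHom.mulSingle F j)) x hx y hy hx' hy'
    exact (this ▸ Subgroup.mem_top (g j) : g j ∈ H.comap (MonoidHom.mulSingle F j))
  subst htop
  have hN : N ≠ ⊥ := by simpa using hHN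
  obtain ⟨⟨n, hn⟩, hn1⟩ := Subgroup.ne_bot_iff_exists_ne_one.mp hN
  have hn2 : n.1 ≠ 1 := fun h => hn1 (Subtype.ext (Subtype.ext h))
  have hord : orderOf n ≠ 1 := by
    rw [← Subgroup.orderOf_coe]
    simpa using hn2
  have ho : orderOf (n ^ (orderOf n / (orderOf n).minFac)) = (orderOf n).minFac :=
    orderOf_pow_orderOf_div (orderOf_pos n).ne' (Nat.minFac_dvd _)
  have hm := N.pow_mem hn (orderOf n / (orderOf n).minFac)
  have hl := Nat.minFac_prime hord
  generalize n ^ (orderOf n / (orderOf n).minFac) = m at ho hm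
  generalize (orderOf n).minFac = l at ho hl
  rw [← Subgroup.orderOf_coe] at ho
  have hm1 : m.1 ≠ 1 := fun h => by
    rw [h, orderOf_one] at ho
    exact hl.ne_one ho.symm
  obtain ⟨j, hj⟩ := Function.ne_iff.mp hm1
  have h2 : orderOf (m.1 j) = l :=
    ((Nat.dvd_prime hl).mp (ho ▸ orderOf_apply_dvd_orderOf j)).resolve_left (by simpa using hj)
  have h3 : ∃ i, l = p j i := by
    rcases spec_factor e hF j (m.1 j) with h | h | h
    · exact absurd (h2.symm.trans h) hl.ne_one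
    · exact ⟨0, h2.symm.trans h⟩
    · exact ⟨1, h2.symm.trans h⟩
  obtain ⟨i, rfl⟩ := h3
  obtain ⟨h4, -⟩ := eq_single hp hinj e hF j i _ ho
  let ι : F j →* (⊤ : Subgroup (∀ j, F j)) :=
    Subgroup.topEquiv.symm.toMonoidHom.comp (MonoidHom.mulSingle F j)
  have h5 : ∀ x : F j, orderOf x = p j (e j) → ι x ∈ N :=
    (hF j).norm (N.comap ι) inferInstance (by
      rw [Subgroup.ne_bot_iff_exists_ne_one]
      refine ⟨⟨m.1 j, ?_⟩, fun h => hj (congrArg Subtype.val h)⟩
      have : ι (m.1 j) = m := Subtype.ext h4.symm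
      show ι (m.1 j) ∈ N
      rwa [this])
  have key : ∀ x : (⊤ : Subgroup (∀ j, F j)), ¬ p j (e j) ∣ orderOf (x.1 j) →
      orderOf (QuotientGroup.mk x : _ ⧸ N) ≠ p j (e j) := by
    intro x hx h
    have h6 : p j (e j) ∣ orderOf x := h ▸ orderOf_map_dvd (QuotientGroup.mk' N) x
    rw [← Subgroup.orderOf_coe, orderOf_prod hp hinj e hF] at h6
    obtain ⟨j', -, h7⟩ := (Prime.dvd_finsetProd_iff (hp _ _).prime _).mp h6
    by_cases h8 : j' = j
    · subst h8
      exact hx h7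
    · exact not_dvd_factor hp hinj e hF h8 _ _ h7
  obtain ⟨q, hq'⟩ := hq j (e j)
  obtain ⟨h, rfl⟩ := QuotientGroup.mk_surjective q
  rcases (hF j).spec (h.1 j) with h6 | h6 | h6
  · exact key h (by rw [h6]; exact (hp _ _).not_dvd_one) hq'
  · apply key (h * (ι (h.1 j))⁻¹)
    · have : (h * (ι (h.1 j))⁻¹).1 j = 1 := by simp [ι]
      rw [this, orderOf_one]
      exact (hp _ _).not_dvd_one
    · rw [QuotientGroup.mk_mul_of_mem _ (N.inv_mem (h5 _ h6)), hq']
  · apply key h _ hq'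
    rw [h6, Nat.prime_dvd_prime_iff_eq (hp _ _) (hp _ _)]
    intro h7
    have := (hinj _ _ _ _ h7).2
    omega

end

/-- A finite group is critical with respect to a set Ω of natural numbers when its set of element orders is Ω while no proper section H/N (H a subgroup, N normal in H, (H, N) ≠ (whole group, 1)) has Ω as its set of element orders. Let s ≥ 1 and let p(j,0), p(j,1) (j < s) be 2s pairwise distinct primes, and let Ω be the set of all products c(0)·…·c(s−1) with each c(j) ∈ {1, p(j,0), p(j,1)}. Then there are 2^s pairwise non-isomorphic finite groups critical with respect to Ω. -/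
theorem result (s : ℕ) (hs : 1 ≤ s) (p : Fin s → Fin 2 → ℕ)
    (hp : ∀ j i, (p j i).Prime) (hinj : ∀ j i j' i', p j i = p j' i' → j = j' ∧ i = i') :
    ∃ (G : Fin (2 ^ s) → Type) (_ : ∀ a, Group (G a)) (_ : ∀ a, Fintype (G a)),
      (∀ a b, a ≠ b → ¬ Nonempty (G a ≃* G b)) ∧
      ∀ a, Set.range (orderOf : (G a) → ℕ) = {m : ℕ | ∃ c : Fin s → ℕ, (∀ j, c j = 1 ∨ c j = p j 0 ∨ c j = p j 1) ∧ m = ∏ j, c j} ∧
      ∀ (H : Subgroup (G a)) (N : Subgroup ↥H) [N.Normal], (H ≠ ⊤ ∨ N ≠ ⊥) → Set.range (orderOf : (↥H ⧸ N) → ℕ) ≠ {m : ℕ | ∃ c : Fin s → ℕ, (∀ j, c j = 1 ∨ c j = p j 0 ∨ c j = p j 1) ∧ m = ∏ j, c j} := by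
  have hne : ∀ j i, p j i ≠ p j (i + 1) := fun j i h => by
    have := (hinj _ _ _ _ h).2
    omega
  choose F instG instF hF using fun j i => exists_crit (hp j i) (hp j (i + 1)) (hne j i)
  let e : Fin (2 ^ s) → Fin s → Fin 2 := finFunctionFinEquiv.symm
  refine ⟨fun a => ∀ j, F j (e a j), fun a => inferInstance, fun a => Fintype.ofFinite _, ?_,
    fun a => ⟨spec_prod hp hinj (e a) (fun j => hF j _), fun H N _ =>
      critical hp hinj (e a) (fun j => hF j _) H N⟩⟩
  rintro a b hab ⟨φ⟩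
  obtain ⟨j, hj⟩ := Function.ne_iff.mp (fun h => hab (finFunctionFinEquiv.symm.injective h) : e a ≠ e b)
  have hj' : e b j + 1 = e a j := by omega
  obtain ⟨x, y, hx, hy, hxy⟩ := (hF j (e b j)).ncomm
  rw [hj'] at hx hy
  apply hxy
  set x' := φ.symm (Pi.mulSingle j x) with hx'
  set y' := φ.symm (Pi.mulSingle j y) with hy'
  obtain ⟨h1, h2⟩ := eq_single hp hinj (e a) (fun j => hF j _) j _ x'
    (by rw [hx', MulEquiv.orderOf_eq, orderOf_single, hx])
  obtain ⟨h3, h4⟩ := eq_single hp hinj (e a) (fun j => hF j _) j _ y'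
    (by rw [hy', MulEquiv.orderOf_eq, orderOf_single, hy])
  have h5 : x' * y' = y' * x' := by
    rw [h1, h3, ← Pi.mulSingle_mul, ← Pi.mulSingle_mul, (hF j _).comm _ _ h2 h4]
  rw [hx', hy', ← map_mul, ← map_mul] at h5
  simpa using congrFun (φ.symm.injective h5) j

end Cfsg.Agent.S3599
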