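import Cfsg.Statements.S3600
import Cfsg.Agent.H5.SpecSixCrit

set_option autoImplicit false
open Cfsg

namespace Cfsg.Agent.S3600

/-- A finite group is critical with respect to a set Ω of natural numbers when its set of element orders is Ω while no proper section has Ω as its set of element orders. A finite group critical with respect to {1, 2, 3, 4, 5} (the set of element orders of the alternating group of degree 6) is isomorphic either to the alternating group of degree 6 or to the affine group F² ⋊ SL(2,F) over the field F with four elements (realised as the matrices of SL(3,F) with last row (0, 0, 1)). -/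
theorem result {G : Type*} [Group G] [Finite G]
    (hcrit : Set.range (orderOf : G → ℕ) = ({1, 2, 3, 4, 5} : Set ℕ) ∧
      ∀ (H : Subgroup G) (N : Subgroup ↥H) [N.Normal], (H ≠ ⊤ ∨ N ≠ ⊥) → Set.range (orderOf : (↥H ⧸ N) → ℕ) ≠ ({1, 2, 3, 4, 5} : Set ℕ)) :
    Nonempty (G ≃* alternatingGroup (Fin 6)) ∨
      ∃ (F : Type) (_ : Field F) (_ : Fintype F), Fintype.card F = 4 ∧
        Nonempty (G ≃* ↥(Subgroup.closure {M : Matrix.SpecialLinearGroup (Fin 3) F |
          (M : Matrix (Fin 3) (Fin 3) F) 2 0 = 0 ∧ (M : Matrix (Fin 3) (Fin 3) F) 2 1 = 0 ∧ (M : Matrix (Fin 3) (Fin 3) F) 2 2 = 1})) := by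
  obtain ⟨h, hc⟩ := hcrit
  have h0 : ∀ g : G, orderOf g ≤ 5 := fun g => by
    have := h.le ⟨g, rfl⟩
    simp only [Set.mem_insert_iff, Set.mem_singleton_iff] at this
    omega
  have h1 : ∀ k ∈ ({1, 2, 3, 4, 5} : Set ℕ), k ∣ Nat.card G := fun k hk => by
    obtain ⟨g, rfl⟩ := h.ge hk
    exact orderOf_dvd_natCard g
  refine (H5.cases_of_le_five h0 (h1 2 (by simp)) (h1 3 (by simp)) (h1 5 (by simp))).imp_right ?_
  rintro ⟨φ, h2, h3⟩
  have h4 : φ.ker ≠ ⊥ := fun e => by
    obtain ⟨g, hg⟩ := h.ge (show 4 ∈ ({1, 2, 3, 4, 5} : Set ℕ) by simp)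
    have := H6.spec_alt5.le ⟨φ g, rfl⟩
    rw [orderOf_injective φ ((MonoidHom.ker_eq_bot_iff φ).1 e), hg] at this
    simp at this
  obtain ⟨e⟩ := H5.equiv_aff4_of_minimal h0 h2 h3 h4 fun M hM h5 h6 => by
    by_contra h7
    let ψ : (⊤ : Subgroup G) ⧸ M.subgroupOf ⊤ →* alternatingGroup (Fin 5) :=
      QuotientGroup.lift _ (φ.comp (⊤ : Subgroup G).subtype) fun x hx => h6 hx
    refine hc ⊤ (M.subgroupOf ⊤) (Or.inr fun e => h5 ?_) (H5.spec_of_alt5 (φ := ψ) (fun g => ?_)
      (fun y => ?_) (H5.isPGroup_two_iff.2 fun g hg => ?_) fun e => h7 fun x hx => ?_)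
    · rwa [Subgroup.subgroupOf_eq_bot, disjoint_top] at e
    · obtain ⟨g, rfl⟩ := QuotientGroup.mk_surjective g
      refine (Nat.le_of_dvd (orderOf_pos g) (orderOf_map_dvd (QuotientGroup.mk' _) g)).trans ?_
      rw [← Subgroup.orderOf_coe]
      exact h0 _
    · obtain ⟨x, rfl⟩ := h2 y
      exact ⟨(⟨x, trivial⟩ : (⊤ : Subgroup G)), rfl⟩
    · obtain ⟨g, rfl⟩ := QuotientGroup.mk_surjective g
      obtain ⟨k, hk⟩ := H5.twoEl_of_mem h3 (x := g) hg
      exact H5.TwoEl.map (QuotientGroup.mk' _) ⟨k, Subtype.ext hk⟩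
    · exact (QuotientGroup.eq_one_iff (⟨x, trivial⟩ : (⊤ : Subgroup G))).1 (e.le hx)
  exact ⟨H2.GF4, inferInstance, inferInstance, rfl,
    ⟨e.trans (MulEquiv.subgroupCongr (Subgroup.closure_eq H5.aff4).symm)⟩⟩

end Cfsg.Agent.S3600
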