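import Cfsg.Statements.S3619
import Cfsg.Agent.H8.Quasi

set_option autoImplicit false
open Cfsg

namespace Cfsg.Agent.S3619

/-- Let G act faithfully on a finite set in such a way that every non-trivial normal subgroup of G is transitive (G is quasiprimitive). Let Γ be a subset with more than one point and not the whole set, such that the pointwise stabilizer of the complement of Γ acts transitively on Γ (a Jordan set). If that pointwise stabilizer acts primitively on Γ, then G is k-fold transitive where k is one more than the number of points outside Γ (the Jordan set is a trivial one). -/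
theorem result {G Ω : Type*} [Group G] [Finite G] [MulAction G Ω] [FaithfulSMul G Ω] [Finite Ω]
    (hqp : ∀ N : Subgroup G, N.Normal → N ≠ ⊥ → MulAction.IsPretransitive ↥N Ω)
    (Γ : Set Ω) (hΓ1 : 1 < Γ.ncard) (hΓ2 : Γ.ncard < Nat.card Ω)
    (hJ : MulAction.IsPretransitive ↥(fixingSubgroup G Γᶜ) ↥(SubMulAction.ofFixingSubgroup G Γᶜ))
    (hJp : MulAction.IsPreprimitive ↥(fixingSubgroup G Γᶜ) ↥(SubMulAction.ofFixingSubgroup G Γᶜ)) :
    MulAction.IsMultiplyPretransitive G Ω (Nat.card Ω - Γ.ncard + 1) := by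
  classical
  have hJ' : H8.JordanCompl G Γᶜ := H8.jordanCompl_iff.mpr hJ
  obtain ⟨x, hx, y, hy, hxy⟩ := (Set.one_lt_ncard Γ.toFinite).mp hΓ1
  have hx' : x ∉ Γᶜ := fun h => h hx
  have hy' : y ∉ Γᶜ := fun h => h hy
  obtain ⟨h, -, hhx⟩ := hJ' x hx' y hy'
  have h1 : h ≠ 1 := fun h0 => hxy (by rw [← hhx, h0, one_smul])
  have htr : MulAction.IsPretransitive G Ω := H8.isPretransitive_of_quasi hqp h1
  have hprim : MulAction.IsPreprimitive G Ω := by
    refine MulAction.IsPreprimitive.of_isTrivialBlock_base x fun {B} hxB hB => ?_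
    by_cases hBu : B = Set.univ
    · exact Or.inr hBu
    have hsub : B ⊆ Γᶜᶜ := hJ'.block_subset_compl hqp hB hBu hx' hy' hxy hxB hx'
    have hB' : MulAction.IsBlock (fixingSubgroup G Γᶜ)
        (Subtype.val ⁻¹' B : Set (SubMulAction.ofFixingSubgroup G Γᶜ)) :=
      (hB.subgroup (H := fixingSubgroup G Γᶜ)).subtype_val_preimage
    rcases hJp.isTrivialBlock_of_isBlock hB' with h2 | h2
    · left
      intro a ha b hb
      have := @h2 ⟨a, hsub ha⟩ ha ⟨b, hsub hb⟩ hb
      exact congrArg Subtype.val this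
    · exfalso
      refine hJ'.not_compl_subset_block hqp hB hBu hx' hy' hxy fun z hz => ?_
      have : (⟨z, hz⟩ : SubMulAction.ofFixingSubgroup G Γᶜ) ∈
          (Subtype.val ⁻¹' B : Set (SubMulAction.ofFixingSubgroup G Γᶜ)) := by
        rw [h2]; trivial
      exact this
  have hc := Set.ncard_add_ncard_compl Γ
  have := hprim.isMultiplyPreprimitive (s := Γᶜ) (n := Nat.card Ω - Γ.ncard - 1)
    (by omega) (by omega) hJp
  have h3 : Nat.card Ω - Γ.ncard + 1 = Nat.card Ω - Γ.ncard - 1 + 2 := by omega
  rw [h3]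
  exact this.isMultiplyPretransitive

end Cfsg.Agent.S3619
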