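import Cfsg.Statements.S3620
import Cfsg.Agent.H8.QuasiAlt

set_option autoImplicit false
open Cfsg

namespace Cfsg.Agent.S3620

/-- Let G act faithfully on a finite set in such a way that every non-trivial normal subgroup of G is transitive (G is quasiprimitive). Let Γ be a subset with more than one point and fewer than half of the points, such that the pointwise stabilizer of the complement of Γ acts transitively on Γ. Then G induces every even permutation of the set (G is the alternating or the symmetric group). -/
theorem result {G Ω : Type*} [Group G] [Finite G] [MulAction G Ω] [FaithfulSMul G Ω] [Fintype Ω] [DecidableEq Ω]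
    (hqp : ∀ N : Subgroup G, N.Normal → N ≠ ⊥ → MulAction.IsPretransitive ↥N Ω)
    (Γ : Set Ω) (hΓ1 : 1 < Γ.ncard) (hΓ2 : 2 * Γ.ncard < Fintype.card Ω)
    (hJ : MulAction.IsPretransitive ↥(fixingSubgroup G Γᶜ) ↥(SubMulAction.ofFixingSubgroup G Γᶜ)) :
    ∀ σ : Equiv.Perm Ω, Equiv.Perm.sign σ = 1 → ∃ x : G, (MulAction.toPerm x : Equiv.Perm Ω) = σ := by
  classical
  have hJ' : H8.JordanCompl G ((Γ.toFinsetᶜ : Finset Ω) : Set Ω) := by
    have := H8.jordanCompl_iff.mpr hJ
    simpa using this
  rw [Set.ncard_eq_toFinset_card'] at hΓ1 hΓ2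
  have hc := Finset.card_add_card_compl Γ.toFinset
  have := H8.quasi_marggraff_alt _ rfl hqp _ hJ' (by rw [compl_compl]; omega)
    (by rw [compl_compl]; omega)
  intro σ hσ
  exact this hσ

end Cfsg.Agent.S3620
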