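import Cfsg.Statements.S3627
import Cfsg.Agent.H4.J1
import Cfsg.Agent.H6.Aff
import Cfsg.Agent.H6.AltSpec

set_option autoImplicit false
open Cfsg

namespace Cfsg.Agent.S3627

open Cfsg.Agent.H6 Cfsg.Agent.H4.J1

theorem step {p m : ℕ} (hp : p.Prime) (hpm : ¬ p ∣ m) (hm : 1 < m)
    (h : ∃ (H : Type) (_ : Group H) (_ : Finite H), Group.IsSolvable H ∧
      Set.range (orderOf : H → ℕ) = {d | d ∣ m ∧ d ≠ m}) :
    ∃ (H : Type) (_ : Group H) (_ : Finite H), Group.IsSolvable H ∧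
      Set.range (orderOf : H → ℕ) = {d | d ∣ p * m ∧ d ≠ p * m} := by
  obtain ⟨H, _, _, hs, hH⟩ := h
  obtain ⟨F, _, _, hs', hF, -⟩ := exists_frobenius_cyclic hp hpm
  refine ⟨F × H, inferInstance, inferInstance, inferInstance, ?_⟩
  rw [spec_prod, hH, hF]
  have hp1 := hp.one_lt
  ext d
  simp only [Set.mem_insert_iff, Set.mem_ofPred_eq]
  constructor
  · rintro ⟨a, ha | ha, b, ⟨hb1, hb2⟩, rfl⟩
    · subst ha
      refine ⟨Nat.lcm_dvd (dvd_mul_right _ _) (hb1.mul_left _), fun h => ?_⟩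
      have h1 : b < m := lt_of_le_of_ne (Nat.le_of_dvd (by omega) hb1) hb2
      have hb0 : 0 < b := Nat.pos_of_dvd_of_pos hb1 (by omega)
      have h2 : Nat.lcm a b ≤ a * b := Nat.le_of_dvd (by positivity) (Nat.lcm_dvd_mul a b)
      nlinarith
    · refine ⟨(Nat.lcm_dvd ha hb1).mul_left _, fun h => ?_⟩
      have h2 : Nat.lcm a b ≤ m := Nat.le_of_dvd (by omega) (Nat.lcm_dvd ha hb1)
      nlinarith
  · rintro ⟨h1, h2⟩
    by_cases hd : p ∣ d
    · obtain ⟨e, rfl⟩ := hd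
      have he : e ∣ m := Nat.dvd_of_mul_dvd_mul_left hp.pos h1
      refine ⟨p, Or.inl rfl, e, ⟨he, fun h => h2 (by rw [h])⟩, ?_⟩
      rw [Nat.Coprime.lcm_eq_mul ((Nat.Prime.coprime_iff_not_dvd hp).mpr fun h => hpm (h.trans he))]
    · have : d ∣ m := (Nat.Coprime.dvd_mul_left
        ((Nat.Prime.coprime_iff_not_dvd hp).mpr hd).symm).mp h1
      exact ⟨d, Or.inr this, 1, ⟨one_dvd _, by omega⟩, by simp⟩

theorem witness : ∃ (H : Type) (_ : Group H) (_ : Finite H), Group.IsSolvable H ∧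
    Set.range (orderOf : H → ℕ) = {d | d ∣ 43890 ∧ d ≠ 43890} := by
  have h0 : ∃ (H : Type) (_ : Group H) (_ : Finite H), Group.IsSolvable H ∧
      Set.range (orderOf : H → ℕ) = {d | d ∣ 19 ∧ d ≠ 19} := by
    refine ⟨Unit, inferInstance, inferInstance, inferInstance, ?_⟩
    ext d
    simp only [Set.mem_range, Set.mem_ofPred_eq, Nat.dvd_prime (by norm_num : Nat.Prime 19)]
    constructor
    · rintro ⟨x, rfl⟩
      rw [Subsingleton.elim x 1, orderOf_one]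
      simp
    · rintro ⟨rfl | rfl, h⟩
      · exact ⟨1, orderOf_one⟩
      · exact absurd rfl h
  have h1 := step (p := 11) (by norm_num) (by norm_num) (by norm_num) h0
  have h2 := step (p := 7) (by norm_num) (by norm_num) (by norm_num) h1
  have h3 := step (p := 5) (by norm_num) (by norm_num) (by norm_num) h2
  have h4 := step (p := 3) (by norm_num) (by norm_num) (by norm_num) h3
  exact step (p := 2) (by norm_num) (by norm_num) (by norm_num) h4

theorem spec4 : Set.range (orderOf : ↥Cfsg.Spor.J1 × ↥Cfsg.Spor.J1 × ↥Cfsg.Spor.J1 ×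
    ↥Cfsg.Spor.J1 → ℕ) = {d | d ∣ 43890 ∧ d ≠ 43890} := by
  apply Set.Subset.antisymm
  · rintro _ ⟨⟨a, b, c, d⟩, rfl⟩
    have key : ∀ a ∈ [1, 2, 3, 5, 6, 7, 10, 11, 15, 19], ∀ b ∈ [1, 2, 3, 5, 6, 7, 10, 11, 15, 19],
        ∀ c ∈ [1, 2, 3, 5, 6, 7, 10, 11, 15, 19], ∀ d ∈ [1, 2, 3, 5, 6, 7, 10, 11, 15, 19],
        Nat.lcm a (Nat.lcm b (Nat.lcm c d)) ∣ 43890 ∧
          Nat.lcm a (Nat.lcm b (Nat.lcm c d)) ≠ 43890 := by decide +kernel
    simp only [Prod.orderOf]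
    exact key _ (orderOf_mem a) _ (orderOf_mem b) _ (orderOf_mem c) _ (orderOf_mem d)
  · have key : ∀ {a b c d : ℕ}, a ∈ Set.range (orderOf : Cfsg.Spor.J1 → ℕ) →
        b ∈ Set.range (orderOf : Cfsg.Spor.J1 → ℕ) → c ∈ Set.range (orderOf : Cfsg.Spor.J1 → ℕ) →
        d ∈ Set.range (orderOf : Cfsg.Spor.J1 → ℕ) →
        Nat.lcm a (Nat.lcm b (Nat.lcm c d)) ∈ Set.range (orderOf : ↥Cfsg.Spor.J1 × ↥Cfsg.Spor.J1 ×
          ↥Cfsg.Spor.J1 × ↥Cfsg.Spor.J1 → ℕ) := by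
      rintro _ _ _ _ ⟨a, rfl⟩ ⟨b, rfl⟩ ⟨c, rfl⟩ ⟨d, rfl⟩
      exact ⟨(a, b, c, d), by simp only [Prod.orderOf]⟩
    rintro d ⟨⟨k, hk⟩, h2⟩
    have hk1 : k ≠ 1 := by rintro rfl; exact h2 (by omega)
    obtain ⟨p, hp, l, rfl⟩ := Nat.exists_prime_and_dvd hk1
    have hpd : p ∣ 2 * 3 * 5 * 7 * 11 * 19 := ⟨d * l, by rw [show 2 * 3 * 5 * 7 * 11 * 19 = 43890 from rfl, hk]; ring⟩
    simp only [hp.dvd_mul, Nat.prime_dvd_prime_iff_eq hp Nat.prime_two,
      Nat.prime_dvd_prime_iff_eq hp Nat.prime_three, Nat.prime_dvd_prime_iff_eq hp Nat.prime_five,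
      Nat.prime_dvd_prime_iff_eq hp Nat.prime_seven, Nat.prime_dvd_prime_iff_eq hp Nat.prime_eleven,
      Nat.prime_dvd_prime_iff_eq hp (by norm_num : Nat.Prime 19)] at hpd
    rcases hpd with ((((rfl | rfl) | rfl) | rfl) | rfl) | rfl
    · exact mem_spec_of_dvd' (key fifteen_mem seven_mem eleven_mem nineteen_mem)
        ⟨l, by norm_num; linarith⟩
    · exact mem_spec_of_dvd' (key ten_mem seven_mem eleven_mem nineteen_mem)
        ⟨l, by norm_num; linarith⟩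
    · exact mem_spec_of_dvd' (key six_mem seven_mem eleven_mem nineteen_mem)
        ⟨l, by norm_num; linarith⟩
    · exact mem_spec_of_dvd' (key six_mem ten_mem eleven_mem nineteen_mem)
        ⟨l, by norm_num; linarith⟩
    · exact mem_spec_of_dvd' (key six_mem ten_mem seven_mem nineteen_mem)
        ⟨l, by norm_num; linarith⟩
    · exact mem_spec_of_dvd' (key six_mem ten_mem seven_mem eleven_mem)
        ⟨l, by norm_num; linarith⟩

/-- Let J be the first Janko group. Then there are finite groups of arbitrarily large order with exactly the same set of element orders as J × J × J × J. -/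
theorem result (N : ℕ) : ∃ (H : Type) (_ : Group H) (_ : Fintype H), N < Fintype.card H ∧
      Set.range (orderOf : H → ℕ) = Set.range (orderOf : ↥Cfsg.Spor.J1 × ↥Cfsg.Spor.J1 × ↥Cfsg.Spor.J1 × ↥Cfsg.Spor.J1 → ℕ) := by
  obtain ⟨G, _, _, hs, hG⟩ := witness
  have hne : (⊤ : Subgroup G) ≠ ⊥ := by
    have : 2 ∈ Set.range (orderOf : G → ℕ) := by rw [hG]; norm_num
    obtain ⟨g, hg⟩ := this
    intro h
    have h1 : g = 1 := Subgroup.mem_bot.mp (h ▸ Subgroup.mem_top g)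
    rw [h1, orderOf_one] at hg
    omega
  obtain ⟨H, _, _, h1, h2⟩ := exists_large_isospectral (⊤ : Subgroup G) hne inferInstance N
  exact ⟨H, inferInstance, inferInstance, h1, by rw [h2, hG, spec4]⟩

end Cfsg.Agent.S3627
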