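import Cfsg.Statements.S3639
import Cfsg.Agent.H2.SzAffine

set_option autoImplicit false
open Cfsg

namespace Cfsg.Agent.S3639

/-- Let S be the Suzuki group over the field with q = 2^(2m+1) ≥ 8 elements. Then there are finite groups of arbitrarily large order with the same prime graph as S. -/
theorem result {F : Type*} [Field F] [Fintype F] {m : ℕ} (hm : 1 ≤ m) (hF : Fintype.card F = 2 ^ (2 * m + 1)) (N : ℕ) :
    ∃ (H : Type) (_ : Group H) (_ : Fintype H), N < Fintype.card H ∧ ((∀ r : ℕ, r.Prime → (r ∣ Nat.card ↥(Cfsg.Lie.Sz F (2 ^ (m + 1))) ↔ r ∣ Nat.card H)) ∧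
      (∀ r s : ℕ, r.Prime → s.Prime → r ≠ s → ((∃ x : ↥(Cfsg.Lie.Sz F (2 ^ (m + 1))), orderOf x = r * s) ↔ (∃ y : H, orderOf y = r * s)))) := by
  haveI : H2.SzField F m := ⟨hm, hF⟩
  obtain ⟨H, _, _, h1, h2, h3⟩ := H2.exists_large_same_prime_graph (F := F) m N
  let e := H2.szEquiv F m
  letI := Fintype.ofFinite H
  refine ⟨H, inferInstance, inferInstance, by rwa [← Nat.card_eq_fintype_card], ?_, ?_⟩
  · intro r hr
    rw [← Nat.card_congr e.toEquiv]
    exact h2 r hr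
  · intro r s hr hs hrs
    rw [← h3 r s hr hs hrs]
    constructor
    · rintro ⟨x, hx⟩
      exact ⟨e.symm x, by rw [MulEquiv.orderOf_eq, hx]⟩
    · rintro ⟨x, hx⟩
      exact ⟨e x, by rw [MulEquiv.orderOf_eq, hx]⟩

end Cfsg.Agent.S3639
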