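import Cfsg.Statements.S3648
import Cfsg.Agent.H3.PGL2Rec

set_option autoImplicit false
open Cfsg

namespace Cfsg.Agent.S3648

/-- For a finite group X let nse(X) be the set of values of the function 'number of elements of order k' over the element orders k that occur. Let F be a finite field of odd order q > 3 and P = PGL(2, F) = GL(2, F) modulo its centre. If G is a finite group with the same order as P and nse(G) = nse(P), then G is isomorphic to P. -/
theorem result {F : Type*} [Field F] [Fintype F] (hodd : Odd (Fintype.card F)) (h3 : 3 < Fintype.card F)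
    {G : Type*} [Group G] [Finite G] (hcard : Nat.card G = Nat.card (GL (Fin 2) F ⧸ Subgroup.center (GL (Fin 2) F)))
    (hnse : {c : ℕ | 0 < c ∧ ∃ n : ℕ, c = Nat.card {g : G // orderOf g = n}} = {c : ℕ | 0 < c ∧ ∃ n : ℕ, c = Nat.card {g : (GL (Fin 2) F ⧸ Subgroup.center (GL (Fin 2) F)) // orderOf g = n}}) :
    Nonempty (G ≃* (GL (Fin 2) F ⧸ Subgroup.center (GL (Fin 2) F))) := by
  classical
  obtain ⟨n, hp, hn⟩ := FiniteField.card F (ringChar F)
  obtain ⟨f, hf⟩ : ∃ f, (n : ℕ) = f + 1 := ⟨n - 1, by have := n.pos; omega⟩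
  rw [hf] at hn
  set p := ringChar F with hpdef
  set q := Fintype.card F with hqdef
  obtain ⟨s, hs⟩ : ∃ s, s + 1 = q * q := ⟨q * q - 1, by
    have : 0 < q * q := by positivity
    omega⟩
  have hL : Nat.card (GL (Fin 2) F ⧸ Subgroup.center (GL (Fin 2) F)) = q * s := by
    rw [H3.card_pgl2, ← hqdef, mul_assoc]
    congr 1
    obtain ⟨r, hr⟩ : ∃ r, q = r + 1 := ⟨q - 1, by omega⟩
    rw [hr] at hs ⊢
    rw [Nat.add_sub_cancel]
    nlinarith
  rw [hL] at hcard
  obtain ⟨hcop, hpq, -⟩ := H3.coprime_of_succ_eq_sq hp hn hs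
  have hp2 : p ≠ 2 := fun h => (Nat.not_even_iff_odd.mpr hodd) (even_iff_two_dvd.mpr (h ▸ hpq))
  have h2 : (2 : F) ≠ 0 := Ring.two_ne_zero hp2
  have hs0 : 0 < s := by nlinarith
  let m : ℕ → ℕ := fun n => Nat.card {g : G // orderOf g = n}
  have hm1 : m 1 = 1 := by
    simp only [m, orderOf_eq_one_iff]
    exact Nat.card_unique
  have hval : ∀ n, m n = 1 ∨ m n = s ∨ q ∣ m n := by
    intro n
    rcases Nat.eq_zero_or_pos (m n) with h | h
    · exact Or.inr (Or.inr (h ▸ dvd_zero q))
    have h1 : m n ∈ {c : ℕ | 0 < c ∧ ∃ n : ℕ, c = Nat.card {g : G // orderOf g = n}} := ⟨h, n, rfl⟩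
    rw [hnse] at h1
    obtain ⟨-, k, hk⟩ := h1
    rw [hk]
    by_cases hk1 : k = 1
    · left
      simp only [hk1, orderOf_eq_one_iff]
      exact Nat.card_unique
    by_cases hkp : k = p
    · right; left
      rw [hkp]
      exact (H3.count_of_isolated hp hn hs hL H3.pgl2_isolated).1
    · right; right
      exact H3.dvd_card_orderOf_of_isolated hp hn hL H3.pgl2_isolated hk1 hkp
  have heven : ∀ n, n ≠ 1 → n ≠ 2 → Even (m n) := by
    intro n h1 h2
    rcases Nat.eq_zero_or_pos n with rfl | h0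
    · have : IsEmpty {g : G // orderOf g = 0} := ⟨fun g => (orderOf_pos g.1).ne' g.2⟩
      simp only [m, Nat.card_of_isEmpty]
      exact Even.zero
    exact even_iff_two_dvd.mpr ((Nat.totient_even (by omega)).two_dvd.trans
      (H3.totient_dvd_card_orderOf n))
  have hm2 : m 2 = q * q := by
    have h1 : q * q ∈ {c : ℕ | 0 < c ∧ ∃ n : ℕ, c = Nat.card {g : G // orderOf g = n}} := by
      rw [hnse]
      exact ⟨by omega, 2, (H3.card_involutions_pgl2 h2).symm⟩
    obtain ⟨-, k, hk⟩ := h1
    by_cases hk2 : k = 2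
    · rw [← hk2]; exact hk.symm
    by_cases hk1 : k = 1
    · rw [hk1] at hk
      have : q * q = 1 := hk.trans hm1
      omega
    · exact absurd (heven k hk1 hk2) (by
        rw [Nat.not_even_iff_odd, show m k = q * q from hk.symm]; exact hodd.mul hodd)
  have hval' : ∀ n, n ≠ 1 → m n = s ∨ q ∣ m n := by
    intro n h1
    by_cases h2 : n = 2
    · rw [h2, hm2]; exact Or.inr (Dvd.intro _ rfl)
    refine (hval n).resolve_left (fun h => ?_)
    have := heven n h1 h2
    rw [h] at this
    exact absurd this (by decide)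
  have := Fintype.ofFinite G
  have hsum : ∀ d, d ≠ 0 → ∑ k ∈ d.divisors, m k = Nat.card {x : G // x ^ d = 1} := by
    intro d hd
    simp only [m, Nat.card_eq_fintype_card, Fintype.card_subtype]
    exact sum_card_orderOf_eq_card_pow_eq_one hd
  have hmp : m p = s := by
    refine (hval' p hp.one_lt.ne').resolve_right (fun h => ?_)
    have h1 := H3.frobenius_dvd (G := G) (d := p) (hcard ▸ hpq.mul_right _)
    rw [← hsum p hp.ne_zero, hp.divisors, Finset.sum_pair hp.one_lt.ne, hm1] at h1
    exact hp.one_lt.ne' (Nat.dvd_one.mp ((Nat.dvd_add_left (hpq.trans h)).mp h1))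
  have htot : ∑ k ∈ (q * s).divisors, m k = q * s := by
    rw [hsum _ (by positivity), ← hcard,
      Nat.card_congr (Equiv.subtypeUnivEquiv (fun _ => pow_card_eq_one'))]
  have hT : ∀ n, n ≠ 1 → n ≠ p → q ∣ m n := by
    intro n h1 h2
    refine (hval' n h1).resolve_left (fun h => ?_)
    have hq0 : q * s ≠ 0 := by positivity
    have hnd : n ∣ q * s := by
      obtain ⟨g⟩ : Nonempty {g : G // orderOf g = n} := (Nat.card_pos_iff.mp (show 0 < m n by omega)).1
      rw [← hcard, ← g.2]; exact orderOf_dvd_natCard _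
    set D := (q * s).divisors.erase 1 with hD
    set T := D.filter (fun k => m k = s) with hT
    rw [← Finset.add_sum_erase _ _ (Nat.one_mem_divisors.mpr hq0), hm1, ← hD,
      ← Finset.sum_filter_add_sum_filter_not D (fun k => m k = s), ← hT,
      Finset.sum_congr rfl (fun k hk => (Finset.mem_filter.mp hk).2), Finset.sum_const,
      smul_eq_mul] at htot
    obtain ⟨R, hR⟩ : q ∣ ∑ k ∈ D.filter (fun k => ¬ m k = s), m k :=
      Finset.dvd_sum (fun k hk => (hval' k (Finset.ne_of_mem_erase
        (Finset.mem_filter.mp hk).1)).resolve_left (Finset.mem_filter.mp hk).2)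
    have hT2 : 1 < T.card := Finset.one_lt_card.mpr ⟨n, Finset.mem_filter.mpr
      ⟨Finset.mem_erase.mpr ⟨h1, Nat.mem_divisors.mpr ⟨hnd, hq0⟩⟩, h⟩, p, Finset.mem_filter.mpr
      ⟨Finset.mem_erase.mpr ⟨hp.one_lt.ne', Nat.mem_divisors.mpr ⟨hpq.mul_right _, hq0⟩⟩, hmp⟩, h2⟩
    rw [hR] at htot
    generalize T.card = t at htot hT2
    have hlt : t < q := by
      by_contra hc
      have : q * s ≤ t * s := Nat.mul_le_mul_right s (by omega)
      omega
    have h4 : (q : ℤ) ∣ (1 : ℤ) - t := by
      refine ⟨s - R - q * t, ?_⟩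
      zify at htot hs
      linear_combination htot - (t : ℤ) * hs
    have := Int.eq_zero_of_dvd_of_natAbs_lt_natAbs h4 (by omega)
    omega
  refine H3.nonempty_mulEquiv_pgl2_of_isolated hp hn hs hcard (fun g hg => ?_) hp2 hm2.ge F
    (Nat.card_eq_fintype_card)
  by_contra hne
  set R := Finset.univ.filter (fun x : G => p ∣ orderOf x ∧ orderOf x ≠ p) with hR
  have h1 : q ∣ R.card := by
    refine H3.dvd_card_of_fibers R orderOf (fun y hy => ?_)
    obtain ⟨hy1, hy2⟩ := (Finset.mem_filter.mp hy).2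
    have := hT (orderOf y) (fun h => hp.one_lt.ne' (Nat.dvd_one.mp (h ▸ hy1))) hy2
    simp only [m, Nat.card_eq_fintype_card, Fintype.card_subtype] at this
    convert this using 2
    ext x
    simp only [hR, Finset.mem_filter, Finset.mem_univ, true_and, and_iff_right_iff_imp]
    intro h
    exact ⟨h ▸ hy1, h ▸ hy2⟩
  have h3 : Nat.card {x : G // x ^ s = 1} + (m p + R.card) = q * s := by
    rw [← hcard]
    simp only [m, Nat.card_eq_fintype_card, Fintype.card_subtype]
    rw [← Finset.card_univ, ← Finset.card_filter_add_card_filter_not (s := Finset.univ)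
      (fun x : G => ¬ p ∣ orderOf x), ← Finset.card_filter_add_card_filter_not
      (s := Finset.univ.filter (fun x : G => ¬ ¬ p ∣ orderOf x)) (fun x => orderOf x = p),
      Finset.filter_filter, Finset.filter_filter]
    congr 2
    · ext x
      simp only [Finset.mem_filter, Finset.mem_univ, true_and, ← orderOf_dvd_iff_pow_eq_one]
      refine ⟨fun h h' => hp.one_lt.ne' (Nat.eq_one_of_dvd_coprimes hcop hpq (h'.trans h)),
        fun h => Nat.Coprime.dvd_of_dvd_mul_left ?_ (hcard ▸ orderOf_dvd_natCard x)⟩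
      rw [hn]
      exact Nat.Coprime.pow_right _ ((Nat.Prime.coprime_iff_not_dvd hp).mpr h).symm
    · congr 1
      ext x
      simp only [Finset.mem_filter, Finset.mem_univ, true_and, not_not, iff_and_self]
      intro h
      rw [h]
    · congr 1
      ext x
      simp [hR]
  rw [hmp] at h3
  have h4 := H3.frobenius_dvd (G := G) (d := s) (hcard ▸ Dvd.intro_left _ rfl)
  have h5 : s ∣ R.card := (Nat.dvd_add_right dvd_rfl).mp ((Nat.dvd_add_right h4).mp
    (h3 ▸ Dvd.intro_left _ rfl))
  have h6 : q * s ≤ R.card := Nat.le_of_dvd (Finset.card_pos.mpr ⟨g, Finset.mem_filter.mpr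
    ⟨Finset.mem_univ _, hg, hne⟩⟩) (hcop.mul_dvd_of_dvd_of_dvd h1 h5)
  omega

end Cfsg.Agent.S3648
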