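import Cfsg.Statements.S3664
import Cfsg.Agent.H2.PSp63
import Cfsg.Agent.H2.SzExt

set_option autoImplicit false
open Cfsg

namespace Cfsg.Agent.S3664

/-- The prime graph of a finite group has the prime divisors of its order as vertices, two distinct primes p, q being joined when the group has an element of order pq; two groups have the same prime graph when they have the same prime divisors and the same joined pairs. Let F be the field with 3 elements and L = PSp(6,F). There are finite groups of arbitrarily large order with the same prime graph as L (a prime graph shared by the orthogonal groups Ω₇(3) and PΩ⁺₈(3)). -/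
theorem result {F : Type*} [Field F] [Fintype F] (hF : Fintype.card F = 3) (N : ℕ) :
    ∃ (H : Type) (_ : Group H) (_ : Finite H), N < Nat.card H ∧
      ((∀ p : ℕ, p.Prime → (p ∣ Nat.card (Cfsg.PSp 3 F) ↔ p ∣ Nat.card H)) ∧
      (∀ p q : ℕ, p.Prime → q.Prime → p ≠ q → ((∃ g : (Cfsg.PSp 3 F), orderOf g = p * q) ↔ (∃ g : H, orderOf g = p * q)))) := by
  let e : PSp 3 (ZMod 3) ≃* PSp 3 F := H2.quotCenterCongr (H2.spCongr
    (FiniteField.ringEquivOfCardEq (by rw [hF, ZMod.card])))
  apply H2.large_of_bounds
  · intro g
    rw [← e.symm.orderOf_eq]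
    exact H2.orderOf_psp63 _
  · exact ⟨_, (e.orderOf_eq _).trans H2.orderOf_s30⟩
  · exact ⟨_, (e.orderOf_eq _).trans H2.orderOf_s14⟩
  · exact ⟨_, (e.orderOf_eq _).trans H2.orderOf_s13⟩

end Cfsg.Agent.S3664
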