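import Cfsg.Statements.S3678
import Cfsg.Agent.H6.PrimeGraph

set_option autoImplicit false
open Cfsg

namespace Cfsg.Agent.S3678

/-- The prime graph of a finite group has the prime divisors of its order as vertices, two distinct primes p, q being joined when the group has an element of order pq; two groups have the same prime graph when they have the same prime divisors and the same joined pairs. Let F be the field with 7 elements. There are finite groups of arbitrarily large order with the same prime graph as PSL(2,F) (the graph on {2, 3, 7} with no edges, which is also the prime graph of PSL(2,8)). -/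
theorem result {F : Type*} [Field F] [Fintype F] (hF : Fintype.card F = 7) (N : ℕ) :
    ∃ (H : Type) (_ : Group H) (_ : Finite H), N < Nat.card H ∧
      ((∀ p : ℕ, p.Prime → (p ∣ Nat.card (Matrix.ProjectiveSpecialLinearGroup (Fin 2) F) ↔ p ∣ Nat.card H)) ∧
      (∀ p q : ℕ, p.Prime → q.Prime → p ≠ q → ((∃ g : (Matrix.ProjectiveSpecialLinearGroup (Fin 2) F), orderOf g = p * q) ↔ (∃ g : H, orderOf g = p * q)))) := by
  classical
  have h7 : ringChar F = 7 := by
    have : Fact (Nat.Prime 7) := ⟨by decide⟩
    have := charP_of_card_eq_prime hF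
    exact ringChar.eq F 7
  have : Fact (Nat.Prime 2) := ⟨by decide⟩
  let K := GaloisField 2 3
  have : Fintype K := Fintype.ofFinite K
  have hK : Fintype.card K = 8 := by
    rw [← Nat.card_eq_fintype_card, GaloisField.card 2 3 (by decide)]; rfl
  have h2 : ringChar K = 2 := ringChar.eq K 2
  have hs1 := H6.spec_psl2 (F := F)
  have hs2 := H6.spec_psl2 (F := K)
  rw [h7, hF] at hs1
  rw [h2, hK] at hs2
  norm_num at hs1 hs2
  have e1 : ∀ n : ℕ, (n ∣ 7 ∨ n ∣ 3 ∨ n ∣ 4) ↔ n ∈ ({1, 2, 3, 4, 7} : Finset ℕ) := by
    intro n
    constructor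
    · rintro (h | h | h) <;> have := Nat.le_of_dvd (by decide) h <;> interval_cases n <;> simp_all
    · intro h
      fin_cases h <;> decide
  have e2 : ∀ n : ℕ, (n ∣ 2 ∨ n ∣ 7 ∨ n ∣ 9) ↔ n ∈ ({1, 2, 3, 7, 9} : Finset ℕ) := by
    intro n
    constructor
    · rintro (h | h | h) <;> have := Nat.le_of_dvd (by decide) h <;> interval_cases n <;> simp_all
    · intro h
      fin_cases h <;> decide
  refine H6.primeGraph_large_sl2_char2 (F := K) ?_ ?_ N
  · intro p hp
    rw [hs1, hs2, Set.mem_ofPred_eq, Set.mem_ofPred_eq, e1, e2]
    constructor <;> intro h <;> fin_cases h <;> first | decide | (exfalso; revert hp; decide)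
  · intro p q hp hq hpq
    rw [hs1, hs2, Set.mem_ofPred_eq, Set.mem_ofPred_eq, e1, e2]
    have hp2 := hp.two_le
    have hq2 := hq.two_le
    have key : ∀ n : ℕ, n ≤ 9 → n ≠ 6 → p * q ≠ n := by
      intro n hn hn6 h
      have hp5 : p ≤ 4 := by nlinarith
      have hq5 : q ≤ 4 := by nlinarith
      interval_cases p <;> interval_cases q <;> first | omega | (revert hp; decide) | (revert hq; decide)
    constructor <;> intro h <;> simp only [Finset.mem_insert, Finset.mem_singleton] at h <;>
      rcases h with h | h | h | h | h <;> exact absurd h (key _ (by decide) (by decide))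

end Cfsg.Agent.S3678
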