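import Cfsg.Statements.S3681
import Cfsg.Agent.H8.Jordan

set_option autoImplicit false
open Cfsg

namespace Cfsg.Agent.S3681

/-- Bochert's bound for primitive groups. Let a finite group G act faithfully and primitively on a finite set Ω with n elements, and suppose the image of G in the symmetric group of Ω does not contain the alternating group of Ω. Then |G| · ⌊(n + 1)/2⌋! ≤ n!, that is, the index of G in the symmetric group is at least ⌊(n + 1)/2⌋!. -/
theorem result {G Ω : Type*} [Group G] [Finite G] [MulAction G Ω] [FaithfulSMul G Ω] [Fintype Ω] [DecidableEq Ω]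
    (hprim : MulAction.IsPreprimitive G Ω) (hA : ¬ alternatingGroup Ω ≤ (MulAction.toPermHom G Ω).range) :
    Nat.card G * Nat.factorial ((Fintype.card Ω + 1) / 2) ≤ Nat.factorial (Fintype.card Ω) := by
  classical
  let IsBase : Finset Ω → Prop := fun B => ∀ g : G, (∀ x ∈ B, g • x = x) → g = 1
  have huniv : IsBase Finset.univ := fun g hg =>
    FaithfulSMul.eq_of_smul_eq_smul (α := Ω) (fun x => by rw [hg x (Finset.mem_univ x), one_smul])
  obtain ⟨B, hB, hmin⟩ := Finset.exists_min_image
    (Finset.univ.filter IsBase) Finset.card ⟨Finset.univ, by simpa using huniv⟩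
  have hB' : IsBase B := (Finset.mem_filter.mp hB).2
  have hmin' : ∀ B', IsBase B' → B.card ≤ B'.card := fun B' h => hmin B' (by simpa using h)
  have hle : 2 * B.card ≤ Fintype.card Ω := by
    by_contra hlt
    have h1 : ¬ IsBase Bᶜ := fun h => by
      have := hmin' _ h
      rw [Finset.card_compl] at this
      omega
    simp only [IsBase, not_forall] at h1
    obtain ⟨x, hx, hx1⟩ := h1
    have : ∃ a : Ω, x • a ≠ a := by
      by_contra hh
      push Not at hh
      exact hx1 (huniv x fun a _ => hh a)
    obtain ⟨a, ha⟩ := this
    have haB : a ∈ B := by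
      by_contra hh
      exact ha (hx a (Finset.mem_compl.mpr hh))
    have h2 : ¬ IsBase (B.erase a) := fun h => by
      have := hmin' _ h
      have h3 := Finset.card_erase_lt_of_mem haB
      omega
    simp only [IsBase, not_forall] at h2
    obtain ⟨y, hy, hy1⟩ := h2
    have hya : y • a ≠ a := by
      intro hh
      apply hy1
      apply hB'
      intro z hz
      by_cases hza : z = a
      · rw [hza, hh]
      · exact hy z (Finset.mem_erase.mpr ⟨hza, hz⟩)
    apply hA
    refine H8.alternatingGroup_le_range_of_supports hprim ha hya fun z hz => ?_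
    by_cases hzB : z ∈ B
    · exact Or.inr (hy z (Finset.mem_erase.mpr ⟨hz, hzB⟩))
    · exact Or.inl (hx z (Finset.mem_compl.mpr hzB))
  have hcard : Nat.card G ≤ (Fintype.card Ω).descFactorial B.card := by
    let f : G → (B ↪ Ω) := fun g => ⟨fun b => g • (b : Ω), fun b c h =>
      Subtype.ext (MulAction.injective g h)⟩
    have hf : Function.Injective f := by
      intro g h hgh
      have : h⁻¹ * g = 1 := hB' _ fun x hx => by
        have := congrArg (fun e : B ↪ Ω => e ⟨x, hx⟩) hgh
        change g • x = h • x at this
        rw [mul_smul, this, inv_smul_smul]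
      rw [inv_mul_eq_one] at this
      exact this.symm
    have := Nat.card_le_card_of_injective f hf
    rwa [Nat.card_eq_fintype_card (α := B ↪ Ω), Fintype.card_embedding_eq, Fintype.card_coe]
      at this
  have h3 : B.card ≤ Fintype.card Ω := by omega
  calc Nat.card G * Nat.factorial ((Fintype.card Ω + 1) / 2)
      ≤ (Fintype.card Ω).descFactorial B.card * Nat.factorial (Fintype.card Ω - B.card) :=
        Nat.mul_le_mul hcard (Nat.factorial_le (by omega))
    _ = Nat.factorial (Fintype.card Ω) := by
        rw [mul_comm, Nat.factorial_mul_descFactorial h3]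

end Cfsg.Agent.S3681
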