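import Cfsg.Statements.S3682
import Cfsg.Agent.H7.ThompsonWielandt

set_option autoImplicit false
open Cfsg

namespace Cfsg.Agent.S3682

open Subgroup MulAction Cfsg.Agent.H7

/-- Wielandt's bound toward the Sims conjecture. Let a finite group G act faithfully and primitively on a set Ω, let a and b be points, and suppose the orbit of b under the stabilizer of a has length d ≥ 2. Then there are a prime p and a normal p-subgroup P of the stabilizer of a, all of whose elements fix b, such that the index of P in the stabilizer of a divides d! · ((d - 1)!)^d. -/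
theorem result {G Ω : Type*} [Group G] [Finite G] [MulAction G Ω] [FaithfulSMul G Ω] [Finite Ω]
    (hprim : MulAction.IsPreprimitive G Ω) (a b : Ω) (d : ℕ) (hd : Nat.card (MulAction.orbit (MulAction.stabilizer G a) b) = d) (h2 : 2 ≤ d) :
    ∃ p : ℕ, p.Prime ∧ ∃ P : Subgroup (MulAction.stabilizer G a), P.Normal ∧ IsPGroup p P ∧ (∀ g : P, ((g : MulAction.stabilizer G a) : G) • b = b) ∧
      P.index ∣ Nat.factorial d * (Nat.factorial (d - 1)) ^ d := by
  rw [card_orbit_eq_relIndex] at hd
  subst hd
  have h := amalg_stabilizer h2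
  by_cases hF : ∃ p : ℕ, p.Prime ∧ pCoreIn p (stabilizer G a) ≠ ⊥
  · obtain ⟨p, hp, hF⟩ := hF
    have : Fact p.Prime := ⟨hp⟩
    refine ⟨p, hp, (coreIn (coreIn (stabilizer G a) (stabilizer G b)) (stabilizer G a)).subgroupOf _,
      (coreIn_normalIn _ _).subgroupOf_normal,
      (h.isPGroup_coreIn hF).of_equiv (subgroupOfEquivOfLe (coreIn_le_right _ _)).symm,
      fun g => coreIn_le_right (stabilizer G a) (stabilizer G b) (coreIn_le_left _ _ g.2),
      relIndex_coreIn_coreIn_dvd rfl h.relIndex_eq⟩
  · refine ⟨2, Nat.prime_two, ⊥, inferInstance, IsPGroup.of_bot, fun g => ?_, ?_⟩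
    · rw [mem_bot.1 g.2]; exact one_smul _ _
    · rw [index_bot]
      apply h.card_dvd
      by_contra hcon
      push Not at hcon
      obtain ⟨p, hp, h1, -⟩ := h.exists_fstarIn_eq hcon.1 hcon.2
      exact hF ⟨p, hp, h1⟩

end Cfsg.Agent.S3682
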