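import Cfsg.Statements.S3683
import Cfsg.Agent.H7.Primitive

set_option autoImplicit false
open Cfsg

namespace Cfsg.Agent.S3683

open Subgroup MulAction Cfsg.Agent.H7

/-- Let a finite group G act faithfully and primitively on a set Ω, and suppose the stabilizer of a point a fixes a second point b ≠ a (a suborbit of length 1 other than {a}). Then the stabilizer of a is trivial and G is cyclic of prime order. -/
theorem result {G Ω : Type*} [Group G] [Finite G] [MulAction G Ω] [FaithfulSMul G Ω] [Finite Ω]
    (hprim : MulAction.IsPreprimitive G Ω) (a b : Ω) (hab : a ≠ b) (hfix : ∀ g : G, g • a = a → g • b = b) :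
    MulAction.stabilizer G a = ⊥ ∧ IsCyclic G ∧ (Nat.card G).Prime := by
  have h1 : stabilizer G a = ⊥ := stabilizer_eq_bot_of_le hab hfix
  have h2 : ∀ H : Subgroup G, H = ⊥ ∨ H = ⊤ := by
    intro H
    have := eq_or_eq_top_of_stabilizer_le (a := a) (H := H) (by rw [h1]; exact bot_le)
    rwa [h1] at this
  obtain ⟨g, hg⟩ := exists_smul_eq G a b
  have hg1 : g ≠ 1 := by
    rintro rfl
    exact hab (by simpa using hg)
  have hc : IsCyclic G := by
    rw [isCyclic_iff_exists_zpowers_eq_top]
    exact ⟨g, (h2 _).resolve_left (zpowers_ne_bot.2 hg1)⟩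
  have : Nontrivial G := ⟨g, 1, hg1⟩
  have hs : IsSimpleGroup G := ⟨fun H _ => h2 H⟩
  have := hc.isMulCommutative
  exact ⟨h1, hc, Group.is_simple_iff_prime_card.1 hs⟩

end Cfsg.Agent.S3683
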