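import Cfsg.Statements.S3684
import Cfsg.Agent.H7.Primitive

set_option autoImplicit false
open Cfsg

namespace Cfsg.Agent.S3684

open Subgroup MulAction Cfsg.Agent.H7

/-- Let a finite group G act faithfully and primitively on a set Ω, and suppose the stabilizer of a point a has an orbit of length 2. Then the stabilizer of a has order 2 and G is isomorphic to the dihedral group of order 2p for some prime p. -/
theorem result {G Ω : Type*} [Group G] [Finite G] [MulAction G Ω] [FaithfulSMul G Ω] [Finite Ω]
    (hprim : MulAction.IsPreprimitive G Ω) (a b : Ω) (h2 : Nat.card (MulAction.orbit (MulAction.stabilizer G a) b) = 2) :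
    Nat.card (MulAction.stabilizer G a) = 2 ∧ ∃ p : ℕ, p.Prime ∧ Nonempty (G ≃* DihedralGroup p) := by
  rw [card_orbit_eq_relIndex] at h2
  have hab : a ≠ b := ne_of_two_le_relIndex h2.ge
  have h2' := (relIndex_stabilizer_symm a b).trans h2
  have hD : stabilizer G b ⊓ stabilizer G a = ⊥ := by
    apply NormalIn.eq_bot_of_stabilizer hab
    · rw [NormalIn.iff_subgroupOf, inf_subgroupOf_right]
      exact ⟨inf_le_right, normal_of_index_eq_two h2⟩
    · refine (NormalIn.iff_subgroupOf.2 ⟨inf_le_left, ?_⟩).2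
      rw [inf_subgroupOf_left]
      exact normal_of_index_eq_two h2'
  have hX : Nat.card (stabilizer G a) = 2 := by
    rw [← h2, ← inf_relIndex_right, hD, relIndex_bot_left]
  have hY : Nat.card (stabilizer G b) = 2 := (card_stabilizer_eq b a).trans hX
  refine ⟨hX, ?_⟩
  have key : ∀ H : Subgroup G, Nat.card H = 2 → ∃ s : G, s ≠ 1 ∧ s * s = 1 ∧ s ∈ H ∧
      ∀ x ∈ H, x = 1 ∨ x = s := by
    intro H hH
    obtain ⟨s, hs1, hs2⟩ := (Nat.card_eq_two_iff' (1 : H)).1 hH
    refine ⟨s, fun h => hs1 (Subtype.ext h), ?_, s.2, fun x hx => ?_⟩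
    · have := pow_card_eq_one' (x := s)
      rw [hH, pow_two] at this
      exact congrArg Subtype.val this
    · by_cases h : (⟨x, hx⟩ : H) = 1
      · exact Or.inl (congrArg Subtype.val h)
      · exact Or.inr (congrArg Subtype.val (hs2 _ h))
  obtain ⟨s, hs1, hs2, hsX, hs⟩ := key _ hX
  obtain ⟨t, ht1, ht2, htY, ht⟩ := key _ hY
  have hXne : stabilizer G a ≠ ⊥ := fun h => hs1 (by rwa [h] at hsX)
  have hst : s * t ≠ 1 := by
    intro h
    have : t = s := by
      rw [eq_inv_of_mul_eq_one_right h, inv_eq_of_mul_eq_one_right hs2]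
    apply hs1
    rw [← mem_bot, ← hD]
    exact ⟨this ▸ htY, hsX⟩
  have hsi : s⁻¹ = s := inv_eq_of_mul_eq_one_right hs2
  have hti : t⁻¹ = t := inv_eq_of_mul_eq_one_right ht2
  have hrs : s * (s * t) * s = (s * t)⁻¹ := by
    rw [← mul_assoc, hs2, one_mul, mul_inv_rev, hsi, hti]
  have hgen : closure {s * t, s} = ⊤ := by
    rw [eq_top_iff, ← stabilizer_sup_eq_top hab hXne]
    have h1 : s ∈ closure {s * t, s} := subset_closure (by simp)
    have h3 : s * t ∈ closure {s * t, s} := subset_closure (by simp)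
    refine sup_le (fun x hx => ?_) (fun x hx => ?_)
    · rcases hs x hx with rfl | rfl
      · exact one_mem _
      · exact h1
    · rcases ht x hx with rfl | rfl
      · exact one_mem _
      · exact (mul_mem_cancel_left h1).1 h3
  have hnormal : ∀ k : ℕ, (zpowers ((s * t) ^ k)).Normal := by
    intro k
    rw [← normalizer_eq_top_iff, eq_top_iff, ← hgen, closure_le]
    rintro x (rfl | rfl)
    · apply centralizer_le_normalizer
      rintro y ⟨m, rfl⟩
      exact ((Commute.refl (s * t)).pow_left k).zpow_left m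
    · apply le_normalizer_iff.2 _ (mem_zpowers x)
      rintro h ⟨j, rfl⟩ y ⟨m, rfl⟩
      have h1 : x * ((x * t) ^ k) ^ m * x⁻¹ ∈ zpowers ((x * t) ^ k) := by
        rw [← conj_zpow, ← conj_pow, hsi, hrs, inv_pow]
        exact zpow_mem (inv_mem (mem_zpowers _)) _
      rcases hs _ (zpow_mem hsX j) with h | h
      · simp only [h, one_mul, inv_one, mul_one]
        exact zpow_mem (mem_zpowers _) _
      · simp only [h]
        exact h1
  have hsr : s ∉ zpowers (s * t) := by
    intro h
    apply hXne
    apply eq_bot_of_normal_of_le_stabilizer (a := a) _ le_rfl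
    have : zpowers (s * t) = ⊤ := by
      rw [eq_top_iff, ← hgen, closure_le]
      rintro x (rfl | rfl)
      · exact mem_zpowers _
      · exact h
    have hc : IsCyclic G := isCyclic_iff_exists_zpowers_eq_top.2 ⟨_, this⟩
    have := hc.isMulCommutative
    infer_instance
  have hn1 : orderOf (s * t) ≠ 1 := by rwa [Ne, orderOf_eq_one_iff]
  have hn0 : NeZero (orderOf (s * t)) := ⟨(orderOf_pos _).ne'⟩
  refine ⟨orderOf (s * t), ?_, nonempty_mulEquiv_dihedral (s * t) s rfl hs2 hrs hsr hgen⟩
  have hp := Nat.minFac_prime hn1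
  set p := (orderOf (s * t)).minFac with hpdef
  have hN := hnormal p
  rcases eq_or_eq_top_of_stabilizer_le (a := a) (H := zpowers ((s * t) ^ p) ⊔ stabilizer G a)
    le_sup_right with h | h
  · have h1 : (s * t) ^ p ∈ stabilizer G a := by
      rw [← h]; exact mem_sup_left (mem_zpowers _)
    rcases hs _ h1 with h3 | h3
    · have h4 : orderOf (s * t) ∣ p := orderOf_dvd_of_pow_eq_one h3
      rwa [Nat.dvd_antisymm h4 (Nat.minFac_dvd _)]
    · have h5 := npow_mem_zpowers (s * t) p
      rw [h3] at h5
      exact absurd h5 hsr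
  · exfalso
    have h1 : s * t ∈ ((zpowers ((s * t) ^ p) ⊔ stabilizer G a : Subgroup G) : Set G) := by
      rw [h]; trivial
    rw [normal_mul] at h1
    obtain ⟨y, hy, x, hx, hyx⟩ := h1
    rcases hs x hx with rfl | rfl
    · simp only [mul_one] at hyx
      rw [hyx, SetLike.mem_coe, mem_zpowers_pow_iff] at hy
      rw [Nat.gcd_eq_left (Nat.minFac_dvd _)] at hy
      exact hp.one_lt.ne' hy
    · apply hsr
      have : y ∈ zpowers (x * t) := (zpowers_le.2 (npow_mem_zpowers _ _)) hy
      exact (mul_mem_cancel_left this).1 (by simp only at hyx; rw [hyx]; exact mem_zpowers _)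

end Cfsg.Agent.S3684
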