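import Cfsg.Statements.S3685
import Cfsg.Agent.H7.Tutte3

set_option autoImplicit false
open Cfsg

namespace Cfsg.Agent.S3685

open Subgroup MulAction Cfsg.Agent.H7

/-- Let a finite group G act faithfully and primitively on a set Ω, and suppose the stabilizer of a point a has an orbit of length 3. Then the stabilizer of a is isomorphic to one of: the cyclic group of order 3, the symmetric group of degree 3, the dihedral group of order 12, the symmetric group of degree 4, or the direct product of the symmetric group of degree 4 with a group of order 2. -/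
theorem result {G Ω : Type*} [Group G] [Finite G] [MulAction G Ω] [FaithfulSMul G Ω] [Finite Ω]
    (hprim : MulAction.IsPreprimitive G Ω) (a b : Ω) (h3 : Nat.card (MulAction.orbit (MulAction.stabilizer G a) b) = 3) :
    Nonempty (MulAction.stabilizer G a ≃* Multiplicative (ZMod 3)) ∨ Nonempty (MulAction.stabilizer G a ≃* Equiv.Perm (Fin 3)) ∨
      Nonempty (MulAction.stabilizer G a ≃* DihedralGroup 6) ∨ Nonempty (MulAction.stabilizer G a ≃* Equiv.Perm (Fin 4)) ∨
      Nonempty (MulAction.stabilizer G a ≃* Equiv.Perm (Fin 4) × Multiplicative (ZMod 2)) := by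
  rw [card_orbit_eq_relIndex] at h3
  rcases card_eq_three_or_exists_tutte h3 with h | ⟨s, W, h, hW⟩
  · exact Or.inl ⟨mulEquivOfPrimeCardEq (p := 3) h (by simp)⟩
  · obtain ⟨z, hz⟩ := (h.shift_index (1 - s)).exists_tutteZ
    rw [← hW]
    rcases hz.cases with ⟨rfl, h1⟩ | ⟨rfl, h1⟩ | ⟨rfl, h1⟩ | ⟨rfl, h1⟩
    · exact Or.inr (Or.inl (hz.struct_two h1))
    · exact Or.inr (Or.inr (Or.inl (hz.struct_three h1)))
    · exact Or.inr (Or.inr (Or.inr (Or.inl (hz.struct_four h1))))
    · exact Or.inr (Or.inr (Or.inr (Or.inr (hz.struct_five h1))))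

end Cfsg.Agent.S3685
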