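import Cfsg.Statements.S3687
import Cfsg.Agent.H7.Knapp

set_option autoImplicit false
open Cfsg

namespace Cfsg.Agent.S3687

open Subgroup MulAction Cfsg.Agent.H7 Cfsg.Agent.H7.Kn

/-- Let a finite group G act faithfully and primitively on a set Ω, let a and b be points such that the orbit Δ of b under the stabilizer H of a has d ≥ 6 elements, and suppose that the permutation group induced by H on Δ contains the alternating group of Δ (the image of H in the symmetric group of Δ has index at most 2) while H does not act faithfully on Δ. Then either H induces exactly the alternating group of Δ and H is isomorphic to the direct product of the alternating groups of degrees d and d - 1; or H induces the full symmetric group of Δ and H is isomorphic to one of: the direct product of the symmetric groups of degrees d and d - 1, the direct product of the symmetric group of degree d with the alternating group of degree d - 1, or the subgroup of the direct product of the symmetric groups of degrees d and d - 1 consisting of the pairs of permutations with equal signs. -/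
theorem result {G Ω : Type*} [Group G] [Finite G] [MulAction G Ω] [FaithfulSMul G Ω] [Finite Ω]
    (hprim : MulAction.IsPreprimitive G Ω) (a b : Ω) (d : ℕ) (hd : Nat.card (MulAction.orbit (MulAction.stabilizer G a) b) = d) (h6 : 6 ≤ d)
    (halt : (MulAction.toPermHom (MulAction.stabilizer G a) (MulAction.orbit (MulAction.stabilizer G a) b)).range.index ≤ 2)
    (hunf : ¬ Function.Injective (MulAction.toPermHom (MulAction.stabilizer G a) (MulAction.orbit (MulAction.stabilizer G a) b))) :
    ((MulAction.toPermHom (MulAction.stabilizer G a) (MulAction.orbit (MulAction.stabilizer G a) b)).range.index = 2 ∧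
      Nonempty (MulAction.stabilizer G a ≃* alternatingGroup (Fin d) × alternatingGroup (Fin (d - 1)))) ∨
    ((MulAction.toPermHom (MulAction.stabilizer G a) (MulAction.orbit (MulAction.stabilizer G a) b)).range = ⊤ ∧
      (Nonempty (MulAction.stabilizer G a ≃* Equiv.Perm (Fin d) × Equiv.Perm (Fin (d - 1))) ∨
       Nonempty (MulAction.stabilizer G a ≃* Equiv.Perm (Fin d) × alternatingGroup (Fin (d - 1))) ∨
       Nonempty (MulAction.stabilizer G a ≃* ((Equiv.Perm.sign.comp (MonoidHom.fst (Equiv.Perm (Fin d)) (Equiv.Perm (Fin (d - 1))))) *
         (Equiv.Perm.sign.comp (MonoidHom.snd (Equiv.Perm (Fin d)) (Equiv.Perm (Fin (d - 1)))))).ker))) := by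
  classical
  have i1 := Fintype.ofFinite (orbit (stabilizer G a) b)
  have i2 := Fintype.ofFinite (orbit (stabilizer G b) a)
  have hk : ∀ (H : Subgroup G) (c : Ω) (x : H), toPermHom H (orbit H c) x = 1 ↔
      (x : G) ∈ coreIn (stabilizer G c) H := fun H c x => by
    rw [mem_coreIn_stabilizer, and_iff_right x.2]
    exact ⟨fun h y hy => congrArg Subtype.val (congrArg (fun f : Equiv.Perm (orbit H c) => f ⟨y, hy⟩) h),
      fun h => Equiv.ext fun y => Subtype.ext (h y y.2)⟩
  have hs : ∀ (H : Subgroup G) (c : Ω) (x : H), (x : G) ∈ stabilizer G c ↔
      toPermHom H (orbit H c) x ⟨c, mem_orbit_self c⟩ = ⟨c, mem_orbit_self c⟩ := fun H c x =>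
    ⟨fun h => Subtype.ext h, fun h => congrArg Subtype.val h⟩
  have e1 := card_orbit_eq_relIndex (stabilizer G a) b
  have e2 := card_orbit_eq_relIndex (stabilizer G b) a
  have e3 := relIndex_stabilizer_symm (G := G) a b
  obtain ⟨f, f1, f2, f3, f4⟩ := main (amalg_stabilizer (a := a) (b := b) (by omega))
    ⟨by omega, coreIn_le_right _ _, hk _ b, Equiv.Perm.alternatingGroup_le_of_index_le_two halt⟩ (hs _ b) (hk _ a)
    (coreIn_le_right _ _) (hs _ a) (by omega) (by omega) (by omega) rfl fun e =>
      hunf ((injective_iff_map_eq_one _).2 fun x hx => Subtype.ext (mem_bot.1 (e ▸ (hk _ b x).1 hx)))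
  refine classify hd ?_ (by omega) _ f f1 f2 f3 f4
  rw [← hd, e1, ← e3, ← e2]
  simp

end Cfsg.Agent.S3687
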