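import Cfsg.Statements.S3693
import Cfsg.Agent.H7.ThompsonWielandt

set_option autoImplicit false
open Cfsg

namespace Cfsg.Agent.S3693

open Subgroup MulAction Cfsg.Agent.H7

/-- Let a finite group G act faithfully and primitively on a set Ω, let a and b be points such that the orbit Δ of b under the stabilizer H of a has length d ≥ 2, and consider the permutation group induced on Δ by the elements of H fixing b. If that induced group has trivial Fitting subgroup (no non-trivial nilpotent normal subgroup), then the two-point stabilizer of a and b has trivial Fitting subgroup and the order of H divides d! · ((d - 1)!)^d. -/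
theorem result {G Ω : Type*} [Group G] [Finite G] [MulAction G Ω] [FaithfulSMul G Ω] [Finite Ω]
    (hprim : MulAction.IsPreprimitive G Ω) (a b : Ω) (d : ℕ) (hd : Nat.card (MulAction.orbit (MulAction.stabilizer G a) b) = d) (h2 : 2 ≤ d)
    (hF : Cfsg.fittingSubgroup ↥(((MulAction.stabilizer G b).subgroupOf (MulAction.stabilizer G a)).map (MulAction.toPermHom (MulAction.stabilizer G a) (MulAction.orbit (MulAction.stabilizer G a) b))) = ⊥) :
    Cfsg.fittingSubgroup ↥(MulAction.stabilizer G a ⊓ MulAction.stabilizer G b) = ⊥ ∧
      Nat.card (MulAction.stabilizer G a) ∣ Nat.factorial d * (Nat.factorial (d - 1)) ^ d := by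
  rw [card_orbit_eq_relIndex] at hd
  subst hd
  have h := amalg_stabilizer h2
  have h1 : fittingIn (stabilizer G a ⊓ stabilizer G b) ≤
      coreIn (stabilizer G b) (stabilizer G a) := by
    have h3 := fittingIn_map_le (H := (stabilizer G b).subgroupOf (stabilizer G a))
      (toPermHom (stabilizer G a) (orbit (stabilizer G a) b))
    rw [fittingIn_eq_bot_iff.2 hF, le_bot_iff, Subgroup.map_eq_bot_iff] at h3
    rw [inf_comm, ← subgroupOf_map_subtype,
      ← fittingIn_map_of_injective (subtype_injective _)]
    rintro _ ⟨x, hx, rfl⟩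
    rw [mem_coreIn_stabilizer]
    exact ⟨x.2, fun y hy => congrArg Subtype.val
      (congrArg (fun f : Equiv.Perm (orbit (stabilizer G a) b) => f ⟨y, hy⟩) (h3 hx))⟩
  have h4 : fittingIn (stabilizer G a ⊓ stabilizer G b) = ⊥ :=
    fittingIn_eq_bot_iff_pCoreIn.2 fun p hp =>
      have : Fact p.Prime := ⟨hp⟩
      h.pCoreIn_inf_eq_bot ((pCoreIn_le_fittingIn hp _).trans h1)
  exact ⟨fittingIn_eq_bot_iff.1 h4, h.card_dvd (h.coreIn_eq_bot_of_fittingIn_inf h4)⟩

end Cfsg.Agent.S3693
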