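import Cfsg.Statements.S3696

set_option autoImplicit false
open Cfsg

namespace Cfsg.Agent.S3696

theorem amgm (a b n₁ n₂ j k : ℕ) (hj : 0 < j) (ha : a * j ^ j ≤ n₁ ^ j) (hb : b * k ^ k ≤ n₂ ^ k) :
    a * b * (j + k) ^ (j + k) ≤ (n₁ + n₂) ^ (j + k) := by
  rcases Nat.eq_zero_or_pos k with rfl | hk
  · simp only [pow_zero, mul_one, add_zero] at hb ⊢
    calc a * b * j ^ j ≤ a * 1 * j ^ j := by gcongr
      _ ≤ n₁ ^ j := by simpa using ha
      _ ≤ (n₁ + n₂) ^ j := Nat.pow_le_pow_left (Nat.le_add_right _ _) _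
  have hjR : (0 : ℝ) < j := by exact_mod_cast hj
  have hkR : (0 : ℝ) < k := by exact_mod_cast hk
  have hs : (0 : ℝ) < j + k := by positivity
  have h := Real.geom_mean_le_arith_mean2_weighted (w₁ := (j : ℝ) / (j + k))
    (w₂ := (k : ℝ) / (j + k)) (p₁ := (n₁ : ℝ) / j) (p₂ := (n₂ : ℝ) / k) (by positivity)
    (by positivity) (by positivity) (by positivity) (by field_simp)
  have h2 := pow_le_pow_left₀ (by positivity) h (j + k)
  rw [mul_pow, ← Real.rpow_natCast, ← Real.rpow_natCast, ← Real.rpow_mul (by positivity),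
    ← Real.rpow_mul (by positivity)] at h2
  have e1 : (j : ℝ) / (j + k) * ((j + k : ℕ) : ℝ) = (j : ℕ) := by push_cast; field_simp
  have e2 : (k : ℝ) / (j + k) * ((j + k : ℕ) : ℝ) = (k : ℕ) := by push_cast; field_simp
  have e3 : (j : ℝ) / (j + k) * (n₁ / j) + k / (j + k) * (n₂ / k) = (n₁ + n₂) / (j + k) := by
    field_simp
  rw [e1, e2, e3, Real.rpow_natCast, Real.rpow_natCast, div_pow, div_pow, div_pow,
    le_div_iff₀ (by positivity)] at h2
  have ha' : (a : ℝ) ≤ (n₁ : ℝ) ^ j / j ^ j := by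
    rw [le_div_iff₀ (by positivity)]; exact_mod_cast ha
  have hb' : (b : ℝ) ≤ (n₂ : ℝ) ^ k / k ^ k := by
    rw [le_div_iff₀ (by positivity)]; exact_mod_cast hb
  have h3 : (a : ℝ) * b * (j + k) ^ (j + k) ≤ (n₁ + n₂) ^ (j + k) := by
    refine le_trans ?_ h2
    gcongr
  exact_mod_cast h3

theorem small (p j n : ℕ) (hp : 2 ≤ p) (hj : 0 < j) (h : p ^ j ≤ n) : n * j ^ j ≤ n ^ j := by
  obtain ⟨i, rfl⟩ : ∃ i, j = i + 1 := ⟨j - 1, by omega⟩
  rw [pow_succ' n]
  apply Nat.mul_le_mul_left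
  have h1 : i + 1 ≤ 2 ^ i := Nat.lt_two_pow_self
  calc (i + 1) ^ (i + 1) ≤ (2 ^ i) ^ (i + 1) := Nat.pow_le_pow_left h1 _
    _ = (2 ^ (i + 1)) ^ i := by rw [← pow_mul, ← pow_mul, mul_comm]
    _ ≤ (p ^ (i + 1)) ^ i := Nat.pow_le_pow_left (Nat.pow_le_pow_left hp _) _
    _ ≤ n ^ i := Nat.pow_le_pow_left h _

theorem card_eq_relIndex_mul {A : Type*} [Group A] (S B : Subgroup A) :
    Nat.card B = S.relIndex B * Nat.card (B ⊓ S : Subgroup A) := by
  rw [← Subgroup.relIndex_bot_left, ← Subgroup.relIndex_bot_left, mul_comm,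
    ← Subgroup.inf_relIndex_left B S, Subgroup.relIndex_mul_relIndex _ _ _ bot_le inf_le_left]

theorem main {A : Type*} [CommGroup A] [Finite A] (p : ℕ) (hp : p.Prime) (hA : IsPGroup p A)
    {Ω : Type*} [MulAction A Ω] (n : ℕ) : ∀ (S : Finset Ω) (B : Subgroup A) (k : ℕ), S.card = n →
      (∀ b ∈ B, ∀ ω ∈ S, b • ω ∈ S) → (∀ b ∈ B, (∀ ω ∈ S, b • ω = ω) → b = 1) →
      Nat.card (B ⊓ (powMonoidHom p : A →* A).ker : Subgroup A) = p ^ k →
      Nat.card B * k ^ k ≤ n ^ k := by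
  classical
  have := Fact.mk hp
  induction n using Nat.strong_induction_on with
  | _ n ih =>
  intro S B k hS hinv hfaith hk
  set E := (powMonoidHom p : A →* A).ker with hE
  rcases S.eq_empty_or_nonempty with rfl | ⟨ω, hω⟩
  · have hB : B = ⊥ := by
      rw [eq_bot_iff]
      intro b hb
      exact hfaith b hb (by simp)
    subst hB
    rw [bot_inf_eq, Subgroup.card_bot] at hk
    have : k = 0 := by
      rcases Nat.pow_eq_one.1 hk.symm with h | h
      · exact absurd h hp.one_lt.ne'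
      · exact h
    subst this
    simp
  set St := MulAction.stabilizer A ω with hSt
  set O := S.filter (fun x => x ∈ MulAction.orbit B ω) with hO
  have hOcard : O.card = St.relIndex B := by
    have h2 : St.subgroupOf B = MulAction.stabilizer B ω := by ext; rfl
    rw [Subgroup.relIndex, h2, MulAction.index_stabilizer, ← Set.ncard_coe_finset]
    congr 1
    ext x
    simp only [hO, Finset.coe_filter, Set.mem_ofPred_eq, and_iff_right_iff_imp]
    rintro ⟨b, rfl⟩
    exact hinv b b.2 ω hω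
  have hOpos : 0 < O.card :=
    Finset.card_pos.2 ⟨ω, Finset.mem_filter.2 ⟨hω, MulAction.mem_orbit_self ω⟩⟩
  have hsplit : O.card + (S \ O).card = n := by
    rw [add_comm, Finset.card_sdiff_add_card_eq_card (Finset.filter_subset _ _), hS]
  have hinv' : ∀ b ∈ B, ∀ x ∈ S \ O, b • x ∈ S \ O := by
    intro b hb x hx
    rw [Finset.mem_sdiff] at hx ⊢
    refine ⟨hinv b hb x hx.1, fun h => hx.2 ?_⟩
    rw [hO, Finset.mem_filter] at h ⊢
    refine ⟨hx.1, ?_⟩
    obtain ⟨c, hc⟩ := h.2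
    refine ⟨(⟨b, hb⟩ : B)⁻¹ * c, ?_⟩
    have hc' : c • ω = b • x := hc
    change ((⟨b, hb⟩ : B)⁻¹ * c) • ω = x
    rw [mul_smul, hc']
    exact inv_smul_smul b x
  have hK : ∀ b ∈ B, b ∈ St → (∀ x ∈ S \ O, b • x = x) → b = 1 := by
    intro b hb hbs hfix
    apply hfaith b hb
    intro x hx
    by_cases hxO : x ∈ O
    · obtain ⟨c, rfl⟩ := (Finset.mem_filter.1 hxO).2
      change b • (c : A) • ω = (c : A) • ω
      have : b • ω = ω := hbs
      rw [← mul_smul, mul_comm, mul_smul, this]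
    · exact hfix x (Finset.mem_sdiff.2 ⟨hx, hxO⟩)
  by_cases hcase : B ⊓ E ≤ St
  · have h := ih (S \ O).card (by omega) (S \ O) B k rfl hinv' (by
      intro b hb hfix
      by_contra hb1
      obtain ⟨e, he⟩ := (IsPGroup.iff_orderOf.1 hA) b
      have he0 : e ≠ 0 := by
        rintro rfl
        exact hb1 (orderOf_eq_one_iff.1 he)
      obtain ⟨f, rfl⟩ := Nat.exists_eq_succ_of_ne_zero he0
      have h1 : b ^ p ^ f ∈ B ⊓ E := by
        refine ⟨B.pow_mem hb _, ?_⟩
        change (b ^ p ^ f) ^ p = 1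
        rw [← pow_mul, ← pow_succ, ← he, pow_orderOf_eq_one]
      have h2 := hK _ h1.1 (hcase h1) (fun x hx =>
        (MulAction.stabilizer A x).pow_mem (hfix x hx) _)
      have h3 := orderOf_dvd_of_pow_eq_one h2
      rw [he, Nat.pow_dvd_pow_iff_le_right hp.one_lt] at h3
      omega) hk
    exact h.trans (Nat.pow_le_pow_left (by omega) _)
  · have h1 := card_eq_relIndex_mul St (B ⊓ E)
    rw [hk] at h1
    obtain ⟨j, -, hj⟩ := (Nat.dvd_prime_pow hp).1 (Dvd.intro _ h1.symm)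
    obtain ⟨k₁, -, hk₁⟩ := (Nat.dvd_prime_pow hp).1 (Dvd.intro_left _ h1.symm)
    rw [hj, hk₁, ← pow_add] at h1
    have hkk : k = j + k₁ := Nat.pow_right_injective hp.two_le h1
    have hj0 : 0 < j := by
      rcases Nat.eq_zero_or_pos j with rfl | h
      · exact absurd (Subgroup.relIndex_eq_one.1 hj) hcase
      · exact h
    have hjn : p ^ j ≤ O.card := by
      rw [← hj, hOcard]
      exact Subgroup.relIndex_le_of_le_right inf_le_left Subgroup.index_ne_zero_of_finite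
    have h := ih (S \ O).card (by omega) (S \ O) (B ⊓ St) k₁ rfl
      (fun b hb => hinv' b hb.1) (fun b hb => hK b hb.1 hb.2) (by
        rw [← hk₁, inf_right_comm])
    rw [card_eq_relIndex_mul St B, ← hOcard, hkk, ← hsplit]
    exact amgm _ _ _ _ _ _ hj0 (small p j _ hp.two_le hj0 hjn) h

open scoped IsMulCommutative in
theorem result {Ω : Type*} [Fintype Ω] [DecidableEq Ω]
    (p : ℕ) (hp : p.Prime) (hn : p ≤ Fintype.card Ω) (A : Subgroup (Equiv.Perm Ω)) (hA : IsPGroup p A) (hab : IsMulCommutative A)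
    (k : ℕ) (hk : Nat.card {x : A // x ^ p = 1} = p ^ k) :
    Nat.card A * k ^ k ≤ Fintype.card Ω ^ k := by
  have h := main (A := A) p hp hA (Ω := Ω) (Fintype.card Ω) Finset.univ ⊤ k rfl
    (fun _ _ _ _ => Finset.mem_univ _)
    (fun b _ hb => Subtype.ext (Equiv.ext fun x => hb x (Finset.mem_univ x)))
    (by rw [top_inf_eq, ← hk]; rfl)
  rwa [Subgroup.card_top] at h

end Cfsg.Agent.S3696
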