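import Cfsg.Statements.S3703
import Cfsg.Agent.H9.Mazurov

set_option autoImplicit false
open Cfsg
open scoped Pointwise

namespace Cfsg.Agent.S3703

/-- Let N be a normal subgroup of the finite group G such that G/N is a Frobenius group with kernel F and cyclic complement H, where the order of F is coprime to that of N and F is not contained in the image of C_G(N) in G/N. Then G has an element of order p·#H for some prime p dividing the order of N. (A standard tool in recognising groups by their element orders.) -/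
theorem result {G : Type*} [Group G] [Finite G] (N : Subgroup G) [N.Normal]
    (Fb Hb : Subgroup (G ⧸ N)) [Fb.Normal] (hHb : Cfsg.IsFrobeniusComplement Hb) (hker : Cfsg.frobeniusKernel Hb = (Fb : Set (G ⧸ N)))
    (hcyc : IsCyclic Hb) (hcop : (Nat.card Fb).Coprime (Nat.card N))
    (hnot : ¬ Fb ≤ (Subgroup.centralizer (N : Set G)).map (QuotientGroup.mk' N)) :
    ∃ p : ℕ, p.Prime ∧ p ∣ Nat.card N ∧ ∃ g : G, orderOf g = p * Nat.card Hb := by
  obtain ⟨⟨hb, hbm⟩, hgen⟩ := hcyc.exists_generator
  have hord : orderOf hb = Nat.card Hb := by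
    rw [← orderOf_eq_card_of_forall_mem_zpowers hgen, Subgroup.orderOf_mk]
  rw [← hord]
  refine H9.mazurov_lemma N Fb hb (H9.mem_normalizer_of_normal Fb hb) ?_ ?_ hcop hnot
  · rintro rfl
    rw [orderOf_one] at hord
    exact hHb.1 (Subgroup.card_eq_one.mp hord.symm)
  · intro i hi0 hi a ha hc
    by_contra ha1
    have h1 : a ∈ Cfsg.frobeniusKernel Hb := by rw [hker]; exact ha
    have h2 : a ∉ Hb := by
      have := (h1.resolve_left ha1) 1
      simpa using this
    have h3 : hb ^ i ∈ Hb ⊓ (MulAut.conj a • Hb) := by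
      refine Subgroup.mem_inf.mpr ⟨Hb.pow_mem hbm i, ?_⟩
      rw [H9.mem_conj_smul_iff, mul_assoc, ← hc.eq, inv_mul_cancel_left]
      exact Hb.pow_mem hbm i
    rw [hHb.2.2 a h2, Subgroup.mem_bot] at h3
    exact pow_ne_one_of_lt_orderOf hi0.ne' hi h3

end Cfsg.Agent.S3703
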