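import Cfsg.Statements.S3713
import Cfsg.Agent.H1.SpStepB
import Cfsg.Agent.H1.Graph

set_option autoImplicit false
open Cfsg

namespace Cfsg.Agent.S3713

/-- A presentation of the symplectic group as the universal completion of an amalgam of small subgroups. Let F be a field with more than two elements, n ≥ 2, and Sp the group of 2n × 2n matrices over F preserving the standard alternating form, acting on column vectors; write e_k, f_k for the standard basis vectors of the two halves (a hyperbolic basis). For each k let S_k be the subgroup of Sp fixing e_l and f_l for all l ≠ k (a copy of SL(2, F) on the plane of e_k, f_k), and for each i with i + 1 < n let M_i be the subgroup fixing every e_l and fixing f_l for all l other than i, i+1 (an abelian group isomorphic to the additive group of F³). Then Sp is the universal completion of the amalgam formed by the S_k, the M_i and the subgroups generated by two of them: for every group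 H and homomorphisms σ_k : S_k → H, μ_i : M_i → H such that for each pair of these subgroups some homomorphism on the subgroup they generate restricts to the given ones, there is exactly one homomorphism Sp → H restricting to every σ_k and μ_i. -/
theorem result
    (F : Type*) [Field F] (hF : ∃ a : F, a ≠ 0 ∧ a ≠ 1) (n : ℕ) (hn : 2 ≤ n)
    (S M : Fin n → Subgroup ↥(Matrix.symplecticGroup (Fin n) F))
    (hS : ∀ j : Fin n, S j = Subgroup.closure {A : ↥(Matrix.symplecticGroup (Fin n) F) | ∀ k : Fin n, k ≠ j →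
      ((A : ↥(Matrix.symplecticGroup (Fin n) F)) : Matrix (Fin n ⊕ Fin n) (Fin n ⊕ Fin n) F).mulVec (Pi.single (Sum.inl k) (1 : F)) = (Pi.single (Sum.inl k) (1 : F)) ∧ ((A : ↥(Matrix.symplecticGroup (Fin n) F)) : Matrix (Fin n ⊕ Fin n) (Fin n ⊕ Fin n) F).mulVec (Pi.single (Sum.inr k) (1 : F)) = (Pi.single (Sum.inr k) (1 : F))})
    (hM : ∀ i : Fin n, (i : ℕ) + 1 < n → M i = Subgroup.closure {A : ↥(Matrix.symplecticGroup (Fin n) F) |
      (∀ k : Fin n, ((A : ↥(Matrix.symplecticGroup (Fin n) F)) : Matrix (Fin n ⊕ Fin n) (Fin n ⊕ Fin n) F).mulVec (Pi.single (Sum.inl k) (1 : F)) = (Pi.single (Sum.inl k) (1 : F))) ∧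
        ∀ k : Fin n, (k : ℕ) ≠ i → (k : ℕ) ≠ (i : ℕ) + 1 → ((A : ↥(Matrix.symplecticGroup (Fin n) F)) : Matrix (Fin n ⊕ Fin n) (Fin n ⊕ Fin n) F).mulVec (Pi.single (Sum.inr k) (1 : F)) = (Pi.single (Sum.inr k) (1 : F))})
    {H : Type*} [Group H] (σ : ∀ j : Fin n, ↥(S j) →* H) (μ : ∀ i : Fin n, ↥(M i) →* H)
    (hSS : ∀ j l : Fin n, j ≠ l → ∃ Ψ : ↥(S j ⊔ S l) →* H,
      (∀ (g : ↥(Matrix.symplecticGroup (Fin n) F)) (hg : g ∈ S j), Ψ ⟨g, Subgroup.mem_sup_left hg⟩ = σ j ⟨g, hg⟩) ∧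
        (∀ (g : ↥(Matrix.symplecticGroup (Fin n) F)) (hg : g ∈ S l), Ψ ⟨g, Subgroup.mem_sup_right hg⟩ = σ l ⟨g, hg⟩))
    (hMM : ∀ i i' : Fin n, i ≠ i' → (i : ℕ) + 1 < n → (i' : ℕ) + 1 < n → ∃ Ψ : ↥(M i ⊔ M i') →* H,
      (∀ (g : ↥(Matrix.symplecticGroup (Fin n) F)) (hg : g ∈ M i), Ψ ⟨g, Subgroup.mem_sup_left hg⟩ = μ i ⟨g, hg⟩) ∧
        (∀ (g : ↥(Matrix.symplecticGroup (Fin n) F)) (hg : g ∈ M i'), Ψ ⟨g, Subgroup.mem_sup_right hg⟩ = μ i' ⟨g, hg⟩))
    (hMS : ∀ i j : Fin n, (i : ℕ) + 1 < n → ∃ Ψ : ↥(M i ⊔ S j) →* H,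
      (∀ (g : ↥(Matrix.symplecticGroup (Fin n) F)) (hg : g ∈ M i), Ψ ⟨g, Subgroup.mem_sup_left hg⟩ = μ i ⟨g, hg⟩) ∧
        (∀ (g : ↥(Matrix.symplecticGroup (Fin n) F)) (hg : g ∈ S j), Ψ ⟨g, Subgroup.mem_sup_right hg⟩ = σ j ⟨g, hg⟩)) :
    ∃! Φ : ↥(Matrix.symplecticGroup (Fin n) F) →* H,
      (∀ (j : Fin n) (g : ↥(Matrix.symplecticGroup (Fin n) F)) (hg : g ∈ S j), Φ g = σ j ⟨g, hg⟩) ∧
        (∀ (i : Fin n), (i : ℕ) + 1 < n → ∀ (g : ↥(Matrix.symplecticGroup (Fin n) F)) (hg : g ∈ M i), Φ g = μ i ⟨g, hg⟩) := by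
  have eS : ∀ j, S j = H1.spFix F (H1.spIS j) := fun j => by
    rw [hS j, ← Subgroup.closure_eq (H1.spFix F (H1.spIS j))]
    congr 1
    ext A
    constructor
    · rintro hA (c | c) hc
      · exact (hA c (fun e => hc.1 (by rw [e]))).1
      · exact (hA c (fun e => hc.2 (by rw [e]))).2
    · intro hA k hk
      exact ⟨hA (Sum.inl k) (by simp [H1.spIS, hk]), hA (Sum.inr k) (by simp [H1.spIS, hk])⟩
  have eM : ∀ i j : Fin n, i.val + 1 = j.val → M i = H1.spFix F (H1.spIM i j) := fun i j hij => by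
    rw [hM i (hij ▸ j.2), ← Subgroup.closure_eq (H1.spFix F (H1.spIM i j))]
    congr 1
    ext A
    constructor
    · rintro hA (c | c) hc
      · exact hA.1 c
      · exact hA.2 c (fun e => hc.1 (by rw [Fin.ext e])) (fun e => hc.2 (by rw [Fin.ext (e.trans hij)]))
    · intro hA
      refine ⟨fun k => hA (Sum.inl k) (by simp [H1.spIM]), fun k h1 h2 => hA (Sum.inr k) ?_⟩
      simp only [H1.spIM, Set.mem_setOf_eq, ne_eq, Sum.inr.injEq, Fin.ext_iff]
      omega
  have hA : H1.SpAmalgam (MonoidHom.snd H _) (fun j => H1.graphSub (S j) (σ j))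
      (fun i => H1.graphSub (M i) (μ i)) :=
    { hF := hF
      mapS := fun j => by rw [H1.map_graphSub, eS]
      mapM := fun i j hij => by rw [H1.map_graphSub, eM i j hij]
      injS := fun j => H1.injSub_graphSub _ _
      injSS := fun j l hjl => H1.injSub_graph_sup (hSS j l hjl)
      injMM := fun i i' h1 h2 h3 => H1.injSub_graph_sup (hMM i i' h1 h2 h3)
      injMS := fun i j h => H1.injSub_graph_sup (hMS i j h) }
  obtain ⟨h1, h2⟩ := hA.final (by omega)
  obtain ⟨Φ, hΦ⟩ := H1.exists_hom_of_injSub (MonoidHom.fst H _) h1 h2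
  refine ⟨Φ, ⟨fun j g hg => ?_, fun i hi g hg => ?_⟩, fun Φ' hΦ' => ?_⟩
  · exact hΦ (σ j ⟨g, hg⟩, g) (Subgroup.mem_sup_left (Subgroup.mem_iSup_of_mem j
      (Subgroup.mem_iSup_of_mem j.2 (H1.mem_graphSub.mpr ⟨hg, rfl⟩))))
  · exact hΦ (μ i ⟨g, hg⟩, g) (Subgroup.mem_sup_right (Subgroup.mem_iSup_of_mem i
      (Subgroup.mem_iSup_of_mem hi (H1.mem_graphSub.mpr ⟨hg, rfl⟩))))
  · ext g
    obtain ⟨x, hx, rfl⟩ : g ∈ Subgroup.map _ _ := h2 ▸ Subgroup.mem_top g
    rw [hΦ x hx]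
    have : H1.spGk (fun j => H1.graphSub (S j) (σ j)) (fun i => H1.graphSub (M i) (μ i)) n ≤
        MonoidHom.eqLocus (Φ'.comp (MonoidHom.snd H _)) (MonoidHom.fst H _) := by
      refine sup_le (iSup₂_le fun j _ y hy => ?_) (iSup₂_le fun i hi y hy => ?_)
      · obtain ⟨hg, e⟩ := H1.mem_graphSub.mp hy
        exact (hΦ'.1 j _ hg).trans e.symm
      · obtain ⟨hg, e⟩ := H1.mem_graphSub.mp hy
        exact (hΦ'.2 i hi _ hg).trans e.symm
    exact this hx

end Cfsg.Agent.S3713
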