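import Cfsg.Statements.S3716
import Cfsg.Agent.L0.NineS6

set_option autoImplicit false
open Cfsg

namespace Cfsg.Agent.S3716

/-- Let G be a finite group with an elementary abelian Sylow 3-subgroup M of order 9 which is self-centralizing (C_G(M) = M), let N = N_G(M), and suppose C_G(g) ≤ N for every nonidentity g ∈ M. If the Sylow 2-subgroups of N are dihedral of order 8, then G is not simple. -/
theorem result {G : Type*} [Group G] [Finite G] (M : Sylow 3 G) (hM9 : Nat.card ↥(M : Subgroup G) = 9)
    (hMel : ∀ m ∈ (M : Subgroup G), m ^ 3 = 1)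
    (hCM : Subgroup.centralizer ((M : Subgroup G) : Set G) = (M : Subgroup G))
    (N : Subgroup G) (hN : N = Subgroup.normalizer ((M : Subgroup G) : Set G))
    (hCg : ∀ g ∈ (M : Subgroup G), g ≠ 1 → Subgroup.centralizer ({g} : Set G) ≤ N)
    (hS : ∀ S : Sylow 2 ↥N, Nonempty (↥(S : Subgroup ↥N) ≃* DihedralGroup 4)) :
    ¬ IsSimpleGroup G := by
  classical
  have : Fact (Nat.Prime 2) := ⟨Nat.prime_two⟩
  have : Fact (Nat.Prime 3) := ⟨Nat.prime_three⟩
  subst hN
  set S := (M : Subgroup G) with hSM
  obtain ⟨T⟩ : Nonempty (Sylow 2 (Subgroup.normalizer (S : Set G))) := inferInstance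
  obtain ⟨e⟩ := hS T
  have hT : Nat.card T = 8 := by rw [Nat.card_congr e.toEquiv, DihedralGroup.nat_card]
  have hN : Nat.card (Subgroup.normalizer (S : Set G)) = 72 := by
    have h1 : 9 ∣ Nat.card (Subgroup.normalizer (S : Set G)) :=
      hM9 ▸ Subgroup.card_dvd_of_le Subgroup.le_normalizer
    have h2 := (T : Subgroup (Subgroup.normalizer (S : Set G))).card_mul_index
    obtain ⟨k, hk⟩ : 72 ∣ Nat.card (Subgroup.normalizer (S : Set G)) :=
      Nat.Coprime.mul_dvd_of_dvd_of_dvd (show Nat.Coprime 8 9 by norm_num) (hT ▸ Dvd.intro _ h2) h1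
    by_contra hne
    obtain ⟨q, hq, m, rfl⟩ := Nat.exists_prime_and_dvd (show k ≠ 1 by rintro rfl; exact hne hk)
    have := Fact.mk hq
    by_cases h3 : q = 2
    · subst h3
      rw [hT, hk] at h2
      exact T.not_dvd_index (by omega)
    by_cases h4 : q = 3
    · subst h4
      have h5 := Subgroup.card_subgroup_dvd_card (Subgroup.normalizer (S : Set G))
      rw [← S.card_mul_index, hM9, hk] at h5
      have h6 := (show 27 ∣ 72 * (3 * m) by omega).trans h5
      exact M.not_dvd_index (show 3 ∣ S.index by omega)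
    obtain ⟨g, hg⟩ := exists_prime_orderOf_dvd_card' (G := Subgroup.normalizer (S : Set G)) q
      (hk ▸ Dvd.intro_left (72 * m) (by ring))
    have := Fintype.ofFinite S
    let σ := S.normalizerMonoidHom g
    have h5 := Equiv.Perm.card_fixedPoints_modEq (f := (σ : S → S)) (p := q) (n := 1) (by
      have : σ ^ q = 1 := by rw [← map_pow, ← hg, pow_orderOf_eq_one, map_one]
      rw [pow_one]
      exact ((MulAction.toEndHom (M := MulAut S) (α := S)).map_pow σ q).symm.trans
        (by rw [this, map_one]))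
    have h6 : Fintype.card (Function.fixedPoints (σ : S → S)) ∣ 3 ^ 2 := by
      rw [← Nat.card_eq_fintype_card]
      exact (Subgroup.card_subgroup_dvd_card (σ.toMonoidHom.eqLocus (MonoidHom.id S))).trans hM9.dvd
    rw [← Nat.card_eq_fintype_card, hM9] at h5
    obtain ⟨i, hi, h7⟩ := (Nat.dvd_prime_pow Nat.prime_three).mp h6
    rw [h7] at h5
    have h8 : ∀ n, q ∣ 2 ^ n * 3 → False := fun n h => by
      rcases hq.dvd_mul.mp h with h | h
      · exact h3 ((Nat.prime_dvd_prime_iff_eq hq Nat.prime_two).mp (hq.dvd_of_dvd_pow h))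
      · exact h4 ((Nat.prime_dvd_prime_iff_eq hq Nat.prime_three).mp h)
    interval_cases i
    · exact h8 3 (((Nat.modEq_iff_dvd' (by norm_num)).mp h5.symm).trans (by norm_num))
    · exact h8 1 (((Nat.modEq_iff_dvd' (by norm_num)).mp h5.symm).trans (by norm_num))
    · have h9 : σ.toMonoidHom.eqLocus (MonoidHom.id S) = ⊤ := Subgroup.eq_top_of_card_eq _ (by
        rw [← Nat.card_eq_fintype_card] at h7; rw [hM9]; exact h7)
      have h10 : (g : G) ∈ S := hCM.le (fun x hx => by
        have := congrArg Subtype.val (h9.ge (Subgroup.mem_top (⟨x, hx⟩ : S)))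
        exact (mul_inv_eq_iff_eq_mul.mp this).symm)
      exact h8 0 (by
        rw [← hg, ← Subgroup.orderOf_coe]; simpa using orderOf_dvd_of_pow_eq_one (hMel _ h10))
  intro hG
  rcases L0.Nine.normal_or_sym6 hM9 M.not_dvd_index hCM hCg
    (((Subgroup.subtype _).comp T.1.subtype).comp e.symm.toMonoidHom)
    ((Subgroup.subtype_injective _).comp (T.1.subtype_injective.comp e.symm.injective))
    (fun d => (e.symm d).1.2) hN with h | ⟨⟨e'⟩⟩
  · rcases h.eq_bot_or_eq_top with h1 | h1
    · simp [h1] at hM9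
    · have := Subgroup.card_le_of_le (h1.ge.trans' le_top : Subgroup.normalizer (S : Set G) ≤ S)
      omega
  · have := e'.symm.isSimpleGroup
    have h1 := L0.Nine.card_alt6
    rcases (inferInstance : (alternatingGroup (Fin 6)).Normal).eq_bot_or_eq_top with h | h
    · simp [h] at h1
    · rw [h, Subgroup.card_top, Nat.card_perm, Nat.card_fin] at h1
      simp [Nat.factorial] at h1

end Cfsg.Agent.S3716
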