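import Cfsg.Statements.S3726
import Cfsg.Agent.H9.ConstFix
import Cfsg.Agent.H9.ZassClass
import Cfsg.Agent.H2.SuzId

set_option autoImplicit false
open Cfsg

namespace Cfsg.Agent.S3726

/-- Let a finite group G act faithfully and 2-transitively on a finite set Ω, and suppose there is an involution t of G, fixing exactly i points, such that every non-identity element of the centralizer of t also fixes exactly i points. Then G is isomorphic to PSL₂(q) for some finite field of order q, or to a Suzuki group Sz(q) (q = 2^(2m+1) ≥ 8), or G has a normal subgroup acting regularly on Ω. -/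
theorem result {G Ω : Type*} [Group G] [Finite G] [Fintype Ω] [MulAction G Ω] [FaithfulSMul G Ω]
    (h2 : MulAction.IsMultiplyPretransitive G Ω 2) (i : ℕ) (t : G) (ht : orderOf t = 2)
    (hti : Nat.card {x : Ω // t • x = x} = i)
    (hC : ∀ g : G, Commute g t → g ≠ 1 → Nat.card {x : Ω // g • x = x} = i) :
    (∃ (F : Type) (_ : Field F) (_ : Fintype F), Nonempty (G ≃* Matrix.ProjectiveSpecialLinearGroup (Fin 2) F)) ∨
    Cfsg.Lie.IsoSuzuki G ∨
    (∃ R : Subgroup G, R.Normal ∧ (∀ x y : Ω, ∃ r ∈ R, r • x = y) ∧ ∀ x : Ω, ∀ r ∈ R, r • x = x → r = 1) := by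
  have h : H9.CFix G Ω i t := ⟨MulAction.is_two_pretransitive_iff.mp h2,
    fun g hg => H3.eq_one_of_forall_smul hg,
    fun e => by rw [e, orderOf_one] at ht; omega,
    by rw [← pow_two, ← ht, pow_orderOf_eq_one], fun g h1 h2 => hC g h1 h2⟩
  have Z := h.zs
  have := Z.isPretransitive
  by_cases hR : ∃ R : Subgroup G, R.Normal ∧ (∀ x y : Ω, ∃ r ∈ R, r • x = y) ∧
      ∀ x : Ω, ∀ r ∈ R, r • x = x → r = 1
  · exact Or.inr (Or.inr hR)
  obtain ⟨a, hab⟩ := h.exists_move h.ne
  have hbig : ∃ g : G, g ≠ 1 ∧ ∃ a b : Ω, a ≠ b ∧ g • a = a ∧ g • b = b := by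
    by_contra hn
    push Not at hn
    obtain ⟨K, hK, -, hK2, hK3⟩ := H3.exists_frobeniusKernel_action (G := G)
      (fun g a b hab ha hb => by
        by_contra hg
        exact hn g hg a b hab ha hb) a
    refine hR ⟨K, hK, fun x y => ?_, fun x r hr hx => ?_⟩
    · obtain ⟨r, hr⟩ := hK3.exists_smul_eq x y
      exact ⟨r, r.2, hr⟩
    · exact ((hK2 r).1 hr).resolve_right fun h' => h' x hx
  have hZ : Cfsg.IsZassenhausGroup G Ω := by
    refine ⟨inferInstance, h2, Z.three, hbig, fun N hN hT => ?_⟩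
    by_contra hn
    push Not at hn
    refine hR ⟨N, hN, fun x y => ?_, fun x r hr hx => ?_⟩
    · obtain ⟨r, hr⟩ := hT.exists_smul_eq x y
      exact ⟨r, r.2, hr⟩
    · exact H3.eq_one_of_regular (hn x) hr hx
  have := h.isSimpleGroup hZ
  obtain ⟨g, hg, c, d, hcd, hc, hd⟩ := hbig
  rcases H9.psl_or_two_of_isZassenhaus hZ c with ⟨F, _, _, -, hF⟩ | ⟨h3, h4⟩
  · exact Or.inl ⟨F, inferInstance, inferInstance, hF⟩
  · obtain ⟨m, hm, -, -, h5⟩ := H2.Suz.nonempty_equiv_Sz.{_, _, 0} _ hcd h3 h4 ⟨g, hg, hc, hd⟩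
    obtain ⟨F, _, _, hF⟩ := H3.exists_field_of_isPrimePow (q := 2 ^ (2 * m + 1))
      (Nat.prime_two.isPrimePow.pow (by omega))
    exact Or.inr (Or.inl ⟨F, inferInstance, inferInstance, m, hm, hF, (h5 F hF).2⟩)

end Cfsg.Agent.S3726
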