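import Cfsg.Statements.S3730
import Cfsg.Agent.H5.CycNormC

set_option autoImplicit false
open Cfsg

namespace Cfsg.Agent.S3730

/-- Let G be a nontrivial finite group with no nontrivial solvable normal subgroup, such that for every cyclic subgroup X of even order and every nontrivial subgroup Y of X one has N_G(X) = N_G(Y) (every nontrivial subgroup of a cyclic subgroup of even order has the same normalizer as the whole cyclic subgroup). Then G is isomorphic to PSL(2, q) or to PGL(2, q) for some prime power q > 3. -/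
theorem result
    {G : Type*} [Group G] [Finite G] [Nontrivial G]
    (hss : ∀ N : Subgroup G, N.Normal → Group.IsSolvable ↥N → N = ⊥)
    (hii : ∀ X : Subgroup G, IsCyclic ↥X → Even (Nat.card ↥X) → ∀ Y : Subgroup G, Y ≤ X → Y ≠ ⊥ →
      Subgroup.normalizer (X : Set G) = Subgroup.normalizer (Y : Set G)) :
    ∃ (F : Type) (_ : Field F) (_ : Fintype F), 3 < Fintype.card F ∧
      (Nonempty (G ≃* Matrix.ProjectiveSpecialLinearGroup (Fin 2) F) ∨
        Nonempty (G ≃* Matrix.ProjGenLinGroup (Fin 2) F)) := by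
  refine H5.Hii.main (fun x t y h1 h2 h3 h4 g => ?_) hss
  have e := fun z hz h => hii (Subgroup.zpowers x) inferInstance (even_iff_two_dvd.2
    (H5.orderOf_eq_two_iff'.2 h2 ▸ Subgroup.orderOf_dvd_natCard _ h1)) (Subgroup.zpowers z)
    (Subgroup.zpowers_le.2 hz) (mt Subgroup.zpowers_eq_bot.1 h)
  have e' : ∀ z : G, g ∈ Subgroup.normalizer (Subgroup.zpowers z : Set G) ↔
      g * z * g⁻¹ ∈ Subgroup.zpowers z := fun z => ⟨fun h => H5.conj_mem_of_mem_normalizer h
    (Subgroup.mem_zpowers z), fun h => H5.mem_normalizer_of_conj_mem (by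
      rintro _ ⟨i, rfl⟩
      rw [← conj_zpow]
      exact zpow_mem h i)⟩
  rw [← e', ← e y h3 h4, e t h1 h2.1, e', ← mul_inv_eq_iff_eq_mul]
  exact ⟨fun h => H5.eq_of_mem_zpowers_of_sq h (Subgroup.mem_zpowers t) (h2.conj g).1 (h2.conj g).2
    h2.1 h2.2, fun h => h.symm ▸ Subgroup.mem_zpowers t⟩

end Cfsg.Agent.S3730
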